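import Mathlib

set_option autoImplicit false

/-!
An averaging argument: an automorphism `c` of an elementary abelian `p`-group with `1 + c + ⋯ + c^(p-1) = 0` which
normalizes an abelian `p'`-group of automorphisms centralizes it.
-/

namespace H39.Avg

variable {E : Type*} [CommGroup E] {p : ℕ} [hp : Fact p.Prime]

/-- `φ i k = c^(-i) k⁻¹ c^i k` -/
def phi (c : MulAut E) (i : ℕ) (k : MulAut E) : MulAut E := (c ^ i)⁻¹ * k⁻¹ * c ^ i * k

theorem pow_eq_one (c : MulAut E) (hnorm : ∀ e, ∏ i ∈ Finset.range p, (c ^ i) e = 1) : c ^ p = 1 := by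
  ext e
  have h1 := Finset.prod_range_succ (fun i => (c ^ i) e) p
  have h2 := Finset.prod_range_succ' (fun i => (c ^ i) e) p
  have h3 : ∏ i ∈ Finset.range p, (c ^ (i + 1)) e = 1 := by
    have := hnorm (c e)
    rw [← this]
    apply Finset.prod_congr rfl
    intro i _
    rw [pow_succ]
    rfl
  rw [h1, hnorm, h3, one_mul, one_mul] at h2
  simpa using h2

theorem commute_of_norm [Finite E] (hE : ∀ e : E, e ^ p = 1) (A : Subgroup (MulAut E))
    (hA : ∀ a ∈ A, ∀ b ∈ A, a * b = b * a) (hcop : (Nat.card A).Coprime p) (c : MulAut E)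
    (hc : ∀ a ∈ A, c⁻¹ * a * c ∈ A)
    (hnorm : ∀ e, ∏ i ∈ Finset.range p, (c ^ i) e = 1) : ∀ a ∈ A, c * a = a * c := by
  classical
  have : Fintype A := Fintype.ofFinite A
  have hcp : c ^ p = 1 := pow_eq_one c hnorm
  have hci : ∀ (i : ℕ), ∀ a ∈ A, (c ^ i)⁻¹ * a * c ^ i ∈ A := by
    intro i
    induction i with
    | zero => intro a ha; simpa using ha
    | succ i ih =>
      intro a ha
      have : (c ^ (i + 1))⁻¹ * a * c ^ (i + 1) = c⁻¹ * ((c ^ i)⁻¹ * a * c ^ i) * c := by
        rw [pow_succ]; group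
      rw [this]
      exact hc _ (ih a ha)
  let N : ℕ → E → E := fun i e => ∏ k : A, (phi c i k) e
  let S : ℕ → Subgroup (MulAut E) := fun i =>
    { carrier := {m | ∀ e, N i (m e) = N i e}
      one_mem' := fun e => rfl
      mul_mem' := by
        intro a b ha hb e
        show N i (a (b e)) = N i e
        rw [ha, hb]
      inv_mem' := by
        intro a ha e
        have := ha (a⁻¹ e)
        rw [MulAut.apply_inv_self] at this
        exact this.symm }
  have hS : ∀ i m, m ∈ S i ↔ ∀ e, N i (m e) = N i e := fun i m => Iff.rfl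
  have hphi_mul : ∀ i, ∀ k ∈ A, ∀ l ∈ A, phi c i k * phi c i l = phi c i (k * l) := by
    intro i k hk l hl
    have h1 := hci i k⁻¹ (A.inv_mem hk)
    have h2 := hci i l⁻¹ (A.inv_mem hl)
    have h3 := hA _ hk _ h2
    have h4 := hA _ h1 _ h2
    calc phi c i k * phi c i l = ((c ^ i)⁻¹ * k⁻¹ * c ^ i) * (k * ((c ^ i)⁻¹ * l⁻¹ * c ^ i)) * l := by
          simp only [phi]; group
      _ = (((c ^ i)⁻¹ * k⁻¹ * c ^ i) * ((c ^ i)⁻¹ * l⁻¹ * c ^ i)) * k * l := by rw [h3]; group
      _ = phi c i (k * l) := by rw [h4, phi]; group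
  have h1 : ∀ i, ∀ k ∈ A, phi c i k ∈ S i := by
    intro i k₀ hk₀ e
    show ∏ k : A, (phi c i k) (phi c i k₀ e) = ∏ k : A, (phi c i k) e
    refine Fintype.prod_equiv (Equiv.mulRight (⟨k₀, hk₀⟩ : A)) _ _ ?_
    intro k
    have := hphi_mul i k k.2 k₀ hk₀
    show (phi c i k * phi c i k₀) e = (phi c i (k * k₀)) e
    rw [this]
  have h2 : ∀ i j, ∀ k ∈ A, phi c (i * j) k ∈ S i := by
    intro i j
    induction j with
    | zero => intro k _; simp only [phi, mul_zero, pow_zero, inv_one, one_mul, mul_one, inv_mul_cancel]; exact (S i).one_mem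
    | succ j ih =>
      intro k hk
      have h3 : phi c (i * (j + 1)) k = phi c i ((c ^ (i * j))⁻¹ * k * c ^ (i * j)) * phi c (i * j) k := by
        have hcomm : c ^ i * c ^ (i * j) = c ^ (i * j) * c ^ i := by rw [← pow_add, ← pow_add, add_comm]
        have h5 : c ^ (i * (j + 1)) = c ^ (i * j) * c ^ i := by rw [← pow_add]; ring_nf
        have h6 : (c ^ (i * j))⁻¹ * (c ^ i)⁻¹ = (c ^ i)⁻¹ * (c ^ (i * j))⁻¹ := by
          rw [← mul_inv_rev, ← mul_inv_rev, hcomm]
        simp only [phi]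
        rw [h5]
        calc (c ^ (i * j) * c ^ i)⁻¹ * k⁻¹ * (c ^ (i * j) * c ^ i) * k
            = ((c ^ i)⁻¹ * (c ^ (i * j))⁻¹) * k⁻¹ * (c ^ (i * j) * c ^ i) * k := by group
          _ = (c ^ i)⁻¹ * ((c ^ (i * j))⁻¹ * k * c ^ (i * j))⁻¹ * c ^ i * ((c ^ (i * j))⁻¹ * k * c ^ (i * j)) *
              ((c ^ (i * j))⁻¹ * k⁻¹ * c ^ (i * j) * k) := by group
      rw [h3]
      exact (S i).mul_mem (h1 i _ (hci _ k hk)) (ih k hk)
  have h3 : ∀ i ∈ Finset.range p, i ≠ 0 → ∀ k ∈ A, phi c 1 k ∈ S i := by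
    intro i hi hi0 k hk
    rw [Finset.mem_range] at hi
    have hcopi : i.Coprime p := by
      rw [Nat.coprime_comm, hp.out.coprime_iff_not_dvd]
      intro hd
      exact absurd (Nat.le_of_dvd (Nat.pos_of_ne_zero hi0) hd) (by omega)
    obtain ⟨j, hj⟩ := Nat.exists_mul_mod_eq_one_of_coprime hcopi hp.out.one_lt
    have h4 : c ^ (i * j) = c ^ 1 := by rw [pow_eq_pow_mod _ hcp, hj.2]
    have h5 := h2 i j k hk
    have h6 : phi c (i * j) k = phi c 1 k := by simp only [phi, h4]
    rwa [h6] at h5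
  have h4 : ∀ e, ∏ i ∈ Finset.range p, (c ^ i) (N i e) = 1 := by
    intro e
    have h5 : ∀ i ∈ Finset.range p, (c ^ i) (N i e) = ∏ k : A, ((k : MulAut E)⁻¹) ((c ^ i) ((k : MulAut E) e)) := by
      intro i _
      show (c ^ i) (∏ k : A, (phi c i k) e) = _
      rw [map_prod]
      apply Finset.prod_congr rfl
      intro k _
      show (c ^ i * phi c i k) e = ((k : MulAut E)⁻¹ * c ^ i * k) e
      congr 1
      simp only [phi]
      group
    rw [Finset.prod_congr rfl h5, Finset.prod_comm]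
    apply Finset.prod_eq_one
    intro k _
    rw [← map_prod, hnorm, map_one]
  intro k₀ hk₀
  have h5 : phi c 1 k₀ = 1 := by
    ext w
    rw [MulAut.one_apply]
    set m := phi c 1 k₀ with hm
    set e := m w * w⁻¹ with he
    have h6 := h4 e
    rw [Finset.prod_eq_single 0] at h6
    · have h7 : N 0 e = e ^ Nat.card A := by
        show ∏ k : A, (phi c 0 k) e = _
        have : ∀ k : A, (phi c 0 k) e = e := by intro k; simp [phi]
        rw [Finset.prod_congr rfl (fun k _ => this k), Finset.prod_const, Finset.card_univ, Nat.card_eq_fintype_card]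
      rw [pow_zero, MulAut.one_apply, h7] at h6
      have h8 : e = 1 := by
        have h9 : orderOf e ∣ Nat.card A := orderOf_dvd_of_pow_eq_one h6
        have h10 : orderOf e ∣ p := orderOf_dvd_of_pow_eq_one (hE e)
        have := Nat.dvd_gcd h9 h10
        rw [hcop] at this
        exact orderOf_eq_one_iff.1 (Nat.dvd_one.1 this)
      rw [he] at h8
      exact mul_inv_eq_one.1 h8
    · intro i hi hi0
      have h7 : N i e = 1 := by
        have h8 : N i e = N i (m w) * (N i w)⁻¹ := by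
          show ∏ k : A, (phi c i k) e = (∏ k : A, (phi c i k) (m w)) * (∏ k : A, (phi c i k) w)⁻¹
          rw [← Finset.prod_inv_distrib, ← Finset.prod_mul_distrib]
          apply Finset.prod_congr rfl
          intro k _
          rw [he, map_mul, map_inv]
        rw [h8, h3 i hi hi0 k₀ hk₀ w, mul_inv_cancel]
      rw [h7, map_one]
    · intro h; exact absurd (Finset.mem_range.2 hp.out.pos) h
  have h6 : c⁻¹ * k₀⁻¹ * c * k₀ = 1 := by simpa [phi] using h5
  have h7 : c⁻¹ * k₀⁻¹ * (c * k₀) = 1 := by rw [← h6]; group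
  have h8 : c * k₀ = (c⁻¹ * k₀⁻¹)⁻¹ := (eq_inv_of_mul_eq_one_right h7)
  rw [h8]; group

end H39.Avg
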