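import Cfsg.Agent.Lib.H39.DA2

/-!
Facts about the Klein four-groups of the two-point stabilizer `A₅` (S3262, piece `vfacts`).
-/

set_option autoImplicit false

open MulAction

universe u v

namespace H39.DA

namespace Q5b

/-- the alternating group of degree five -/
abbrev A : Type := alternatingGroup (Fin 5)

set_option maxRecDepth 100000

theorem a1 : ∀ t : A, t ≠ 1 → t * t = 1 → (Finset.univ.filter (fun g : A => g * t = t * g)).card = 4 := by
  decide +kernel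

theorem a2 : ∀ t : A, t ≠ 1 → t * t = 1 → ∀ g : A, g * t = t * g → g * g = 1 := by
  decide +kernel

theorem a4 : ∀ t : A, t ≠ 1 → t * t = 1 → ∀ s : A, s ≠ 1 → s * t = t * s → ∀ g : A, g * s = s * g → g * t = t * g := by
  decide +kernel

theorem a5 : ∀ t : A, t ≠ 1 → t * t = 1 → ∀ s : A, s ≠ 1 → s * t = t * s → ∃ x : A, x * t * x⁻¹ = s := by
  decide +kernel

theorem a6 : ∀ t : A, t ≠ 1 → t * t = 1 →
    (Finset.univ.filter (fun g : A => (g * t * g⁻¹) * t = t * (g * t * g⁻¹))).card = 12 := by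
  decide +kernel

theorem a7 : Fintype.card A = 60 := by
  decide +kernel

section
variable {G : Type u} [Group G] {S : Subgroup G}

theorem comm_iff (e : S ≃* A) {x y : G} (hx : x ∈ S) (hy : y ∈ S) :
    e ⟨x, hx⟩ * e ⟨y, hy⟩ = e ⟨y, hy⟩ * e ⟨x, hx⟩ ↔ x * y = y * x := by
  rw [← map_mul, ← map_mul, e.injective.eq_iff, Subtype.ext_iff]
  rfl

theorem one_iff (e : S ≃* A) {x : G} (hx : x ∈ S) : e ⟨x, hx⟩ = 1 ↔ x = 1 := by
  rw [← map_one e, e.injective.eq_iff, Subtype.ext_iff]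
  rfl

theorem sq_iff (e : S ≃* A) {x : G} (hx : x ∈ S) : e ⟨x, hx⟩ * e ⟨x, hx⟩ = 1 ↔ x * x = 1 := by
  rw [← map_mul, ← map_one e, e.injective.eq_iff, Subtype.ext_iff]
  rfl

/-- four-group -/
def W (S : Subgroup G) (t : G) : Subgroup G := S ⊓ Subgroup.centralizer {t}

theorem mem_W {t x : G} : x ∈ W S t ↔ x ∈ S ∧ x * t = t * x := by
  unfold W
  rw [Subgroup.mem_inf, Subgroup.mem_centralizer_singleton_iff]

theorem card_W (e : S ≃* A) {t : G} (htS : t ∈ S) (ht : Inv t) : Nat.card (W S t) = 4 := by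
  have h1 := a1 (e ⟨t, htS⟩) (fun h => ht.1 ((one_iff e htS).1 h)) ((sq_iff e htS).2 ht.2)
  rw [← h1, ← Fintype.card_subtype, ← Nat.card_eq_fintype_card]
  refine Nat.card_congr ⟨fun x => ⟨e ⟨x.1, (mem_W.1 x.2).1⟩, (comm_iff e _ _).2 (mem_W.1 x.2).2⟩,
    fun y => ⟨(e.symm y.1 : S), mem_W.2 ⟨(e.symm y.1).2, ?_⟩⟩, ?_, ?_⟩
  · have h2 := y.2
    rw [← comm_iff e (e.symm y.1).2 htS]
    simpa using h2
  · intro x
    simp
  · intro y
    simp

theorem sq_W (e : S ≃* A) {t : G} (htS : t ∈ S) (ht : Inv t) {g : G} (hg : g ∈ W S t) : g * g = 1 := by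
  rw [mem_W] at hg
  have h1 := a2 (e ⟨t, htS⟩) (fun h => ht.1 ((one_iff e htS).1 h)) ((sq_iff e htS).2 ht.2) (e ⟨g, hg.1⟩)
    ((comm_iff e _ _).2 hg.2)
  exact (sq_iff e hg.1).1 h1

theorem comm_W (e : S ≃* A) {t : G} (htS : t ∈ S) (ht : Inv t) {g g' : G} (hg : g ∈ W S t) (hg' : g' ∈ W S t) :
    g * g' = g' * g := by
  have h1 := sq_W e htS ht hg
  have h2 := sq_W e htS ht hg'
  have h3 := sq_W e htS ht (mul_mem hg hg')
  have e1 : g⁻¹ = g := inv_eq_of_mul_eq_one_left h1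
  have e2 : g'⁻¹ = g' := inv_eq_of_mul_eq_one_left h2
  have e3 : (g * g')⁻¹ = g * g' := inv_eq_of_mul_eq_one_left h3
  rw [← e3, mul_inv_rev, e1, e2]

theorem W_le (e : S ≃* A) {t : G} (htS : t ∈ S) (ht : Inv t) {s : G} (hs : s ∈ W S t) (hs1 : s ≠ 1) :
    W S s ≤ W S t := by
  intro x hx
  rw [mem_W] at hx ⊢
  refine ⟨hx.1, ?_⟩
  have hs' := mem_W.1 hs
  have h1 := a4 (e ⟨t, htS⟩) (fun h => ht.1 ((one_iff e htS).1 h)) ((sq_iff e htS).2 ht.2) (e ⟨s, hs'.1⟩)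
    (fun h => hs1 ((one_iff e hs'.1).1 h)) ((comm_iff e _ _).2 hs'.2) (e ⟨x, hx.1⟩) ((comm_iff e _ _).2 hx.2)
  exact (comm_iff e _ _).1 h1

theorem W_eq (e : S ≃* A) {t : G} (htS : t ∈ S) (ht : Inv t) {s : G} (hs : s ∈ W S t) (hs1 : s ≠ 1) :
    W S s = W S t := by
  have hs' := mem_W.1 hs
  refine le_antisymm (W_le e htS ht hs hs1) ?_
  exact W_le e hs'.1 ⟨hs1, sq_W e htS ht hs⟩ (mem_W.2 ⟨htS, hs'.2.symm⟩) ht.1

theorem norm_iff (e : S ≃* A) {t : G} (htS : t ∈ S) (ht : Inv t) {x : G} (hx : x ∈ S) :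
    x ∈ Subgroup.normalizer (W S t : Set G) ↔ x * t * x⁻¹ ∈ W S t := by
  constructor
  · intro h
    exact (Subgroup.mem_normalizer_iff.1 h t).1 (mem_W.2 ⟨htS, rfl⟩)
  · intro h
    have h1 : x * t * x⁻¹ ≠ 1 := fun h2 => ht.1 (by
      have := conj_eq_one_iff.1 h2
      exact this)
    have h2 := W_eq e htS ht h h1
    rw [Subgroup.mem_normalizer_iff]
    intro y
    have h3 : y ∈ W S t ↔ x * y * x⁻¹ ∈ W S (x * t * x⁻¹) := by
      rw [mem_W, mem_W]
      constructor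
      · rintro ⟨p, q⟩
        refine ⟨mul_mem (mul_mem hx p) (inv_mem hx), ?_⟩
        calc x * y * x⁻¹ * (x * t * x⁻¹) = x * (y * t) * x⁻¹ := by group
          _ = x * (t * y) * x⁻¹ := by rw [q]
          _ = _ := by group
      · rintro ⟨p, q⟩
        refine ⟨?_, ?_⟩
        · have := mul_mem (mul_mem (inv_mem hx) p) hx
          simpa [mul_assoc] using this
        · have h4 : x * (y * t) * x⁻¹ = x * (t * y) * x⁻¹ := by
            calc x * (y * t) * x⁻¹ = x * y * x⁻¹ * (x * t * x⁻¹) := by group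
              _ = _ := q
              _ = _ := by group
          exact mul_left_cancel (mul_right_cancel h4)
    rw [h2] at h3
    exact h3

theorem card_N (e : S ≃* A) {t : G} (htS : t ∈ S) (ht : Inv t) :
    Nat.card (S ⊓ Subgroup.normalizer (W S t : Set G) : Subgroup G) = 12 := by
  have h1 := a6 (e ⟨t, htS⟩) (fun h => ht.1 ((one_iff e htS).1 h)) ((sq_iff e htS).2 ht.2)
  rw [← h1, ← Fintype.card_subtype, ← Nat.card_eq_fintype_card]
  have key : ∀ (x : G) (hx : x ∈ S), x ∈ Subgroup.normalizer (W S t : Set G) ↔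
      (e ⟨x, hx⟩ * e ⟨t, htS⟩ * (e ⟨x, hx⟩)⁻¹) * e ⟨t, htS⟩ = e ⟨t, htS⟩ * (e ⟨x, hx⟩ * e ⟨t, htS⟩ * (e ⟨x, hx⟩)⁻¹) := by
    intro x hx
    rw [norm_iff e htS ht hx, mem_W]
    have hc : x * t * x⁻¹ ∈ S := mul_mem (mul_mem hx htS) (inv_mem hx)
    have h2 : e ⟨x * t * x⁻¹, hc⟩ = e ⟨x, hx⟩ * e ⟨t, htS⟩ * (e ⟨x, hx⟩)⁻¹ := by
      rw [← map_mul, ← map_inv, ← map_mul]
      rfl
    rw [← h2, comm_iff e hc htS]
    exact ⟨fun h => h.2, fun h => ⟨hc, h⟩⟩
  refine Nat.card_congr ⟨fun x => ⟨e ⟨x.1, x.2.1⟩, (key x.1 x.2.1).1 x.2.2⟩,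
    fun y => ⟨(e.symm y.1 : S), ⟨(e.symm y.1).2, ?_⟩⟩, ?_, ?_⟩
  · have h2 := y.2
    refine (key _ (e.symm y.1).2).2 ?_
    simpa using h2
  · intro x
    simp
  · intro y
    simp

theorem card_S (e : S ≃* A) : Nat.card S = 60 := by
  rw [Nat.card_congr e.toEquiv, Nat.card_eq_fintype_card, a7]

open Pointwise in
theorem conj_V (hcard : Nat.card S = 60) (U V : Subgroup G) (hU : U ≤ S) (hV : V ≤ S)
    (hUc : Nat.card U = 4) (hVc : Nat.card V = 4) : ∃ g ∈ S, U.map (MulAut.conj g).toMonoidHom = V := by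
  haveI : Finite S := Nat.finite_of_card_ne_zero (by rw [hcard]; norm_num)
  haveI : Fact (Nat.Prime 2) := ⟨Nat.prime_two⟩
  have hf : 2 ^ (Nat.card S).factorization 2 = 4 := by
    rw [hcard]
    have : (60 : ℕ).factorization 2 = 2 := by
      rw [Nat.factorization_def _ Nat.prime_two]
      have : (60 : ℕ) = 2 ^ 2 * 15 := by norm_num
      rw [this, padicValNat.mul (by norm_num) (by norm_num), padicValNat.prime_pow,
        padicValNat.eq_zero_of_not_dvd (by norm_num)]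
    rw [this]; norm_num
  have hU' : Nat.card (U.subgroupOf S) = 2 ^ (Nat.card S).factorization 2 := by
    rw [hf, ← hUc]
    exact Nat.card_congr (Subgroup.subgroupOfEquivOfLe hU).toEquiv
  have hV' : Nat.card (V.subgroupOf S) = 2 ^ (Nat.card S).factorization 2 := by
    rw [hf, ← hVc]
    exact Nat.card_congr (Subgroup.subgroupOfEquivOfLe hV).toEquiv
  obtain ⟨g, hg⟩ := MulAction.exists_smul_eq S (Sylow.ofCard (U.subgroupOf S) hU') (Sylow.ofCard (V.subgroupOf S) hV')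
  refine ⟨g, g.2, ?_⟩
  have hg2 := congrArg (fun P : Sylow 2 S => (P : Subgroup S)) hg
  simp only [Sylow.coe_subgroup_smul] at hg2
  ext y
  rw [Subgroup.mem_map]
  constructor
  · rintro ⟨x, hx, rfl⟩
    have hxS : x ∈ S := hU hx
    have h1 : (MulAut.conj g (⟨x, hxS⟩ : S)) ∈ V.subgroupOf S := by
      have : (MulAut.conj g (⟨x, hxS⟩ : S)) ∈ MulAut.conj g • (U.subgroupOf S) := by
        rw [← MulAut.smul_def]
        exact Subgroup.smul_mem_pointwise_smul _ _ _ (Subgroup.mem_subgroupOf.2 hx)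
      rw [show MulAut.conj g • (U.subgroupOf S) = V.subgroupOf S from hg2] at this
      exact this
    rw [Subgroup.mem_subgroupOf] at h1
    exact h1
  · intro hy
    have hyS : y ∈ S := hV hy
    have h1 : (⟨y, hyS⟩ : S) ∈ MulAut.conj g • (U.subgroupOf S) := by
      rw [show MulAut.conj g • (U.subgroupOf S) = V.subgroupOf S from hg2]
      exact Subgroup.mem_subgroupOf.2 hy
    rw [Subgroup.mem_pointwise_smul_iff_inv_smul_mem] at h1
    refine ⟨(g : G)⁻¹ * y * g, ?_, ?_⟩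
    · have h2 := Subgroup.mem_subgroupOf.1 h1
      rw [← map_inv, MulAut.smul_def, MulAut.conj_apply, inv_inv] at h2
      exact h2
    · show (g : G) * ((g : G)⁻¹ * y * g) * (g : G)⁻¹ = y
      group

end

end Q5b

variable {G : Type u} {Ω : Type v} [Group G] [Finite G] [MulAction G Ω] [Finite Ω]

theorem vfacts (h : Base G Ω) {a b : Ω} (hab : a ≠ b) {t : G} (ht : Inv t) (hts : t ∈ St G a b) :
    Nat.card (VV a b t) = 4 ∧ (∀ g ∈ VV a b t, g * g = 1) ∧ (∀ g ∈ VV a b t, ∀ g' ∈ VV a b t, g * g' = g' * g) ∧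
    (∀ s ∈ VV a b t, s ≠ 1 → VV a b s = VV a b t) ∧
    (∀ s ∈ VV a b t, s ≠ 1 → ∃ x ∈ St G a b, x ∈ Subgroup.normalizer (VV a b t : Set G) ∧ x * t * x⁻¹ = s) ∧
    Nat.card (St G a b ⊓ Subgroup.normalizer (VV a b t : Set G) : Subgroup G) = 12 ∧
    (∀ V' : Subgroup G, V' ≤ St G a b → Nat.card V' = 4 → ∃ g ∈ St G a b, V'.map (MulAut.conj g).toMonoidHom = VV a b t) := by
  obtain ⟨e⟩ := h.a5 a b hab
  have c1 : Nat.card (VV a b t) = 4 := Q5b.card_W e hts ht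
  refine ⟨c1, fun g hg => Q5b.sq_W e hts ht hg, fun g hg g' hg' => Q5b.comm_W e hts ht hg hg',
    fun s hs hs1 => Q5b.W_eq e hts ht hs hs1, ?_, Q5b.card_N e hts ht,
    fun V' hV' hc => Q5b.conj_V (Q5b.card_S e) V' (VV a b t) hV' inf_le_left hc c1⟩
  intro s hs hs1
  have hs' := Q5b.mem_W.1 hs
  obtain ⟨x, hx⟩ := Q5b.a5 (e ⟨t, hts⟩) (fun h => ht.1 ((Q5b.one_iff e hts).1 h)) ((Q5b.sq_iff e hts).2 ht.2)
    (e ⟨s, hs'.1⟩) (fun h => hs1 ((Q5b.one_iff e hs'.1).1 h)) ((Q5b.comm_iff e _ _).2 hs'.2)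
  have h1 : ((e.symm x : St G a b) : G) * t * ((e.symm x : St G a b) : G)⁻¹ = s := by
    have h2 : e (e.symm x * ⟨t, hts⟩ * (e.symm x)⁻¹) = e ⟨s, hs'.1⟩ := by
      rw [map_mul, map_mul, map_inv, e.apply_symm_apply]
      exact hx
    exact congrArg Subtype.val (e.injective h2)
  refine ⟨(e.symm x : St G a b), (e.symm x).2, ?_, h1⟩
  refine (Q5b.norm_iff e hts ht (e.symm x).2).2 ?_
  rw [h1]
  exact hs

end H39.DA
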