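import Cfsg.Agent.Lib.H39.DAQ6bCore
import Cfsg.Agent.Lib.H39.DAQ5b

set_option autoImplicit false
open MulAction
universe u v
namespace H39.DA

variable {G : Type u} {Ω : Type v} [Group G] [Finite G] [MulAction G Ω] [Finite Ω]

theorem Q6b.card_St (h : Base G Ω) {a b : Ω} (hab : a ≠ b) : Nat.card (St G a b) = 60 := by
  obtain ⟨e⟩ := h.a5 a b hab
  rw [Nat.card_congr e.toEquiv, nat_card_alternatingGroup]
  simp [Nat.factorial]

theorem countV (h : Base G Ω) {a b : Ω} (hab : a ≠ b) {t : G} (ht : Inv t) (hts : t ∈ St G a b) :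
    let m := fS G Ω (VV a b t)
    2 ≤ m ∧ m ≤ fx G Ω t ∧ Nat.card (Subgroup.normalizer (VV a b t : Set G)) = 12 * (m * (m - 1)) ∧
    Nat.card (NT (VV a b t) t) = 4 * (m * (m - 1)) ∧
    (∀ c ∈ Fx G (Ω := Ω) (VV a b t : Set G), ∀ d ∈ Fx G (Ω := Ω) (VV a b t : Set G), c ≠ d →
      ∀ c' ∈ Fx G (Ω := Ω) (VV a b t : Set G), ∀ d' ∈ Fx G (Ω := Ω) (VV a b t : Set G), c' ≠ d' →
      ∃ g ∈ NT (VV a b t) t, g • c = c' ∧ g • d = d') ∧
    (∀ g ∈ NT (VV a b t) t, ∀ c ∈ Fx G (Ω := Ω) (VV a b t : Set G), ∀ d ∈ Fx G (Ω := Ω) (VV a b t : Set G), c ≠ d →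
      g • c = c → g • d = d → g ∈ VV a b t) ∧
    (Nat.card Ω - 1) * 5 % (m - 1) = 0 :=
  Q6b.main (fun h _ _ hab _ ht hts => vfacts h hab ht hts) (fun h _ _ hab => Q6b.card_St h hab) h hab ht hts

end H39.DA
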