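import Cfsg.Agent.Lib.H39.DAQ5a
import Cfsg.Agent.Lib.H39.DAQ5b
import Cfsg.Agent.Lib.H39.DAQ6aAux

/-!
S3262, piece Q6a: orders, and double transitivity of the centralizer of an involution on its fixed points.
-/

set_option autoImplicit false

open MulAction

universe u v

namespace H39.DA

variable {G : Type u} {Ω : Type v} [Group G] [Finite G] [MulAction G Ω] [Finite Ω]

theorem count (h : Base G Ω) {a b : Ω} (hab : a ≠ b) {t : G} (ht : Inv t) (hts : t ∈ St G a b) :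
    Nat.card G = 60 * (Nat.card Ω * (Nat.card Ω - 1)) ∧
    Nat.card (Subgroup.centralizer ({t} : Set G)) = 4 * (fx G Ω t * (fx G Ω t - 1)) ∧
    2 ≤ fx G Ω t ∧ fx G Ω t < Nat.card Ω ∧
    15 * (Nat.card Ω - fx G Ω t) = fx G Ω t * (fx G Ω t - 1) * Nat.card {s : G // IsConj t s ∧ s • a = b ∧ s • b = a} ∧
    Nat.card {s : G // IsConj t s} * (fx G Ω t * (fx G Ω t - 1)) = 15 * (Nat.card Ω * (Nat.card Ω - 1)) :=
  Q6a.count_of h.toTT hab ht hts (fun _ _ hab => (facts h hab).2.2.1) (facts h hab).1 (vfacts h hab ht hts).1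

theorem witt_t (h : Base G Ω) {a b : Ω} (hab : a ≠ b) {t : G} (ht : Inv t) (hts : t ∈ St G a b) (c d c' d' : Ω)
    (hcd : c ≠ d) (hcd' : c' ≠ d') (hc : t • c = c) (hd : t • d = d) (hc' : t • c' = c') (hd' : t • d' = d') :
    ∃ g : G, g * t = t * g ∧ g • c = c' ∧ g • d = d' :=
  Q6a.witt h.toTT ht (fun _ _ hab => (facts h hab).2.2.1) c d c' d' hcd hcd' hc hd hc' hd'

end H39.DA
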