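import Cfsg.Agent.Lib.H39.DAQ5b
import Cfsg.Agent.Lib.H39.DAQ6a
import Cfsg.Agent.Lib.H39.DAQ6b
import Cfsg.Agent.Lib.H39.DAQ6cCore

/-!
S3262, piece Q6c: the groups induced on fixed points.
-/

set_option autoImplicit false

open MulAction

universe u v

namespace H39.DA

variable {G : Type u} {Ω : Type v} [Group G] [Finite G] [MulAction G Ω] [Finite Ω]

theorem sh_YB (h : Base G Ω) {a b : Ω} (hab : a ≠ b) {t : G} (ht : Inv t) (hts : t ∈ St G a b) :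
    Sh (YB G Ω (VV a b t) t) (Fx G (Ω := Ω) (VV a b t : Set G)) := by
  obtain ⟨-, -, -, -, h5, h6, -⟩ := countV h hab ht hts
  exact Q6c.sh_of hab h5 h6

theorem t2_CB (h : Base G Ω) {a b : Ω} (hab : a ≠ b) {t : G} (ht : Inv t) (hts : t ∈ St G a b)
    (hlt : fS G Ω (VV a b t) < fx G Ω t) : T2 (CB G Ω t) (Fx G (Ω := Ω) ({t} : Set G)) ∧
    ∀ (g : G) (hg : g ∈ Subgroup.centralizer ({t} : Set G)), cb Ω hg = 1 ↔ (g = 1 ∨ g = t) :=
  Q6c.t2_of hab ht hts (fun c d hcd hc hd => (vfacts h hcd ht ⟨hc, hd⟩).1) (vfacts h hab ht hts).2.1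
    (fun c d c' d' hcd hcd' hc hd hc' hd' => witt_t h hab ht hts c d c' d' hcd hcd' hc hd hc' hd') hlt

theorem fx_CB (h : Base G Ω) {a b : Ω} (hab : a ≠ b) {t : G} (ht : Inv t) (hts : t ∈ St G a b) {v : G} (hv : v ∈ VV a b t)
    (hv1 : v ≠ 1) (hvt : v ≠ t) (hvc : v ∈ Subgroup.centralizer ({t} : Set G)) :
    fx (CB G Ω t) (Fx G (Ω := Ω) ({t} : Set G)) (cb Ω hvc) = fS G Ω (VV a b t) := by
  obtain ⟨h4, hsq, -⟩ := vfacts h hab ht hts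
  exact Q6c.fx_of ht.1 (Q6c.mem_VV.2 ⟨hts, rfl⟩) h4 hsq hv hv1 hvt hvc

end H39.DA
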