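import Cfsg.Agent.Lib.H39.DAQ7bCore
import Cfsg.Agent.Lib.H39.DAQ6c

/-!
S3262, piece Q7b: the group induced by the centralizer of an involution on its fixed points.
-/

set_option autoImplicit false
open MulAction H39.DA
universe u v
namespace H39.DA

open Q7b

variable {G : Type u} {Ω : Type v} [Group G] [Finite G] [MulAction G Ω] [Finite Ω]

theorem Q7b.setup (h : Base G Ω) {a b : Ω} (hab : a ≠ b) {t : G} (ht : Inv t) (hts : t ∈ St G a b)
    (hlt : fS G Ω (VV a b t) < fx G Ω t) {v : G} (hv : v ∈ VV a b t) (hv1 : v ≠ 1) (hvt : v ≠ t) :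
    ∃ (hvc : v ∈ Subgroup.centralizer ({t} : Set G)) (a' b' : Fx G (Ω := Ω) ({t} : Set G)), (a' : Ω) = a ∧ (b' : Ω) = b ∧
      T2 (CB G Ω t) (Fx G (Ω := Ω) ({t} : Set G)) ∧
      (∀ (g : G) (hg : g ∈ Subgroup.centralizer ({t} : Set G)), cb Ω hg = 1 ↔ (g = 1 ∨ g = t)) ∧
      2 ≤ fS G Ω (VV a b t) ∧
      (∀ g : CB G Ω t, g ≠ 1 → (∃ c d : Fx G (Ω := Ω) ({t} : Set G), c ≠ d ∧ g • c = c ∧ g • d = d) → IsConj (cb Ω hvc) g) ∧
      fx G Ω t - fS G Ω (VV a b t) = fS G Ω (VV a b t) * (fS G Ω (VV a b t) - 1) *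
        Nat.card {g : CB G Ω t // IsConj (cb Ω hvc) g ∧ g • a' = b' ∧ g • b' = a'} ∧
      ∃ p q : CB G Ω t, p ≠ q ∧ p • a' = b' ∧ p • b' = a' ∧ q • a' = b' ∧ q • b' = a' ∧ IsConj (cb Ω hvc) p ∧
        q * q = 1 ∧ ∀ g : CB G Ω t, g • a' = b' → g • b' = a' → g = p ∨ g = q := by
  obtain ⟨hT, hcb⟩ := t2_CB h hab ht hts hlt
  have hvc : v ∈ Subgroup.centralizer ({t} : Set G) := hv.2
  have hta : t • a = a := hts.1
  have htb : t • b = b := hts.2
  let a' : Fx G (Ω := Ω) ({t} : Set G) := ⟨a, fun g hg => by rw [Set.mem_singleton_iff.1 hg]; exact hta⟩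
  let b' : Fx G (Ω := Ω) ({t} : Set G) := ⟨b, fun g hg => by rw [Set.mem_singleton_iff.1 hg]; exact htb⟩
  have hab' : a' ≠ b' := fun hh => hab (congrArg Subtype.val hh)
  have hv' : cb Ω hvc ∈ St (CB G Ω t) a' b' := by
    refine ⟨?_, ?_⟩
    · change cb Ω hvc • a' = a'
      apply Subtype.ext
      rw [cb_smul]
      exact hv.1.1
    · change cb Ω hvc • b' = b'
      apply Subtype.ext
      rw [cb_smul]
      exact hv.1.2
  have hv1' : cb Ω hvc ≠ 1 := by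
    intro hh
    rcases (hcb _ hvc).1 hh with h1 | h1
    · exact hv1 h1
    · exact hvt h1
  obtain ⟨-, h2, -, -, -, h6, h7, -, -, p, q, hpq, hp1, hp2, hq1, hq2, -, hpc, hqq, hall⟩ := t2_main hT hab' hv' hv1'
  have hm := fx_CB h hab ht hts hv hv1 hvt hvc
  rw [hm] at h2 h7
  rw [card_Fx] at h7
  exact ⟨hvc, a', b', rfl, rfl, hT, hcb, h2, h6, h7, p, q, hpq, hp1, hp2, hq1, hq2, hpc, hqq, hall⟩

theorem delta (h : Base G Ω) {a b : Ω} (hab : a ≠ b) {t : G} (ht : Inv t) (hts : t ∈ St G a b)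
    (hlt : fS G Ω (VV a b t) < fx G Ω t) {v : G} (hv : v ∈ VV a b t) (hv1 : v ≠ 1) (hvt : v ≠ t) :
    (∃ g : G, g * t = t * g ∧ (g * v * g⁻¹) • a = b ∧ (g * v * g⁻¹) • b = a) ∧
    (fx G Ω t = fS G Ω (VV a b t) * fS G Ω (VV a b t) ∨ fx G Ω t = fS G Ω (VV a b t) * (2 * fS G Ω (VV a b t) - 1)) := by
  obtain ⟨hvc, a', b', rfl, rfl, hT, hcb, h2, h6, h7, p, q, hpq, hp1, hp2, hq1, hq2, hpc, hqq, hall⟩ :=
    Q7b.setup h hab ht hts hlt hv hv1 hvt
  refine ⟨?_, ?_⟩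
  · obtain ⟨c, hc⟩ := isConj_iff.1 hpc
    obtain ⟨g, hg, rfl⟩ := cb_surj c
    have hgv : g * v * g⁻¹ ∈ Subgroup.centralizer ({t} : Set G) :=
      Subgroup.mul_mem _ (Subgroup.mul_mem _ hg hvc) (Subgroup.inv_mem _ hg)
    rw [← cb_conj hg hvc hgv] at hc
    refine ⟨g, mem_cent.1 hg, ?_, ?_⟩
    · rw [← cb_smul hgv, hc, hp1]
    · rw [← cb_smul hgv, hc, hp2]
  · set S := {g : CB G Ω t // IsConj (cb Ω hvc) g ∧ g • a' = b' ∧ g • b' = a'} with hS
    set m := fS G Ω (VV (a' : Ω) (b' : Ω) t) with hm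
    have : Finite S := inferInstance
    have hle : Nat.card S ≤ 2 := by
      have h8 : Nat.card S ≤ Nat.card (Bool) := by
        classical
        apply Nat.card_le_card_of_injective (fun g : S => decide (g.1 = p))
        intro g g' hgg
        have h9 : g.1 = p ↔ g'.1 = p := by simpa using hgg
        apply Subtype.ext
        rcases hall g.1 g.2.2.1 g.2.2.2 with h10 | h10
        · rw [h10, h9.1 h10]
        · rcases hall g'.1 g'.2.2.1 g'.2.2.2 with h11 | h11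
          · rw [h11, h9.2 h11]
          · rw [h10, h11]
      simpa using h8
    have hpos : 0 < Nat.card S := by
      have : Nonempty S := ⟨⟨p, hpc, hp1, hp2⟩⟩
      exact Nat.card_pos
    obtain ⟨k, hk⟩ : ∃ k, m = k + 1 := ⟨m - 1, by omega⟩
    rcases (show Nat.card S = 1 ∨ Nat.card S = 2 by omega) with h8 | h8
    · left
      rw [h8, hk, Nat.add_sub_cancel] at h7
      rw [hk] at hlt ⊢
      have h9 : fx G Ω t = (k + 1) * k * 1 + (k + 1) := by omega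
      rw [h9]; ring
    · right
      rw [h8, hk, Nat.add_sub_cancel] at h7
      rw [hk] at hlt ⊢
      have h9 : fx G Ω t = (k + 1) * k * 2 + (k + 1) := by omega
      have h10 : 2 * (k + 1) - 1 = 2 * k + 1 := by omega
      rw [h9, h10]; ring

theorem delta_one (h : Base G Ω) {a b : Ω} (hab : a ≠ b) {t : G} (ht : Inv t) (hts : t ∈ St G a b)
    (hlt : fS G Ω (VV a b t) < fx G Ω t) {v : G} (hv : v ∈ VV a b t) (hv1 : v ≠ 1) (hvt : v ≠ t)
    {s : G} (hst : s * t = t * s) (hsa : s • a = b) (hsb : s • b = a)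
    (hns : ∀ g : G, g * t = t * g → g * v * g⁻¹ ≠ s ∧ g * v * g⁻¹ ≠ s * t) :
    fx G Ω t = fS G Ω (VV a b t) * fS G Ω (VV a b t) ∧
    (Odd (fx G Ω t) → ∃ (r k : ℕ) (E : Subgroup (CB G Ω t)), r.Prime ∧ 1 ≤ k ∧ fx G Ω t = r ^ k ∧
      Reg (CB G Ω t) (Fx G (Ω := Ω) ({t} : Set G)) E ∧ (∀ g ∈ E, ∀ g' ∈ E, g * g' = g' * g) ∧ (∀ g ∈ E, g ^ r = 1)) ∧
    (∀ e : ℕ, fx G Ω t = 2 ^ e → ∃ E : Subgroup (CB G Ω t), Reg (CB G Ω t) (Fx G (Ω := Ω) ({t} : Set G)) E ∧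
      (∀ g ∈ E, ∀ g' ∈ E, g * g' = g' * g)) := by
  obtain ⟨hvc, a', b', rfl, rfl, hT, hcb, h2, h6, h7, p, q, hpq, hp1, hp2, hq1, hq2, hpc, hqq, hall⟩ :=
    Q7b.setup h hab ht hts hlt hv hv1 hvt
  have hab' : a' ≠ b' := fun hh => hab (congrArg Subtype.val hh)
  have hsc : s ∈ Subgroup.centralizer ({t} : Set G) := mem_cent.2 hst
  have hs1 : cb Ω hsc • a' = b' := Subtype.ext (by rw [cb_smul]; exact hsa)
  have hs2 : cb Ω hsc • b' = a' := Subtype.ext (by rw [cb_smul]; exact hsb)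
  have hnsc : ¬ IsConj (cb Ω hvc) (cb Ω hsc) := by
    intro hh
    obtain ⟨c, hc⟩ := isConj_iff.1 hh
    obtain ⟨g, hg, rfl⟩ := cb_surj c
    have hgv : g * v * g⁻¹ ∈ Subgroup.centralizer ({t} : Set G) :=
      Subgroup.mul_mem _ (Subgroup.mul_mem _ hg hvc) (Subgroup.inv_mem _ hg)
    rw [← cb_conj hg hvc hgv] at hc
    rcases cb_eq_iff hgv hsc hcb hc with h1 | h1
    · exact (hns g (mem_cent.1 hg)).1 h1
    · exact (hns g (mem_cent.1 hg)).2 h1
  have hsq : cb Ω hsc = q := by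
    rcases hall _ hs1 hs2 with h1 | h1
    · exact absurd (h1 ▸ hpc) hnsc
    · exact h1
  have hnq : ¬ IsConj (cb Ω hvc) q := hsq ▸ hnsc
  have hq0 : q ≠ 1 := by
    rintro rfl
    rw [one_smul] at hq1
    exact hab' hq1
  refine ⟨?_, ?_, ?_⟩
  · have hcard : Nat.card {g : CB G Ω t // IsConj (cb Ω hvc) g ∧ g • a' = b' ∧ g • b' = a'} = 1 := by
      rw [Nat.card_eq_one_iff_unique]
      refine ⟨⟨?_⟩, ⟨⟨p, hpc, hp1, hp2⟩⟩⟩
      intro x y
      have key : ∀ x : {g : CB G Ω t // IsConj (cb Ω hvc) g ∧ g • a' = b' ∧ g • b' = a'}, x.1 = p := by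
        intro x
        rcases hall x.1 x.2.2.1 x.2.2.2 with h8 | h8
        · exact h8
        · exact absurd (h8 ▸ x.2.1) hnq
      exact Subtype.ext ((key x).trans (key y).symm)
    rw [hcard] at h7
    obtain ⟨k, hk⟩ : ∃ k, fS G Ω (VV (a' : Ω) (b' : Ω) t) = k + 1 := ⟨_, (Nat.sub_add_cancel (by omega)).symm⟩
    rw [hk, Nat.add_sub_cancel] at h7
    rw [hk] at hlt ⊢
    have h9 : fx G Ω t = (k + 1) * k * 1 + (k + 1) := by omega
    rw [h9]; ring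
  · intro ho
    have := odd_part hT hab' hq0 hqq hq1 h6 hpc hnq hall (by rw [card_Fx]; exact ho)
    rwa [card_Fx] at this
  · intro e he
    exact even_part hT hab' hq0 hqq hq1 h6 hpc hnq hall e (by rw [card_Fx]; exact he)

theorem delta_s (h : Base G Ω) {a b : Ω} (hab : a ≠ b) {t : G} (ht : Inv t) (hts : t ∈ St G a b)
    (hlt : fS G Ω (VV a b t) < fx G Ω t) {v : G} (hv : v ∈ VV a b t) (hv1 : v ≠ 1) (hvt : v ≠ t)
    (hm : fx G Ω t = fS G Ω (VV a b t) * fS G Ω (VV a b t)) :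
    ∃ s : G, s * t = t * s ∧ s • a = b ∧ s • b = a ∧ (∀ g : G, g * t = t * g → g * v * g⁻¹ ≠ s ∧ g * v * g⁻¹ ≠ s * t) := by
  obtain ⟨hvc, a', b', rfl, rfl, hT, hcb, h2, h6, h7, p, q, hpq, hp1, hp2, hq1, hq2, hpc, hqq, hall⟩ :=
    Q7b.setup h hab ht hts hlt hv hv1 hvt
  have hnq : ¬ IsConj (cb Ω hvc) q := by
    intro hh
    have h8 : 2 ≤ Nat.card {g : CB G Ω t // IsConj (cb Ω hvc) g ∧ g • a' = b' ∧ g • b' = a'} := by
      have : Nontrivial {g : CB G Ω t // IsConj (cb Ω hvc) g ∧ g • a' = b' ∧ g • b' = a'} :=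
        ⟨⟨p, hpc, hp1, hp2⟩, ⟨q, hh, hq1, hq2⟩, fun hh => hpq (congrArg Subtype.val hh)⟩
      exact Finite.one_lt_card
    obtain ⟨k, hk⟩ : ∃ k, fS G Ω (VV (a' : Ω) (b' : Ω) t) = k + 2 := ⟨_, (Nat.sub_add_cancel h2).symm⟩
    rw [hm, hk] at h7
    have h9 : (k + 2) * (k + 2) - (k + 2) = (k + 2) * (k + 1) := by
      rw [← Nat.mul_sub_one]; rfl
    have h10 : (k + 2) * (k + 2 - 1) = (k + 2) * (k + 1) := rfl
    rw [h9, h10] at h7
    nlinarith [Nat.zero_le k, Nat.mul_le_mul_left ((k + 2) * (k + 1)) h8]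
  obtain ⟨s, hs, hsq⟩ := cb_surj q
  refine ⟨s, mem_cent.1 hs, ?_, ?_, ?_⟩
  · rw [← cb_smul hs, hsq, hq1]
  · rw [← cb_smul hs, hsq, hq2]
  · intro g hg
    have hgc : g ∈ Subgroup.centralizer ({t} : Set G) := mem_cent.2 hg
    have hgv : g * v * g⁻¹ ∈ Subgroup.centralizer ({t} : Set G) :=
      Subgroup.mul_mem _ (Subgroup.mul_mem _ hgc hvc) (Subgroup.inv_mem _ hgc)
    have hconj : IsConj (cb Ω hvc) (cb Ω hgv) := isConj_iff.2 ⟨cb Ω hgc, (cb_conj hgc hvc hgv).symm⟩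
    constructor
    · intro hh
      apply hnq
      have h8 : cb Ω hgv = cb Ω hs := by
        apply Subtype.ext
        ext x
        change (g * v * g⁻¹) • (x : Ω) = s • (x : Ω)
        rw [hh]
      rw [← hsq, ← h8]
      exact hconj
    · intro hh
      apply hnq
      have h8 : cb Ω hgv = cb Ω hs := by
        apply Subtype.ext
        ext x
        change (g * v * g⁻¹) • (x : Ω) = s • (x : Ω)
        rw [hh, mul_smul]
        have := x.2 t (Set.mem_singleton t)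
        rw [this]
      rw [← hsq, ← h8]
      exact hconj

end H39.DA
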