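import Cfsg.Agent.Lib.H39.DAR1core
import Cfsg.Agent.Lib.H39.DAQ1
import Cfsg.Agent.Lib.H39.DAQ2
import Cfsg.Agent.Lib.H39.DAQ6a
import Cfsg.Agent.Lib.H39.DAQ6b
import Cfsg.Agent.Lib.H39.DAQ6c

/-!
S3262, piece R1: `caseA_i`.
-/

set_option autoImplicit false
open MulAction
universe u v

namespace H39.DA

variable {G : Type u} {Ω : Type v} [Group G] [Finite G] [MulAction G Ω] [Finite Ω]

theorem caseA_i (h : Base G Ω) {a b : Ω} (hab : a ≠ b) {t : G} (ht : Inv t) (hts : t ∈ St G a b) (hA : CaseA a b t)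
    (hm : fS G Ω (VV a b t) = fx G Ω t) : Nat.card Ω = 7 := by
  obtain ⟨hG, -, hf2, hfn, h15, -⟩ := count h hab ht hts
  obtain ⟨-, -, hN, -, -, -, hmod⟩ := countV h hab ht hts
  have hX : Nat.card (Fx G (Ω := Ω) (VV a b t : Set G)) = fx G Ω t := by
    rw [← hm]; rfl
  have hpp : ∃ r k : ℕ, r.Prime ∧ fx G Ω t = r ^ k := by
    have hsh := sh_YB h hab ht hts
    rcases Nat.even_or_odd (Nat.card (Fx G (Ω := Ω) (VV a b t : Set G))) with he | ho
    · obtain ⟨-, k, F, hk, h2, -⟩ := sh_even hsh he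
      exact ⟨2, k, Nat.prime_two, by rw [← hX, h2]⟩
    · obtain ⟨-, r, k, F, hr, hk, h2, -⟩ := sh_odd hsh ho
      exact ⟨r, k, hr, by rw [← hX, h2]⟩
  exact R1.caseA_i_of ht hA hm hG hf2 hfn h15 hN hmod hpp

end H39.DA
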