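import Cfsg.Agent.Lib.H39.DAQ5b
import Cfsg.Agent.Lib.H39.DAQ6a
import Cfsg.Agent.Lib.H39.DAQ9a
import Cfsg.Agent.Lib.H65.Q9bGen

set_option autoImplicit false
set_option linter.unusedVariables false

/-! S3262, piece Q9b: counting modulo r (assembly). -/

open MulAction H39.DA

universe u v

namespace H39.DA

theorem modr {G : Type u} {Ω : Type v} [Group G] [Finite G] [MulAction G Ω] [Finite Ω]
    (h : Base G Ω) {a b : Ω} (hab : a ≠ b) {t : G} (ht : Inv t) (hts : t ∈ St G a b)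
    (hm : fS G Ω (VV a b t) * fS G Ω (VV a b t) = fx G Ω t) (hmo : Odd (fx G Ω t))
    (r k : ℕ) (hr : r.Prime) (hrk : fx G Ω t = r ^ k) (E : Subgroup (CB G Ω t)) (hE : Reg (CB G Ω t) (Fx G (Ω := Ω) ({t} : Set G)) E)
    (hcomm : ∀ g ∈ E, ∀ g' ∈ E, g * g' = g' * g) (hexp : ∀ g ∈ E, g ^ r = 1) :
    ∃ q : ℕ, (q = 1 ∨ r ∣ q) ∧ Nat.card {s : G // IsConj t s} ≡ q [MOD r] := by
  obtain ⟨hVcard, hV2, hVc, hVeq, hVx, -, -⟩ := vfacts h hab ht hts
  obtain ⟨-, hL, -, -, -, -⟩ := count h hab ht hts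
  exact H65.Q9bGen.modr_gen hab ht hts hVcard hV2 hVc
    (fun s hs hs1 => by obtain ⟨x, -, -, hx⟩ := hVx s hs hs1; exact ⟨x, hx⟩) hL
    (fun c d c' d' hcd hcd' hc hd hc' hd' => witt_t h hab ht hts c d c' d' hcd hcd' hc hd hc' hd')
    hm hmo r k hr hrk (fun hlt hk => liftE h hab ht hts hlt hmo r k hr hk hrk E hE hcomm hexp)

end H39.DA
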