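import Cfsg.Agent.Lib.H39.DAR2c
import Cfsg.Agent.Lib.H39.DAQ1
import Cfsg.Agent.Lib.H39.DAQ2
import Cfsg.Agent.Lib.H39.DAQ5b
import Cfsg.Agent.Lib.H39.DAQ6a
import Cfsg.Agent.Lib.H39.DAQ6b
import Cfsg.Agent.Lib.H39.DAQ6c
import Cfsg.Agent.Lib.H39.DAQ7b
import Cfsg.Agent.Lib.H39.DAQ9b
set_option autoImplicit false
open MulAction H39.DA
universe u v
namespace H39.DA

-- [R2]
theorem caseA_ii {G : Type u} {Ω : Type v} [Group G] [Finite G] [MulAction G Ω] [Finite Ω] (h : Base G Ω) {a b : Ω} (hab : a ≠ b) {t : G} (ht : Inv t) (hts : t ∈ St G a b) (hA : CaseA a b t)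
    (hm : fS G Ω (VV a b t) < fx G Ω t) : Nat.card Ω = 12 :=
  R2.core h hab ht hts (vfacts h hab ht hts) (count h hab ht hts) (countV h hab ht hts) (sh_YB h hab ht hts)
    (fun he => by
      obtain ⟨-, k, F, -, -, -, -, -, -, hno⟩ := sh_even (sh_YB h hab ht hts) he
      exact hno)
    (fun ho => (sh_odd_inv (sh_YB h hab ht hts) ho).2.1) (fun ho => (sh_odd (sh_YB h hab ht hts) ho).1)
    (fun hv hv1 hvt _ hst hsa hsb hns => delta_one h hab ht hts hm hv hv1 hvt hst hsa hsb hns)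
    (fun hm hmo r k hr hrk E hE hcomm hexp => modr h hab ht hts hm hmo r k hr hrk E hE hcomm hexp) hA hm

end H39.DA
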