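import Cfsg.Agent.Lib.H39.DA2
import Cfsg.Agent.Lib.H39.DAQ5b

/-!
Facts about the two-point stabilizer `A₅` (S3262, piece Q5a).
-/

set_option autoImplicit false

open MulAction

universe u v

namespace H39.DA

namespace Q5a

open Q5b (A)

set_option maxRecDepth 100000

theorem c1 : (Finset.univ.filter (fun g : A => g ≠ 1 ∧ g * g = 1)).card = 15 := by
  decide +kernel

theorem c2 : ∀ t : A, t ≠ 1 → t * t = 1 → ∀ s : A, s ≠ 1 → s * s = 1 → ∃ x : A, x * t * x⁻¹ = s := by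
  decide +kernel

end Q5a

variable {G : Type u} {Ω : Type v} [Group G] [Finite G] [MulAction G Ω] [Finite Ω]

theorem facts (h : Base G Ω) {a b : Ω} (hab : a ≠ b) :
    Nat.card (St G a b) = 60 ∧ Nat.card {s : G // Inv s ∧ s ∈ St G a b} = 15 ∧
    (∀ s s' : G, Inv s → s ∈ St G a b → Inv s' → s' ∈ St G a b → ∃ g ∈ St G a b, g * s * g⁻¹ = s') ∧
    (∀ N : Subgroup (St G a b), N.Normal → N = ⊥ ∨ N = ⊤) := by
  obtain ⟨e⟩ := h.a5 a b hab
  refine ⟨?_, ?_, ?_, ?_⟩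
  · rw [Nat.card_congr e.toEquiv, Nat.card_eq_fintype_card]
    exact Q5b.a7
  · rw [← Q5a.c1, ← Fintype.card_subtype, ← Nat.card_eq_fintype_card]
    refine Nat.card_congr ⟨fun x => ⟨e ⟨x.1, x.2.2⟩, fun hh => x.2.1.1 ((Q5b.one_iff e x.2.2).1 hh),
      (Q5b.sq_iff e x.2.2).2 x.2.1.2⟩, fun y => ⟨(e.symm y.1 : St G a b), ⟨?_, ?_⟩, (e.symm y.1).2⟩, ?_, ?_⟩
    · intro hh
      apply y.2.1
      have h2 := (Q5b.one_iff e (e.symm y.1).2).2 hh
      simpa using h2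
    · have h2 := y.2.2
      rw [← Q5b.sq_iff e (e.symm y.1).2]
      simpa using h2
    · intro x
      simp
    · intro y
      simp
  · intro s s' hs hsS hs' hsS'
    obtain ⟨x, hx⟩ := Q5a.c2 (e ⟨s, hsS⟩) (fun hh => hs.1 ((Q5b.one_iff e hsS).1 hh)) ((Q5b.sq_iff e hsS).2 hs.2)
      (e ⟨s', hsS'⟩) (fun hh => hs'.1 ((Q5b.one_iff e hsS').1 hh)) ((Q5b.sq_iff e hsS').2 hs'.2)
    refine ⟨(e.symm x : St G a b), (e.symm x).2, ?_⟩
    have h2 := congrArg e.symm hx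
    rw [map_mul, map_mul, map_inv, e.symm_apply_apply, e.symm_apply_apply] at h2
    exact congrArg Subtype.val h2
  · intro N hN
    haveI : IsSimpleGroup (alternatingGroup (Fin 5)) := alternatingGroup.isSimpleGroup_five
    haveI : IsSimpleGroup (St G a b) := MulEquiv.isSimpleGroup e
    exact IsSimpleGroup.eq_bot_or_eq_top_of_normal N hN

end H39.DA
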