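import Cfsg.Agent.Lib.H39.DAQ1
import Cfsg.Agent.Lib.H39.DAQ3
import Cfsg.Agent.Lib.H39.DAQ4
import Cfsg.Agent.Lib.H39.DAQ5a
import Cfsg.Agent.Lib.H39.DAQ5b
import Cfsg.Agent.Lib.H39.DAQ6a
import Cfsg.Agent.Lib.H39.DAQ6b
import Cfsg.Agent.Lib.H39.DAQ6c
import Cfsg.Agent.Lib.H39.DAQ7b
set_option autoImplicit false
open MulAction
universe u v

namespace H39.DA.R3

section basic
variable {G : Type u} {Ω : Type v} [Group G] [MulAction G Ω]

theorem mem_St {a b : Ω} {g : G} : g ∈ St G a b ↔ g • a = a ∧ g • b = b := by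
  unfold St
  rw [Subgroup.mem_inf, mem_stabilizer_iff, mem_stabilizer_iff]

theorem inv_conj {g s : G} (hs : Inv s) : Inv (g * s * g⁻¹) := by
  refine ⟨fun h => hs.1 ?_, ?_⟩
  · have h1 : s = g⁻¹ * (g * s * g⁻¹) * g := by group
    rw [h1, h]; group
  · have h1 : g * s * g⁻¹ * (g * s * g⁻¹) = g * (s * s) * g⁻¹ := by group
    rw [h1, hs.2]; group

theorem inv_of_conj {t s : G} (ht : Inv t) (h : IsConj t s) : Inv s := by
  obtain ⟨g, rfl⟩ := isConj_iff.1 h
  exact inv_conj ht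

theorem swap_of_inv {s : G} {x y : Ω} (hs : Inv s) (h : s • x = y) : s • y = x := by
  rw [← h, smul_smul, hs.2, one_smul]

theorem swap_form {a b : Ω} {u s : G} (hu : Inv u) (hua : u • a = b) (hub : u • b = a)
    (huc : ∀ g ∈ St G a b, u * g = g * u) (hs : Inv s) (hsa : s • a = b) (hsb : s • b = a) :
    ∃ k ∈ St G a b, s = u * k ∧ (k = 1 ∨ Inv k) := by
  have hk : u * s ∈ St G a b := by
    refine mem_St.2 ⟨?_, ?_⟩
    · rw [mul_smul, hsa, hub]
    · rw [mul_smul, hsb, hua]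
  have hsk : s = u * (u * s) := by rw [← mul_assoc, hu.2, one_mul]
  have hc := huc _ hk
  have h1 : u * s * u = s := by rw [← hc]; exact hsk.symm
  have hkk : (u * s) * (u * s) = 1 := by
    calc (u * s) * (u * s) = (u * s * u) * s := by group
      _ = s * s := by rw [h1]
      _ = 1 := hs.2
  refine ⟨u * s, hk, hsk, ?_⟩
  by_cases h2 : u * s = 1
  · exact Or.inl h2
  · exact Or.inr ⟨h2, hkk⟩

end basic

variable {G : Type u} {Ω : Type v} [Group G] [Finite G] [MulAction G Ω] [Finite Ω]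

theorem exists_swap (h : Base G Ω) {a b : Ω} (hab : a ≠ b) {t : G} (ht : Inv t) (hts : t ∈ St G a b) :
    ∃ s : G, IsConj t s ∧ s • a = b ∧ s • b = a := by
  obtain ⟨h1, h2, h3, h4, h5, h6⟩ := count h hab ht hts
  by_contra hc
  push Not at hc
  have h7 : Nat.card {s : G // IsConj t s ∧ s • a = b ∧ s • b = a} = 0 := by
    haveI : IsEmpty {s : G // IsConj t s ∧ s • a = b ∧ s • b = a} := ⟨fun s => hc s.1 s.2.1 s.2.2.1 s.2.2.2⟩
    exact Nat.card_of_isEmpty
  rw [h7, mul_zero] at h5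
  omega

theorem uh_conj (h : Base G Ω) {a b : Ω} (hab : a ≠ b) {t : G} (ht : Inv t) (hts : t ∈ St G a b)
    {u : G} (hu : Inv u) (hua : u • a = b) (hub : u • b = a) (huc : ∀ g ∈ St G a b, u * g = g * u) (htu : ¬ IsConj t u)
    {k : G} (hk : Inv k) (hks : k ∈ St G a b) : IsConj t (u * k) := by
  obtain ⟨s, hs, hsa, hsb⟩ := exists_swap h hab ht hts
  obtain ⟨k0, hk0, rfl, hk1⟩ := swap_form hu hua hub huc (inv_of_conj ht hs) hsa hsb
  rcases hk1 with rfl | hk1
  · rw [mul_one] at hs; exact absurd hs htu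
  obtain ⟨g, hg, hgk⟩ := (facts h hab).2.2.1 k0 k hk1 hk0 hk hks
  refine hs.trans (isConj_iff.2 ⟨g, ?_⟩)
  rw [← hgk]
  calc g * (u * k0) * g⁻¹ = (g * u) * k0 * g⁻¹ := by group
    _ = (u * g) * k0 * g⁻¹ := by rw [huc g hg]
    _ = u * (g * k0 * g⁻¹) := by group

theorem j15 (h : Base G Ω) {a b : Ω} (hab : a ≠ b) {t : G} (ht : Inv t) (hts : t ∈ St G a b)
    {u : G} (hu : Inv u) (hua : u • a = b) (hub : u • b = a) (huc : ∀ g ∈ St G a b, u * g = g * u) (htu : ¬ IsConj t u) :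
    Nat.card {s : G // IsConj t s ∧ s • a = b ∧ s • b = a} = 15 := by
  rw [← (facts h hab).2.1]
  symm
  refine Nat.card_congr (Equiv.ofBijective (fun k : {s : G // Inv s ∧ s ∈ St G a b} =>
    (⟨u * k.1, uh_conj h hab ht hts hu hua hub huc htu k.2.1 k.2.2, ?_, ?_⟩ : {s : G // IsConj t s ∧ s • a = b ∧ s • b = a})) ⟨?_, ?_⟩)
  · rw [mul_smul, (mem_St.1 k.2.2).1, hua]
  · rw [mul_smul, (mem_St.1 k.2.2).2, hub]
  · intro k k' hkk
    have h1 : u * k.1 = u * k'.1 := congrArg Subtype.val hkk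
    exact Subtype.ext (mul_left_cancel h1)
  · rintro ⟨s, hs, hsa, hsb⟩
    obtain ⟨k0, hk0, rfl, hk1⟩ := swap_form hu hua hub huc (inv_of_conj ht hs) hsa hsb
    rcases hk1 with rfl | hk1
    · rw [mul_one] at hs; exact absurd hs htu
    · exact ⟨⟨k0, hk1, hk0⟩, rfl⟩

theorem n_eq (h : Base G Ω) {a b : Ω} (hab : a ≠ b) {t : G} (ht : Inv t) (hts : t ∈ St G a b)
    {u : G} (hu : Inv u) (hua : u • a = b) (hub : u • b = a) (huc : ∀ g ∈ St G a b, u * g = g * u) (htu : ¬ IsConj t u) :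
    Nat.card Ω = fx G Ω t * fx G Ω t := by
  obtain ⟨h1, h2, h3, h4, h5, h6⟩ := count h hab ht hts
  rw [j15 h hab ht hts hu hua hub huc htu] at h5
  obtain ⟨m, hm⟩ : ∃ m, fx G Ω t = m + 1 := ⟨fx G Ω t - 1, by omega⟩
  obtain ⟨d, hd⟩ : ∃ d, Nat.card Ω = fx G Ω t + d := ⟨Nat.card Ω - fx G Ω t, by omega⟩
  rw [hd, hm] at h5
  rw [hd, hm]
  simp only [Nat.add_sub_cancel_left, Nat.add_sub_cancel] at h5
  nlinarith

theorem u_unique (h : Base G Ω) {a b : Ω} (hab : a ≠ b) {t : G} (ht : Inv t) (hts : t ∈ St G a b)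
    {u : G} (hu : Inv u) (hua : u • a = b) (hub : u • b = a) (huc : ∀ g ∈ St G a b, u * g = g * u) (htu : ¬ IsConj t u)
    {w : G} (hw : IsConj u w) (hwa : w • a = b) : w = u := by
  have hwi := inv_of_conj hu hw
  obtain ⟨k0, hk0, rfl, hk1⟩ := swap_form hu hua hub huc hwi hwa (swap_of_inv hwi hwa)
  rcases hk1 with rfl | hk1
  · rw [mul_one]
  · exact absurd ((uh_conj h hab ht hts hu hua hub huc htu hk1 hk0).trans hw.symm) htu

theorem w_unique (h : Base G Ω) {a b : Ω} (hab : a ≠ b) {t : G} (ht : Inv t) (hts : t ∈ St G a b)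
    {u : G} (hu : Inv u) (hua : u • a = b) (hub : u • b = a) (huc : ∀ g ∈ St G a b, u * g = g * u) (htu : ¬ IsConj t u)
    (x y : Ω) (hxy : x ≠ y) :
    ∃ w : G, IsConj u w ∧ w • x = y ∧ ∀ w' : G, IsConj u w' → w' • x = y → w' = w := by
  obtain ⟨g, hga, hgb⟩ := h.tr a b x y hab hxy
  refine ⟨g * u * g⁻¹, isConj_iff.2 ⟨g, rfl⟩, ?_, fun w' hw' hx => ?_⟩
  · rw [← hga, mul_smul, mul_smul, inv_smul_smul, hua, hgb]
  · have h1 : IsConj u (g⁻¹ * w' * g) := hw'.trans (isConj_iff.2 ⟨g⁻¹, by group⟩)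
    have h2 : (g⁻¹ * w' * g) • a = b := by
      rw [mul_smul, mul_smul, hga, hx, ← hgb, inv_smul_smul]
    have h3 := u_unique h hab ht hts hu hua hub huc htu h1 h2
    calc w' = g * (g⁻¹ * w' * g) * g⁻¹ := by group
      _ = g * u * g⁻¹ := by rw [h3]

theorem fix_le (h : Base G Ω) {a b : Ω} (hab : a ≠ b) {t : G} (ht : Inv t) (hts : t ∈ St G a b)
    {u : G} (hu : Inv u) (htu : ¬ IsConj t u) {c d : Ω} (hc : u • c = c) (hd : u • d = d) : c = d := by
  by_contra hcd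
  obtain ⟨g, hga, hgb⟩ := h.tr a b c d hab hcd
  have h1 : g * t * g⁻¹ ∈ St G c d := mem_St.2
    ⟨by rw [← hga, mul_smul, mul_smul, inv_smul_smul, (mem_St.1 hts).1],
     by rw [← hgb, mul_smul, mul_smul, inv_smul_smul, (mem_St.1 hts).2]⟩
  obtain ⟨k, _, hk⟩ := (facts h hcd).2.2.1 _ _ (inv_conj ht) h1 hu (mem_St.2 ⟨hc, hd⟩)
  exact htu ((isConj_iff.2 ⟨g, rfl⟩).trans (isConj_iff.2 ⟨k, hk⟩))

omit [Finite G] [Finite Ω] in
theorem inv_sq {X : Type v} [MulAction G X] {u : G} (hu : Inv u) : (MulAction.toPerm u : Equiv.Perm X) ^ 2 ^ 1 = 1 := by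
  ext x
  simp [pow_two, smul_smul, hu.2]

theorem exists_fix (u : G) (hu : Inv u) (ho : Odd (Nat.card Ω)) : ∃ c : Ω, u • c = c := by
  classical
  haveI := Fintype.ofFinite Ω
  haveI : Fact (Nat.Prime 2) := ⟨Nat.prime_two⟩
  have h2 : ¬ 2 ∣ Fintype.card Ω := by
    rw [← Nat.card_eq_fintype_card]
    exact fun hd => (Nat.not_even_iff_odd.2 ho) (even_iff_two_dvd.2 hd)
  obtain ⟨c, hc⟩ := Equiv.Perm.exists_fixed_point_of_prime (p := 2) (n := 1) h2 (inv_sq (X := Ω) hu)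
  exact ⟨c, hc⟩

theorem card_ne (c : Ω) : Nat.card {x : Ω // x ≠ c} = Nat.card Ω - 1 := by
  classical
  have h1 : Nat.card {x : Ω // x ≠ c} + 1 = Nat.card Ω := by
    rw [← Finite.card_option]; exact Nat.card_congr (Equiv.optionSubtypeNe c)
  omega


/-- an involution class with a unique element mapping `x` to `y` for all `x ≠ y` and exactly one fixed point each
has exactly one element fixing each point -/
theorem fixed_unique {W : Set G} (hcl : ∀ g : G, ∀ w ∈ W, g * w * g⁻¹ ∈ W)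
    (htr : ∀ x y : Ω, ∃ g : G, g • x = y) (h2 : ∃ a b : Ω, a ≠ b)
    (hfix : ∀ w ∈ W, ∃ c : Ω, ∀ x : Ω, w • x = x ↔ x = c)
    (hex : ∀ x y : Ω, x ≠ y → ∃ w ∈ W, w • x = y ∧ ∀ w' ∈ W, w' • x = y → w' = w)
    {w w' : G} (hw : w ∈ W) (hw' : w' ∈ W) {c : Ω} (hc : w • c = c) (hc' : w' • c = c) : w = w' := by
  classical
  haveI := Fintype.ofFinite G
  haveI := Fintype.ofFinite Ω
  haveI : Nonempty Ω := ⟨c⟩
  choose! φ hφ using hfix
  have hcard : Nat.card W = Nat.card Ω := by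
    have e1 : Nat.card {p : W × Ω // p.2 ≠ φ p.1.1} = Nat.card W * (Nat.card Ω - 1) := by
      rw [Nat.card_congr (Equiv.subtypeProdEquivSigmaSubtype (fun (w : W) (x : Ω) => x ≠ φ w.1)), Nat.card_sigma]
      rw [Finset.sum_congr rfl (fun w _ => card_ne (Ω := Ω) (φ w.1))]
      rw [Finset.sum_const, Finset.card_univ, smul_eq_mul, Nat.card_eq_fintype_card (α := W)]
    have e2 : Nat.card {p : Ω × Ω // p.2 ≠ p.1} = Nat.card Ω * (Nat.card Ω - 1) := by
      rw [Nat.card_congr (Equiv.subtypeProdEquivSigmaSubtype (fun (w : Ω) (x : Ω) => x ≠ w)), Nat.card_sigma]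
      rw [Finset.sum_congr rfl (fun w _ => card_ne (Ω := Ω) w)]
      rw [Finset.sum_const, Finset.card_univ, smul_eq_mul, Nat.card_eq_fintype_card (α := Ω)]
    have e3 : Nat.card {p : W × Ω // p.2 ≠ φ p.1.1} = Nat.card {p : Ω × Ω // p.2 ≠ p.1} := by
      refine Nat.card_congr (Equiv.ofBijective (fun p => (⟨(p.1.2, p.1.1.1 • p.1.2), ?_⟩ : {p : Ω × Ω // p.2 ≠ p.1})) ⟨?_, ?_⟩)
      · intro h1
        exact p.2 ((hφ p.1.1.1 p.1.1.2 p.1.2).1 h1)
      · rintro ⟨⟨⟨w1, hw1⟩, x1⟩, h1⟩ ⟨⟨⟨w2, hw2⟩, x2⟩, h2⟩ h12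
        have h3 := congrArg Subtype.val h12
        simp only [Prod.mk.injEq] at h3
        obtain ⟨hx, hy⟩ := h3
        subst hx
        have hne : x1 ≠ w1 • x1 := fun h => h1 ((hφ w1 hw1 x1).1 h.symm)
        obtain ⟨w0, _, _, hu⟩ := hex x1 (w1 • x1) hne
        have h4 : w1 = w2 := (hu w1 hw1 rfl).trans (hu w2 hw2 hy.symm).symm
        subst h4
        rfl
      · rintro ⟨⟨x, y⟩, hxy⟩
        obtain ⟨w0, hw0, hw0x, _⟩ := hex x y (Ne.symm hxy)
        refine ⟨⟨(⟨w0, hw0⟩, x), fun h => ?_⟩, ?_⟩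
        · exact hxy (hw0x.symm.trans ((hφ w0 hw0 x).2 h))
        · refine Subtype.ext (Prod.ext rfl hw0x)
    rw [e1, e2] at e3
    have h3 : 0 < Nat.card Ω - 1 := by
      obtain ⟨a, b, hab⟩ := h2
      have : Nontrivial Ω := ⟨a, b, hab⟩
      have := Finite.one_lt_card (α := Ω)
      omega
    exact Nat.eq_of_mul_eq_mul_right h3 e3
  have hsurj : Function.Surjective (fun w : W => φ w.1) := by
    intro x
    obtain ⟨g, hg⟩ := htr c x
    refine ⟨⟨g * w * g⁻¹, hcl g w hw⟩, ?_⟩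
    have h1 : (g * w * g⁻¹) • x = x := by rw [← hg, mul_smul, mul_smul, inv_smul_smul, hc]
    exact ((hφ _ (hcl g w hw) x).1 h1).symm
  have hbij : Function.Bijective (fun w : W => φ w.1) := by
    rw [Fintype.bijective_iff_surjective_and_card]
    refine ⟨hsurj, ?_⟩
    rw [← Nat.card_eq_fintype_card, ← Nat.card_eq_fintype_card, hcard]
  have h5 : φ w = φ w' := ((hφ w hw c).1 hc).symm.trans ((hφ w' hw' c).1 hc')
  have h6 : (⟨w, hw⟩ : W) = ⟨w', hw'⟩ := hbij.1 h5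
  exact congrArg Subtype.val h6

theorem odd_case (h : Base G Ω) (hn : NoReg G Ω) {a b : Ω} (hab : a ≠ b) {t : G} (ht : Inv t) (hts : t ∈ St G a b)
    {u : G} (hu : Inv u) (hua : u • a = b) (hub : u • b = a) (huc : ∀ g ∈ St G a b, u * g = g * u) (htu : ¬ IsConj t u)
    (ho : Odd (Nat.card Ω)) : False := by
  obtain ⟨c, hc⟩ := exists_fix u hu ho
  have hcc : ∀ x : Ω, u • x = x ↔ x = c := fun x =>
    ⟨fun hx => fix_le h hab ht hts hu htu hx hc, fun hx => hx ▸ hc⟩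
  have hWc : ∀ g w : G, w ∈ {w : G | IsConj u w} → g * w * g⁻¹ ∈ {w : G | IsConj u w} := fun g w hw =>
    IsConj.trans hw (isConj_iff.2 ⟨g, rfl⟩)
  obtain ⟨r, k, E, hr, hk, hcard, hE, _⟩ := reg_odd h.toTT u hu c hcc (fun g hg => by
      refine fixed_unique (W := {w : G | IsConj u w}) hWc (fun x y => ?_) h.two (fun w hw => ?_)
        (fun x y hxy => w_unique h hab ht hts hu hua hub huc htu x y hxy) (hWc g u (IsConj.refl u)) (IsConj.refl u) hg hc
      · obtain ⟨a', b', hab'⟩ := h.two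
        by_cases hxy : x = y
        · exact ⟨1, by rw [one_smul, hxy]⟩
        · obtain ⟨g, hg, _⟩ := h.tr x y y x hxy (Ne.symm hxy)
          exact ⟨g, hg⟩
      · obtain ⟨g, rfl⟩ := isConj_iff.1 hw
        refine ⟨g • c, fun x => ?_⟩
        rw [mul_smul, mul_smul, smul_eq_iff_eq_inv_smul, hcc, inv_smul_eq_iff]) (by
      intro N hN hNo x y hxy g hg hgx hgy
      haveI := hN
      rcases (facts h hxy).2.2.2 (N.subgroupOf (St G x y)) inferInstance with h1 | h1
      · have h2 : (⟨g, mem_St.2 ⟨hgx, hgy⟩⟩ : St G x y) ∈ N.subgroupOf (St G x y) := hg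
        rw [h1, Subgroup.mem_bot] at h2
        exact congrArg Subtype.val h2
      · exfalso
        have h2 : St G x y ≤ N := Subgroup.subgroupOf_eq_top.1 h1
        have h3 := Subgroup.card_dvd_of_le h2
        rw [(facts h hxy).1] at h3
        have h4 : 2 ∣ Nat.card N := dvd_trans (by norm_num) h3
        exact (Nat.not_even_iff_odd.2 hNo) (even_iff_two_dvd.2 h4))
  exact hn E hE

theorem even_case (h : Base G Ω) (hn : NoReg G Ω) {a b : Ω} (hab : a ≠ b) {t : G} (ht : Inv t) (hts : t ∈ St G a b)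
    {u : G} (hu : Inv u) (hua : u • a = b) (hub : u • b = a) (huc : ∀ g ∈ St G a b, u * g = g * u) (htu : ¬ IsConj t u)
    (he : Even (Nat.card Ω)) : False := by
  classical
  haveI : Fact (Nat.Prime 2) := ⟨Nat.prime_two⟩
  have hfp : ∀ x : Ω, u • x ≠ x := by
    intro x hx
    haveI := Fintype.ofFinite Ω
    obtain ⟨y, hy, hyx⟩ := Equiv.Perm.exists_fixed_point_of_prime' (p := 2) (n := 1)
      (by rw [← Nat.card_eq_fintype_card]; exact even_iff_two_dvd.1 he) (inv_sq (X := Ω) hu) (a := x) hx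
    exact hyx (fix_le h hab ht hts hu htu hy hx)
  -- the number of fixed points of V is even
  have hcomm : ∀ g ∈ VV a b t, u * g = g * u := fun g hg => huc g hg.1
  have hmev : Even (Nat.card (Fx G (Ω := Ω) (VV a b t : Set G))) := by
    by_contra hmo
    rw [Nat.not_even_iff_odd] at hmo
    have hinv : ∀ x ∈ Fx G (Ω := Ω) (VV a b t : Set G), u • x ∈ Fx G (Ω := Ω) (VV a b t : Set G) := by
      intro x hx g hg
      rw [smul_smul, ← hcomm g hg, mul_smul, hx g hg]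
    let σ : Equiv.Perm (Fx G (Ω := Ω) (VV a b t : Set G)) :=
      { toFun := fun x => ⟨u • x.1, hinv x.1 x.2⟩
        invFun := fun x => ⟨u • x.1, hinv x.1 x.2⟩
        left_inv := fun x => Subtype.ext (by simp [smul_smul, hu.2])
        right_inv := fun x => Subtype.ext (by simp [smul_smul, hu.2]) }
    haveI := Fintype.ofFinite (Fx G (Ω := Ω) (VV a b t : Set G))
    have hσ : σ ^ 2 ^ 1 = 1 := by
      ext x
      simp [pow_two, σ, smul_smul, hu.2]
    obtain ⟨c, hc⟩ := Equiv.Perm.exists_fixed_point_of_prime (p := 2) (n := 1)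
      (by rw [← Nat.card_eq_fintype_card]; exact fun hd => (Nat.not_even_iff_odd.2 hmo) (even_iff_two_dvd.2 hd)) hσ
    exact hfp c.1 (congrArg Subtype.val hc)
  obtain ⟨_, k, F, hk, hFx, _⟩ := sh_even (sh_YB h hab ht hts) hmev
  have hfS : fS G Ω (VV a b t) = 2 ^ k := hFx
  obtain ⟨hm2, hmf, _⟩ := countV h hab ht hts
  have hnf := n_eq h hab ht hts hu hua hub huc htu
  have hf : ∃ e : ℕ, fx G Ω t = 2 ^ e := by
    rcases Nat.lt_or_ge (fS G Ω (VV a b t)) (fx G Ω t) with hlt | hge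
    · obtain ⟨hV4, hVsq, hVc, _⟩ := vfacts h hab ht hts
      have htV : t ∈ VV a b t := ⟨hts, Subgroup.mem_centralizer_singleton_iff.2 rfl⟩
      obtain ⟨v, hv, hv1, hvt⟩ : ∃ v ∈ VV a b t, v ≠ 1 ∧ v ≠ t := by
        by_contra hcon
        push Not at hcon
        have h1 : ∀ x : VV a b t, x ∈ ({1, ⟨t, htV⟩} : Finset (VV a b t)) := by
          intro x
          rw [Finset.mem_insert, Finset.mem_singleton]
          by_cases hx : x.1 = 1
          · exact Or.inl (Subtype.ext hx)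
          · exact Or.inr (Subtype.ext (hcon x.1 x.2 hx))
        haveI := Fintype.ofFinite (VV a b t)
        have h2 : Fintype.card (VV a b t) ≤ 2 := by
          rw [← Finset.card_univ]
          exact (Finset.card_le_card (fun x _ => h1 x)).trans Finset.card_le_two
        rw [← Nat.card_eq_fintype_card, hV4] at h2
        omega
      have hut := huc t hts
      have hvS : v ∈ St G a b := hv.1
      have hvi : Inv v := ⟨hv1, hVsq v hv⟩
      have hvtc : v * t = t * v := hVc v hv t htV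
      obtain ⟨k1, _, hk1⟩ := (facts h hab).2.2.1 t v ht hts hvi hvS
      have htv : IsConj t v := isConj_iff.2 ⟨k1, hk1⟩
      have hvti : Inv (v * t) := by
        refine ⟨fun h1 => hvt ?_, ?_⟩
        · calc v = v * t * t := by rw [mul_assoc, ht.2, mul_one]
            _ = t := by rw [h1, one_mul]
        · exact hVsq _ (mul_mem hv htV)
      obtain ⟨k2, _, hk2⟩ := (facts h hab).2.2.1 t (v * t) ht hts hvti (mul_mem hvS hts)
      have htvt : IsConj t (v * t) := isConj_iff.2 ⟨k2, hk2⟩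
      obtain ⟨hff, _⟩ := delta_one h hab ht hts hlt hv hv1 hvt hut hua hub (fun g hg => by
        refine ⟨fun h1 => htu (htv.trans (isConj_iff.2 ⟨g, h1⟩)), fun h1 => htu (htvt.trans (isConj_iff.2 ⟨g, ?_⟩))⟩
        calc g * (v * t) * g⁻¹ = (g * v * g⁻¹) * (g * t) * g⁻¹ := by group
          _ = (g * v * g⁻¹) * (t * g) * g⁻¹ := by rw [hg]
          _ = (u * t) * t := by rw [h1]; group
          _ = u := by rw [mul_assoc, ht.2, mul_one])
      exact ⟨k + k, by rw [hff, hfS, pow_add]⟩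
    · exact ⟨k, by rw [← hfS]; omega⟩
  obtain ⟨e, he⟩ := hf
  obtain ⟨E, hE, _⟩ := reg_even h.toTT {w : G | IsConj u w} (fun w hw => inv_of_conj hu hw)
    (fun g w hw => IsConj.trans hw (isConj_iff.2 ⟨g, rfl⟩))
    (fun w hw x hx => by
      obtain ⟨g, rfl⟩ := isConj_iff.1 hw
      rw [mul_smul, mul_smul, smul_eq_iff_eq_inv_smul] at hx
      exact hfp _ hx)
    (fun x y hxy => w_unique h hab ht hts hu hua hub huc htu x y hxy) (e + e) (by rw [hnf, he, pow_add])
  exact hn E hE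

end H39.DA.R3

namespace H39.DA

theorem caseB1 {G : Type u} {Ω : Type v} [Group G] [Finite G] [MulAction G Ω] [Finite Ω]
    (h : Base G Ω) (hn : NoReg G Ω) {a b : Ω} (hab : a ≠ b) {t : G} (ht : Inv t) (hts : t ∈ St G a b)
    {u : G} (hu : Inv u) (hua : u • a = b) (hub : u • b = a) (huc : ∀ g ∈ St G a b, u * g = g * u)
    (htu : ¬ IsConj t u) : False := by
  rcases Nat.even_or_odd (Nat.card Ω) with he | ho
  · exact R3.even_case h hn hab ht hts hu hua hub huc htu he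
  · exact R3.odd_case h hn hab ht hts hu hua hub huc htu ho

end H39.DA
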