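import Cfsg.Agent.Lib.H39.DA2
import Cfsg.Agent.Lib.H39.DAQ1
import Cfsg.Agent.Lib.H39.DAQ2
import Cfsg.Agent.Lib.H39.DAQ5a
import Cfsg.Agent.Lib.H39.DAQ5b
import Cfsg.Agent.Lib.H39.DAQ6c

set_option autoImplicit false

/-!
# S3262, piece R4: case B2 with `m = f`
-/

open MulAction

universe u v

namespace H39.DA


namespace R4

/-- the order of a regular subgroup -/
theorem card_reg {Y : Type u} {X : Type v} [Group Y] [MulAction Y X] {F : Subgroup Y} (h : Reg Y X F) (x0 : X) :
    Nat.card F = Nat.card X := by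
  apply Nat.card_congr
  refine Equiv.ofBijective (fun g : F => (g : Y) • x0) ⟨?_, ?_⟩
  · intro g g' hgg
    have h1 : ((g'⁻¹ * g : F) : Y) • x0 = x0 := by
      rw [Subgroup.coe_mul, Subgroup.coe_inv, mul_smul, inv_smul_eq_iff]
      exact hgg
    have h2 := h.2.2 _ (g'⁻¹ * g).2 x0 h1
    have h3 : g'⁻¹ * g = 1 := Subtype.ext h2
    exact (inv_mul_eq_one.1 h3).symm
  · intro y
    obtain ⟨g, hg, hgy⟩ := h.2.1 x0 y
    exact ⟨⟨g, hg⟩, hgy⟩

/-- an injective homomorphism of a simple group of order 60 with commuting involutions to a sharply 2-transitive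
group does not exist -/
theorem no_hom {H : Type*} {Y : Type u} {X : Type v} [Group H] [Group Y] [Finite Y] [MulAction Y X] [Finite X]
    (hY : Sh Y X) (hc : Nat.card H = 60) (hs : ∀ N : Subgroup H, N.Normal → N = ⊥ ∨ N = ⊤)
    {t v : H} (ht : t ≠ 1) (ht2 : t * t = 1) (hv : v ≠ 1) (hv2 : v * v = 1) (htv : t ≠ v) (hcm : t * v = v * t)
    (φ : H →* Y) (hφ : Function.Injective φ) : False := by
  have hne : ∀ g : H, g ≠ 1 → φ g ≠ 1 := fun g hg h => hg (hφ (h.trans (map_one φ).symm))
  rcases Nat.even_or_odd (Nat.card X) with he | ho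
  · obtain ⟨hcard, k, F, hk, hX, hR, hF, -, -, -⟩ := sh_even hY he
    have : F.Normal := hR.1
    obtain ⟨x0, y0, hxy⟩ := hY.two
    have hFX := card_reg hR x0
    rcases hs (F.comap φ) inferInstance with h1 | h1
    · -- `H` embeds in `Y ⧸ F`
      have hinj : Function.Injective ((QuotientGroup.mk' F).comp φ) := by
        rw [← MonoidHom.ker_eq_bot_iff, ← MonoidHom.comap_ker, QuotientGroup.ker_mk']
        exact h1
      have h2 : Nat.card H ∣ Nat.card (Y ⧸ F) := Subgroup.card_dvd_of_injective _ hinj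
      have h3 := Subgroup.card_eq_card_quotient_mul_card_subgroup F
      rw [hcard, hFX, mul_comm] at h3
      have h4 : 0 < Nat.card X := Nat.card_pos_iff.2 ⟨⟨x0⟩, inferInstance⟩
      have h5 := Nat.eq_of_mul_eq_mul_right h4 h3
      rw [← h5, hc] at h2
      obtain ⟨c, hc'⟩ := h2
      obtain ⟨d, hd⟩ := he
      omega
    · have : Finite H := Nat.finite_of_card_ne_zero (by rw [hc]; norm_num)
      obtain ⟨g, hg⟩ := exists_prime_orderOf_dvd_card' (G := H) 3 (by rw [hc]; norm_num)
      have h2 : g ∈ F.comap φ := by rw [h1]; trivial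
      have h3 := hF _ (Subgroup.mem_comap.1 h2)
      have h4 : g * g = 1 := hφ (by rw [map_mul, h3, map_one])
      have h5 : orderOf g ∣ 2 := orderOf_dvd_of_pow_eq_one (by rw [pow_two, h4])
      rw [hg] at h5
      norm_num at h5
  · have h1 := (sh_odd_inv hY ho).1 (φ t) (φ v) ⟨hne t ht, by rw [← map_mul, ht2, map_one]⟩
      ⟨hne v hv, by rw [← map_mul, hv2, map_one]⟩ (by rw [← map_mul, hcm, map_mul])
    exact htv (hφ h1)

end R4

variable {G : Type u} {Ω : Type v} [Group G] [Finite G] [MulAction G Ω] [Finite Ω]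

theorem caseB2_i (h : Base G Ω) {a b : Ω} (hab : a ≠ b) {t : G} (ht : Inv t) (hts : t ∈ St G a b)
    {u : G} (hu : Inv u) (hua : u • a = b) (hub : u • b = a) (huc : ∀ g ∈ St G a b, u * g = g * u) (htu : IsConj t u)
    (hm : fS G Ω (VV a b t) = fx G Ω t) : False := by
  classical
  obtain ⟨x, hx⟩ := isConj_iff.1 htu
  obtain ⟨hc60, -, -, hsimp⟩ := facts h hab
  obtain ⟨hV4, hV2, hVc, -, -, -, -⟩ := vfacts h hab ht hts
  have htV : t ∈ VV a b t := ⟨hts, Subgroup.mem_centralizer_singleton_iff.2 rfl⟩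
  -- the fixed points of `V` and `t` coincide
  have hfix : ∀ y : Ω, t • y = y → ∀ g ∈ VV a b t, g • y = y := by
    have h1 : {y : Ω | ∀ g ∈ VV a b t, g • y = y} = {y : Ω | t • y = y} := by
      apply Set.eq_of_subset_of_ncard_le
      · intro y hy; exact hy t htV
      · exact le_of_eq hm.symm
      · exact Set.toFinite _
    intro y hy
    have h2 : y ∈ {y : Ω | t • y = y} := hy
    rw [← h1] at h2
    exact h2
  have hta : t • a = a := hts.1
  have htb : t • b = b := hts.2
  -- `C(t)` normalizes `V`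
  have hconj : ∀ g : G, g * t = t * g → ∀ s ∈ VV a b t, g * s * g⁻¹ ∈ VV a b t := by
    intro g hg s hs
    have hst : s * t = t * s := Subgroup.mem_centralizer_singleton_iff.1 hs.2
    have hgi : g⁻¹ * t = t * g⁻¹ := by
      rw [inv_mul_eq_iff_eq_mul, ← mul_assoc, hg, mul_inv_cancel_right]
    have key : ∀ y : Ω, t • y = y → (g * s * g⁻¹) • y = y := by
      intro y hy
      have h1 : t • (g⁻¹ • y) = g⁻¹ • y := by rw [← mul_smul, ← hgi, mul_smul, hy]
      rw [mul_smul, mul_smul, hfix _ h1 s hs, smul_inv_smul]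
    refine ⟨⟨key a hta, key b htb⟩, ?_⟩
    refine Subgroup.mem_centralizer_singleton_iff.2 ?_
    calc g * s * g⁻¹ * t = g * s * (g⁻¹ * t) := by group
      _ = g * (s * t) * g⁻¹ := by rw [hgi]; group
      _ = (g * t) * s * g⁻¹ := by rw [hst]; group
      _ = t * (g * s * g⁻¹) := by rw [hg]; group
  have hN : ∀ g : G, g * t = t * g → g ∈ NT (VV a b t) t := by
    intro g hg
    refine ⟨Subgroup.mem_normalizer_iff.2 ?_, Subgroup.mem_centralizer_singleton_iff.2 hg⟩
    intro s
    refine ⟨fun hs => hconj g hg s hs, fun hs => ?_⟩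
    have hgi : g⁻¹ * t = t * g⁻¹ := by
      rw [inv_mul_eq_iff_eq_mul, ← mul_assoc, hg, mul_inv_cancel_right]
    have h1 := hconj g⁻¹ hgi _ hs
    rwa [show g⁻¹ * (g * s * g⁻¹) * g⁻¹⁻¹ = s by group] at h1
  -- the conjugated stabilizer centralizes `t`
  have hA : ∀ g ∈ St G a b, (x⁻¹ * g * x) * t = t * (x⁻¹ * g * x) := by
    intro g hg
    have h1 := huc g hg
    rw [← hx] at h1
    calc (x⁻¹ * g * x) * t = x⁻¹ * (g * (x * t * x⁻¹)) * x := by group
      _ = x⁻¹ * ((x * t * x⁻¹) * g) * x := by rw [h1]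
      _ = t * (x⁻¹ * g * x) := by group
  let ψ : St G a b →* NT (VV a b t) t :=
    { toFun := fun g => ⟨x⁻¹ * g * x, hN _ (hA g g.2)⟩
      map_one' := Subtype.ext (by simp)
      map_mul' := fun g g' => Subtype.ext (by
        show x⁻¹ * ((g : G) * (g' : G)) * x = (x⁻¹ * g * x) * (x⁻¹ * g' * x)
        group) }
  let φ : St G a b →* YB G Ω (VV a b t) t :=
    (resHom (NT (VV a b t) t) (Fx G (Ω := Ω) (VV a b t : Set G)) NT_inv).rangeRestrict.comp ψ
  have hker : ∀ g : St G a b, φ g = 1 → x⁻¹ * (g : G) * x ∈ VV a b t := by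
    intro g hg
    have h1 : ∀ y : Ω, (hy : y ∈ Fx G (Ω := Ω) (VV a b t : Set G)) → (x⁻¹ * (g : G) * x) • y = y := by
      intro y hy
      have h2 := congrArg (fun p : YB G Ω (VV a b t) t => ((p : Equiv.Perm (Fx G (Ω := Ω) (VV a b t : Set G))) ⟨y, hy⟩ : Ω)) hg
      exact h2
    refine ⟨⟨h1 a (fun s hs => hs.1.1), h1 b (fun s hs => hs.1.2)⟩, ?_⟩
    exact Subgroup.mem_centralizer_singleton_iff.2 (hA g g.2)
  have hinj : Function.Injective φ := by
    rw [← MonoidHom.ker_eq_bot_iff]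
    rcases hsimp φ.ker inferInstance with h1 | h1
    · exact h1
    · exfalso
      -- an injection of the stabilizer in `V`
      have h2 : Nat.card (St G a b) ≤ Nat.card (VV a b t) := by
        refine Nat.card_le_card_of_injective (fun g : St G a b => (⟨x⁻¹ * (g : G) * x, hker g (by
          have : g ∈ φ.ker := by rw [h1]; trivial
          exact this)⟩ : VV a b t)) ?_
        intro g g' hgg
        have h3 : x⁻¹ * (g : G) * x = x⁻¹ * (g' : G) * x := congrArg Subtype.val hgg
        exact Subtype.ext (mul_left_cancel (mul_right_cancel h3))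
      rw [hc60, hV4] at h2
      omega
  -- a second involution of `V`
  obtain ⟨v, hvV, hv1, hvt⟩ : ∃ v ∈ VV a b t, v ≠ 1 ∧ v ≠ t := by
    by_contra! hcon
    have h1 : (VV a b t : Set G) ⊆ {1, t} := by
      intro y hy
      by_cases hy1 : y = 1
      · exact Or.inl hy1
      · exact Or.inr (hcon y hy hy1)
    have h2 : (VV a b t : Set G).ncard ≤ 2 := (Set.ncard_le_ncard h1 (Set.toFinite _)).trans (Set.ncard_insert_le _ _ |>.trans (by rw [Set.ncard_singleton]))
    have h3 : (VV a b t : Set G).ncard = 4 := hV4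
    omega
  exact R4.no_hom (sh_YB h hab ht hts) hc60 hsimp (t := ⟨t, hts⟩) (v := ⟨v, hvV.1⟩)
    (fun e => ht.1 (congrArg Subtype.val e)) (Subtype.ext ht.2) (fun e => hv1 (congrArg Subtype.val e))
    (Subtype.ext (hV2 v hvV)) (fun e => hvt (congrArg Subtype.val e).symm)
    (Subtype.ext (hVc t htV v hvV)) φ hinj

end H39.DA
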