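import Cfsg.Agent.Lib.H39.DAR5Core
import Cfsg.Agent.Lib.H39.DAQ5a
import Cfsg.Agent.Lib.H39.DAQ5b
import Cfsg.Agent.Lib.H39.DAQ6a
import Cfsg.Agent.Lib.H39.DAQ7b
set_option autoImplicit false
open MulAction
universe u v
namespace H39.DA
variable {G : Type u} {Ω : Type v} [Group G] [Finite G] [MulAction G Ω] [Finite Ω]

theorem caseB2_conj (h : Base G Ω) {a b : Ω} (hab : a ≠ b) {t : G} (ht : Inv t) (hts : t ∈ St G a b)
    {u : G} (hu : Inv u) (hua : u • a = b) (hub : u • b = a) (huc : ∀ g ∈ St G a b, u * g = g * u) (htu : IsConj t u)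
    (hm : fS G Ω (VV a b t) < fx G Ω t) : (∀ s : G, Inv s → IsConj t s) ∧
      15 * Nat.card Ω = fx G Ω t * (16 * fx G Ω t - 1) ∧ 15 * Nat.card {s : G // IsConj t s} = (16 * fx G Ω t - 1) * (16 * fx G Ω t + 15) := by
  obtain ⟨-, h15, hcj, -⟩ := facts h hab
  obtain ⟨hV4, hVsq, -, -, -, -, -⟩ := vfacts h hab ht hts
  obtain ⟨-, -, hf2, hfn, hc1, hc2⟩ := count h hab ht hts
  exact R5.core h.toTT hab ht hts h15 hcj hV4 hVsq hu hua hub huc htu
    (fun v hv hv1 hvt => (delta h hab ht hts hm hv hv1 hvt).1) hf2 hfn hc1 hc2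

end H39.DA
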