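import Cfsg.Agent.Lib.H39.DA2
import Cfsg.Agent.Lib.H39.DAQ1
import Cfsg.Agent.Lib.H39.DAQ5a
import Cfsg.Agent.Lib.H39.DAQ5b
import Cfsg.Agent.Lib.H39.DAQ6a
import Cfsg.Agent.Lib.H39.DAQ6c
import Cfsg.Agent.Lib.H39.DAQ7a
import Cfsg.Agent.Lib.H39.DAQ7b
import Cfsg.Agent.Lib.H39.DAQ9b
import Cfsg.Agent.Lib.H39.DAR5

set_option autoImplicit false

/-!
# S3262, piece R6: case B2 with `f = m²`
-/

open MulAction

universe u v

namespace H39.DA


namespace R6

/-- the order of a regular subgroup -/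
theorem card_reg {Y : Type u} {X : Type v} [Group Y] [MulAction Y X] {F : Subgroup Y} (h : Reg Y X F) (x0 : X) :
    Nat.card F = Nat.card X := by
  apply Nat.card_congr
  refine Equiv.ofBijective (fun g : F => (g : Y) • x0) ⟨?_, ?_⟩
  · intro g g' hgg
    have h1 : ((g'⁻¹ * g : F) : Y) • x0 = x0 := by
      rw [Subgroup.coe_mul, Subgroup.coe_inv, mul_smul, inv_smul_eq_iff]
      exact hgg
    have h2 := h.2.2 _ (g'⁻¹ * g).2 x0 h1
    have h3 : g'⁻¹ * g = 1 := Subtype.ext h2
    exact (inv_mul_eq_one.1 h3).symm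
  · intro y
    obtain ⟨g, hg, hgy⟩ := h.2.1 x0 y
    exact ⟨⟨g, hg⟩, hgy⟩

/-- a nonabelian simple group `H` of order 60 in `Y` with an abelian regular normal subgroup -/
theorem dvd_of_hom {H : Type*} {Y : Type u} {X : Type v} [Group H] [Group Y] [Finite Y] [MulAction Y X] [Finite X]
    (hs : ∀ N : Subgroup H, N.Normal → N = ⊥ ∨ N = ⊤)
    {t v : H} (hcm : t * v ≠ v * t) (E : Subgroup Y) (hE : Reg Y X E) (hEc : ∀ g ∈ E, ∀ g' ∈ E, g * g' = g' * g) (x0 : X)
    (φ : H →* Y) (hφ : Function.Injective φ) : Nat.card H * Nat.card X ∣ Nat.card Y := by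
  have : E.Normal := hE.1
  rcases hs (E.comap φ) inferInstance with h1 | h1
  · have hinj : Function.Injective ((QuotientGroup.mk' E).comp φ) := by
      rw [← MonoidHom.ker_eq_bot_iff, ← MonoidHom.comap_ker, QuotientGroup.ker_mk']
      exact h1
    have h2 : Nat.card H ∣ Nat.card (Y ⧸ E) := Subgroup.card_dvd_of_injective _ hinj
    rw [Subgroup.card_eq_card_quotient_mul_card_subgroup E, card_reg hE x0]
    exact Nat.mul_dvd_mul_right h2 _
  · exfalso
    have h2 : ∀ g : H, φ g ∈ E := by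
      intro g
      have : g ∈ E.comap φ := by rw [h1]; trivial
      exact this
    exact hcm (hφ (by rw [map_mul, map_mul, hEc _ (h2 t) _ (h2 v)]))

/-- arithmetic of the odd case -/
theorem arith_odd {f m r k q T : ℕ} (hr : r.Prime) (hk : 1 ≤ k) (hf : f = r ^ k) (hm : m * m = f) (ho : Odd f)
    (hT : 15 * T = (16 * f - 1) * (16 * f + 15)) (hq : q = 1 ∨ r ∣ q) (hmod : T ≡ q [MOD r]) : False := by
  have hrf : r ∣ f := by rw [hf]; exact dvd_pow_self r (by omega)
  have hrm : r ∣ m := by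
    rw [← hm] at hrf
    rcases (Nat.Prime.dvd_mul hr).1 hrf with h | h <;> exact h
  obtain ⟨l, hl⟩ := hrm
  have hf1 : 1 ≤ f := Nat.pos_of_ne_zero (by rintro rfl; exact absurd ho (by decide))
  have h1 : 15 * (T + 1) = f * (256 * f + 224) := by
    obtain ⟨f', rfl⟩ : ∃ f', f = f' + 1 := ⟨f - 1, by omega⟩
    have : 16 * (f' + 1) - 1 = 16 * f' + 15 := by omega
    rw [this] at hT
    rw [mul_add, hT]; ring
  have h2 : r * r ∣ 15 * (T + 1) := by
    rw [h1, ← hm, hl]
    exact ⟨l * l * (256 * (r * l * (r * l)) + 224), by ring⟩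
  have h3 : r ∣ T + 1 := by
    by_cases h15 : r ∣ 15
    · obtain ⟨c, hc⟩ := h15
      have hrc : ¬ r ∣ c := by
        rintro ⟨d, rfl⟩
        have h4 : r ≤ 15 := Nat.le_of_dvd (by norm_num) ⟨_, hc⟩
        have h5 : r * r ≤ 15 := Nat.le_of_dvd (by norm_num) ⟨d, by rw [hc]; ring⟩
        have h6 : r ≤ 3 := by nlinarith
        have h7 := hr.two_le
        interval_cases r <;> omega
      rw [hc, mul_assoc] at h2
      have h4 : r ∣ c * (T + 1) := Nat.dvd_of_mul_dvd_mul_left hr.pos h2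
      exact ((Nat.Prime.dvd_mul hr).1 h4).resolve_left hrc
    · exact ((Nat.Prime.dvd_mul hr).1 ((Dvd.intro _ rfl).trans h2)).resolve_left h15
  have h4 : T + 1 ≡ q + 1 [MOD r] := Nat.ModEq.add_right 1 hmod
  have h5 : r ∣ q + 1 := (Nat.modEq_zero_iff_dvd.1 (h4.symm.trans (Nat.modEq_zero_iff_dvd.2 h3)))
  rcases hq with rfl | hq
  · have h6 : r = 2 := (Nat.prime_dvd_prime_iff_eq hr Nat.prime_two).1 h5
    rw [h6] at hrf
    obtain ⟨a, ha⟩ := hrf
    obtain ⟨b, hb⟩ := ho
    omega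
  · have h6 : r ∣ 1 := (Nat.dvd_add_right hq).1 h5
    exact hr.one_lt.ne' (Nat.dvd_one.1 h6)

end R6

variable {G : Type u} {Ω : Type v} [Group G] [Finite G] [MulAction G Ω] [Finite Ω]

theorem caseB2_one (h : Base G Ω) {a b : Ω} (hab : a ≠ b) {t : G} (ht : Inv t) (hts : t ∈ St G a b)
    {u : G} (hu : Inv u) (hua : u • a = b) (hub : u • b = a) (huc : ∀ g ∈ St G a b, u * g = g * u) (htu : IsConj t u)
    (hm : fS G Ω (VV a b t) * fS G Ω (VV a b t) = fx G Ω t) : False := by
  classical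
  obtain ⟨hc60, -, -, hsimp⟩ := facts h hab
  obtain ⟨hV4, hV2, hVc, -, hVn, -, -⟩ := vfacts h hab ht hts
  obtain ⟨-, -, hf2, -, -, -⟩ := count h hab ht hts
  have hlt : fS G Ω (VV a b t) < fx G Ω t := by
    rw [← hm] at hf2 ⊢
    have h1 : 2 ≤ fS G Ω (VV a b t) := by
      by_contra hcon
      have h2 : fS G Ω (VV a b t) ≤ 1 := by omega
      have := Nat.mul_le_mul h2 h2
      omega
    nlinarith
  -- a second involution of `V`
  obtain ⟨v, hvV, hv1, hvt⟩ : ∃ v ∈ VV a b t, v ≠ 1 ∧ v ≠ t := by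
    by_contra! hcon
    have h1 : (VV a b t : Set G) ⊆ {1, t} := by
      intro y hy
      by_cases hy1 : y = 1
      · exact Or.inl hy1
      · exact Or.inr (hcon y hy hy1)
    have h2 : (VV a b t : Set G).ncard ≤ 2 := (Set.ncard_le_ncard h1 (Set.toFinite _)).trans (Set.ncard_insert_le _ _ |>.trans (by rw [Set.ncard_singleton]))
    have h3 : (VV a b t : Set G).ncard = 4 := hV4
    omega
  obtain ⟨s, hst, hsa, hsb, hns⟩ := delta_s h hab ht hts hlt hvV hv1 hvt hm.symm
  obtain ⟨-, hodd, heven⟩ := delta_one h hab ht hts hlt hvV hv1 hvt hst hsa hsb hns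
  obtain ⟨-, -, hT⟩ := caseB2_conj h hab ht hts hu hua hub huc htu hlt
  rcases Nat.even_or_odd (fx G Ω t) with he | ho
  · -- even case
    have hme : Even (fS G Ω (VV a b t)) := by
      rw [← hm] at he
      rcases Nat.even_mul.1 he with h1 | h1 <;> exact h1
    obtain ⟨-, k, -, -, hk2, -⟩ := sh_even (sh_YB h hab ht hts) hme
    have hk2' : fS G Ω (VV a b t) = 2 ^ k := hk2
    obtain ⟨E, hE, hEc⟩ := heven (k + k) (by rw [← hm, hk2', pow_add])
    obtain ⟨hT2, hker⟩ := t2_CB h hab ht hts hlt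
    have htC : ∀ g : G, g * t = t * g → g ∈ Subgroup.centralizer ({t} : Set G) := fun g hg =>
      Subgroup.mem_centralizer_singleton_iff.2 hg
    obtain ⟨x, hx⟩ := isConj_iff.1 htu
    have hA : ∀ g ∈ St G a b, (x⁻¹ * g * x) * t = t * (x⁻¹ * g * x) := by
      intro g hg
      have h1 := huc g hg
      rw [← hx] at h1
      calc (x⁻¹ * g * x) * t = x⁻¹ * (g * (x * t * x⁻¹)) * x := by group
        _ = x⁻¹ * ((x * t * x⁻¹) * g) * x := by rw [h1]
        _ = t * (x⁻¹ * g * x) := by group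
    let ψ : St G a b →* Subgroup.centralizer ({t} : Set G) :=
      { toFun := fun g => ⟨x⁻¹ * g * x, htC _ (hA g g.2)⟩
        map_one' := Subtype.ext (by simp)
        map_mul' := fun g g' => Subtype.ext (by
          show x⁻¹ * ((g : G) * (g' : G)) * x = (x⁻¹ * g * x) * (x⁻¹ * g' * x)
          group) }
    let φ : St G a b →* CB G Ω t :=
      (resHom (Subgroup.centralizer ({t} : Set G)) (Fx G (Ω := Ω) ({t} : Set G)) cent_inv).rangeRestrict.comp ψ
    have hφ : ∀ g : St G a b, φ g = cb Ω (htC _ (hA g g.2)) := fun g => rfl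
    have hinj : Function.Injective φ := by
      rw [← MonoidHom.ker_eq_bot_iff]
      rcases hsimp φ.ker inferInstance with h1 | h1
      · exact h1
      · exfalso
        have h2 : ∀ g : St G a b, x⁻¹ * (g : G) * x ∈ ({1, t} : Set G) := by
          intro g
          have h3 : g ∈ φ.ker := by rw [h1]; trivial
          have h4 : φ g = 1 := h3
          rw [hφ] at h4
          exact (hker _ _).1 h4
        have h3 : Nat.card (St G a b) ≤ Nat.card ({1, t} : Set G) := by
          refine Nat.card_le_card_of_injective (fun g : St G a b => (⟨x⁻¹ * (g : G) * x, h2 g⟩ : ({1, t} : Set G))) ?_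
          intro g g' hgg
          have h4 : x⁻¹ * (g : G) * x = x⁻¹ * (g' : G) * x := congrArg Subtype.val hgg
          exact Subtype.ext (mul_left_cancel (mul_right_cancel h4))
        have h4 : Nat.card ({1, t} : Set G) ≤ 2 := by
          rw [Nat.card_coe_set_eq]
          exact Set.ncard_insert_le _ _ |>.trans (by rw [Set.ncard_singleton])
        omega
    -- noncommuting elements
    obtain ⟨y, hyS, -, hyt⟩ := hVn v hvV hv1
    have hnc : (⟨y, hyS⟩ : St G a b) * ⟨t, hts⟩ ≠ ⟨t, hts⟩ * ⟨y, hyS⟩ := by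
      intro e
      have e1 : y * t = t * y := congrArg Subtype.val e
      rw [e1, mul_inv_cancel_right] at hyt
      exact hvt hyt.symm
    have haX : a ∈ Fx G (Ω := Ω) ({t} : Set G) := by
      intro g hg; rw [Set.mem_singleton_iff.1 hg]; exact hts.1
    have hdvd := R6.dvd_of_hom hsimp hnc E hE hEc ⟨a, haX⟩ φ hinj
    -- the order of `CB`
    obtain ⟨c, d, hcd⟩ := hT2.two
    obtain ⟨w, hw⟩ : ∃ w : St (CB G Ω t) c d, w ≠ 1 := by
      have h1 := hT2.st c d hcd
      have : Nontrivial (St (CB G Ω t) c d) := Finite.one_lt_card_iff_nontrivial.1 (by rw [h1]; norm_num)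
      exact exists_ne 1
    obtain ⟨-, -, -, hcard, -⟩ := t2_main hT2 hcd w.2 (fun e => hw (Subtype.ext e))
    have hX : Nat.card (Fx G (Ω := Ω) ({t} : Set G)) = fx G Ω t := by
      unfold fx
      apply Nat.card_congr
      exact Equiv.subtypeEquivRight (fun z => by
        constructor
        · intro hz; exact hz t rfl
        · intro hz g hg; rw [Set.mem_singleton_iff.1 hg]; exact hz)
    rw [hcard, hX, hc60] at hdvd
    obtain ⟨c', hc'⟩ := hdvd
    have h5 : 2 * (fx G Ω t - 1) = 60 * c' := by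
      have h6 : fx G Ω t * (2 * (fx G Ω t - 1)) = fx G Ω t * (60 * c') := by
        calc fx G Ω t * (2 * (fx G Ω t - 1)) = 2 * (fx G Ω t * (fx G Ω t - 1)) := by ring
          _ = _ := by rw [hc']; ring
      exact Nat.eq_of_mul_eq_mul_left (by omega) h6
    obtain ⟨d', hd'⟩ := he
    omega
  · obtain ⟨r, k, E, hr, hk, hrk, hE, hEc, hEr⟩ := hodd ho
    obtain ⟨q, hq, hmod⟩ := modr h hab ht hts hm ho r k hr hrk E hE hEc hEr
    exact R6.arith_odd hr hk hrk hm ho hT hq hmod

end H39.DA
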