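import Cfsg.Agent.Lib.H39.DAR7c
import Cfsg.Agent.Lib.H39.DAR5
import Cfsg.Agent.Lib.H39.DAQ1
import Cfsg.Agent.Lib.H39.DAQ5b
import Cfsg.Agent.Lib.H39.DAQ6a
import Cfsg.Agent.Lib.H39.DAQ6b
import Cfsg.Agent.Lib.H39.DAQ6c
set_option autoImplicit false
open MulAction
universe u v
namespace H39.DA
variable {G : Type u} {Ω : Type v} [Group G] [Finite G] [MulAction G Ω] [Finite Ω]

theorem caseB2_two_even (h : Base G Ω) {a b : Ω} (hab : a ≠ b) {t : G} (ht : Inv t) (hts : t ∈ St G a b)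
    {u : G} (hu : Inv u) (hua : u • a = b) (hub : u • b = a) (huc : ∀ g ∈ St G a b, u * g = g * u) (htu : IsConj t u)
    (hm : fx G Ω t = fS G Ω (VV a b t) * (2 * fS G Ω (VV a b t) - 1)) (he : Even (fx G Ω t)) : False :=
  R7.core hab ht hts hu hua hub huc hm he (fun hab' _ ht' hts' => (vfacts h hab' ht' hts').2.1)
    (count h hab ht hts) (countV h hab ht hts) (fun hlt => caseB2_conj h hab ht hts hu hua hub huc htu hlt)
    (fun hee => sh_even (sh_YB h hab ht hts) hee)
end H39.DA
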