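import Cfsg.Agent.Lib.H39.DAR8
import Cfsg.Agent.Lib.H39.DAQ1

set_option autoImplicit false
open MulAction
universe u v
namespace H39.DA

variable {G : Type u} {Ω : Type v} [Group G] [Finite G] [MulAction G Ω] [Finite Ω]

namespace R9

theorem conj_St {G : Type u} {Ω : Type v} [Group G] [MulAction G Ω] {a b c d : Ω} {k g : G}
    (hk1 : k • a = c) (hk2 : k • b = d) : g ∈ St G c d ↔ k⁻¹ * g * k ∈ St G a b := by
  subst hk1; subst hk2
  simp only [St, Subgroup.mem_inf, mem_stabilizer_iff, mul_smul, inv_smul_eq_iff]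

theorem card_stab (h : Base G Ω) (hn : Nat.card Ω = 12) (a : Ω)
    (htr : ∀ c d : Ω, ∃ g : G, g • c = d) : Nat.card (stabilizer G a) = 660 := by
  have h1 := (stabilizer G a).card_mul_index
  have h2 : (stabilizer G a).index = 12 := by
    rw [MulAction.index_stabilizer]
    have : orbit G a = Set.univ := by
      rw [Set.eq_univ_iff_forall]
      intro d
      obtain ⟨g, hg⟩ := htr a d
      exact ⟨g, hg⟩
    rw [this, Set.ncard_univ, hn]
  rw [h2, R8.card_base h, hn] at h1
  omega

theorem normal_eq (h : Base G Ω) (hr : NoReg G Ω) (hn : Nat.card Ω = 12) (N : Subgroup G)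
    (hN : N.Normal) (hN1 : N ≠ ⊥) : N = ⊤ := by
  classical
  let _ := Fintype.ofFinite Ω
  -- an element moving a point
  obtain ⟨n₀, hn₀, hn₀1⟩ : ∃ n : G, n ∈ N ∧ n ≠ 1 := by
    obtain ⟨x, hx⟩ := Subgroup.ne_bot_iff_exists_ne_one.1 hN1
    exact ⟨x.1, x.2, fun h => hx (Subtype.ext h)⟩
  have hmove : ∀ g : G, g ≠ 1 → ∃ x : Ω, g • x ≠ x := by
    intro g hg
    by_contra hc
    push Not at hc
    exact hg (h.faith g hc)
  obtain ⟨x₁, hx₁⟩ := hmove n₀ hn₀1
  have htrN : ∀ c d : Ω, ∃ n ∈ N, n • c = d := by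
    intro c d
    by_cases hcd : c = d
    · exact ⟨1, one_mem _, by rw [one_smul, hcd]⟩
    · obtain ⟨g, hg1, hg2⟩ := h.tr x₁ (n₀ • x₁) c d (Ne.symm hx₁) hcd
      refine ⟨g * n₀ * g⁻¹, hN.conj_mem _ hn₀ _, ?_⟩
      rw [mul_smul, mul_smul, ← hg2, ← hg1, inv_smul_smul]
  have htr : ∀ c d : Ω, ∃ g : G, g • c = d := fun c d => by
    obtain ⟨n, _, hn⟩ := htrN c d
    exact ⟨n, hn⟩
  -- not regular
  have hnr : ∃ g ∈ N, ∃ x : Ω, g • x = x ∧ g ≠ 1 := by
    by_contra hc
    push Not at hc
    exact hr N ⟨hN, htrN, fun g hg x hx => hc g hg x hx⟩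
  obtain ⟨g₀, hg₀, a, hga, hg1⟩ := hnr
  obtain ⟨b, hb⟩ : ∃ b : Ω, b ≠ a := by
    obtain ⟨x, hx⟩ := hmove g₀ hg1
    exact ⟨x, fun hh => hx (by rw [hh, hga])⟩
  have hab : a ≠ b := hb.symm
  set A := stabilizer G a with hA
  set B := St G a b with hB
  have hBA : B ≤ A := inf_le_left
  have hcA : Nat.card A = 660 := card_stab h hn a htr
  have hcB : Nat.card B = 60 := R8.card_St h hab
  have hrel : B.relIndex A = 11 := by
    have h1 := Subgroup.relIndex_mul_relIndex (⊥ : Subgroup G) B A bot_le hBA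
    rw [Subgroup.relIndex_bot_left, Subgroup.relIndex_bot_left, hcA, hcB] at h1
    omega
  obtain ⟨e⟩ := h.a5 a b hab
  have hsimp : IsSimpleGroup B := by
    have := alternatingGroup.isSimpleGroup_five
    exact e.isSimpleGroup
  have hNB : (N.subgroupOf B).Normal := hN.subgroupOf B
  rcases hNB.eq_bot_or_eq_top with h0 | h0
  · -- sharply 2-transitive
    exfalso
    rw [Subgroup.subgroupOf_eq_bot] at h0
    have h00 : ∀ g ∈ N, g ∈ B → g = 1 := by
      intro g hg hgB
      have := Subgroup.disjoint_def.1 h0 hg hgB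
      exact this
    have hfree : ∀ g ∈ N, ∀ c d : Ω, c ≠ d → g • c = c → g • d = d → g = 1 := by
      intro g hg c d hcd hgc hgd
      obtain ⟨k, hk1, hk2⟩ := h.tr a b c d hab hcd
      have h1 : k⁻¹ * g * k ∈ B := (conj_St hk1 hk2).1 ⟨hgc, hgd⟩
      have h2 : k⁻¹ * g * k ∈ N := by
        have := hN.conj_mem g hg k⁻¹
        rwa [inv_inv] at this
      have h3 := h00 _ h2 h1
      have h4 : g = k * (k⁻¹ * g * k) * k⁻¹ := by group
      rw [h4, h3]; group
    have hrB : N.relIndex B = 60 := by
      rw [Subgroup.relIndex, Subgroup.subgroupOf_eq_bot.2 h0, Subgroup.index_bot, hcB]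
    have hdvd : 60 ∣ N.relIndex A := by
      rw [← hrB, ← Subgroup.relIndex_subgroupOf hBA]
      have hNA : (N.subgroupOf A).Normal := hN.subgroupOf A
      exact Subgroup.relIndex_dvd_index_of_normal (N.subgroupOf A) (B.subgroupOf A)
    have hcNA : Nat.card (N ⊓ A : Subgroup G) * N.relIndex A = 660 := by
      have h1 := Subgroup.relIndex_mul_relIndex (⊥ : Subgroup G) (N ⊓ A) A bot_le inf_le_right
      rw [Subgroup.relIndex_bot_left, Subgroup.relIndex_bot_left, Subgroup.inf_relIndex_right,
        hcA] at h1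
      exact h1
    have hne : Nat.card (N ⊓ A : Subgroup G) ≠ 1 := by
      intro h1
      have h2 := Subgroup.card_eq_one.1 h1
      have h3 : g₀ ∈ N ⊓ A := ⟨hg₀, hga⟩
      rw [h2, Subgroup.mem_bot] at h3
      exact hg1 h3
    have h11 : Nat.card (N ⊓ A : Subgroup G) = 11 := by
      obtain ⟨k, hk⟩ := hdvd
      rw [hk] at hcNA
      have h2 : Nat.card (N ⊓ A : Subgroup G) * k = 11 := by
        have : Nat.card (N ⊓ A : Subgroup G) * (60 * k) = 60 * (Nat.card (N ⊓ A : Subgroup G) * k) := by
          ring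
        omega
      have h3 : Nat.card (N ⊓ A : Subgroup G) ∣ 11 := Dvd.intro _ h2
      exact ((Nat.dvd_prime (by norm_num)).1 h3).resolve_left hne
    have hcN : Nat.card N = 132 := by
      have h1 := Subgroup.relIndex_mul_relIndex (⊥ : Subgroup G) (A ⊓ N) N bot_le inf_le_right
      rw [Subgroup.relIndex_bot_left, Subgroup.relIndex_bot_left, Subgroup.inf_relIndex_right,
        inf_comm, h11] at h1
      have h2 : A.relIndex N = 12 := by
        have h3 : A.subgroupOf N = stabilizer N a := by
          ext x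
          rw [Subgroup.mem_subgroupOf, hA, mem_stabilizer_iff, mem_stabilizer_iff]
          rfl
        rw [Subgroup.relIndex, h3, MulAction.index_stabilizer]
        have : orbit N a = Set.univ := by
          rw [Set.eq_univ_iff_forall]
          intro d
          obtain ⟨g, hg, hgd⟩ := htrN a d
          exact ⟨⟨g, hg⟩, hgd⟩
        rw [this, Set.ncard_univ, hn]
      rw [h2] at h1
      omega
    have horb : orbit N ((a, b) : Ω × Ω) = ((Finset.univ : Finset Ω).offDiag : Set (Ω × Ω)) := by
      have hcard : (((Finset.univ : Finset Ω).offDiag : Finset (Ω × Ω)) : Set (Ω × Ω)).ncard = 132 := by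
        rw [Set.ncard_coe_finset, Finset.offDiag_card, Finset.card_univ,
          ← Nat.card_eq_fintype_card, hn]
      have hstab : stabilizer N ((a, b) : Ω × Ω) = ⊥ := by
        rw [eq_bot_iff]
        intro g hg
        rw [mem_stabilizer_iff, Prod.smul_mk, Prod.mk.injEq] at hg
        rw [Subgroup.mem_bot]
        exact Subtype.ext (hfree g g.2 a b hab hg.1 hg.2)
      have hcard2 : (orbit N ((a, b) : Ω × Ω)).ncard = 132 := by
        rw [← MulAction.index_stabilizer, hstab, Subgroup.index_bot, hcN]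
      refine Set.eq_of_subset_of_ncard_le ?_ (by rw [hcard, hcard2]) (Set.toFinite _)
      rintro ⟨c, d⟩ ⟨g, hg⟩
      simp only [Finset.coe_offDiag, Set.mem_offDiag, Finset.coe_univ, Set.mem_univ, true_and]
      intro hcd
      have hg1 : g • a = c := congrArg Prod.fst hg
      have hg2 : g • b = d := congrArg Prod.snd hg
      apply hab
      rw [← hg1, ← hg2] at hcd
      exact MulAction.injective g hcd
    have hmem : ∀ c d : Ω, c ≠ d → ∃ g : N, g • a = c ∧ g • b = d := by
      intro c d hcd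
      have h1 : ((c, d) : Ω × Ω) ∈ orbit N ((a, b) : Ω × Ω) := by
        rw [horb]
        simp only [Finset.coe_offDiag, Set.mem_offDiag, Finset.coe_univ, Set.mem_univ, true_and]
        exact hcd
      obtain ⟨g, hg⟩ := h1
      exact ⟨g, congrArg Prod.fst hg, congrArg Prod.snd hg⟩
    have hSh : Sh N Ω := by
      refine ⟨⟨?_, ?_, h.two⟩, ?_⟩
      · intro c d c' d' hcd hcd'
        obtain ⟨g, hg1, hg2⟩ := hmem c d hcd
        obtain ⟨g', hg1', hg2'⟩ := hmem c' d' hcd'
        refine ⟨g' * g⁻¹, ?_, ?_⟩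
        · rw [mul_smul, ← hg1, inv_smul_smul, hg1']
        · rw [mul_smul, ← hg2, inv_smul_smul, hg2']
      · intro g hg
        exact Subtype.ext (h.faith g hg)
      · intro g c d hcd hc hd
        exact Subtype.ext (hfree g g.2 c d hcd hc hd)
    obtain ⟨-, k, F, hk, hk2, -⟩ := sh_even hSh (by rw [hn]; decide)
    rw [hn] at hk2
    rcases Nat.lt_or_ge k 4 with h4 | h4
    · interval_cases k <;> omega
    · have := Nat.pow_le_pow_right (n := 2) (by norm_num) h4
      omega
  · -- `B ≤ N`
    rw [Subgroup.subgroupOf_eq_top] at h0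
    have hAN : A ≤ N := by
      have h1 := Subgroup.relIndex_mul_relIndex B (A ⊓ N) A (le_inf hBA h0) inf_le_left
      rw [hrel] at h1
      have h2 : (A ⊓ N).relIndex A ∣ 11 := Dvd.intro_left _ h1
      rcases (Nat.dvd_prime (by norm_num)).1 h2 with h3 | h3
      · rw [Subgroup.relIndex_eq_one] at h3
        exact h3.trans inf_le_right
      · exfalso
        rw [h3] at h1
        have h4 : B.relIndex (A ⊓ N) = 1 := by omega
        rw [Subgroup.relIndex_eq_one] at h4
        -- `B` fixes everything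
        have h5 : ∀ g ∈ B, ∀ x : Ω, g • x = x := by
          intro g hg x
          by_cases hxa : x = a
          · rw [hxa]; exact hg.1
          obtain ⟨k, hk1, hk2⟩ := h.tr a b a x hab (Ne.symm hxa)
          have h6 : k⁻¹ * g * k ∈ A ⊓ N := by
            refine ⟨?_, ?_⟩
            · change (k⁻¹ * g * k) • a = a
              have hga' : g • a = a := hg.1
              rw [mul_smul, mul_smul, hk1, hga', inv_smul_eq_iff, hk1]
            · have := hN.conj_mem g (h0 hg) k⁻¹
              rwa [inv_inv] at this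
          have h7 := h4 h6
          have h8 : (k⁻¹ * g * k) • b = b := h7.2
          rw [mul_smul, mul_smul, hk2, inv_smul_eq_iff, hk2] at h8
          exact h8
        have h6 : B = ⊥ := by
          rw [eq_bot_iff]
          intro g hg
          exact Subgroup.mem_bot.2 (h.faith g (h5 g hg))
        rw [h6, Subgroup.card_bot] at hcB
        omega
    rw [eq_top_iff]
    intro g _
    obtain ⟨n, hn1, hn2⟩ := htrN a (g • a)
    have h1 : n⁻¹ * g ∈ A := by
      change (n⁻¹ * g) • a = a
      rw [mul_smul, inv_smul_eq_iff, hn2]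
    have h2 := mul_mem hn1 (hAN h1)
    rwa [mul_inv_cancel_left] at h2

end R9

theorem final12 (h : Base G Ω) (hr : NoReg G Ω) (hn : Nat.card Ω = 12) :
    IsSimpleGroup G ∧ Nat.card G = 7920 := by
  have hc : Nat.card G = 7920 := by rw [R8.card_base h, hn]
  refine ⟨?_, hc⟩
  have hnt : Nontrivial G := by
    rw [← Finite.one_lt_card_iff_nontrivial, hc]; norm_num
  refine ⟨fun N hN => ?_⟩
  by_cases h1 : N = ⊥
  · exact Or.inl h1
  · exact Or.inr (R9.normal_eq h hr hn N hN h1)

end H39.DA
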