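import Cfsg.Agent.Lib.H39.DAQ5a
import Cfsg.Agent.Lib.H39.DAQ5b
import Cfsg.Agent.Lib.H39.DAQ6b
import Cfsg.Agent.Lib.H39.DAQ6c
import Cfsg.Agent.Lib.H39.DAQ7a
import Cfsg.Agent.Lib.H39.DAQ7b
import Cfsg.Agent.Lib.H39.DAQ8
import Cfsg.Agent.Lib.H39.DAR1
import Cfsg.Agent.Lib.H39.DAR2
import Cfsg.Agent.Lib.H39.DAR3
import Cfsg.Agent.Lib.H39.DAR4
import Cfsg.Agent.Lib.H39.DAR5
import Cfsg.Agent.Lib.H39.DAR6
import Cfsg.Agent.Lib.H39.DAR7
import Cfsg.Agent.Lib.H39.DAR8
import Cfsg.Agent.Lib.H39.DAR9
import Cfsg.Agent.Lib.H36.Q5c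

set_option autoImplicit false

open MulAction

universe u v

namespace H39.DA

variable {G : Type u} {Ω : Type v} [Group G] [Finite G] [MulAction G Ω] [Finite Ω]

/-- every involution of a `T2` group with `f = m (2 m - 1)` fixes two points -/
theorem all_conj {C : Type u} {X : Type v} [Group C] [Finite C] [MulAction C X] [Finite X] (h : T2 C X) {a b : X} (hab : a ≠ b)
    {v : C} (hv : v ∈ St C a b) (hv1 : v ≠ 1) (hf : Nat.card X = fx C X v * (2 * fx C X v - 1)) :
    ∀ g : C, Inv g → ∃ c d : X, c ≠ d ∧ g • c = c ∧ g • d = d := by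
  classical
  obtain ⟨hvi, hm2, hmf, hC, hCv, hcj, hcount, -, -, p, q, hpq, hpa, hpb, hqa, hqb, hqv, hvp, hqq, hall⟩ := t2_main h hab hv hv1
  set m := fx C X v with hm
  set f := Nat.card X with hfd
  have hcard : Nat.card {g : C // IsConj v g ∧ g • a = b ∧ g • b = a} = 2 := by
    have h1 : f - m = m * (m - 1) * 2 := by
      obtain ⟨k, hk⟩ : ∃ k, m = k + 2 := ⟨m - 2, by omega⟩
      rw [hf, hk]
      have : 2 * (k + 2) - 1 = 2 * k + 3 := by omega
      rw [this]
      have h2 : k + 2 - 1 = k + 1 := by omega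
      rw [h2]
      have h3 : (k + 2) * (2 * k + 3) = (k + 2) * (k + 1) * 2 + (k + 2) := by ring
      rw [h3]; omega
    rw [h1] at hcount
    have hpos : 0 < m * (m - 1) := Nat.mul_pos (by omega) (by omega)
    exact (Nat.eq_of_mul_eq_mul_left hpos hcount).symm
  have hq : IsConj v q := by
    by_contra hq
    have : Nat.card {g : C // IsConj v g ∧ g • a = b ∧ g • b = a} ≤ 1 := by
      rw [Finite.card_le_one_iff_subsingleton]
      constructor
      rintro ⟨x, hx1, hx2, hx3⟩ ⟨y, hy1, hy2, hy3⟩
      have hx : x = p := by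
        rcases hall x hx2 hx3 with h | h
        · exact h
        · exact absurd (h ▸ hx1) hq
      have hy : y = p := by
        rcases hall y hy2 hy3 with h | h
        · exact h
        · exact absurd (h ▸ hy1) hq
      exact Subtype.ext (hx.trans hy.symm)
    omega
  have key : ∀ g : C, g • a = b → g • b = a → IsConj v g := by
    intro g h1 h2
    rcases hall g h1 h2 with h | h
    · exact h ▸ hvp
    · exact h ▸ hq
  intro g hg
  have hne : ∃ x : X, g • x ≠ x := by
    by_contra hcon
    push Not at hcon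
    exact hg.1 (h.faith g hcon)
  obtain ⟨x, hx⟩ := hne
  obtain ⟨k, hka, hkb⟩ := h.tr x (g • x) a b (Ne.symm hx) hab
  have hk1 : k⁻¹ • a = x := by rw [← hka, inv_smul_smul]
  have hk2 : k⁻¹ • b = g • x := by rw [← hkb, inv_smul_smul]
  have hgg : g • g • x = x := by rw [← mul_smul, hg.2, one_smul]
  have h1 : IsConj v (k * g * k⁻¹) := by
    apply key
    · rw [mul_smul, hk1, mul_smul, hkb]
    · rw [mul_smul, hk2, mul_smul, hgg, hka]
  have h2 : IsConj v g := h1.trans (isConj_iff.2 ⟨k⁻¹, by group⟩)
  obtain ⟨c, hc⟩ := isConj_iff.1 h2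
  refine ⟨c • a, c • b, fun hh => hab (MulAction.injective c hh), ?_, ?_⟩
  · rw [← hc, mul_smul, mul_smul, inv_smul_smul, show v • a = a from hv.1]
  · rw [← hc, mul_smul, mul_smul, inv_smul_smul, show v • b = b from hv.2]

theorem main (h : Base G Ω) (hn : NoReg G Ω) : (Nat.card Ω = 7 ∧ Nonempty (G ≃* alternatingGroup (Fin 7))) ∨
    (Nat.card Ω = 12 ∧ IsSimpleGroup G ∧ Nat.card G = 7920) := by
  classical
  obtain ⟨a, b, hab⟩ := h.two
  obtain ⟨-, h15, -, -⟩ := facts h hab
  have hne : Nonempty {s : G // Inv s ∧ s ∈ St G a b} := by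
    by_contra hcon
    rw [not_nonempty_iff] at hcon
    rw [Nat.card_of_isEmpty] at h15
    omega
  obtain ⟨t, ht, hts⟩ := hne
  obtain ⟨hm2, hmf, -, -, -, -, -⟩ := countV h hab ht hts
  obtain ⟨hV4, hVsq, hVc, -, -, -, -⟩ := vfacts h hab ht hts
  rcases H36.Q5c.dich h hab ht hts with hB | hA
  · exfalso
    obtain ⟨u, hu, hua, hub, huc⟩ := hB
    by_cases htu : IsConj t u
    · rcases Nat.lt_or_ge (fS G Ω (VV a b t)) (fx G Ω t) with hlt | hge
      · have hex : ∃ v ∈ VV a b t, v ≠ 1 ∧ v ≠ t := by
          by_contra hcon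
          push Not at hcon
          have hle : (VV a b t : Set G) ⊆ ({1, t} : Set G) := by
            intro v hv
            by_cases h1 : v = 1
            · left; exact h1
            · right; exact hcon v hv h1
          have h4 : Nat.card (VV a b t) = Set.ncard (VV a b t : Set G) := rfl
          have h5 : Set.ncard (VV a b t : Set G) ≤ Set.ncard ({1, t} : Set G) := Set.ncard_le_ncard hle (Set.toFinite _)
          have h6 : Set.ncard ({1, t} : Set G) ≤ 2 := Set.ncard_insert_le _ _ |>.trans (by simp)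
          omega
        obtain ⟨v, hv, hv1, hvt⟩ := hex
        obtain ⟨-, hd⟩ := delta h hab ht hts hlt hv hv1 hvt
        rcases hd with hd | hd
        · exact caseB2_one h hab ht hts hu hua hub huc htu hd.symm
        · rcases Nat.even_or_odd (fx G Ω t) with he | ho
          · exact caseB2_two_even h hab ht hts hu hua hub huc htu hd he
          · obtain ⟨hT2, hcb⟩ := t2_CB h hab ht hts hlt
            have hvc : v ∈ Subgroup.centralizer ({t} : Set G) := hv.2
            have haX : a ∈ Fx G (Ω := Ω) ({t} : Set G) := by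
              intro s hs; rw [Set.mem_singleton_iff.1 hs]; exact hts.1
            have hbX : b ∈ Fx G (Ω := Ω) ({t} : Set G) := by
              intro s hs; rw [Set.mem_singleton_iff.1 hs]; exact hts.2
            have hcX : Nat.card (Fx G (Ω := Ω) ({t} : Set G)) = fx G Ω t := by
              unfold fx
              apply Nat.card_congr
              refine Equiv.subtypeEquivRight (fun x => ?_)
              show (∀ g ∈ ({t} : Set G), g • x = x) ↔ _
              simp
            have hfx := fx_CB h hab ht hts hv hv1 hvt hvc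
            refine t2_no_odd hT2 (by rw [hcX]; exact ho) (all_conj hT2 (a := ⟨a, haX⟩) (b := ⟨b, hbX⟩)
              (fun hh => hab (congrArg Subtype.val hh)) (v := cb Ω hvc) ⟨?_, ?_⟩ ?_ ?_)
            · exact Subtype.ext hv.1.1
            · exact Subtype.ext hv.1.2
            · intro hh
              rcases (hcb v hvc).1 hh with h1 | h1
              · exact hv1 h1
              · exact hvt h1
            · rw [hcX, hfx, hd]
      · exact caseB2_i h hab ht hts hu hua hub huc htu (le_antisymm hmf hge)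
    · exact caseB1 h hn hab ht hts hu hua hub huc htu
  · rcases Nat.lt_or_ge (fS G Ω (VV a b t)) (fx G Ω t) with hlt | hge
    · have h12 := caseA_ii h hab ht hts hA hlt
      exact Or.inr ⟨h12, final12 h hn h12⟩
    · have h7 := caseA_i h hab ht hts hA (le_antisymm hmf hge)
      exact Or.inl ⟨h7, final7 h h7⟩

end H39.DA
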