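import Cfsg.Agent.Lib.H39.DA2

set_option autoImplicit false
set_option maxHeartbeats 400000
open MulAction
universe u v
namespace H39.DA

variable {G : Type u} {Ω : Type v} [Group G] [Finite G] [MulAction G Ω] [Finite Ω]

namespace Q6b

theorem card_of_tr (M : Subgroup G) (X : Set Ω) {b : Ω} (hb : b ∈ X)
    (hX : ∀ g ∈ M, ∀ x ∈ X, g • x ∈ X) (htr : ∀ c ∈ X, ∃ g ∈ M, g • b = c) :
    Nat.card M = Nat.card (M ⊓ stabilizer G b : Subgroup G) * Nat.card X := by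
  have h1 := Subgroup.card_mul_index (stabilizer M b)
  have h2 : (stabilizer M b).index = Nat.card X := by
    rw [index_stabilizer, ← Nat.card_coe_set_eq]
    have h3 : orbit M b = X := by
      ext c
      constructor
      · rintro ⟨g, rfl⟩
        exact hX g.1 g.2 b hb
      · intro hc
        obtain ⟨g, hg, hgc⟩ := htr c hc
        exact ⟨⟨g, hg⟩, hgc⟩
    rw [h3]
  have h4 : Nat.card (stabilizer M b) = Nat.card (M ⊓ stabilizer G b : Subgroup G) := by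
    refine Nat.card_congr ⟨fun g => ⟨g.1.1, g.1.2, g.2⟩, fun g => ⟨⟨g.1, g.2.1⟩, g.2.2⟩, ?_, ?_⟩
    · intro g; rfl
    · intro g; rfl
  rw [← h1, h2, h4]

theorem mem_VV {a b : Ω} {t g : G} : g ∈ VV a b t ↔ (g • a = a ∧ g • b = b) ∧ g * t = t * g := by
  unfold VV St
  rw [Subgroup.mem_inf, Subgroup.mem_inf, mem_stabilizer_iff, mem_stabilizer_iff,
    Subgroup.mem_centralizer_singleton_iff]

theorem mem_St {a b : Ω} {g : G} : g ∈ St G a b ↔ g • a = a ∧ g • b = b := by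
  unfold St
  rw [Subgroup.mem_inf, mem_stabilizer_iff, mem_stabilizer_iff]

end Q6b

open Q6b

variable (vf : ∀ (h : Base G Ω) {a b : Ω} (hab : a ≠ b) {t : G} (ht : Inv t) (hts : t ∈ St G a b),
    Nat.card (VV a b t) = 4 ∧ (∀ g ∈ VV a b t, g * g = 1) ∧ (∀ g ∈ VV a b t, ∀ g' ∈ VV a b t, g * g' = g' * g) ∧
    (∀ s ∈ VV a b t, s ≠ 1 → VV a b s = VV a b t) ∧
    (∀ s ∈ VV a b t, s ≠ 1 → ∃ x ∈ St G a b, x ∈ Subgroup.normalizer (VV a b t : Set G) ∧ x * t * x⁻¹ = s) ∧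
    Nat.card (St G a b ⊓ Subgroup.normalizer (VV a b t : Set G) : Subgroup G) = 12 ∧
    (∀ V' : Subgroup G, V' ≤ St G a b → Nat.card V' = 4 → ∃ g ∈ St G a b, V'.map (MulAut.conj g).toMonoidHom = VV a b t))

include vf in
theorem Q6b.VV_eq (h : Base G Ω) {a b : Ω} (hab : a ≠ b) {t : G} (ht : Inv t) (hts : t ∈ St G a b)
    {c d : Ω} (hcd : c ≠ d) (hc : c ∈ Fx G (Ω := Ω) (VV a b t : Set G)) (hd : d ∈ Fx G (Ω := Ω) (VV a b t : Set G)) :
    t ∈ St G c d ∧ VV c d t = VV a b t := by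
  have htV : t ∈ VV a b t := mem_VV.2 ⟨mem_St.1 hts, rfl⟩
  have hts' : t ∈ St G c d := mem_St.2 ⟨hc t htV, hd t htV⟩
  refine ⟨hts', ?_⟩
  have h1 := (vf h hab ht hts).1
  have h2 := (vf h hcd ht hts').1
  have hle : VV a b t ≤ VV c d t := by
    intro g hg
    exact mem_VV.2 ⟨⟨hc g hg, hd g hg⟩, (mem_VV.1 hg).2⟩
  exact (Subgroup.eq_of_le_of_card_ge hle (by rw [h1, h2])).symm

include vf in
theorem Q6b.tr (h : Base G Ω) {a b : Ω} (hab : a ≠ b) {t : G} (ht : Inv t) (hts : t ∈ St G a b) :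
    ∀ c ∈ Fx G (Ω := Ω) (VV a b t : Set G), ∀ d ∈ Fx G (Ω := Ω) (VV a b t : Set G), c ≠ d →
      ∀ c' ∈ Fx G (Ω := Ω) (VV a b t : Set G), ∀ d' ∈ Fx G (Ω := Ω) (VV a b t : Set G), c' ≠ d' →
      ∃ g ∈ NT (VV a b t) t, g • c = c' ∧ g • d = d' := by
  intro c hc d hd hcd c' hc' d' hd' hcd'
  obtain ⟨g, hgc, hgd⟩ := h.tr c d c' d' hcd hcd'
  obtain ⟨hts1, hV1⟩ := Q6b.VV_eq vf h hab ht hts hcd' hc' hd'
  obtain ⟨-, -, -, -, v5, -, v7⟩ := vf h hcd' ht hts1
  have hcard := (vf h hab ht hts).1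
  have htV : t ∈ VV a b t := mem_VV.2 ⟨mem_St.1 hts, rfl⟩
  -- the conjugate of V by g
  obtain ⟨x, hx, hxV⟩ := v7 ((VV a b t).map (MulAut.conj g).toMonoidHom) (by
    rintro _ ⟨s, hs, rfl⟩
    show g * s * g⁻¹ ∈ _
    rw [mem_St]
    constructor
    · rw [← hgc, mul_smul, mul_smul, inv_smul_smul, hc s hs]
    · rw [← hgd, mul_smul, mul_smul, inv_smul_smul, hd s hs]) (by
    rw [Subgroup.card_map_of_injective (MulAut.conj g).injective, hcard])
  rw [hV1] at hxV v5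
  have hN : x * g ∈ Subgroup.normalizer (VV a b t : Set G) := by
    rw [Subgroup.mem_normalizer_iff]
    intro s
    constructor
    · intro hs
      have h2 := Subgroup.mem_map_of_mem (MulAut.conj x).toMonoidHom
        (Subgroup.mem_map_of_mem (MulAut.conj g).toMonoidHom hs)
      rw [hxV] at h2
      have h3 : x * (g * s * g⁻¹) * x⁻¹ ∈ VV a b t := h2
      have h4 : x * g * s * (x * g)⁻¹ = x * (g * s * g⁻¹) * x⁻¹ := by group
      show x * g * s * (x * g)⁻¹ ∈ VV a b t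
      rw [h4]; exact h3
    · intro hs
      have hs' : x * g * s * (x * g)⁻¹ ∈ VV a b t := hs
      have h2 : (x * g) * s * (x * g)⁻¹ ∈
          ((VV a b t).map (MulAut.conj g).toMonoidHom).map (MulAut.conj x).toMonoidHom := by
        rw [hxV]; exact hs'
      obtain ⟨_, ⟨s', hs', rfl⟩, he⟩ := h2
      have h3 : x * (g * s' * g⁻¹) * x⁻¹ = (x * g) * s * (x * g)⁻¹ := he
      have h4 : s' = s := by
        calc s' = g⁻¹ * (x⁻¹ * (x * (g * s' * g⁻¹) * x⁻¹) * x) * g := by group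
          _ = g⁻¹ * (x⁻¹ * ((x * g) * s * (x * g)⁻¹) * x) * g := by rw [h3]
          _ = s := by group
      show s ∈ VV a b t
      rw [← h4]; exact hs'
  have hxc : (x * g) • c = c' := by rw [mul_smul, hgc]; exact (mem_St.1 hx).1
  have hxd : (x * g) • d = d' := by rw [mul_smul, hgd]; exact (mem_St.1 hx).2
  have hs1 : (x * g) * t * (x * g)⁻¹ ∈ VV a b t := (Subgroup.mem_normalizer_iff.1 hN t).1 htV
  have hs2 : (x * g) * t * (x * g)⁻¹ ≠ 1 := by
    intro h0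
    apply ht.1
    have h3 : (x * g) * t = (x * g) := mul_inv_eq_one.1 h0
    exact mul_eq_left.1 h3
  obtain ⟨y, hy, hyN, hyt⟩ := v5 _ hs1 hs2
  refine ⟨y⁻¹ * (x * g), ⟨Subgroup.mul_mem _ (Subgroup.inv_mem _ hyN) hN, ?_⟩, ?_, ?_⟩
  · show y⁻¹ * (x * g) ∈ Subgroup.centralizer ({t} : Set G)
    rw [Subgroup.mem_centralizer_singleton_iff]
    have h5 : (x * g) * t = (y * t * y⁻¹) * (x * g) := by rw [hyt]; group
    calc y⁻¹ * (x * g) * t = y⁻¹ * ((x * g) * t) := by group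
      _ = y⁻¹ * ((y * t * y⁻¹) * (x * g)) := by rw [h5]
      _ = t * (y⁻¹ * (x * g)) := by group
  · rw [mul_smul, hxc, inv_smul_eq_iff]; exact (mem_St.1 hy).1.symm
  · rw [mul_smul, hxd, inv_smul_eq_iff]; exact (mem_St.1 hy).2.symm


include vf in
theorem Q6b.main (fa : ∀ (h : Base G Ω) {a b : Ω} (hab : a ≠ b), Nat.card (St G a b) = 60)
    (h : Base G Ω) {a b : Ω} (hab : a ≠ b) {t : G} (ht : Inv t) (hts : t ∈ St G a b) :
    let m := fS G Ω (VV a b t)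
    2 ≤ m ∧ m ≤ fx G Ω t ∧ Nat.card (Subgroup.normalizer (VV a b t : Set G)) = 12 * (m * (m - 1)) ∧
    Nat.card (NT (VV a b t) t) = 4 * (m * (m - 1)) ∧
    (∀ c ∈ Fx G (Ω := Ω) (VV a b t : Set G), ∀ d ∈ Fx G (Ω := Ω) (VV a b t : Set G), c ≠ d →
      ∀ c' ∈ Fx G (Ω := Ω) (VV a b t : Set G), ∀ d' ∈ Fx G (Ω := Ω) (VV a b t : Set G), c' ≠ d' →
      ∃ g ∈ NT (VV a b t) t, g • c = c' ∧ g • d = d') ∧
    (∀ g ∈ NT (VV a b t) t, ∀ c ∈ Fx G (Ω := Ω) (VV a b t : Set G), ∀ d ∈ Fx G (Ω := Ω) (VV a b t : Set G), c ≠ d →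
      g • c = c → g • d = d → g ∈ VV a b t) ∧
    (Nat.card Ω - 1) * 5 % (m - 1) = 0 := by
  intro m
  have htV : t ∈ VV a b t := mem_VV.2 ⟨mem_St.1 hts, rfl⟩
  have htr := Q6b.tr vf h hab ht hts
  obtain ⟨v1, v2, v3, v4, v5, v6, v7⟩ := vf h hab ht hts
  set V := VV a b t with hVdef
  set X : Set Ω := Fx G (Ω := Ω) (V : Set G) with hX
  have hm : m = Nat.card X := rfl
  have haX : a ∈ X := fun g hg => (mem_VV.1 hg).1.1
  have hbX : b ∈ X := fun g hg => (mem_VV.1 hg).1.2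
  have hN_inv : ∀ g ∈ Subgroup.normalizer (V : Set G), ∀ x ∈ X, g • x ∈ X := by
    intro g hg x hx
    refine smul_Fx (fun s hs => ?_) hx
    have h1 := (Subgroup.mem_normalizer_iff.1 (Subgroup.inv_mem _ hg) s).1 hs
    rwa [inv_inv] at h1
  have hNT_le : NT V t ≤ Subgroup.normalizer (V : Set G) := inf_le_left
  -- the intersections
  have hVN : V ≤ Subgroup.normalizer (V : Set G) := Subgroup.le_normalizer
  have e1 : ((Subgroup.normalizer (V : Set G) ⊓ stabilizer G a) ⊓ stabilizer G b : Subgroup G) =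
      St G a b ⊓ Subgroup.normalizer (V : Set G) := by
    unfold St
    rw [inf_assoc, inf_comm]
  have e2 : ((NT V t ⊓ stabilizer G a) ⊓ stabilizer G b : Subgroup G) = V := by
    ext g
    constructor
    · rintro ⟨⟨hg1, hg2⟩, hg3⟩
      have hc : g ∈ Subgroup.centralizer ({t} : Set G) := hg1.2
      rw [Subgroup.mem_centralizer_singleton_iff] at hc
      exact mem_VV.2 ⟨⟨hg2, hg3⟩, hc⟩
    · intro hg
      have h1 := mem_VV.1 hg
      refine ⟨⟨⟨hVN hg, ?_⟩, h1.1.1⟩, h1.1.2⟩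
      show g ∈ Subgroup.centralizer ({t} : Set G)
      rw [Subgroup.mem_centralizer_singleton_iff]
      exact h1.2
  -- transitivity on points and on the points different from a
  have tr1 : ∀ c ∈ X, ∃ g ∈ NT V t, g • a = c := by
    intro c hc
    by_cases hca : c = a
    · obtain ⟨g, hg, h1, -⟩ := htr a haX b hbX hab c hc b hbX (by rw [hca]; exact hab)
      exact ⟨g, hg, h1⟩
    · obtain ⟨g, hg, h1, -⟩ := htr a haX b hbX hab c hc a haX hca
      exact ⟨g, hg, h1⟩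
  have tr2 : ∀ c ∈ X \ {a}, ∃ g ∈ NT V t ⊓ stabilizer G a, g • b = c := by
    rintro c ⟨hc, hca⟩
    obtain ⟨g, hg, h1, h2⟩ := htr a haX b hbX hab a haX c hc (fun h0 => hca h0.symm)
    exact ⟨g, ⟨hg, h1⟩, h2⟩
  have hXa : Nat.card ↥(X \ {a}) = m - 1 := by
    rw [hm, Nat.card_coe_set_eq, Nat.card_coe_set_eq]
    exact Set.ncard_diff_singleton_of_mem haX
  have hinv2 : ∀ M : Subgroup G, M ≤ Subgroup.normalizer (V : Set G) →
      ∀ g ∈ M ⊓ stabilizer G a, ∀ x ∈ X \ {a}, g • x ∈ X \ {a} := by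
    rintro M hM g ⟨hg, hga⟩ x ⟨hx, hxa⟩
    refine ⟨hN_inv g (hM hg) x hx, ?_⟩
    intro h0
    apply hxa
    have h1 : g • x = g • a := by rw [Set.mem_singleton_iff.1 h0]; exact hga.symm
    exact MulAction.injective g h1
  have c1 := card_of_tr (Subgroup.normalizer (V : Set G)) X haX hN_inv
    (fun c hc => by obtain ⟨g, hg, h1⟩ := tr1 c hc; exact ⟨g, hNT_le hg, h1⟩)
  have c2 := card_of_tr (Subgroup.normalizer (V : Set G) ⊓ stabilizer G a) (X \ {a})
    (b := b) ⟨hbX, fun h0 => hab h0.symm⟩ (hinv2 _ le_rfl)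
    (fun c hc => by obtain ⟨g, hg, h1⟩ := tr2 c hc; exact ⟨g, ⟨hNT_le hg.1, hg.2⟩, h1⟩)
  have c3 := card_of_tr (NT V t) X haX (fun g hg => hN_inv g (hNT_le hg)) tr1
  have c4 := card_of_tr (NT V t ⊓ stabilizer G a) (X \ {a})
    (b := b) ⟨hbX, fun h0 => hab h0.symm⟩ (hinv2 _ hNT_le) tr2
  rw [e1, v6, hXa] at c2
  rw [e2, v1, hXa] at c4
  rw [c2, ← hm] at c1
  rw [c4, ← hm] at c3
  have hm2 : 2 ≤ m := by
    rw [hm, Nat.card_coe_set_eq]
    have h1 : ({a, b} : Set Ω).ncard = 2 := Set.ncard_pair hab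
    rw [← h1]
    refine Set.ncard_le_ncard ?_ (Set.toFinite _)
    intro x hx
    rcases hx with rfl | hx
    · exact haX
    · rw [Set.mem_singleton_iff.1 hx]; exact hbX
  refine ⟨hm2, ?_, ?_, ?_, htr, ?_, ?_⟩
  · show Nat.card X ≤ Nat.card {x : Ω // t • x = x}
    exact Nat.card_le_card_of_injective (fun x : X => (⟨x.1, x.2 t htV⟩ : {x : Ω // t • x = x}))
      (fun x y hxy => Subtype.ext (congrArg (fun z : {x : Ω // t • x = x} => z.1) hxy))
  · rw [c1]; ring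
  · rw [c3]; ring
  · intro g hg c hc d hd hcd hgc hgd
    obtain ⟨-, hVe⟩ := Q6b.VV_eq vf h hab ht hts hcd hc hd
    rw [← hVdef] at hVe
    rw [← hVe]
    have hc' : g ∈ Subgroup.centralizer ({t} : Set G) := hg.2
    rw [Subgroup.mem_centralizer_singleton_iff] at hc'
    exact mem_VV.2 ⟨⟨hgc, hgd⟩, hc'⟩
  · -- |G_a| = 60 (n - 1)
    have c5 := card_of_tr (stabilizer G a) ({a}ᶜ : Set Ω) (b := b) (fun h0 => hab h0.symm)
      (by
        intro g hg x hx h0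
        apply hx
        have h1 : g • x = g • a := by rw [Set.mem_singleton_iff.1 h0]; exact hg.symm
        exact MulAction.injective g h1)
      (by
        intro c hc
        obtain ⟨g, h1, h2⟩ := h.tr a b a c hab (fun h0 => hc h0.symm)
        exact ⟨g, h1, h2⟩)
    have e3 : (stabilizer G a ⊓ stabilizer G b : Subgroup G) = St G a b := rfl
    have e4 : Nat.card ↥({a}ᶜ : Set Ω) = Nat.card Ω - 1 := by
      rw [Nat.card_coe_set_eq, Set.ncard_compl, Set.ncard_singleton]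
    rw [e3, fa h hab, e4] at c5
    have hdvd := Subgroup.card_dvd_of_le
      (inf_le_right : Subgroup.normalizer (V : Set G) ⊓ stabilizer G a ≤ stabilizer G a)
    rw [c2, c5] at hdvd
    have h6 : 12 * (m - 1) ∣ 12 * ((Nat.card Ω - 1) * 5) := by
      have : 12 * ((Nat.card Ω - 1) * 5) = 60 * (Nat.card Ω - 1) := by ring
      rw [this]; exact hdvd
    exact Nat.mod_eq_zero_of_dvd (Nat.dvd_of_mul_dvd_mul_left (by norm_num) h6)

end H39.DA
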