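import Cfsg.Agent.Lib.H39.DA2

/-!
S3262, piece R1: `caseA_i` from the counting facts.
-/

set_option autoImplicit false
open MulAction
universe u v
namespace H39.DA.R1

theorem arith {n f : ℕ} (hf2 : 2 ≤ f) (hfn : f < n) (h15 : 15 * (n - f) = f * (f - 1) * 10)
    (hdvd : 12 * (f * (f - 1)) ∣ 60 * (n * (n - 1))) (hmod : (n - 1) * 5 % (f - 1) = 0)
    (hpp : ∃ r k : ℕ, r.Prime ∧ f = r ^ k) : n = 7 := by
  obtain ⟨x, rfl⟩ : ∃ x, f = x + 2 := ⟨f - 2, by omega⟩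
  obtain ⟨y, rfl⟩ : ∃ y, n = x + 2 + y + 1 := ⟨n - (x + 2) - 1, by omega⟩
  have e1 : x + 2 + y + 1 - (x + 2) = y + 1 := by omega
  have e2 : x + 2 - 1 = x + 1 := by omega
  have e3 : x + 2 + y + 1 - 1 = x + 2 + y := by omega
  rw [e1, e2] at h15
  rw [e2, e3] at hdvd
  rw [e3, e2] at hmod
  have h3 : 3 * (y + 1) = 2 * ((x + 2) * (x + 1)) := by nlinarith
  -- 3 ∣ f
  obtain ⟨k, hk⟩ := Nat.dvd_of_mod_eq_zero hmod
  have h4 : 3 * ((x + 1) * k) = 5 * ((2 * x + 7) * (x + 1)) := by rw [← hk]; nlinarith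
  have h5 : 3 * k = 5 * (2 * x + 7) := by
    have : (x + 1) * (3 * k) = (x + 1) * (5 * (2 * x + 7)) := by nlinarith
    exact Nat.eq_of_mul_eq_mul_left (by omega) this
  have h6 : 3 ∣ x + 2 := by omega
  obtain ⟨r, l, hr, hl⟩ := hpp
  have hr3 : r = 3 := by
    rw [hl] at h6
    exact ((Nat.prime_dvd_prime_iff_eq Nat.prime_three hr).1 (Nat.prime_three.dvd_of_dvd_pow h6)).symm
  subst hr3
  obtain ⟨c, hc⟩ := hdvd
  have h7 : 9 * c = 5 * ((2 * x + 5) * (2 * x + 7)) := by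
    have e4 : 3 * (x + 2 + y + 1) = (x + 2) * (2 * x + 5) := by nlinarith
    have e5 : 3 * (x + 2 + y) = (2 * x + 7) * (x + 1) := by nlinarith
    have e6 : 9 * ((x + 2 + y + 1) * (x + 2 + y)) = (x + 2) * (x + 1) * ((2 * x + 5) * (2 * x + 7)) := by
      calc 9 * ((x + 2 + y + 1) * (x + 2 + y)) = (3 * (x + 2 + y + 1)) * (3 * (x + 2 + y)) := by ring
        _ = (x + 2) * (2 * x + 5) * ((2 * x + 7) * (x + 1)) := by rw [e4, e5]
        _ = (x + 2) * (x + 1) * ((2 * x + 5) * (2 * x + 7)) := by ring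
    have e7 : (12 * ((x + 2) * (x + 1))) * (9 * c) = (12 * ((x + 2) * (x + 1))) * (5 * ((2 * x + 5) * (2 * x + 7))) := by
      calc (12 * ((x + 2) * (x + 1))) * (9 * c) = 9 * (12 * ((x + 2) * (x + 1)) * c) := by ring
        _ = 9 * (60 * ((x + 2 + y + 1) * (x + 2 + y))) := by rw [hc]
        _ = 60 * (9 * ((x + 2 + y + 1) * (x + 2 + y))) := by ring
        _ = 60 * ((x + 2) * (x + 1) * ((2 * x + 5) * (2 * x + 7))) := by rw [e6]
        _ = _ := by ring
    exact Nat.eq_of_mul_eq_mul_left (by positivity) e7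
  rcases Nat.lt_or_ge l 2 with h8 | h8
  · interval_cases l
    · omega
    · have : x = 1 := by omega
      subst this
      omega
  · exfalso
    have h9 : 9 ∣ x + 2 := by
      rw [hl]; exact Dvd.dvd.trans (by norm_num) (pow_dvd_pow 3 h8)
    obtain ⟨d, hd⟩ := h9
    have e8 : 2 * x + 5 = 18 * d + 1 := by omega
    have e9 : 2 * x + 7 = 18 * d + 3 := by omega
    rw [e8, e9] at h7
    have : 5 * ((18 * d + 1) * (18 * d + 3)) = 9 * (180 * d * d + 40 * d + 1) + 6 := by ring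
    omega

end H39.DA.R1

namespace H39.DA

variable {G : Type u} {Ω : Type v} [Group G] [Finite G] [MulAction G Ω] [Finite Ω]

theorem R1.caseA_i_of {a b : Ω} {t : G} (ht : Inv t) (hA : CaseA a b t)
    (hm : fS G Ω (VV a b t) = fx G Ω t)
    (hG : Nat.card G = 60 * (Nat.card Ω * (Nat.card Ω - 1))) (hf2 : 2 ≤ fx G Ω t) (hfn : fx G Ω t < Nat.card Ω)
    (h15 : 15 * (Nat.card Ω - fx G Ω t) = fx G Ω t * (fx G Ω t - 1) * Nat.card {s : G // IsConj t s ∧ s • a = b ∧ s • b = a})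
    (hN : Nat.card (Subgroup.normalizer (VV a b t : Set G)) = 12 * (fS G Ω (VV a b t) * (fS G Ω (VV a b t) - 1)))
    (hmod : (Nat.card Ω - 1) * 5 % (fS G Ω (VV a b t) - 1) = 0)
    (hpp : ∃ r k : ℕ, r.Prime ∧ fx G Ω t = r ^ k) : Nat.card Ω = 7 := by
  rw [hm] at hN hmod
  obtain ⟨h10, hconj, -⟩ := hA
  -- some swapping involution is conjugate to `t`
  have hj : Nat.card {s : G // IsConj t s ∧ s • a = b ∧ s • b = a} ≠ 0 := by
    intro h0
    rw [h0, mul_zero] at h15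
    omega
  have hne : Nonempty {s : G // IsConj t s ∧ s • a = b ∧ s • b = a} := (Nat.card_ne_zero.1 hj).1
  have hInv : ∀ s : G, IsConj t s → Inv s := by
    intro s hs
    obtain ⟨g, hg⟩ := isConj_iff.1 hs
    refine ⟨?_, ?_⟩
    · rintro rfl
      apply ht.1
      have : t = g⁻¹ * (g * t * g⁻¹) * g := by group
      rw [this, hg]; group
    · rw [← hg]
      calc g * t * g⁻¹ * (g * t * g⁻¹) = g * (t * t) * g⁻¹ := by group
        _ = 1 := by rw [ht.2]; group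
  obtain ⟨⟨s0, hs0, hs0a, hs0b⟩⟩ := hne
  have hcard : Nat.card {s : G // IsConj t s ∧ s • a = b ∧ s • b = a} = 10 := by
    rw [← h10]
    apply Nat.card_congr
    apply Equiv.subtypeEquivRight
    intro s
    constructor
    · rintro ⟨h1, h2, h3⟩
      exact ⟨hInv s h1, h2, h3⟩
    · rintro ⟨h1, h2, h3⟩
      exact ⟨hs0.trans (hconj s0 s (hInv s0 hs0) hs0a hs0b h1 h2 h3), h2, h3⟩
  rw [hcard] at h15
  have hdvd : 12 * (fx G Ω t * (fx G Ω t - 1)) ∣ 60 * (Nat.card Ω * (Nat.card Ω - 1)) := by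
    rw [← hN, ← hG]
    exact Subgroup.card_subgroup_dvd_card _
  exact R1.arith hf2 hfn h15 hdvd hmod hpp

end H39.DA
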