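import Cfsg.Agent.Lib.H39.DA2
set_option autoImplicit false
open MulAction
universe u v
namespace H39.DA

/-- doubly transitive with two-point stabilizers isomorphic to `A₄` -/
structure B4 (G : Type u) (Ω : Type v) [Group G] [MulAction G Ω] : Prop extends TT G Ω where
  a4 : ∀ a b : Ω, a ≠ b → Nonempty (St G a b ≃* alternatingGroup (Fin 4))

/-- case A for `A₄` (`K ≅ S₄`) -/
def CaseA4 {G : Type u} {Ω : Type v} [Group G] [MulAction G Ω] (a b : Ω) (t : G) : Prop :=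
  Nat.card {s : G // Inv s ∧ s • a = b ∧ s • b = a} = 6 ∧
  (∀ s s' : G, Inv s → s • a = b → s • b = a → Inv s' → s' • a = b → s' • b = a → IsConj s s') ∧
  ∃ σ ρ v : G, v ∈ VV a b t ∧ Inv σ ∧ σ • a = b ∧ σ • b = a ∧ σ * t = t * σ ∧ σ * v ≠ v * σ ∧ v * σ * v⁻¹ = σ * t ∧
    ρ • a = b ∧ ρ • b = a ∧ ρ * ρ = t ∧ ρ ∈ Subgroup.normalizer (VV a b t : Set G) ∧ σ ∈ Subgroup.normalizer (VV a b t : Set G) ∧
    ∀ g : G, g • a = b → g • b = a → g * t = t * g → g = σ ∨ g = σ * t ∨ g = ρ ∨ g = ρ * t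
end H39.DA
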