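import Cfsg.Agent.Lib.H39.DB0

/-!
Facts about the Klein four-groups of the two-point stabilizer `A₄` (S3219, piece `vfacts4`).
-/

set_option autoImplicit false

open MulAction

universe u v

namespace H39.DA

namespace D0b

/-- the alternating group of degree four -/
abbrev A : Type := alternatingGroup (Fin 4)

set_option maxRecDepth 100000

theorem a1 : ∀ t : A, t ≠ 1 → t * t = 1 → (Finset.univ.filter (fun g : A => g * t = t * g)).card = 4 := by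
  decide +kernel

theorem a2 : ∀ t : A, t ≠ 1 → t * t = 1 → ∀ g : A, g * t = t * g → g * g = 1 := by
  decide +kernel

theorem a4 : ∀ t : A, t ≠ 1 → t * t = 1 → ∀ s : A, s ≠ 1 → s * t = t * s → ∀ g : A, g * s = s * g → g * t = t * g := by
  decide +kernel

theorem a5 : ∀ t : A, t ≠ 1 → t * t = 1 → ∀ s : A, s ≠ 1 → s * t = t * s → ∃ x : A, x * t * x⁻¹ = s := by
  decide +kernel

theorem a6 : ∀ t : A, t ≠ 1 → t * t = 1 → ∀ g : A, (g * t * g⁻¹) * t = t * (g * t * g⁻¹) := by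
  decide +kernel

theorem a7 : ∀ t : A, t ≠ 1 → t * t = 1 → ∀ s : A, s * s = 1 → s * t = t * s := by
  decide +kernel

theorem a8 : ∀ g : A, (g * g) * (g * g) = 1 → g * g = 1 := by
  decide +kernel

section
variable {G : Type u} [Group G] {S : Subgroup G}

theorem comm_iff (e : S ≃* A) {x y : G} (hx : x ∈ S) (hy : y ∈ S) :
    e ⟨x, hx⟩ * e ⟨y, hy⟩ = e ⟨y, hy⟩ * e ⟨x, hx⟩ ↔ x * y = y * x := by
  rw [← map_mul, ← map_mul, e.injective.eq_iff, Subtype.ext_iff]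
  rfl

theorem one_iff (e : S ≃* A) {x : G} (hx : x ∈ S) : e ⟨x, hx⟩ = 1 ↔ x = 1 := by
  rw [← map_one e, e.injective.eq_iff, Subtype.ext_iff]
  rfl

theorem sq_iff (e : S ≃* A) {x : G} (hx : x ∈ S) : e ⟨x, hx⟩ * e ⟨x, hx⟩ = 1 ↔ x * x = 1 := by
  rw [← map_mul, ← map_one e, e.injective.eq_iff, Subtype.ext_iff]
  rfl

/-- four-group -/
def W (S : Subgroup G) (t : G) : Subgroup G := S ⊓ Subgroup.centralizer {t}

theorem mem_W {t x : G} : x ∈ W S t ↔ x ∈ S ∧ x * t = t * x := by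
  unfold W
  rw [Subgroup.mem_inf, Subgroup.mem_centralizer_singleton_iff]

theorem card_W (e : S ≃* A) {t : G} (htS : t ∈ S) (ht : Inv t) : Nat.card (W S t) = 4 := by
  have h1 := a1 (e ⟨t, htS⟩) (fun h => ht.1 ((one_iff e htS).1 h)) ((sq_iff e htS).2 ht.2)
  rw [← h1, ← Fintype.card_subtype, ← Nat.card_eq_fintype_card]
  refine Nat.card_congr ⟨fun x => ⟨e ⟨x.1, (mem_W.1 x.2).1⟩, (comm_iff e _ _).2 (mem_W.1 x.2).2⟩,
    fun y => ⟨(e.symm y.1 : S), mem_W.2 ⟨(e.symm y.1).2, ?_⟩⟩, ?_, ?_⟩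
  · have h2 := y.2
    rw [← comm_iff e (e.symm y.1).2 htS]
    simpa using h2
  · intro x
    simp
  · intro y
    simp

theorem sq_W (e : S ≃* A) {t : G} (htS : t ∈ S) (ht : Inv t) {g : G} (hg : g ∈ W S t) : g * g = 1 := by
  rw [mem_W] at hg
  have h1 := a2 (e ⟨t, htS⟩) (fun h => ht.1 ((one_iff e htS).1 h)) ((sq_iff e htS).2 ht.2) (e ⟨g, hg.1⟩)
    ((comm_iff e _ _).2 hg.2)
  exact (sq_iff e hg.1).1 h1

theorem comm_W (e : S ≃* A) {t : G} (htS : t ∈ S) (ht : Inv t) {g g' : G} (hg : g ∈ W S t) (hg' : g' ∈ W S t) :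
    g * g' = g' * g := by
  have h1 := sq_W e htS ht hg
  have h2 := sq_W e htS ht hg'
  have h3 := sq_W e htS ht (mul_mem hg hg')
  have e1 : g⁻¹ = g := inv_eq_of_mul_eq_one_left h1
  have e2 : g'⁻¹ = g' := inv_eq_of_mul_eq_one_left h2
  have e3 : (g * g')⁻¹ = g * g' := inv_eq_of_mul_eq_one_left h3
  rw [← e3, mul_inv_rev, e1, e2]

theorem W_le (e : S ≃* A) {t : G} (htS : t ∈ S) (ht : Inv t) {s : G} (hs : s ∈ W S t) (hs1 : s ≠ 1) :
    W S s ≤ W S t := by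
  intro x hx
  rw [mem_W] at hx ⊢
  refine ⟨hx.1, ?_⟩
  have hs' := mem_W.1 hs
  have h1 := a4 (e ⟨t, htS⟩) (fun h => ht.1 ((one_iff e htS).1 h)) ((sq_iff e htS).2 ht.2) (e ⟨s, hs'.1⟩)
    (fun h => hs1 ((one_iff e hs'.1).1 h)) ((comm_iff e _ _).2 hs'.2) (e ⟨x, hx.1⟩) ((comm_iff e _ _).2 hx.2)
  exact (comm_iff e _ _).1 h1

theorem W_eq (e : S ≃* A) {t : G} (htS : t ∈ S) (ht : Inv t) {s : G} (hs : s ∈ W S t) (hs1 : s ≠ 1) :
    W S s = W S t := by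
  have hs' := mem_W.1 hs
  refine le_antisymm (W_le e htS ht hs hs1) ?_
  exact W_le e hs'.1 ⟨hs1, sq_W e htS ht hs⟩ (mem_W.2 ⟨htS, hs'.2.symm⟩) ht.1

theorem norm_iff (e : S ≃* A) {t : G} (htS : t ∈ S) (ht : Inv t) {x : G} (hx : x ∈ S) :
    x ∈ Subgroup.normalizer (W S t : Set G) ↔ x * t * x⁻¹ ∈ W S t := by
  constructor
  · intro h
    exact (Subgroup.mem_normalizer_iff.1 h t).1 (mem_W.2 ⟨htS, rfl⟩)
  · intro h
    have h1 : x * t * x⁻¹ ≠ 1 := fun h2 => ht.1 (by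
      have := conj_eq_one_iff.1 h2
      exact this)
    have h2 := W_eq e htS ht h h1
    rw [Subgroup.mem_normalizer_iff]
    intro y
    have h3 : y ∈ W S t ↔ x * y * x⁻¹ ∈ W S (x * t * x⁻¹) := by
      rw [mem_W, mem_W]
      constructor
      · rintro ⟨p, q⟩
        refine ⟨mul_mem (mul_mem hx p) (inv_mem hx), ?_⟩
        calc x * y * x⁻¹ * (x * t * x⁻¹) = x * (y * t) * x⁻¹ := by group
          _ = x * (t * y) * x⁻¹ := by rw [q]
          _ = _ := by group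
      · rintro ⟨p, q⟩
        refine ⟨?_, ?_⟩
        · have := mul_mem (mul_mem (inv_mem hx) p) hx
          simpa [mul_assoc] using this
        · have h4 : x * (y * t) * x⁻¹ = x * (t * y) * x⁻¹ := by
            calc x * (y * t) * x⁻¹ = x * y * x⁻¹ * (x * t * x⁻¹) := by group
              _ = _ := q
              _ = _ := by group
          exact mul_left_cancel (mul_right_cancel h4)
    rw [h2] at h3
    exact h3

theorem norm_all (e : S ≃* A) {t : G} (htS : t ∈ S) (ht : Inv t) {x : G} (hx : x ∈ S) :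
    x ∈ Subgroup.normalizer (W S t : Set G) := by
  rw [norm_iff e htS ht hx, mem_W]
  have hc : x * t * x⁻¹ ∈ S := mul_mem (mul_mem hx htS) (inv_mem hx)
  refine ⟨hc, ?_⟩
  have h1 := a6 (e ⟨t, htS⟩) (fun h => ht.1 ((one_iff e htS).1 h)) ((sq_iff e htS).2 ht.2) (e ⟨x, hx⟩)
  have h2 : e ⟨x * t * x⁻¹, hc⟩ = e ⟨x, hx⟩ * e ⟨t, htS⟩ * (e ⟨x, hx⟩)⁻¹ := by
    rw [← map_mul, ← map_inv, ← map_mul]
    rfl
  rw [← h2] at h1
  exact (comm_iff e hc htS).1 h1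

theorem inv_mem_W (e : S ≃* A) {t : G} (htS : t ∈ S) (ht : Inv t) {s : G} (hs : s ∈ S) (hs2 : s * s = 1) :
    s ∈ W S t := by
  rw [mem_W]
  refine ⟨hs, ?_⟩
  exact (comm_iff e hs htS).1 (a7 (e ⟨t, htS⟩) (fun h => ht.1 ((one_iff e htS).1 h)) ((sq_iff e htS).2 ht.2)
    (e ⟨s, hs⟩) ((sq_iff e hs).2 hs2))

theorem eq_W (e : S ≃* A) {t : G} (htS : t ∈ S) (ht : Inv t) (V' : Subgroup G) (hV' : V' ≤ S)
    (hc : Nat.card V' = 4) : V' = W S t := by
  have hle : V' ≤ W S t := by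
    intro g hg
    have hgS := hV' hg
    refine inv_mem_W e htS ht hgS ?_
    have h1 : (⟨g, hg⟩ : V') ^ 4 = 1 := by
      rw [← hc]; exact pow_card_eq_one'
    have h2 : g ^ 4 = 1 := congrArg Subtype.val h1
    have h3 : (g * g) * (g * g) = 1 := by
      rw [← h2]; simp only [pow_succ, pow_zero, one_mul, mul_assoc]
    have h4 : (e ⟨g, hgS⟩ * e ⟨g, hgS⟩) * (e ⟨g, hgS⟩ * e ⟨g, hgS⟩) = 1 := by
      rw [← map_mul, ← map_mul, ← map_one e]
      exact congrArg e (Subtype.ext h3)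
    exact (sq_iff e hgS).1 (a8 _ h4)
  haveI : Finite (W S t) := Nat.finite_of_card_ne_zero (by rw [card_W e htS ht]; norm_num)
  exact Subgroup.eq_of_le_of_card_ge hle (by rw [card_W e htS ht, hc])

end

end D0b

variable {G : Type u} {Ω : Type v} [Group G] [Finite G] [MulAction G Ω] [Finite Ω]

theorem vfacts4 (h : B4 G Ω) {a b : Ω} (hab : a ≠ b) {t : G} (ht : Inv t) (hts : t ∈ St G a b) :
    Nat.card (VV a b t) = 4 ∧ (∀ g ∈ VV a b t, g * g = 1) ∧ (∀ g ∈ VV a b t, ∀ g' ∈ VV a b t, g * g' = g' * g) ∧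
    (∀ s ∈ VV a b t, s ≠ 1 → VV a b s = VV a b t) ∧
    (∀ s ∈ VV a b t, s ≠ 1 → ∃ x ∈ St G a b, x ∈ Subgroup.normalizer (VV a b t : Set G) ∧ x * t * x⁻¹ = s) ∧
    (∀ g ∈ St G a b, g ∈ Subgroup.normalizer (VV a b t : Set G)) ∧
    (∀ s ∈ St G a b, Inv s → s ∈ VV a b t) ∧
    (∀ V' : Subgroup G, V' ≤ St G a b → Nat.card V' = 4 → V' = VV a b t) := by
  obtain ⟨e⟩ := h.a4 a b hab
  refine ⟨D0b.card_W e hts ht, fun g hg => D0b.sq_W e hts ht hg, fun g hg g' hg' => D0b.comm_W e hts ht hg hg',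
    fun s hs hs1 => D0b.W_eq e hts ht hs hs1, ?_, fun g hg => D0b.norm_all e hts ht hg,
    fun s hs hs1 => D0b.inv_mem_W e hts ht hs hs1.2,
    fun V' hV' hc => D0b.eq_W e hts ht V' hV' hc⟩
  intro s hs hs1
  have hs' := D0b.mem_W.1 hs
  obtain ⟨x, hx⟩ := D0b.a5 (e ⟨t, hts⟩) (fun h => ht.1 ((D0b.one_iff e hts).1 h)) ((D0b.sq_iff e hts).2 ht.2)
    (e ⟨s, hs'.1⟩) (fun h => hs1 ((D0b.one_iff e hs'.1).1 h)) ((D0b.comm_iff e _ _).2 hs'.2)
  have h1 : ((e.symm x : St G a b) : G) * t * ((e.symm x : St G a b) : G)⁻¹ = s := by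
    have h2 : e (e.symm x * ⟨t, hts⟩ * (e.symm x)⁻¹) = e ⟨s, hs'.1⟩ := by
      rw [map_mul, map_mul, map_inv, e.apply_symm_apply]
      exact hx
    exact congrArg Subtype.val (e.injective h2)
  refine ⟨(e.symm x : St G a b), (e.symm x).2, ?_, h1⟩
  refine (D0b.norm_iff e hts ht (e.symm x).2).2 ?_
  rw [h1]
  exact hs

end H39.DA
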