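import Cfsg.Agent.Lib.H39.DB0
import Cfsg.Agent.Lib.H39.DAQ6bGen
import Cfsg.Agent.Lib.H39.DBD0b

set_option autoImplicit false
open MulAction
universe u v
namespace H39.DA

variable {G : Type u} {Ω : Type v} [Group G] [Finite G] [MulAction G Ω] [Finite Ω]

theorem BD3.card_St (h : B4 G Ω) {a b : Ω} (hab : a ≠ b) : Nat.card (St G a b) = 12 := by
  obtain ⟨e⟩ := h.a4 a b hab
  rw [Nat.card_congr e.toEquiv, nat_card_alternatingGroup]
  simp [Nat.factorial]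

theorem countV4 (h : B4 G Ω) {a b : Ω} (hab : a ≠ b) {t : G} (ht : Inv t) (hts : t ∈ St G a b) :
    let m := fS G Ω (VV a b t)
    2 ≤ m ∧ m ≤ fx G Ω t ∧ Nat.card (Subgroup.normalizer (VV a b t : Set G)) = 12 * (m * (m - 1)) ∧
    Nat.card (NT (VV a b t) t) = 4 * (m * (m - 1)) ∧
    (∀ c ∈ Fx G (Ω := Ω) (VV a b t : Set G), ∀ d ∈ Fx G (Ω := Ω) (VV a b t : Set G), c ≠ d →
      ∀ c' ∈ Fx G (Ω := Ω) (VV a b t : Set G), ∀ d' ∈ Fx G (Ω := Ω) (VV a b t : Set G), c' ≠ d' →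
      ∃ g ∈ NT (VV a b t) t, g • c = c' ∧ g • d = d') ∧
    (∀ g ∈ NT (VV a b t) t, ∀ c ∈ Fx G (Ω := Ω) (VV a b t : Set G), ∀ d ∈ Fx G (Ω := Ω) (VV a b t : Set G), c ≠ d →
      g • c = c → g • d = d → g ∈ VV a b t) := by
  have key := Q6bG.main (G := G) (Ω := Ω) (fun {a b} hab {t} ht hts => by
    obtain ⟨v1, v2, v3, v4, v5, v6, -, v8⟩ := vfacts4 h hab ht hts
    refine ⟨v1, v2, v3, v4, v5, ?_, ?_⟩
    · have hle : St G a b ≤ Subgroup.normalizer (VV a b t : Set G) := v6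
      rw [inf_eq_left.2 hle]
      exact BD3.card_St h hab
    · intro V' hV' h4
      refine ⟨1, Subgroup.one_mem _, ?_⟩
      rw [v8 V' hV' h4]
      ext x
      simp) (fun {a b} hab => BD3.card_St h hab) h.toTT hab ht hts
  exact ⟨key.1, key.2.1, key.2.2.1, key.2.2.2.1, key.2.2.2.2.1, key.2.2.2.2.2.1⟩

end H39.DA
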