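import Cfsg.Agent.Lib.H39.DBA1core
import Cfsg.Agent.Lib.H39.DBD2
import Cfsg.Agent.Lib.H39.DBD3
import Cfsg.Agent.Lib.H39.DBD4
set_option autoImplicit false
open MulAction
universe u v
namespace H39.DA
variable {G : Type u} {Ω : Type v} [Group G] [Finite G] [MulAction G Ω] [Finite Ω]

theorem a4A_eq_even (h : B4 G Ω) {a b : Ω} (hab : a ≠ b) {t : G} (ht : Inv t) (hts : t ∈ St G a b) (hA : CaseA4 a b t)
    (hm : fS G Ω (VV a b t) = fx G Ω t) (he : Even (fx G Ω t)) : Nat.card Ω = 6 := by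
  obtain ⟨-, -, hf2, hfn, h3, -⟩ := count4 h hab ht hts
  obtain ⟨hV4, -, hVc, -⟩ := vfacts4 h hab ht hts
  obtain ⟨-, -, -, -, -, hker⟩ := countV4 h hab ht hts
  have htV : t ∈ VV a b t := ⟨hts, Subgroup.mem_centralizer_singleton_iff.2 rfl⟩
  exact BA1c.core ht htV hA hm he hf2 hfn h3 hV4 hVc hker (sh_YB4 h hab ht hts)
end H39.DA
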