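import Cfsg.Agent.Lib.H39.DB0
import Cfsg.Agent.Lib.H39.DAQ1
set_option autoImplicit false
open MulAction
universe u v
namespace H39.DA.BA1c

variable {G : Type u} {Ω : Type v} [Group G] [Finite G] [MulAction G Ω] [Finite Ω]

/-- the four elements of `V` -/
theorem mem_four {V : Subgroup G} {t v : G} (hV4 : Nat.card V = 4) (htV : t ∈ V) (hv : v ∈ V)
    (ht1 : t ≠ 1) (hv1 : v ≠ 1) (hvt : v ≠ t) (hsq : t * t = 1) {w : G} (hw : w ∈ V) :
    w = 1 ∨ w = t ∨ w = v ∨ w = t * v := by
  classical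
  have h1 : (({1, t, v, t * v} : Finset G) : Set G) ⊆ (V : Set G) := by
    intro x hx
    simp only [Finset.coe_insert, Finset.coe_singleton, Set.mem_insert_iff, Set.mem_singleton_iff] at hx
    rcases hx with rfl | rfl | rfl | rfl
    · exact V.one_mem
    · exact htV
    · exact hv
    · exact V.mul_mem htV hv
  have htv1 : t * v ≠ 1 := by
    intro hh
    apply hvt
    have : t * (t * v) = t := by rw [hh, mul_one]
    rw [← mul_assoc, hsq, one_mul] at this
    exact this
  have h2 : ({1, t, v, t * v} : Finset G).card = 4 := by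
    rw [Finset.card_insert_of_notMem, Finset.card_insert_of_notMem, Finset.card_insert_of_notMem,
      Finset.card_singleton]
    · simp only [Finset.mem_singleton]
      intro hh
      exact ht1 (mul_eq_right.1 hh.symm)
    · simp only [Finset.mem_insert, Finset.mem_singleton, not_or]
      exact ⟨hvt.symm, fun hh => hv1 (mul_eq_left.1 hh.symm)⟩
    · simp only [Finset.mem_insert, Finset.mem_singleton, not_or]
      exact ⟨ht1.symm, hv1.symm, htv1.symm⟩
  have h3 := Set.eq_of_subset_of_ncard_le h1 (by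
    rw [Set.ncard_coe_finset, h2]
    have : (V : Set G).ncard = Nat.card V := rfl
    rw [this, hV4]) (Set.toFinite _)
  have hw' : w ∈ (V : Set G) := hw
  rw [← h3] at hw'
  simpa using hw'

/-- core of BA1 -/
theorem core {a b : Ω} {t : G} (ht : Inv t) (htV : t ∈ VV a b t) (hA : CaseA4 a b t)
    (hm : fS G Ω (VV a b t) = fx G Ω t) (he : Even (fx G Ω t))
    (hf2 : 2 ≤ fx G Ω t) (hfn : fx G Ω t < Nat.card Ω)
    (h3 : 3 * (Nat.card Ω - fx G Ω t) = fx G Ω t * (fx G Ω t - 1) * Nat.card {s : G // IsConj t s ∧ s • a = b ∧ s • b = a})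
    (hV4 : Nat.card (VV a b t) = 4) (hVc : ∀ g ∈ VV a b t, ∀ g' ∈ VV a b t, g * g' = g' * g)
    (hker : ∀ g ∈ NT (VV a b t) t, ∀ c ∈ Fx G (Ω := Ω) (VV a b t : Set G), ∀ d ∈ Fx G (Ω := Ω) (VV a b t : Set G), c ≠ d →
      g • c = c → g • d = d → g ∈ VV a b t)
    (hsh : Sh (YB G Ω (VV a b t) t) (Fx G (Ω := Ω) (VV a b t : Set G))) : Nat.card Ω = 6 := by
  classical
  obtain ⟨hc6, hconj, σ, ρ, v, hv, hσi, hσa, hσb, hσt, hσv, -, -, -, -, -, hσN, -⟩ := hA
  have hvt : v ≠ t := fun hh => hσv (by rw [hh, hσt])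
  have hv1 : v ≠ 1 := fun hh => hσv (by rw [hh, one_mul, mul_one])
  have ht1 : t ≠ 1 := ht.1
  have hsq : t * t = 1 := ht.2
  -- j = 6
  have hj0 : 0 < Nat.card {s : G // IsConj t s ∧ s • a = b ∧ s • b = a} := by
    rcases Nat.eq_zero_or_pos (Nat.card {s : G // IsConj t s ∧ s • a = b ∧ s • b = a}) with h0 | h0
    · rw [h0, mul_zero] at h3; omega
    · exact h0
  have hj : Nat.card {s : G // IsConj t s ∧ s • a = b ∧ s • b = a} = 6 := by
    rw [← hc6]
    obtain ⟨⟨s₀, hs₀, hs₀a, hs₀b⟩⟩ := (Nat.card_pos_iff.1 hj0).1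
    have hinv : ∀ s : G, IsConj t s → Inv s := by
      intro s hs
      obtain ⟨c, rfl⟩ := isConj_iff.1 hs
      constructor
      · intro hh
        exact ht1 (by simpa using hh)
      · have : c * t * c⁻¹ * (c * t * c⁻¹) = c * (t * t) * c⁻¹ := by group
        rw [this, hsq]; group
    refine Nat.card_congr (Equiv.subtypeEquivRight fun s => ?_)
    constructor
    · rintro ⟨h1, h2, h4⟩
      exact ⟨hinv s h1, h2, h4⟩
    · rintro ⟨h1, h2, h4⟩
      exact ⟨hs₀.trans (hconj s₀ s (hinv s₀ hs₀) hs₀a hs₀b h1 h2 h4), h2, h4⟩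
  rw [hj] at h3
  -- f = 2
  have hX : Nat.card (Fx G (Ω := Ω) (VV a b t : Set G)) = fx G Ω t := by rw [← hm]; rfl
  obtain ⟨-, k, F, -, -, -, -, -, -, hind⟩ := sh_even hsh (by rw [hX]; exact he)
  have hf : fx G Ω t = 2 := by
    by_contra hne
    have hlt : 2 < Nat.card (Fx G (Ω := Ω) (VV a b t : Set G)) := by rw [hX]; omega
    set N := NT (VV a b t) t with hN
    let r : N →* YB G Ω (VV a b t) t :=
      (resHom (NT (VV a b t) t) (Fx G (Ω := Ω) (VV a b t : Set G)) NT_inv).rangeRestrict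
    have hr : Function.Surjective r := MonoidHom.rangeRestrict_surjective _
    let C : Subgroup N :=
      { carrier := {g | (g : G) * v = v * g}
        one_mem' := by simp
        mul_mem' := by
          intro x y hx hy
          have hx : (x : G) * v = v * x := hx
          have hy : (y : G) * v = v * y := hy
          change (x : G) * y * v = v * (x * y)
          rw [mul_assoc, hy, ← mul_assoc, hx, mul_assoc]
        inv_mem' := by
          intro x hx
          have hx : (x : G) * v = v * x := hx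
          change (x : G)⁻¹ * v = v * (x : G)⁻¹
          rw [inv_mul_eq_iff_eq_mul, ← mul_assoc, hx, mul_assoc, mul_inv_cancel, mul_one] }
    have hCm : ∀ g : N, g ∈ C ↔ (g : G) * v = v * g := fun g => Iff.rfl
    have hrk : r.ker ≤ C := by
      intro g hg
      rw [MonoidHom.mem_ker] at hg
      rw [hCm]
      have hfix : ∀ x ∈ Fx G (Ω := Ω) (VV a b t : Set G), (g : G) • x = x := by
        intro x hx
        have h1 := congrArg Subtype.val hg
        have h2 := congrFun (congrArg DFunLike.coe h1) ⟨x, hx⟩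
        exact congrArg Subtype.val h2
      have hcard1 : 1 < Nat.card (Fx G (Ω := Ω) (VV a b t : Set G)) := by omega
      obtain ⟨⟨c, hc⟩, ⟨d, hd⟩, hcd⟩ := (Finite.one_lt_card_iff_nontrivial.1 hcard1).exists_pair_ne
      have hgV := hker g g.2 c hc d hd (fun hh => hcd (Subtype.ext hh)) (hfix c hc) (hfix d hd)
      exact hVc _ hgV _ hv
    have hnorm : ∀ g : N, (g : G) * v * (g : G)⁻¹ = v ∨ (g : G) * v * (g : G)⁻¹ = t * v := by
      intro g
      have hgN : (g : G) ∈ Subgroup.normalizer (VV a b t : Set G) := g.2.1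
      have hgt : (g : G) * t = t * g := by
        exact Subgroup.mem_centralizer_singleton_iff.1 g.2.2
      have h1 : (g : G) * v * (g : G)⁻¹ ∈ VV a b t := (Subgroup.mem_normalizer_iff.1 hgN v).1 hv
      rcases mem_four hV4 htV hv ht1 hv1 hvt hsq h1 with h2 | h2 | h2 | h2
      · exact absurd (by simpa using h2) hv1
      · refine absurd ?_ hvt
        have h4 : v = (g : G)⁻¹ * (t * g) := by
          rw [← h2]; group
        rw [h4, ← hgt]; group
      · exact Or.inl h2
      · exact Or.inr h2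
    have hσNT : σ ∈ N := ⟨hσN, Subgroup.mem_centralizer_singleton_iff.2 hσt⟩
    have hcomm : ∀ g : N, g ∈ C ↔ (g : G) * v * (g : G)⁻¹ = v := by
      intro g
      rw [hCm, mul_inv_eq_iff_eq_mul]
    have htvne : t * v ≠ v := fun hh => ht1 (mul_eq_right.1 hh)
    have hCi : C.index = 2 := by
      rw [Subgroup.index_eq_two_iff]
      refine ⟨⟨σ, hσNT⟩, fun g => ?_⟩
      have hσc : σ * v * σ⁻¹ = t * v := by
        rcases hnorm ⟨σ, hσNT⟩ with h1 | h1
        · exact absurd (mul_inv_eq_iff_eq_mul.1 h1) hσv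
        · exact h1
      have hgt : (g : G) * t = t * g := by
        exact Subgroup.mem_centralizer_singleton_iff.1 g.2.2
      have hgσ : ((g * ⟨σ, hσNT⟩ : N) : G) * v * ((g * ⟨σ, hσNT⟩ : N) : G)⁻¹ = t * ((g : G) * v * (g : G)⁻¹) := by
        have e1 : ((g * ⟨σ, hσNT⟩ : N) : G) * v * ((g * ⟨σ, hσNT⟩ : N) : G)⁻¹ = (g : G) * (σ * v * σ⁻¹) * (g : G)⁻¹ := by
          push_cast; group
        rw [e1, hσc, ← mul_assoc, hgt]; group
      rw [hcomm, hcomm, hgσ]
      rcases hnorm g with h1 | h1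
      · rw [h1]
        right
        exact ⟨rfl, htvne⟩
      · rw [h1, ← mul_assoc, hsq, one_mul]
        left
        exact ⟨rfl, htvne⟩
    have := hind hlt (C.map r)
    rw [Subgroup.index_map_eq C hr hrk] at this
    exact this hCi
  rw [hf] at h3
  omega

end H39.DA.BA1c
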