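import Cfsg.Agent.Lib.H39.DBD0b
import Cfsg.Agent.Lib.H39.DBD2
import Cfsg.Agent.Lib.H39.DBD3
import Cfsg.Agent.Lib.H39.DBD4
import Cfsg.Agent.Lib.H39.DAQ2
import Cfsg.Agent.Lib.H2.CF.Rel
import Cfsg.Agent.Lib.H25.DQ

/-!
S3219, piece BA2: the shape of the group (`m = f` odd, case A).
-/

set_option autoImplicit false
set_option linter.unusedSectionVars false
open MulAction
universe u v
namespace H39.DA.BA2

/-- `⟨w, τ⟩` dihedral of order eight -/
theorem d8_iso {G : Type*} [Group G] {w z τ : G} (h : H2.CF.Rel w z τ) :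
    Nonempty (Subgroup.closure {w, τ} ≃* DihedralGroup 4) := by
  refine H25.DQ.nonempty_dihedral 4 w τ _ h.w4 h.t2 h.rel h.tmem ?_
  intro g
  rw [h.mem_D]
  constructor
  · rintro (h1 | h1)
    · left; obtain ⟨i, hi⟩ := Subgroup.mem_zpowers_iff.1 h1; exact ⟨i, hi.symm⟩
    · right
      obtain ⟨i, hi⟩ := Subgroup.mem_zpowers_iff.1 h1
      refine ⟨-i, ?_⟩
      have h2 : g = w ^ i * τ := by rw [hi, mul_assoc, h.t2, mul_one]
      have h3 : τ * w ^ (-i) * τ⁻¹ = w ^ i := by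
        rw [← conj_zpow, h.rel, zpow_neg, inv_zpow, inv_inv]
      rw [mul_inv_eq_iff_eq_mul] at h3
      rw [h3, h2]
  · rintro (⟨i, rfl⟩ | ⟨i, rfl⟩)
    · left; exact zpow_mem (Subgroup.mem_zpowers _) _
    · right
      have h3 : τ * w ^ i * τ⁻¹ = w ^ (-i) := by
        rw [← conj_zpow, h.rel, zpow_neg, inv_zpow]
      rw [h.tinv] at h3
      rw [h3]; exact zpow_mem (Subgroup.mem_zpowers _) _

variable {G : Type u} {Ω : Type v} [Group G] [Finite G] [MulAction G Ω] [Finite Ω]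

theorem inv_conj {t s : G} (ht : Inv t) (h : IsConj t s) : Inv s := by
  obtain ⟨g, hg⟩ := isConj_iff.1 h
  refine ⟨?_, ?_⟩
  · rintro rfl
    apply ht.1
    have : t = g⁻¹ * (g * t * g⁻¹) * g := by group
    rw [this, hg]; group
  · rw [← hg]
    calc g * t * g⁻¹ * (g * t * g⁻¹) = g * (t * t) * g⁻¹ := by group
      _ = 1 := by rw [ht.2]; group

/-- numbers -/
theorem nums (h : B4 G Ω) {a b : Ω} (hab : a ≠ b) {t : G} (ht : Inv t) (hts : t ∈ St G a b) (hA : CaseA4 a b t) :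
    Nat.card Ω = fx G Ω t * (2 * fx G Ω t - 1) ∧
      (∃ s : G, IsConj t s ∧ s • a = b ∧ s • b = a) := by
  obtain ⟨-, -, hf2, hfn, h3, -⟩ := count4 h hab ht hts
  obtain ⟨h6, hconj, -⟩ := hA
  have hj : Nat.card {s : G // IsConj t s ∧ s • a = b ∧ s • b = a} ≠ 0 := by
    intro h0
    rw [h0, mul_zero] at h3
    omega
  have hne : Nonempty {s : G // IsConj t s ∧ s • a = b ∧ s • b = a} := (Nat.card_ne_zero.1 hj).1
  obtain ⟨⟨s0, hs0, hs0a, hs0b⟩⟩ := hne
  have hcard : Nat.card {s : G // IsConj t s ∧ s • a = b ∧ s • b = a} = 6 := by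
    rw [← h6]
    apply Nat.card_congr
    apply Equiv.subtypeEquivRight
    intro s
    constructor
    · rintro ⟨h1, h2, h3⟩
      exact ⟨inv_conj ht h1, h2, h3⟩
    · rintro ⟨h1, h2, h3⟩
      exact ⟨hs0.trans (hconj s0 s (inv_conj ht hs0) hs0a hs0b h1 h2 h3), h2, h3⟩
  rw [hcard] at h3
  refine ⟨?_, s0, hs0, hs0a, hs0b⟩
  obtain ⟨x, hx⟩ : ∃ x, fx G Ω t = x + 2 := ⟨fx G Ω t - 2, by omega⟩
  rw [hx] at h3 hfn ⊢
  obtain ⟨y, hy⟩ : ∃ y, Nat.card Ω = x + 2 + y := ⟨Nat.card Ω - (x + 2), by omega⟩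
  rw [hy] at h3 ⊢
  have e1 : x + 2 + y - (x + 2) = y := by omega
  have e2 : x + 2 - 1 = x + 1 := by omega
  have e3 : 2 * (x + 2) - 1 = 2 * x + 3 := by omega
  rw [e1, e2] at h3
  rw [e3]
  nlinarith

/-- all involutions are conjugate -/
theorem all_conj (h : B4 G Ω) {a b : Ω} (hab : a ≠ b) {t : G} (ht : Inv t) (hts : t ∈ St G a b) (hA : CaseA4 a b t)
    {s : G} (hs : Inv s) : IsConj t s := by
  obtain ⟨-, s0, hs0, hs0a, hs0b⟩ := nums h hab ht hts hA
  obtain ⟨-, hconj, -⟩ := hA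
  have h1 : ∃ x : Ω, s • x ≠ x := by
    by_contra hcon
    push Not at hcon
    exact hs.1 (h.faith s hcon)
  obtain ⟨x, hx⟩ := h1
  obtain ⟨g, hga, hgb⟩ := h.tr x (s • x) a b (Ne.symm hx) hab
  have hsx : s • (s • x) = x := by rw [← mul_smul, hs.2, one_smul]
  have hc : IsConj s (g * s * g⁻¹) := isConj_iff.2 ⟨g, rfl⟩
  have h2 : (g * s * g⁻¹) • a = b := by
    rw [mul_smul, mul_smul, ← hga, inv_smul_smul]; exact hgb
  have h3 : (g * s * g⁻¹) • b = a := by
    rw [mul_smul, mul_smul, ← hgb, inv_smul_smul, hsx]; exact hga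
  exact (hs0.trans (hconj _ _ (inv_conj ht hs0) hs0a hs0b (inv_conj hs hc) h2 h3)).trans hc.symm

/-- `C(t)` normalizes `V` -/
theorem cent_le (h : B4 G Ω) {a b : Ω} (hab : a ≠ b) {t : G} (ht : Inv t) (hts : t ∈ St G a b)
    (hm : fS G Ω (VV a b t) = fx G Ω t) :
    NT (VV a b t) t = Subgroup.centralizer ({t} : Set G) := by
  obtain ⟨-, hC, -⟩ := count4 h hab ht hts
  obtain ⟨-, -, -, hN, -⟩ := countV4 h hab ht hts
  rw [hm] at hN
  exact Subgroup.eq_of_le_of_card_ge inf_le_right (by rw [hC, hN])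

/-- the elements of `V` -/
theorem mem_V (h : B4 G Ω) {a b : Ω} (hab : a ≠ b) {t : G} (ht : Inv t) (hts : t ∈ St G a b) {v : G}
    (hv : v ∈ VV a b t) (hv1 : v ≠ 1) (hvt : v ≠ t) {w : G} (hw : w ∈ VV a b t) :
    w = 1 ∨ w = t ∨ w = v ∨ w = v * t := by
  obtain ⟨hc, hsq, -, -⟩ := vfacts4 h hab ht hts
  have htV : t ∈ VV a b t := ⟨hts, Subgroup.mem_centralizer_singleton_iff.2 rfl⟩
  have hsub : ({1, t, v, v * t} : Set G) ⊆ (VV a b t : Set G) := by
    rintro x (rfl | rfl | rfl | rfl)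
    · exact one_mem _
    · exact htV
    · exact hv
    · exact mul_mem hv htV
  have h1 : v * t ≠ 1 := fun h1 => hvt (by
    calc v = v * t * t := by rw [mul_assoc, ht.2, mul_one]
      _ = t := by rw [h1, one_mul])
  have h2 : v * t ≠ t := fun h2 => hv1 (mul_eq_right.1 h2)
  have h3 : v * t ≠ v := fun h3 => ht.1 (mul_eq_left.1 h3)
  have hcard : ({1, t, v, v * t} : Set G).ncard = 4 := by
    rw [Set.ncard_insert_of_notMem, Set.ncard_insert_of_notMem, Set.ncard_pair (Ne.symm h3)]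
    · simp only [Set.mem_insert_iff, Set.mem_singleton_iff, not_or]
      exact ⟨Ne.symm hvt, Ne.symm h2⟩
    · simp only [Set.mem_insert_iff, Set.mem_singleton_iff, not_or]
      exact ⟨Ne.symm ht.1, Ne.symm hv1, Ne.symm h1⟩
  have heq : ({1, t, v, v * t} : Set G) = (VV a b t : Set G) := by
    apply Set.eq_of_subset_of_ncard_le hsub
    rw [hcard]
    have : (VV a b t : Set G).ncard = Nat.card (VV a b t) := rfl
    rw [this, hc]
  have hw' : w ∈ ({1, t, v, v * t} : Set G) := by rw [heq]; exact hw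
  simpa using hw'

/-- the order of `YB` is twice odd, so `f ≡ 3` mod 4 -/
theorem f_mod (h : B4 G Ω) {a b : Ω} (hab : a ≠ b) {t : G} (ht : Inv t) (hts : t ∈ St G a b)
    {σ v : G} (hv : v ∈ VV a b t) (hσ : Inv σ) (_hσa : σ • a = b) (hσt : σ * t = t * σ) (hσv : σ * v ≠ v * σ)
    (hσn : σ ∈ Subgroup.normalizer (VV a b t : Set G))
    (hm : fS G Ω (VV a b t) = fx G Ω t) (ho : Odd (fx G Ω t)) : fx G Ω t % 4 = 3 := by
  have hv1 : v ≠ 1 := by rintro rfl; exact hσv (by rw [mul_one, one_mul])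
  have hvt : v ≠ t := by rintro rfl; exact hσv hσt
  obtain ⟨hc4, hsq, hcm, -⟩ := vfacts4 h hab ht hts
  obtain ⟨-, -, -, -, -, hlast⟩ := countV4 h hab ht hts
  have hSh := sh_YB4 h hab ht hts
  have hXc : Nat.card (Fx G (Ω := Ω) (VV a b t : Set G)) = fS G Ω (VV a b t) := rfl
  have hXo : Odd (Nat.card (Fx G (Ω := Ω) (VV a b t : Set G))) := by rw [hXc, hm]; exact ho
  obtain ⟨-, hconj, -, -⟩ := sh_odd_inv hSh hXo
  have haX : a ∈ Fx G (Ω := Ω) (VV a b t : Set G) := fun g hg => hg.1.1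
  have hbX : b ∈ Fx G (Ω := Ω) (VV a b t : Set G) := fun g hg => hg.1.2
  set V := VV a b t with hV
  set π : NT V t →* YB G Ω V t := (resHom (NT V t) (Fx G (Ω := Ω) (V : Set G)) NT_inv).rangeRestrict with hπ
  have hsur : Function.Surjective π := MonoidHom.rangeRestrict_surjective _
  have hker : ∀ x : NT V t, π x = 1 → (x : G) ∈ V := by
    intro x hx
    have h1 : ∀ y : Fx G (Ω := Ω) (V : Set G), (x : G) • (y : Ω) = y := by
      intro y
      have h2 : resHom (NT V t) (Fx G (Ω := Ω) (V : Set G)) NT_inv x = 1 := congrArg Subtype.val hx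
      have h3 := congrArg (fun e : Equiv.Perm (Fx G (Ω := Ω) (V : Set G)) => ((e y : Fx G (Ω := Ω) (V : Set G)) : Ω)) h2
      simpa using h3
    exact hlast x x.2 a haX b hbX hab (h1 ⟨a, haX⟩) (h1 ⟨b, hbX⟩)
  have htV : t ∈ V := ⟨hts, Subgroup.mem_centralizer_singleton_iff.2 rfl⟩
  have hcomm : ∀ x ∈ NT V t, x * t = t * x := by
    intro x hx
    have := Subgroup.mem_centralizer_singleton_iff.1 hx.2
    first | exact this | exact this.symm
  have hdich : ∀ x ∈ NT V t, x * v = v * x ∨ x * v = v * t * x := by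
    intro x hx
    have h1 : x * v * x⁻¹ ∈ V := (Subgroup.mem_normalizer_iff.1 hx.1 v).1 hv
    rcases mem_V h hab ht hts hv hv1 hvt h1 with h2 | h2 | h2 | h2
    · exact absurd (by rw [mul_inv_eq_iff_eq_mul, one_mul] at h2; exact mul_eq_left.1 h2) hv1
    · rw [mul_inv_eq_iff_eq_mul, ← hcomm x hx] at h2
      exact absurd (mul_left_cancel h2) hvt
    · left; rwa [mul_inv_eq_iff_eq_mul] at h2
    · right; rwa [mul_inv_eq_iff_eq_mul] at h2
  have hcen : ∀ x ∈ NT V t, x * v = v * x → x ∈ Subgroup.centralizer (V : Set G) := by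
    intro x hx hxv
    rw [Subgroup.mem_centralizer_iff]
    intro w hw
    rcases mem_V h hab ht hts hv hv1 hvt hw with rfl | rfl | rfl | rfl
    · rw [mul_one, one_mul]
    · exact (hcomm x hx).symm
    · exact hxv.symm
    · calc v * t * x = v * (t * x) := mul_assoc _ _ _
        _ = v * x * t := by rw [← hcomm x hx, mul_assoc]
        _ = _ := by rw [← hxv, mul_assoc]
  have hcen' : ∀ x ∈ Subgroup.centralizer (V : Set G), x * v = v * x := fun x hx =>
    ((Subgroup.mem_centralizer_iff.1 hx) v hv).symm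
  have hVC : ∀ x ∈ V, x ∈ Subgroup.centralizer (V : Set G) := by
    intro x hx
    rw [Subgroup.mem_centralizer_iff]
    intro w hw
    exact hcm w hw x hx
  have hσN : σ ∈ NT V t := ⟨hσn, by first | exact Subgroup.mem_centralizer_singleton_iff.2 hσt | exact Subgroup.mem_centralizer_singleton_iff.2 hσt.symm⟩
  -- the image of the centralizer of `V`
  set C0 : Subgroup (NT V t) := (Subgroup.centralizer (V : Set G)).subgroupOf (NT V t) with hC0
  set Y0 : Subgroup (YB G Ω V t) := C0.map π with hY0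
  have hmem : ∀ x : NT V t, π x ∈ Y0 ↔ (x : G) ∈ Subgroup.centralizer (V : Set G) := by
    intro x
    constructor
    · rintro ⟨y, hy, hyx⟩
      have h1 : π (x * y⁻¹) = 1 := by rw [map_mul, map_inv, ← hyx, mul_inv_cancel]
      have h2 := hVC _ (hker _ h1)
      have h3 : ((x : G) * (y : G)⁻¹) * (y : G) ∈ Subgroup.centralizer (V : Set G) := by
        refine mul_mem ?_ hy
        exact h2
      rwa [inv_mul_cancel_right] at h3
    · intro hx
      exact ⟨x, hx, rfl⟩
  have hσ1 : Inv (π ⟨σ, hσN⟩) := by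
    refine ⟨fun h1 => hσv ?_, ?_⟩
    · exact hcen' σ (hVC _ (hker _ h1))
    · rw [← map_mul]
      have : (⟨σ, hσN⟩ : NT V t) * ⟨σ, hσN⟩ = 1 := Subtype.ext hσ.2
      rw [this, map_one]
  have hno : ∀ x : NT V t, (x : G) ∈ Subgroup.centralizer (V : Set G) → ¬ Inv (π x) := by
    intro x hx hi
    obtain ⟨y, hy⟩ := hconj _ _ hi hσ1
    obtain ⟨z, rfl⟩ := hsur y
    have h1 : π (z * x * z⁻¹) ∈ Y0 := by
      rw [hmem]
      show (z : G) * (x : G) * (z : G)⁻¹ ∈ Subgroup.centralizer (V : Set G)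
      rw [Subgroup.mem_centralizer_iff]
      intro w hw
      have h2 : (z : G)⁻¹ * w * z ∈ V := by
        have := (Subgroup.mem_normalizer_iff.1 (Subgroup.inv_mem _ z.2.1) w).1 hw
        rwa [inv_inv] at this
      have h3 := (Subgroup.mem_centralizer_iff.1 hx) _ h2
      calc w * ((z : G) * x * (z : G)⁻¹) = z * (((z : G)⁻¹ * w * z) * x) * (z : G)⁻¹ := by group
        _ = z * (x * ((z : G)⁻¹ * w * z)) * (z : G)⁻¹ := by rw [h3]
        _ = _ := by group
    rw [map_mul, map_mul, map_inv, hy, hmem] at h1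
    exact hσv (hcen' σ h1)
  have hodd : Odd (Nat.card Y0) := by
    rw [← Nat.not_even_iff_odd]
    intro hev
    obtain ⟨y, hy⟩ := exists_prime_orderOf_dvd_card' (G := Y0) 2 hev.two_dvd
    obtain ⟨x, hx, hxy⟩ := y.2
    refine hno x hx ⟨?_, ?_⟩
    · rw [hxy]
      intro h1
      have : y = 1 := Subtype.ext h1
      rw [this, orderOf_one] at hy
      norm_num at hy
    · rw [hxy]
      have h1 : y ^ 2 = 1 := by rw [← hy]; exact pow_orderOf_eq_one y
      rw [pow_two] at h1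
      exact congrArg Subtype.val h1
  have hidx : Y0.index = 2 := by
    rw [Subgroup.index_eq_two_iff]
    refine ⟨π ⟨σ, hσN⟩, fun y => ?_⟩
    obtain ⟨x, rfl⟩ := hsur y
    rw [← map_mul, hmem, hmem]
    have hσd : σ * v = v * t * σ := by
      rcases hdich σ hσN with h1 | h1
      · exact absurd h1 hσv
      · exact h1
    have hvt2 : v * t = t * v := hcm v hv t htV
    rcases hdich x x.2 with h1 | h1
    · right
      refine ⟨hcen x x.2 h1, fun h2 => hσv ?_⟩
      have h3 : (x : G)⁻¹ * ((x : G) * σ) ∈ Subgroup.centralizer (V : Set G) :=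
        mul_mem (inv_mem (hcen x x.2 h1)) h2
      rw [inv_mul_cancel_left] at h3
      exact hcen' σ h3
    · left
      refine ⟨hcen _ (mul_mem x.2 hσN) ?_, fun h2 => ?_⟩
      · calc (x : G) * σ * v = x * (σ * v) := mul_assoc _ _ _
          _ = x * (v * t * σ) := by rw [hσd]
          _ = (x * v) * t * σ := by group
          _ = v * t * x * t * σ := by rw [h1]
          _ = v * t * (x * t) * σ := by group
          _ = v * (t * t) * x * σ := by rw [hcomm x x.2]; group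
          _ = v * (x * σ) := by rw [ht.2]; group
      · have h3 := hcen' x h2
        rw [h1] at h3
        have h4 : v * t = v := mul_right_cancel h3
        exact ht.1 (mul_eq_left.1 h4)
  have hcard := Y0.card_mul_index
  rw [hidx, (sh_odd hSh hXo).1, hXc, hm] at hcard
  obtain ⟨k, hk⟩ := hodd
  obtain ⟨l, hl⟩ := ho
  rw [hk, hl] at hcard
  have e1 : 2 * l + 1 - 1 = 2 * l := by omega
  rw [e1] at hcard
  have h5 : (2 * l + 1) * l = 2 * k + 1 := by nlinarith
  have h6 : l % 2 = 1 := by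
    by_contra hcon
    have : l % 2 = 0 := by omega
    obtain ⟨l', rfl⟩ : ∃ l', l = 2 * l' := ⟨l / 2, by omega⟩
    have : (2 * (2 * l') + 1) * (2 * l') = 2 * ((2 * (2 * l') + 1) * l') := by ring
    omega
  rw [hl]
  omega

end H39.DA.BA2
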