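import Cfsg.Agent.Lib.H39.DBD2
import Cfsg.Agent.Lib.H39.DBD3
import Cfsg.Agent.Lib.H39.DBD4
import Cfsg.Agent.Lib.H39.DBD5
import Cfsg.Agent.Lib.H39.DAR2c
import Cfsg.Agent.Lib.H39.DAQ1
import Cfsg.Agent.Lib.H12.B4K28
import Cfsg.Agent.Lib.H12.B4Twelve
import Cfsg.Agent.Lib.H12.B4Stab

/-!
S3219, piece BA3: case A, m < f, m even.
-/

set_option autoImplicit false
set_option linter.all false
open MulAction
universe u v
namespace H39.DA
variable {G : Type u} {Ω : Type v} [Group G] [Finite G] [MulAction G Ω] [Finite Ω]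

open R2 in
theorem a4A_lt_even (h : B4 G Ω) {a b : Ω} (hab : a ≠ b) {t : G} (ht : Inv t) (hts : t ∈ St G a b) (hA : CaseA4 a b t)
    (hm : fS G Ω (VV a b t) < fx G Ω t) (he : Even (fS G Ω (VV a b t))) : False := by
  classical
  obtain ⟨h6, hconj, σ, ρ, v, hv, hσ, hσa, hσb, hσt, hσv, hvσ, hρa, hρb, hρ2, hρN, hσN, hall⟩ := hA
  obtain ⟨vf1, vf2, vf3, vf4, vf5, vf6, vf7, vf8⟩ := vfacts4 h hab ht hts
  have ht1 : t ≠ 1 := ht.1
  have htt : t * t = 1 := ht.2
  have hv1 : v ≠ 1 := by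
    rintro rfl
    rw [one_mul, inv_one, mul_one] at hvσ
    exact ht1 (mul_eq_left.1 hvσ.symm)
  have htV : t ∈ VV a b t := ⟨hts, Subgroup.mem_centralizer_singleton_iff.2 rfl⟩
  have hvt : v ≠ t := by
    rintro rfl
    apply hσv
    exact hσt
  have hvv : v * v = 1 := vf2 v hv
  have hvt1 : v * t ≠ 1 := by
    intro h0
    apply hvt
    calc v = v * (t * t) := by rw [htt, mul_one]
      _ = (v * t) * t := by group
      _ = t := by rw [h0, one_mul]
  have hvtc : v * t = t * v := vf3 v hv t htV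
  have hlist := v_list vf1 htV hv ht1 hv1 hvt hvt1
  -- delta_one
  have hρt : ρ * t = t * ρ := by rw [← hρ2]; group
  have hns : ∀ g : G, g * t = t * g → g * v * g⁻¹ ≠ ρ ∧ g * v * g⁻¹ ≠ ρ * t := by
    intro g _
    have hsq : (g * v * g⁻¹) * (g * v * g⁻¹) = 1 := by
      calc (g * v * g⁻¹) * (g * v * g⁻¹) = g * (v * v) * g⁻¹ := by group
        _ = 1 := by rw [hvv]; group
    constructor
    · intro h0
      rw [h0, hρ2] at hsq
      exact ht1 hsq
    · intro h0
      rw [h0] at hsq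
      apply ht1
      calc t = ρ * ρ := hρ2.symm
        _ = ρ * ρ * (t * t) := by rw [htt, mul_one]
        _ = ρ * (ρ * t) * t := by group
        _ = ρ * (t * ρ) * t := by rw [hρt]
        _ = (ρ * t) * (ρ * t) := by group
        _ = 1 := hsq
  obtain ⟨hf, -, -⟩ := delta_one4 h hab ht hts hm hv hv1 hvt hρt hρa hρb hns
  obtain ⟨cn1, cn2, cn3, cn4, cn5, cn6⟩ := count4 h hab ht hts
  obtain ⟨cv1, cv2, cv3, cv4, cv5, cv6⟩ := countV4 h hab ht hts
  obtain ⟨-, hkerT⟩ := t2_CB4 h hab ht hts hm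
  have hwT := witt_t4 h hab ht hts
  set m := fS G Ω (VV a b t) with hmd
  set f := fx G Ω t with hfd
  set n := Nat.card Ω with hnd
  set j := Nat.card {s : G // IsConj t s ∧ s • a = b ∧ s • b = a} with hjd
  set T := Nat.card {s : G // IsConj t s} with hTd
  -- j = 6
  have hinv : ∀ s, IsConj t s → Inv s := by
    intro s hs
    obtain ⟨c, hc⟩ := isConj_iff.1 hs
    subst hc
    constructor
    · intro h0
      apply ht1
      calc t = c⁻¹ * (c * t * c⁻¹) * c := by group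
        _ = 1 := by rw [h0]; group
    · calc c * t * c⁻¹ * (c * t * c⁻¹) = c * (t * t) * c⁻¹ := by group
        _ = 1 := by rw [htt]; group
  have hjpos : j ≠ 0 := by
    intro h0
    rw [h0, mul_zero] at cn5
    omega
  obtain ⟨⟨s0, hs0, hs0a, hs0b⟩⟩ : Nonempty {s : G // IsConj t s ∧ s • a = b ∧ s • b = a} := by
    by_contra hcon
    rw [not_nonempty_iff] at hcon
    exact hjpos (by rw [hjd]; exact Nat.card_of_isEmpty)
  have hj : j = 6 := by
    rw [← h6, hjd]
    apply Nat.card_congr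
    apply Equiv.subtypeEquivRight
    intro s
    constructor
    · rintro ⟨h1, h2, h3⟩; exact ⟨hinv s h1, h2, h3⟩
    · rintro ⟨h1, h2, h3⟩
      exact ⟨hs0.trans (hconj s0 s (hinv s0 hs0) hs0a hs0b h1 h2 h3), h2, h3⟩
  -- the group YB
  have hsh := sh_YB4 h hab ht hts
  have hcardX : Nat.card (Fx G (Ω := Ω) (VV a b t : Set G)) = m := rfl
  have haX : a ∈ Fx G (Ω := Ω) (VV a b t : Set G) := fun g hg => hg.1.1
  have hbX : b ∈ Fx G (Ω := Ω) (VV a b t : Set G) := fun g hg => hg.1.2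
  have hσNT : σ ∈ NT (VV a b t) t := ⟨hσN, Subgroup.mem_centralizer_singleton_iff.2 hσt⟩
  have hker : (rh G Ω (VV a b t) t).ker ≤ C0 (VV a b t) t v := by
    intro g hg
    have h1 := rh_one (MonoidHom.mem_ker.1 hg)
    have h2 := cv6 (g : G) g.2 a haX b hbX hab (h1 a haX) (h1 b hbX)
    rw [mem_C0]
    exact vf3 _ h2 _ hv
  have hidx0 : (C0 (VV a b t) t v).index = 2 := by
    rw [Subgroup.index_eq_two_iff]
    refine ⟨⟨σ, hσNT⟩, fun g => ?_⟩
    have hgt : (g : G) * t = t * g := Subgroup.mem_centralizer_singleton_iff.1 g.2.2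
    have hcase : (g : G) * v * (g : G)⁻¹ = v ∨ (g : G) * v * (g : G)⁻¹ = v * t := by
      have h1 : (g : G) * v * (g : G)⁻¹ ∈ VV a b t := (Subgroup.mem_normalizer_iff.1 g.2.1 v).1 hv
      rcases hlist _ h1 with h2 | h2 | h2 | h2
      · exfalso; apply hv1
        calc v = (g : G)⁻¹ * ((g : G) * v * (g : G)⁻¹) * g := by group
          _ = 1 := by rw [h2]; group
      · exfalso; apply hvt
        calc v = (g : G)⁻¹ * ((g : G) * v * (g : G)⁻¹) * g := by group
          _ = (g : G)⁻¹ * (t * g) := by rw [h2]; group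
          _ = t := by rw [← hgt]; group
      · exact Or.inl h2
      · exact Or.inr h2
    have hσv2 : σ * v * σ⁻¹ = v * t := by
      have h1 : σ * v * σ⁻¹ ∈ VV a b t := (Subgroup.mem_normalizer_iff.1 hσN v).1 hv
      rcases hlist _ h1 with h2 | h2 | h2 | h2
      · exfalso; apply hv1
        calc v = σ⁻¹ * (σ * v * σ⁻¹) * σ := by group
          _ = 1 := by rw [h2]; group
      · exfalso; apply hvt
        calc v = σ⁻¹ * (σ * v * σ⁻¹) * σ := by group
          _ = σ⁻¹ * (t * σ) := by rw [h2]; group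
          _ = t := by rw [← hσt]; group
      · exact absurd (mul_inv_eq_iff_eq_mul.1 h2) hσv
      · exact h2
    have hgσ : (g : G) * σ * v * ((g : G) * σ)⁻¹ = (g : G) * v * (g : G)⁻¹ * t := by
      calc (g : G) * σ * v * ((g : G) * σ)⁻¹ = (g : G) * (σ * v * σ⁻¹) * (g : G)⁻¹ := by group
        _ = (g : G) * (v * t) * (g : G)⁻¹ := by rw [hσv2]
        _ = (g : G) * v * (g : G)⁻¹ * ((g : G) * t * (g : G)⁻¹) := by group
        _ = (g : G) * v * (g : G)⁻¹ * t := by rw [hgt]; group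
    have hm1 : ∀ k : NT (VV a b t) t, k ∈ C0 (VV a b t) t v ↔ (k : G) * v * (k : G)⁻¹ = v := by
      intro k; rw [mem_C0, mul_inv_eq_iff_eq_mul]
    rw [hm1, hm1]
    have hco : ((g * ⟨σ, hσNT⟩ : NT (VV a b t) t) : G) = (g : G) * σ := rfl
    rw [hco, hgσ]
    rcases hcase with h2 | h2
    · right
      rw [h2]
      exact ⟨rfl, fun h3 => ht1 (mul_eq_left.1 h3)⟩
    · left
      rw [h2]
      refine ⟨by rw [mul_assoc, htt, mul_one], fun h3 => ht1 (mul_eq_left.1 h3)⟩
  set H := (C0 (VV a b t) t v).map (rh G Ω (VV a b t) t) with hHd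
  have hidx : H.index = 2 := by
    rw [hHd, Subgroup.index_map_eq _ (rh_surj _ _) hker, hidx0]
  have hσH : rh G Ω (VV a b t) t ⟨σ, hσNT⟩ ∉ H := by
    rintro ⟨k, hk, hke⟩
    have h1 : (⟨σ, hσNT⟩ : NT (VV a b t) t) * k⁻¹ ∈ (rh G Ω (VV a b t) t).ker := by
      rw [MonoidHom.mem_ker, map_mul, map_inv, hke, mul_inv_cancel]
    have h2 := mul_mem (hker h1) hk
    rw [inv_mul_cancel_right, mem_C0] at h2
    exact hσv h2
  have hno := (sh_even hsh (by rw [hcardX]; exact he)).2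
  obtain ⟨-, -, -, -, -, -, -, -, hno⟩ := hno
  have h2 : ¬ 2 < m := fun h2 => hno (by rw [hcardX]; exact h2) H hidx
  have h3 : m = 2 := by omega
  rw [h3] at hf
  have hf4 : f = 4 := hf
  have hn28 : n = 28 := by
    rw [hj, hf4] at cn5
    omega
  have hT189 : T = 189 := by
    rw [hf4, hn28] at cn6
    omega
  have hL48 : Nat.card (Subgroup.centralizer ({t} : Set G)) = 48 := by
    rw [cn2, hf4]
  refine H12.B4.kill28 h.toTT (hnd.symm.trans hn28) (t := t) (fun x y hxy => H12.B4.st_card8 h x y hxy)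
    (fun x y hxy g hg h1 h2 => H12.B4.st_cube h x y hxy g hg h1 h2) ?_ (hfd.symm.trans hf4) (hTd.symm.trans hT189) ?_
  · intro x y hxy g hg hgi
    obtain ⟨k, hk1, hk2⟩ := h.tr x y a b hxy hab
    have h5 : k * g * k⁻¹ ∈ St G a b := by
      refine Subgroup.mem_inf.2 ⟨mem_stabilizer_iff.2 ?_, mem_stabilizer_iff.2 ?_⟩
      · rw [mul_smul, mul_smul, ← hk1, inv_smul_smul, mem_stabilizer_iff.1 hg.1]
      · rw [mul_smul, mul_smul, ← hk2, inv_smul_smul, mem_stabilizer_iff.1 hg.2]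
    have h7 : Inv (k * g * k⁻¹) := by
      constructor
      · intro h0
        apply hgi.1
        calc g = k⁻¹ * (k * g * k⁻¹) * k := by group
          _ = 1 := by rw [h0]; group
      · calc k * g * k⁻¹ * (k * g * k⁻¹) = k * (g * g) * k⁻¹ := by group
          _ = 1 := by rw [hgi.2]; group
    obtain ⟨c, -, hc⟩ := (facts4 h hab).2.2.1 t (k * g * k⁻¹) ht hts h7 h5
    exact (isConj_iff.2 ⟨c, hc⟩).trans (isConj_iff.2 ⟨k⁻¹, by group⟩)
  · refine H12.B4.twelve hab ht (mem_stabilizer_iff.1 hts.1) (mem_stabilizer_iff.1 hts.2) (hfd.symm.trans hf4) hL48 ?_ hwT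
      hvv hvtc hv1 hvt (mem_stabilizer_iff.1 hv.1.1) hρ2 hall
    intro g hg hfix
    refine (hkerT g (Subgroup.mem_centralizer_singleton_iff.2 hg)).1 ?_
    apply Subtype.ext
    ext x
    exact hfix x (by
      have := x.2 t rfl
      exact this)

end H39.DA
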