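import Cfsg.Agent.Lib.H39.DAQ9aCore
import Cfsg.Agent.Lib.H39.DBD4

/-!
S3219, piece BD6: the odd lift of the regular normal subgroup.
-/

set_option autoImplicit false

open MulAction

universe u v

namespace H39.DA

variable {G : Type u} {Ω : Type v} [Group G] [Finite G] [MulAction G Ω] [Finite Ω]

theorem liftE4 (h : B4 G Ω) {a b : Ω} (hab : a ≠ b) {t : G} (ht : Inv t) (hts : t ∈ St G a b)
    (hlt : fS G Ω (VV a b t) < fx G Ω t) (hmo : Odd (fx G Ω t))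
    (r k : ℕ) (hr : r.Prime) (hk : 1 ≤ k) (hrk : fx G Ω t = r ^ k) (E : Subgroup (CB G Ω t)) (hE : Reg (CB G Ω t) (Fx G (Ω := Ω) ({t} : Set G)) E)
    (hcomm : ∀ g ∈ E, ∀ g' ∈ E, g * g' = g' * g) (hexp : ∀ g ∈ E, g ^ r = 1) :
    ∃ Et : Subgroup G, Et ≤ Subgroup.centralizer ({t} : Set G) ∧ Nat.card Et = fx G Ω t ∧
      (∀ g : G, g * t = t * g → ∀ e ∈ Et, g * e * g⁻¹ ∈ Et) ∧ (∀ e ∈ Et, ∀ e' ∈ Et, e * e' = e' * e) ∧ (∀ e ∈ Et, e ^ r = 1) ∧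
      (∀ g : G, g * t = t * g → (∀ e ∈ Et, g * e = e * g) → g ∈ Et ∨ g * t ∈ Et) ∧
      (∀ g : G, g * t = t * g → Odd (orderOf g) → ∀ e ∈ Et, e ≠ 1 → g * e = e * g → g ∈ Et) :=
  Q9a.liftE_of ht (t2_CB4 h hab ht hts hlt).1 (t2_CB4 h hab ht hts hlt).2 hmo r k hr hk hrk E hE hcomm hexp

end H39.DA
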