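import Cfsg.Agent.Lib.H39.DBA4core
import Cfsg.Agent.Lib.H39.DBD0b
import Cfsg.Agent.Lib.H39.DBD2
import Cfsg.Agent.Lib.H39.DBD5
import Cfsg.Agent.Lib.H39.DBD7
set_option autoImplicit false
set_option linter.all false
open MulAction
universe u v
namespace H39.DA
variable {G : Type u} {Ω : Type v} [Group G] [Finite G] [MulAction G Ω] [Finite Ω]

theorem a4A_lt_odd (h : B4 G Ω) {a b : Ω} (hab : a ≠ b) {t : G} (ht : Inv t) (hts : t ∈ St G a b) (hA : CaseA4 a b t)
    (hm : fS G Ω (VV a b t) < fx G Ω t) (ho : Odd (fS G Ω (VV a b t))) : False :=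
  BA4.core h hab ht hts (vfacts4 h hab ht hts).2.1 (count4 h hab ht hts)
    (fun hv hv1 hvt _ hst hsa hsb hns => delta_one4 h hab ht hts hm hv hv1 hvt hst hsa hsb hns)
    (fun hmm hmo r k hr hrk E hE hcomm hexp => modr4 h hab ht hts hmm hmo r k hr hrk E hE hcomm hexp)
    hA hm ho

end H39.DA
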