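import Cfsg.Agent.Lib.H39.DB0
set_option autoImplicit false
set_option linter.all false
open MulAction H39.DA
universe u v
namespace H39.DA

namespace BA4

/-- the final arithmetic contradiction -/
theorem arith {r f N T q i c k : ℕ} (hr : r.Prime) (hro : r ≠ 2) (hrf : f = r ^ k) (hk : 1 ≤ k) (hf2 : 2 ≤ f)
    (hT : T = 3 * ((2 * f - 1) * (2 * f + 1))) (hN : N = 12 * (f * (f - 1) * ((2 * f - 1) * (2 * f + 1))))
    (hq : q = r ^ i) (hTq : T ≡ q [MOD r]) (hqN : q * f ∣ N) (hc : q = c * c) : False := by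
  have hrf' : r ∣ f := by rw [hrf]; exact dvd_pow_self r (by omega)
  have h1 : r ∣ T + 3 := by
    have : T + 3 = (12 * f) * f := by
      obtain ⟨F, rfl⟩ : ∃ F, f = F + 1 := ⟨f - 1, by omega⟩
      rw [hT]
      have e : 2 * (F + 1) - 1 = 2 * F + 1 := by omega
      rw [e]; ring
    rw [this]; exact Dvd.dvd.mul_left hrf' _
  have h2 : r ∣ q + 3 := by
    have h3 : T + 3 ≡ q + 3 [MOD r] := Nat.ModEq.add_right 3 hTq
    exact (Nat.modEq_zero_iff_dvd).1 (h3.symm.trans ((Nat.modEq_zero_iff_dvd).2 h1))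
  rcases Nat.eq_zero_or_pos i with rfl | hi
  · rw [pow_zero] at hq
    rw [hq] at h2
    have h4 : r ∣ 2 ^ 2 := h2
    exact hro ((Nat.prime_dvd_prime_iff_eq hr Nat.prime_two).1 (hr.dvd_of_dvd_pow h4))
  · have h5 : r ∣ q := by rw [hq]; exact dvd_pow_self r (by omega)
    have h6 : r ∣ 3 := (Nat.dvd_add_right h5).1 h2
    have h7 : r = 3 := (Nat.prime_dvd_prime_iff_eq hr Nat.prime_three).1 h6
    subst h7
    have h8 : q ∣ 12 * ((f - 1) * ((2 * f - 1) * (2 * f + 1))) := by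
      have h9 : q * f ∣ (12 * ((f - 1) * ((2 * f - 1) * (2 * f + 1)))) * f := by
        rw [hN] at hqN
        have e : (12 * ((f - 1) * ((2 * f - 1) * (2 * f + 1)))) * f =
            12 * (f * (f - 1) * ((2 * f - 1) * (2 * f + 1))) := by ring
        rw [e]; exact hqN
      exact Nat.dvd_of_mul_dvd_mul_right (by omega) h9
    have h10 : ¬ 3 ∣ (4 * ((f - 1) * ((2 * f - 1) * (2 * f + 1)))) := by
      intro h
      rcases (Nat.prime_three.dvd_mul).1 h with h | h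
      · omega
      · rcases (Nat.prime_three.dvd_mul).1 h with h | h
        · omega
        · rcases (Nat.prime_three.dvd_mul).1 h with h | h <;> omega
    have h11 : q ∣ 3 := by
      have h12 : Nat.Coprime q (4 * ((f - 1) * ((2 * f - 1) * (2 * f + 1)))) := by
        rw [hq]
        exact Nat.Coprime.pow_left _ ((Nat.Prime.coprime_iff_not_dvd Nat.prime_three).2 h10)
      apply h12.dvd_of_dvd_mul_right
      have e : 3 * (4 * ((f - 1) * ((2 * f - 1) * (2 * f + 1)))) = 12 * ((f - 1) * ((2 * f - 1) * (2 * f + 1))) := by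
        ring
      rw [e]; exact h8
    rcases (Nat.dvd_prime Nat.prime_three).1 h11 with h13 | h13
    · rw [h13] at h5; omega
    · rw [h13] at hc
      rcases (by omega : c ≤ 1 ∨ 2 ≤ c) with h | h
      · interval_cases c <;> omega
      · nlinarith

/-- [BA4] with the earlier pieces as hypotheses -/
theorem core {G : Type u} {Ω : Type v} [Group G] [Finite G] [MulAction G Ω] [Finite Ω]
    (h : B4 G Ω) {a b : Ω} (hab : a ≠ b) {t : G} (ht : Inv t) (hts : t ∈ St G a b)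
    (P_vf2 : ∀ g ∈ VV a b t, g * g = 1)
    (P_cn : Nat.card G = 12 * (Nat.card Ω * (Nat.card Ω - 1)) ∧
      Nat.card (Subgroup.centralizer ({t} : Set G)) = 4 * (fx G Ω t * (fx G Ω t - 1)) ∧
      2 ≤ fx G Ω t ∧ fx G Ω t < Nat.card Ω ∧
      3 * (Nat.card Ω - fx G Ω t) = fx G Ω t * (fx G Ω t - 1) * Nat.card {s : G // IsConj t s ∧ s • a = b ∧ s • b = a} ∧
      Nat.card {s : G // IsConj t s} * (fx G Ω t * (fx G Ω t - 1)) = 3 * (Nat.card Ω * (Nat.card Ω - 1)))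
    (P_d1 : ∀ {v : G} (hv : v ∈ VV a b t) (hv1 : v ≠ 1) (hvt : v ≠ t)
      {s : G} (hst : s * t = t * s) (hsa : s • a = b) (hsb : s • b = a)
      (hns : ∀ g : G, g * t = t * g → g * v * g⁻¹ ≠ s ∧ g * v * g⁻¹ ≠ s * t),
      fx G Ω t = fS G Ω (VV a b t) * fS G Ω (VV a b t) ∧
      (Odd (fx G Ω t) → ∃ (r k : ℕ) (E : Subgroup (CB G Ω t)), r.Prime ∧ 1 ≤ k ∧ fx G Ω t = r ^ k ∧
        Reg (CB G Ω t) (Fx G (Ω := Ω) ({t} : Set G)) E ∧ (∀ g ∈ E, ∀ g' ∈ E, g * g' = g' * g) ∧ (∀ g ∈ E, g ^ r = 1)) ∧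
      (∀ e : ℕ, fx G Ω t = 2 ^ e → ∃ E : Subgroup (CB G Ω t), Reg (CB G Ω t) (Fx G (Ω := Ω) ({t} : Set G)) E ∧
        (∀ g ∈ E, ∀ g' ∈ E, g * g' = g' * g)))
    (P_mr : ∀ (hm : fS G Ω (VV a b t) * fS G Ω (VV a b t) = fx G Ω t) (hmo : Odd (fx G Ω t))
      (r k : ℕ) (hr : r.Prime) (hrk : fx G Ω t = r ^ k) (E : Subgroup (CB G Ω t)) (hE : Reg (CB G Ω t) (Fx G (Ω := Ω) ({t} : Set G)) E)
      (hcomm : ∀ g ∈ E, ∀ g' ∈ E, g * g' = g' * g) (hexp : ∀ g ∈ E, g ^ r = 1),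
      ∃ q i : ℕ, q = r ^ i ∧ Nat.card {s : G // IsConj t s} ≡ q [MOD r] ∧ q * fx G Ω t ∣ Nat.card G ∧
      ((∃ σ ∈ NT (VV a b t) t, ∃ v ∈ VV a b t, σ * v ≠ v * σ) → ∃ c : ℕ, q = c * c))
    (hA : CaseA4 a b t) (hm : fS G Ω (VV a b t) < fx G Ω t) (ho : Odd (fS G Ω (VV a b t))) : False := by
  classical
  obtain ⟨h10, hconj, σ, ρ, v, hv, hσ, hσa, hσb, hσt, hσv, hvσ, hρa, hρb, hρ2, hρN, hσN, hall⟩ := hA
  have ht1 : t ≠ 1 := ht.1
  have htt : t * t = 1 := ht.2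
  have hv1 : v ≠ 1 := by
    rintro rfl
    rw [one_mul, inv_one, mul_one] at hvσ
    exact ht1 (mul_eq_left.1 hvσ.symm)
  have hvt : v ≠ t := by
    rintro rfl
    apply hσv
    exact hσt
  have hvv : v * v = 1 := P_vf2 v hv
  -- delta_one
  have hρt : ρ * t = t * ρ := by rw [← hρ2]; group
  have hns : ∀ g : G, g * t = t * g → g * v * g⁻¹ ≠ ρ ∧ g * v * g⁻¹ ≠ ρ * t := by
    intro g _
    have hsq : (g * v * g⁻¹) * (g * v * g⁻¹) = 1 := by
      calc (g * v * g⁻¹) * (g * v * g⁻¹) = g * (v * v) * g⁻¹ := by group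
        _ = 1 := by rw [hvv]; group
    constructor
    · intro h0
      rw [h0, hρ2] at hsq
      exact ht1 hsq
    · intro h0
      rw [h0] at hsq
      apply ht1
      calc t = ρ * ρ := hρ2.symm
        _ = ρ * ρ * (t * t) := by rw [htt, mul_one]
        _ = ρ * (ρ * t) * t := by group
        _ = ρ * (t * ρ) * t := by rw [hρt]
        _ = (ρ * t) * (ρ * t) := by group
        _ = 1 := hsq
  obtain ⟨hf, hodd, -⟩ := P_d1 hv hv1 hvt hρt hρa hρb hns
  obtain ⟨cn1, cn2, cn3, cn4, cn5, cn6⟩ := P_cn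
  have hσNT : σ ∈ NT (VV a b t) t := ⟨hσN, Subgroup.mem_centralizer_singleton_iff.2 hσt⟩
  set m := fS G Ω (VV a b t) with hmd
  set f := fx G Ω t with hfd
  set n := Nat.card Ω with hnd
  set j := Nat.card {s : G // IsConj t s ∧ s • a = b ∧ s • b = a} with hjd
  set T := Nat.card {s : G // IsConj t s} with hTd
  -- j = 6
  have hinv : ∀ s, IsConj t s → Inv s := by
    intro s hs
    obtain ⟨c, hc⟩ := isConj_iff.1 hs
    subst hc
    constructor
    · intro h0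
      apply ht1
      calc t = c⁻¹ * (c * t * c⁻¹) * c := by group
        _ = 1 := by rw [h0]; group
    · calc c * t * c⁻¹ * (c * t * c⁻¹) = c * (t * t) * c⁻¹ := by group
        _ = 1 := by rw [htt]; group
  have hjpos : j ≠ 0 := by
    intro h0
    rw [h0, mul_zero] at cn5
    omega
  obtain ⟨⟨s0, hs0, hs0a, hs0b⟩⟩ : Nonempty {s : G // IsConj t s ∧ s • a = b ∧ s • b = a} := by
    by_contra hcon
    rw [not_nonempty_iff] at hcon
    exact hjpos (by rw [hjd]; exact Nat.card_of_isEmpty)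
  have hj : j = 6 := by
    rw [← h10, hjd]
    apply Nat.card_congr
    apply Equiv.subtypeEquivRight
    intro s
    constructor
    · rintro ⟨h1, h2, h3⟩; exact ⟨hinv s h1, h2, h3⟩
    · rintro ⟨h1, h2, h3⟩
      exact ⟨hs0.trans (hconj s0 s (hinv s0 hs0) hs0a hs0b h1 h2 h3), h2, h3⟩
  have hf2 : 2 ≤ f := cn3
  obtain ⟨F, hF⟩ : ∃ F, f = F + 1 := ⟨f - 1, by omega⟩
  have hF2 : f - 1 = F := by omega
  have h21 : 2 * f - 1 = 2 * F + 1 := by omega
  have hn : n = f * (2 * f - 1) := by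
    rw [hj, hF2] at cn5
    obtain ⟨N, hN⟩ : ∃ N, n = f + N := ⟨n - f, by omega⟩
    have e1 : n - f = N := by omega
    rw [e1] at cn5
    rw [hN, h21, hF]
    rw [hF] at cn5
    have e3 : 3 * (F + 1 + N) = 3 * ((F + 1) * (2 * F + 1)) := by
      have : 3 * (F + 1 + N) = 3 * (F + 1) + 3 * N := by ring
      rw [this, cn5]; ring
    exact Nat.eq_of_mul_eq_mul_left (by norm_num) e3
  have hn1 : n - 1 = (2 * f + 1) * (f - 1) := by
    have : n = 1 + (2 * f + 1) * F := by rw [hn, h21, hF]; ring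
    rw [this, hF2]; omega
  have hT : T = 3 * ((2 * f - 1) * (2 * f + 1)) := by
    have hpos : 0 < f * (f - 1) := Nat.mul_pos (by omega) (by omega)
    apply Nat.eq_of_mul_eq_mul_right hpos
    rw [cn6, hn1]
    rw [hn]; ring
  have hN : Nat.card G = 12 * (f * (f - 1) * ((2 * f - 1) * (2 * f + 1))) := by
    rw [cn1, hn1, hn]; ring
  have hfo : Odd f := by rw [hf]; exact ho.mul ho
  obtain ⟨r, k, E, hr, hk, hrk, hE, hEc, hEe⟩ := hodd hfo
  obtain ⟨q, i, hq, hTq, hqG, hsq⟩ := P_mr hf.symm hfo r k hr hrk E hE hEc hEe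
  obtain ⟨c, hc⟩ := hsq ⟨σ, hσNT, v, hv, hσv⟩
  have hr2 : r ≠ 2 := by
    rintro rfl
    have h2 : 2 ∣ f := by rw [hrk]; exact dvd_pow_self 2 (by omega)
    obtain ⟨x, hx⟩ := hfo
    omega
  exact arith hr hr2 hrk hk hf2 hT hN hq hTq hqG hc

end BA4

end H39.DA
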