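import Cfsg.Agent.Lib.H39.DB0
import Cfsg.Agent.Lib.H39.DAR8

set_option autoImplicit false
open MulAction
universe u v
namespace H39.DA

variable {G : Type u} {Ω : Type v} [Group G] [Finite G] [MulAction G Ω] [Finite Ω]

theorem a4final6 (h : B4 G Ω) (hn : Nat.card Ω = 6) : Nonempty (G ≃* alternatingGroup (Fin 6)) := by
  classical
  let _ := Fintype.ofFinite Ω
  have hf : Function.Injective (MulAction.toPermHom G Ω) := by
    rw [injective_iff_map_eq_one]
    intro g hg
    apply h.faith
    intro x
    have := congrFun (congrArg DFunLike.coe hg) x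
    exact this
  have hst : Nat.card G = 12 * (Nat.card Ω * (Nat.card Ω - 1)) := by
    obtain ⟨a, b, hab⟩ := h.two
    obtain ⟨e⟩ := h.a4 a b hab
    rw [R8.card_tt h.toTT hab, Nat.card_congr e.toEquiv, nat_card_alternatingGroup]
    simp [Nat.factorial]
  have hcard : Nat.card (MulAction.toPermHom G Ω).range = 360 := by
    rw [← Nat.card_congr (MonoidHom.ofInjective hf).toEquiv, hst, hn]
  have hn' : Fintype.card Ω = 6 := by rw [← Nat.card_eq_fintype_card, hn]
  have hidx : (MulAction.toPermHom G Ω).range.index = 2 := by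
    have h1 := (MulAction.toPermHom G Ω).range.card_mul_index
    rw [hcard, Nat.card_perm, hn] at h1
    have h2 : (6 : ℕ).factorial = 720 := rfl
    rw [h2] at h1
    omega
  have hA := Equiv.Perm.eq_alternatingGroup_of_index_eq_two hidx
  exact ⟨(MonoidHom.ofInjective hf).trans ((MulEquiv.subgroupCongr hA).trans
    (Equiv.altCongrHom (Fintype.equivFinOfCardEq hn')))⟩

end H39.DA
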