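import Cfsg.Agent.Lib.H39.DB0

/-!
Facts about the two-point stabilizer `A₄` (S3219, piece BD0a).
-/

set_option autoImplicit false

open MulAction

universe u v

namespace H39.DA

namespace BD0a

/-- the alternating group of degree four -/
abbrev A : Type := alternatingGroup (Fin 4)

set_option maxRecDepth 100000

theorem c0 : Fintype.card A = 12 := by
  decide +kernel

theorem c1 : (Finset.univ.filter (fun g : A => g ≠ 1 ∧ g * g = 1)).card = 3 := by
  decide +kernel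

theorem c2 : ∀ t : A, t ≠ 1 → t * t = 1 → ∀ s : A, s ≠ 1 → s * s = 1 → ∃ x : A, x * t * x⁻¹ = s := by
  decide +kernel

/-- for every `g ≠ 1` the product of `g` and a conjugate of `g` or `g⁻¹` is an involution or `g` is an involution -/
theorem c3 : ∀ g : A, g ≠ 1 → (g * g ≠ 1 → ∃ x : A, (g * (x * g⁻¹ * x⁻¹)) ≠ 1 ∧
    (g * (x * g⁻¹ * x⁻¹)) * (g * (x * g⁻¹ * x⁻¹)) = 1) := by
  decide +kernel

section
variable {G : Type u} [Group G] {S : Subgroup G}

theorem one_iff (e : S ≃* A) {x : G} (hx : x ∈ S) : e ⟨x, hx⟩ = 1 ↔ x = 1 := by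
  rw [← map_one e, e.injective.eq_iff, Subtype.ext_iff]
  rfl

theorem sq_iff (e : S ≃* A) {x : G} (hx : x ∈ S) : e ⟨x, hx⟩ * e ⟨x, hx⟩ = 1 ↔ x * x = 1 := by
  rw [← map_mul, ← map_one e, e.injective.eq_iff, Subtype.ext_iff]
  rfl

end

/-- a normal subgroup of odd order of `A₄` is trivial -/
theorem odd_normal (N : Subgroup A) (hN : N.Normal) (ho : Odd (Nat.card N)) : N = ⊥ := by
  have hinv : ∀ g ∈ N, g * g = 1 → g = 1 := by
    intro g hg h2
    have h7 : g ^ Nat.card N = 1 := by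
      have h8 : (⟨g, hg⟩ : N) ^ Nat.card N = 1 := pow_card_eq_one'
      exact congrArg Subtype.val h8
    have h5 : g ^ 2 = 1 := by rw [pow_two]; exact h2
    have h8 : orderOf g ∣ Nat.gcd 2 (Nat.card N) :=
      Nat.dvd_gcd (orderOf_dvd_of_pow_eq_one h5) (orderOf_dvd_of_pow_eq_one h7)
    have h9 : Nat.gcd 2 (Nat.card N) = 1 := (Nat.coprime_two_left.2 ho)
    rw [h9, Nat.dvd_one, orderOf_eq_one_iff] at h8
    exact h8
  rw [Subgroup.eq_bot_iff_forall]
  intro g hg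
  by_contra h1
  by_cases h2 : g * g = 1
  · exact h1 (hinv g hg h2)
  · obtain ⟨x, hx1, hx2⟩ := c3 g h1 h2
    exact hx1 (hinv _ (N.mul_mem hg (hN.conj_mem _ (N.inv_mem hg) x)) hx2)

end BD0a

variable {G : Type u} {Ω : Type v} [Group G] [Finite G] [MulAction G Ω] [Finite Ω]

theorem facts4 (h : B4 G Ω) {a b : Ω} (hab : a ≠ b) :
    Nat.card (St G a b) = 12 ∧ Nat.card {s : G // Inv s ∧ s ∈ St G a b} = 3 ∧
    (∀ s s' : G, Inv s → s ∈ St G a b → Inv s' → s' ∈ St G a b → ∃ g ∈ St G a b, g * s * g⁻¹ = s') ∧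
    (∀ N : Subgroup (St G a b), N.Normal → Odd (Nat.card N) → N = ⊥) := by
  obtain ⟨e⟩ := h.a4 a b hab
  refine ⟨?_, ?_, ?_, ?_⟩
  · rw [Nat.card_congr e.toEquiv, Nat.card_eq_fintype_card]
    exact BD0a.c0
  · rw [← BD0a.c1, ← Fintype.card_subtype, ← Nat.card_eq_fintype_card]
    refine Nat.card_congr ⟨fun x => ⟨e ⟨x.1, x.2.2⟩, fun hh => x.2.1.1 ((BD0a.one_iff e x.2.2).1 hh),
      (BD0a.sq_iff e x.2.2).2 x.2.1.2⟩, fun y => ⟨(e.symm y.1 : St G a b), ⟨?_, ?_⟩, (e.symm y.1).2⟩, ?_, ?_⟩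
    · intro hh
      apply y.2.1
      have h2 := (BD0a.one_iff e (e.symm y.1).2).2 hh
      simpa using h2
    · have h2 := y.2.2
      rw [← BD0a.sq_iff e (e.symm y.1).2]
      simpa using h2
    · intro x
      simp
    · intro y
      simp
  · intro s s' hs hsS hs' hsS'
    obtain ⟨x, hx⟩ := BD0a.c2 (e ⟨s, hsS⟩) (fun hh => hs.1 ((BD0a.one_iff e hsS).1 hh)) ((BD0a.sq_iff e hsS).2 hs.2)
      (e ⟨s', hsS'⟩) (fun hh => hs'.1 ((BD0a.one_iff e hsS').1 hh)) ((BD0a.sq_iff e hsS').2 hs'.2)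
    refine ⟨(e.symm x : St G a b), (e.symm x).2, ?_⟩
    have h2 := congrArg e.symm hx
    rw [map_mul, map_mul, map_inv, e.symm_apply_apply, e.symm_apply_apply] at h2
    exact congrArg Subtype.val h2
  · intro N hN ho
    have h1 := BD0a.odd_normal (N.map e.toMonoidHom) (hN.map _ e.surjective) (by
      rwa [Nat.card_congr (N.equivMapOfInjective e.toMonoidHom e.injective).symm.toEquiv])
    exact (Subgroup.map_eq_bot_iff_of_injective N e.injective).1 h1

end H39.DA
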