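import Cfsg.Agent.Lib.H31.R3G
import Cfsg.Agent.Lib.H39.DBD0a
import Cfsg.Agent.Lib.H39.DBD2
set_option autoImplicit false
open MulAction
universe u v
namespace H39.DA
variable {G : Type u} {Ω : Type v} [Group G] [Finite G] [MulAction G Ω] [Finite Ω]

theorem BB.exists_swap (h : B4 G Ω) {a b : Ω} (hab : a ≠ b) {t : G} (ht : Inv t) (hts : t ∈ St G a b) :
    ∃ s : G, IsConj t s ∧ s • a = b ∧ s • b = a := by
  obtain ⟨h1, h2, h3, h4, h5, h6⟩ := count4 h hab ht hts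
  by_contra hc
  push Not at hc
  have h7 : Nat.card {s : G // IsConj t s ∧ s • a = b ∧ s • b = a} = 0 := by
    haveI : IsEmpty {s : G // IsConj t s ∧ s • a = b ∧ s • b = a} := ⟨fun s => hc s.1 s.2.1 s.2.2.1 s.2.2.2⟩
    exact Nat.card_of_isEmpty
  rw [h7, mul_zero] at h5
  omega

-- [B-B1]
theorem a4B1_odd (h : B4 G Ω) {a b : Ω} (hab : a ≠ b) {t : G} (ht : Inv t) (hts : t ∈ St G a b)
    {u : G} (hu : Inv u) (hua : u • a = b) (hub : u • b = a) (huc : ∀ g ∈ St G a b, u * g = g * u) (htu : ¬ IsConj t u)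
    (ho : Odd (Nat.card Ω)) : Subgroup.centralizer ({u} : Set G) ⊔ Cfsg.oddCore G = ⊤ :=
  H31.R3G.odd_case h.toTT (fun hcd => (facts4 h hcd).2.2.1) hab ht hts (BB.exists_swap h hab ht hts) hu hua hub huc htu ho

end H39.DA
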