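import Cfsg.Agent.Lib.H31.R3G
import Cfsg.Agent.Lib.H39.DAQ1
import Cfsg.Agent.Lib.H39.DBD0a
import Cfsg.Agent.Lib.H39.DBD0b
import Cfsg.Agent.Lib.H39.DBD3
import Cfsg.Agent.Lib.H39.DBD4
import Cfsg.Agent.Lib.H39.DBD5
import Cfsg.Agent.Lib.H39.DBB1
set_option autoImplicit false
open MulAction
universe u v
namespace H39.DA
variable {G : Type u} {Ω : Type v} [Group G] [Finite G] [MulAction G Ω] [Finite Ω]

namespace BB

theorem n_eq (h : B4 G Ω) {a b : Ω} (hab : a ≠ b) {t : G} (ht : Inv t) (hts : t ∈ St G a b)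
    {u : G} (hu : Inv u) (hua : u • a = b) (hub : u • b = a) (huc : ∀ g ∈ St G a b, u * g = g * u) (htu : ¬ IsConj t u) :
    Nat.card Ω = fx G Ω t * fx G Ω t := by
  obtain ⟨h1, h2, h3, h4, h5, h6⟩ := count4 h hab ht hts
  rw [H31.R3G.j_eq h.toTT (fun hcd => (facts4 h hcd).2.2.1) hab ht hts (exists_swap h hab ht hts) hu hua hub huc htu,
    (facts4 h hab).2.1] at h5
  obtain ⟨m, hm⟩ : ∃ m, fx G Ω t = m + 1 := ⟨fx G Ω t - 1, by omega⟩
  obtain ⟨d, hd⟩ : ∃ d, Nat.card Ω = fx G Ω t + d := ⟨Nat.card Ω - fx G Ω t, by omega⟩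
  rw [hd, hm] at h5
  rw [hd, hm]
  simp only [Nat.add_sub_cancel_left, Nat.add_sub_cancel] at h5
  nlinarith

theorem fpf (h : B4 G Ω) {a b : Ω} (hab : a ≠ b) {t : G} (ht : Inv t) (hts : t ∈ St G a b)
    {u : G} (hu : Inv u) (htu : ¬ IsConj t u) (he : Even (Nat.card Ω)) : ∀ x : Ω, u • x ≠ x := by
  classical
  haveI : Fact (Nat.Prime 2) := ⟨Nat.prime_two⟩
  intro x hx
  haveI := Fintype.ofFinite Ω
  obtain ⟨y, hy, hyx⟩ := Equiv.Perm.exists_fixed_point_of_prime' (p := 2) (n := 1)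
    (by rw [← Nat.card_eq_fintype_card]; exact even_iff_two_dvd.1 he) (H31.R3G.inv_sq (X := Ω) hu) (a := x) hx
  exact hyx (H31.R3G.fix_le h.toTT (fun hcd => (facts4 h hcd).2.2.1) hab ht hts (exists_swap h hab ht hts) hu htu hy hx)

theorem fix_even (h : B4 G Ω) {a b : Ω} (hab : a ≠ b) {t : G} (ht : Inv t) (hts : t ∈ St G a b)
    {u : G} (hu : Inv u) (huc : ∀ g ∈ St G a b, u * g = g * u) (hfp : ∀ x : Ω, u • x ≠ x) :
    Even (Nat.card (Fx G (Ω := Ω) (VV a b t : Set G))) := by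
  classical
  haveI : Fact (Nat.Prime 2) := ⟨Nat.prime_two⟩
  have hcomm : ∀ g ∈ VV a b t, u * g = g * u := fun g hg => huc g hg.1
  by_contra hmo
  rw [Nat.not_even_iff_odd] at hmo
  have hinv : ∀ x ∈ Fx G (Ω := Ω) (VV a b t : Set G), u • x ∈ Fx G (Ω := Ω) (VV a b t : Set G) := by
    intro x hx g hg
    rw [smul_smul, ← hcomm g hg, mul_smul, hx g hg]
  let σ : Equiv.Perm (Fx G (Ω := Ω) (VV a b t : Set G)) :=
    { toFun := fun x => ⟨u • x.1, hinv x.1 x.2⟩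
      invFun := fun x => ⟨u • x.1, hinv x.1 x.2⟩
      left_inv := fun x => Subtype.ext (by simp [smul_smul, hu.2])
      right_inv := fun x => Subtype.ext (by simp [smul_smul, hu.2]) }
  haveI := Fintype.ofFinite (Fx G (Ω := Ω) (VV a b t : Set G))
  have hσ : σ ^ 2 ^ 1 = 1 := by
    ext x
    simp [pow_two, σ, smul_smul, hu.2]
  obtain ⟨c, hc⟩ := Equiv.Perm.exists_fixed_point_of_prime (p := 2) (n := 1)
    (by rw [← Nat.card_eq_fintype_card]; exact fun hd => (Nat.not_even_iff_odd.2 hmo) (even_iff_two_dvd.2 hd)) hσ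
  exact hfp c.1 (congrArg Subtype.val hc)

theorem f_cases (h : B4 G Ω) {a b : Ω} (hab : a ≠ b) {t : G} (ht : Inv t) (hts : t ∈ St G a b)
    {u : G} (hua : u • a = b) (hub : u • b = a) (huc : ∀ g ∈ St G a b, u * g = g * u) (htu : ¬ IsConj t u) :
    fx G Ω t = fS G Ω (VV a b t) ∨ fx G Ω t = fS G Ω (VV a b t) * fS G Ω (VV a b t) := by
  classical
  obtain ⟨hm2, hmf, _⟩ := countV4 h hab ht hts
  rcases Nat.lt_or_ge (fS G Ω (VV a b t)) (fx G Ω t) with hlt | hge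
  · right
    obtain ⟨hV4, hVsq, hVc, _⟩ := vfacts4 h hab ht hts
    have htV : t ∈ VV a b t := ⟨hts, Subgroup.mem_centralizer_singleton_iff.2 rfl⟩
    obtain ⟨v, hv, hv1, hvt⟩ : ∃ v ∈ VV a b t, v ≠ 1 ∧ v ≠ t := by
      by_contra hcon
      push Not at hcon
      have h1 : ∀ x : VV a b t, x ∈ ({1, ⟨t, htV⟩} : Finset (VV a b t)) := by
        intro x
        rw [Finset.mem_insert, Finset.mem_singleton]
        by_cases hx : x.1 = 1
        · exact Or.inl (Subtype.ext hx)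
        · exact Or.inr (Subtype.ext (hcon x.1 x.2 hx))
      haveI := Fintype.ofFinite (VV a b t)
      have h2 : Fintype.card (VV a b t) ≤ 2 := by
        rw [← Finset.card_univ]
        exact (Finset.card_le_card (fun x _ => h1 x)).trans Finset.card_le_two
      rw [← Nat.card_eq_fintype_card, hV4] at h2
      omega
    have hut := huc t hts
    have hvS : v ∈ St G a b := hv.1
    have hvi : Inv v := ⟨hv1, hVsq v hv⟩
    obtain ⟨k1, _, hk1⟩ := (facts4 h hab).2.2.1 t v ht hts hvi hvS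
    have htv : IsConj t v := isConj_iff.2 ⟨k1, hk1⟩
    have hvti : Inv (v * t) := by
      refine ⟨fun h1 => hvt ?_, ?_⟩
      · calc v = v * t * t := by rw [mul_assoc, ht.2, mul_one]
          _ = t := by rw [h1, one_mul]
      · exact hVsq _ (mul_mem hv htV)
    obtain ⟨k2, _, hk2⟩ := (facts4 h hab).2.2.1 t (v * t) ht hts hvti (mul_mem hvS hts)
    have htvt : IsConj t (v * t) := isConj_iff.2 ⟨k2, hk2⟩
    exact (delta_one4 h hab ht hts hlt hv hv1 hvt hut hua hub (fun g hg => by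
      refine ⟨fun h1 => htu (htv.trans (isConj_iff.2 ⟨g, h1⟩)), fun h1 => htu (htvt.trans (isConj_iff.2 ⟨g, ?_⟩))⟩
      calc g * (v * t) * g⁻¹ = (g * v * g⁻¹) * (g * t) * g⁻¹ := by group
        _ = (g * v * g⁻¹) * (t * g) * g⁻¹ := by rw [hg]
        _ = (u * t) * t := by rw [h1]; group
        _ = u := by rw [mul_assoc, ht.2, mul_one])).1
  · left; omega

/-- an abelian regular normal subgroup of even order of a doubly transitive group has exponent 2 -/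
theorem exp_two (h : TT G Ω) (he : Even (Nat.card Ω)) {E : Subgroup G} (hE : Reg G Ω E) : ∀ g ∈ E, g * g = 1 := by
  classical
  haveI : Fact (Nat.Prime 2) := ⟨Nat.prime_two⟩
  obtain ⟨a, b, hab⟩ := h.two
  have hcard : Nat.card E = Nat.card Ω := by
    refine Nat.card_congr (Equiv.ofBijective (fun g : E => g.1 • a) ⟨fun g g' hgg => ?_, fun x => ?_⟩)
    · have h1 : (g'.1⁻¹ * g.1) • a = a := by
        have h2 : g.1 • a = g'.1 • a := hgg
        rw [mul_smul, h2, inv_smul_smul]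
      have h3 := hE.2.2 _ (mul_mem (inv_mem g'.2) g.2) a h1
      exact Subtype.ext (inv_mul_eq_one.1 h3).symm
    · obtain ⟨g, hg, hgx⟩ := hE.2.1 a x
      exact ⟨⟨g, hg⟩, hgx⟩
  obtain ⟨e0, he0⟩ := exists_prime_orderOf_dvd_card' (G := E) 2 (by rw [hcard]; exact even_iff_two_dvd.1 he)
  have he1 : e0.1 * e0.1 = 1 := by
    have h1 : e0 ^ 2 = 1 := by rw [← he0, pow_orderOf_eq_one]
    have h2 := congrArg Subtype.val h1
    rw [← pow_two]; exact h2
  have he2 : e0.1 ≠ 1 := by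
    intro h1
    have h2 : e0 = 1 := Subtype.ext h1
    rw [h2, orderOf_one] at he0
    omega
  intro g hg
  by_cases hg1 : g = 1
  · rw [hg1, one_mul]
  have h1 : g • a ≠ a := fun h2 => hg1 (hE.2.2 g hg a h2)
  have h2 : e0.1 • a ≠ a := fun h2 => he2 (hE.2.2 _ e0.2 a h2)
  obtain ⟨k, hka, hkb⟩ := h.tr a (e0.1 • a) a (g • a) (Ne.symm h2) (Ne.symm h1)
  have h3 : k * e0.1 * k⁻¹ ∈ E := hE.1.conj_mem _ e0.2 k
  have hka' : k⁻¹ • a = a := by rw [inv_smul_eq_iff, hka]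
  have h4 : (g⁻¹ * (k * e0.1 * k⁻¹)) • a = a := by
    rw [mul_smul, mul_smul, mul_smul, hka', hkb, inv_smul_smul]
  have h5 := hE.2.2 _ (mul_mem (inv_mem hg) h3) a h4
  have h6 : g = k * e0.1 * k⁻¹ := inv_mul_eq_one.1 h5
  rw [h6]
  calc k * e0.1 * k⁻¹ * (k * e0.1 * k⁻¹) = k * (e0.1 * e0.1) * k⁻¹ := by group
    _ = 1 := by rw [he1]; group

end BB

-- [B-B2]
theorem a4B1_even (h : B4 G Ω) {a b : Ω} (hab : a ≠ b) {t : G} (ht : Inv t) (hts : t ∈ St G a b)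
    {u : G} (hu : Inv u) (hua : u • a = b) (hub : u • b = a) (huc : ∀ g ∈ St G a b, u * g = g * u) (htu : ¬ IsConj t u)
    (he : Even (Nat.card Ω)) : Nat.card Ω = fx G Ω t * fx G Ω t ∧ (∃ k : ℕ, fS G Ω (VV a b t) = 2 ^ k) ∧
      (fx G Ω t = fS G Ω (VV a b t) ∨ fx G Ω t = fS G Ω (VV a b t) * fS G Ω (VV a b t)) ∧
      ∃ E : Subgroup G, Reg G Ω E ∧ (∀ g ∈ E, ∀ g' ∈ E, g * g' = g' * g) ∧ ∀ g ∈ E, g * g = 1 := by
  have hnf := BB.n_eq h hab ht hts hu hua hub huc htu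
  have hfp := BB.fpf h hab ht hts hu htu he
  have hmev := BB.fix_even h hab ht hts hu huc hfp
  obtain ⟨_, k, F, hk, hFx, _⟩ := sh_even (sh_YB4 h hab ht hts) hmev
  have hfS : fS G Ω (VV a b t) = 2 ^ k := hFx
  have hfc := BB.f_cases h hab ht hts hua hub huc htu
  have hfe : ∃ e : ℕ, e ≠ 0 ∧ fx G Ω t = 2 ^ e := by
    rcases hfc with h1 | h1
    · exact ⟨k, by omega, by rw [h1, hfS]⟩
    · exact ⟨k + k, by omega, by rw [h1, hfS, pow_add]⟩
  obtain ⟨e, he0, hee⟩ := hfe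
  obtain ⟨_, E, hE, hEc⟩ := H31.R3G.even_case h.toTT (fun hcd => (facts4 h hcd).2.2.1) hab ht hts (BB.exists_swap h hab ht hts)
    hu hua hub huc htu (e := e + e) (by rw [hnf, hee, pow_add]) (by omega)
  exact ⟨hnf, ⟨k, hfS⟩, hfc, E, hE, hEc, BB.exp_two h.toTT he hE⟩

end H39.DA
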