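import Cfsg.Agent.Lib.H28.PslD8

set_option autoImplicit false
set_option linter.unusedSectionVars false
set_option linter.unusedVariables false
set_option linter.style.haveILetI false

namespace H39.DA.BB4

open Matrix Subgroup H17.FourGrp H17.QuatPair H28.PslD8

local notation "SL2" F => SpecialLinearGroup (Fin 2) F
local notation "PSL2" F => ProjectiveSpecialLinearGroup (Fin 2) F

theorem neg_ne_self {F : Type*} [Field F] (h2 : (2 : F) ≠ 0) (x : SL2 F) : -x ≠ x := by
  intro h
  have h1 : x * x⁻¹ = -(x * x⁻¹) := by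
    nth_rewrite 1 [← h]; rw [neg_mul]
  rw [mul_inv_cancel] at h1
  have h3 : (1 : Matrix (Fin 2) (Fin 2) F) 0 0 = (-(1 : Matrix (Fin 2) (Fin 2) F)) 0 0 := by
    have := congrArg (fun y : SL2 F => y.1 0 0) h1
    simpa using this
  rw [Matrix.neg_apply, Matrix.one_apply_eq] at h3
  apply h2
  linear_combination h3

theorem psl_le {F : Type} [Field F] [Fintype F] (ho : Odd (Fintype.card F)) (t : Matrix.ProjectiveSpecialLinearGroup (Fin 2) F)
    (h1 : t ≠ 1) (h2 : t * t = 1) :
    3 * Nat.card {s : Matrix.ProjectiveSpecialLinearGroup (Fin 2) F // s ≠ 1 ∧ s * s = 1 ∧ s ≠ t ∧ s * t = t * s} ^ 2 ≤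
      4 * Nat.card {s : Matrix.ProjectiveSpecialLinearGroup (Fin 2) F // s ≠ 1 ∧ s * s = 1} := by
  classical
  haveI hfG : Finite (PSL2 F) := inferInstanceAs (Finite (_ ⧸ _))
  have h20 : (2 : F) ≠ 0 := H45.SL2.two_ne_zero_of_odd ho
  obtain ⟨x, rfl⟩ := exists_pr t
  set t : PSL2 F := pr x with ht
  -- exact and anti-commuting elements
  let A : Set (PSL2 F) := {g | ∃ G : SL2 F, pr G = g ∧ G * x = x * G}
  let B : Set (PSL2 F) := {g | ∃ G : SL2 F, pr G = g ∧ G * x = -(x * G)}
  have hdisj : Disjoint A B := by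
    rw [Set.disjoint_left]
    rintro g ⟨G, hG, hGx⟩ ⟨G', hG', hGx'⟩
    have h3 : pr G' = pr G := by rw [hG, hG']
    rcases pr_eq.1 h3 with h4 | h4
    · rw [h4, hGx] at hGx'
      exact neg_ne_self h20 _ hGx'.symm
    · rw [h4, neg_mul, mul_neg, neg_neg, hGx] at hGx'
      exact neg_ne_self h20 _ hGx'
  have hC : ((centralizer ({t} : Set (PSL2 F)) : Subgroup (PSL2 F)) : Set (PSL2 F)) = A ∪ B := by
    ext g
    constructor
    · intro hg
      have hgt : g * t = t * g := mem_centralizer_singleton_iff.1 hg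
      obtain ⟨G, rfl⟩ := exists_pr g
      rw [ht, ← pr_mul, ← pr_mul, pr_eq] at hgt
      rcases hgt with h3 | h3
      · left; exact ⟨G, rfl, h3⟩
      · right; exact ⟨G, rfl, h3⟩
    · intro hg
      apply mem_centralizer_singleton_iff.2
      rcases hg with ⟨G, rfl, h3⟩ | ⟨G, rfl, h3⟩
      · rw [ht, ← pr_mul, ← pr_mul, h3]
      · rw [ht, ← pr_mul, ← pr_mul, h3, pr_neg]
  have hcardC : Nat.card (centralizer ({t} : Set (PSL2 F))) = A.ncard + B.ncard := by
    have h3 : ((centralizer ({t} : Set (PSL2 F)) : Subgroup (PSL2 F)) : Set (PSL2 F)).ncard = A.ncard + B.ncard := by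
      rw [hC, Set.ncard_union_eq hdisj (Set.toFinite _) (Set.toFinite _)]
    exact h3
  have hBA : B.ncard ≤ A.ncard := by
    rcases Set.eq_empty_or_nonempty B with h3 | ⟨s, hs⟩
    · rw [h3, Set.ncard_empty]; exact Nat.zero_le _
    · obtain ⟨S, rfl, hS⟩ := hs
      refine Set.ncard_le_ncard_of_injOn (fun g => pr S * g) ?_ (fun a _ b _ h => mul_left_cancel h) (Set.toFinite _)
      rintro g ⟨G, rfl, hG⟩
      refine ⟨S * G, pr_mul _ _, ?_⟩
      calc S * G * x = S * (G * x) := mul_assoc _ _ _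
        _ = -(S * x * G) := by rw [hG, mul_neg, mul_assoc]
        _ = x * (S * G) := by rw [hS, neg_mul, neg_neg, mul_assoc]
  have hL : Nat.card {s : PSL2 F // s ≠ 1 ∧ s * s = 1 ∧ s ≠ t ∧ s * t = t * s} ≤ B.ncard := by
    have h3 : Nat.card {s : PSL2 F // s ≠ 1 ∧ s * s = 1 ∧ s ≠ t ∧ s * t = t * s} =
        ({s : PSL2 F | s ≠ 1 ∧ s * s = 1 ∧ s ≠ t ∧ s * t = t * s}).ncard := rfl
    rw [h3]
    apply Set.ncard_le_ncard _ (Set.toFinite _)
    rintro s ⟨hs1, hs2, hst, hcomm⟩
    obtain ⟨S, rfl⟩ := exists_pr s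
    have hp : IsPair (pr S) (pr x) := ⟨hs1, h1, hst, hs2, h2, hcomm⟩
    have hq := qp_of_isPair h20 hp
    exact ⟨S, rfl, hq.hxy⟩
  -- the number of involutions
  have hN : (centralizer ({t} : Set (PSL2 F))).index ≤ Nat.card {s : PSL2 F // s ≠ 1 ∧ s * s = 1} := by
    let f : (PSL2 F) → {s : PSL2 F // s ≠ 1 ∧ s * s = 1} := fun g => ⟨g * t * g⁻¹, by
      constructor
      · intro h3
        apply h1
        have : t = g⁻¹ * (g * t * g⁻¹) * g := by group
        rw [this, h3]; group
      · calc g * t * g⁻¹ * (g * t * g⁻¹) = g * (t * t) * g⁻¹ := by group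
          _ = 1 := by rw [h2]; group⟩
    have hf : ∀ a b : PSL2 F, f a = f b ↔ a⁻¹ * b ∈ centralizer ({t} : Set (PSL2 F)) := by
      intro a b
      rw [mem_centralizer_singleton_iff]
      constructor
      · intro h3
        have h4 : a * t * a⁻¹ = b * t * b⁻¹ := congrArg Subtype.val h3
        calc a⁻¹ * b * t = a⁻¹ * (b * t * b⁻¹) * b := by group
          _ = a⁻¹ * (a * t * a⁻¹) * b := by rw [h4]
          _ = _ := by group
      · intro h3
        apply Subtype.ext
        show a * t * a⁻¹ = b * t * b⁻¹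
        calc a * t * a⁻¹ = a * (t * (a⁻¹ * b)) * b⁻¹ := by group
          _ = a * ((a⁻¹ * b) * t) * b⁻¹ := by rw [h3]
          _ = _ := by group
    let f' : (PSL2 F) ⧸ (centralizer ({t} : Set (PSL2 F))) → {s : PSL2 F // s ≠ 1 ∧ s * s = 1} :=
      Quotient.lift f (fun a b hab => (hf a b).2 (QuotientGroup.leftRel_apply.1 hab))
    have hinj : Function.Injective f' := by
      intro a b
      induction a using QuotientGroup.induction_on with
      | H a =>
        induction b using QuotientGroup.induction_on with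
        | H b =>
          intro h3
          exact QuotientGroup.eq.2 ((hf a b).1 h3)
    exact Nat.card_le_card_of_injective f' hinj
  obtain ⟨hc1, hc3⟩ := card_cent ho h2 h1
  have hcard2 : 2 * Nat.card (PSL2 F) = Fintype.card F * (Fintype.card F ^ 2 - 1) := by
    obtain ⟨k, hk⟩ := ho
    have hcen : Nat.card (Subgroup.center (SpecialLinearGroup (Fin 2) F)) = 2 := by
      rw [H85.PSLClass.card_center]
      exact Nat.gcd_eq_left ⟨k, by omega⟩
    have h4 := Subgroup.card_eq_card_quotient_mul_card_subgroup (Subgroup.center (SpecialLinearGroup (Fin 2) F))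
    rw [hcen, H25.SL2Card.card_SL2] at h4
    rw [h4, mul_comm]
  have hmul := Subgroup.card_mul_index (centralizer ({t} : Set (PSL2 F)))
  have hgt : 1 < Fintype.card F := Fintype.one_lt_card
  rw [← hmul] at hcard2
  generalize Nat.card {s : PSL2 F // s ≠ 1 ∧ s * s = 1 ∧ s ≠ t ∧ s * t = t * s} = L at *
  generalize Nat.card {s : PSL2 F // s ≠ 1 ∧ s * s = 1} = N at *
  generalize (centralizer ({t} : Set (PSL2 F))).index = ix at *
  generalize Nat.card (centralizer ({t} : Set (PSL2 F))) = c at *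
  generalize Fintype.card F = q at *
  have hLc : 2 * L ≤ c := by omega
  obtain ⟨k, hk⟩ := ho
  have hq3 : 3 ≤ q := by omega
  obtain ⟨r, rfl⟩ : ∃ r, q = r + 3 := ⟨q - 3, by omega⟩
  have hsub : (r + 3) ^ 2 - 1 = (r + 2) * (r + 4) := by
    rw [show (r + 3) ^ 2 = (r + 2) * (r + 4) + 1 by ring]; simp
  rw [hsub] at hcard2
  have hm : (r + 3) % 4 = 1 ∨ (r + 3) % 4 = 3 := by omega
  rcases hm with h6 | h6
  · have hc := hc1 h6
    have hc' : c = r + 2 := by omega
    subst hc'
    have h7 : 2 * ix = (r + 3) * (r + 4) := by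
      have : (r + 2) * (2 * ix) = (r + 2) * ((r + 3) * (r + 4)) := by linarith
      exact Nat.eq_of_mul_eq_mul_left (by omega) this
    nlinarith [Nat.mul_le_mul hLc hLc]
  · have hc := hc3 h6
    have hc' : c = r + 4 := by omega
    subst hc'
    have h7 : 2 * ix = (r + 3) * (r + 2) := by
      have : (r + 4) * (2 * ix) = (r + 4) * ((r + 3) * (r + 2)) := by linarith
      exact Nat.eq_of_mul_eq_mul_left (by omega) this
    nlinarith [Nat.mul_le_mul hLc hLc]

end H39.DA.BB4
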