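import Cfsg.Agent.Lib.H39.DBD0a
import Cfsg.Agent.Lib.H39.DBD0b
import Cfsg.Agent.Lib.H39.DBD2
import Cfsg.Agent.Lib.H39.DBD3

/-! Counts of involutions in a point stabilizer (S3219, piece BB4-P6). -/

set_option autoImplicit false

namespace H39.DA.BB4

open MulAction

universe u v

theorem dcSum {α : Type*} {β : Type*} [Finite α] [Finite β] (R : α → β → Prop) (x : ℕ)
    (h1 : ∀ a, Nat.card {b // R a b} = x) : Nat.card {p : α × β // R p.1 p.2} = Nat.card α * x := by
  classical
  letI := Fintype.ofFinite α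
  letI := Fintype.ofFinite β
  rw [Nat.card_congr (Equiv.subtypeProdEquivSigmaSubtype R), Nat.card_sigma, Finset.sum_congr rfl (fun a _ => h1 a),
    Finset.sum_const, Finset.card_univ, Nat.card_eq_fintype_card, smul_eq_mul]

theorem dcSum_le {α : Type*} {β : Type*} [Finite α] [Finite β] (R : α → β → Prop) (x : ℕ)
    (h1 : ∀ a, Nat.card {b // R a b} ≤ x) : Nat.card {p : α × β // R p.1 p.2} ≤ Nat.card α * x := by
  classical
  letI := Fintype.ofFinite α
  letI := Fintype.ofFinite β
  rw [Nat.card_congr (Equiv.subtypeProdEquivSigmaSubtype R), Nat.card_sigma]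
  refine (Finset.sum_le_sum (fun a _ => h1 a)).trans (le_of_eq ?_)
  rw [Finset.sum_const, Finset.card_univ, Nat.card_eq_fintype_card, smul_eq_mul]

theorem swapCard {α : Type*} {β : Type*} (R : α → β → Prop) :
    Nat.card {p : α × β // R p.1 p.2} = Nat.card {p : β × α // R p.2 p.1} :=
  Nat.card_congr ⟨fun p => ⟨(p.1.2, p.1.1), p.2⟩, fun p => ⟨(p.1.2, p.1.1), p.2⟩, fun _ => rfl, fun _ => rfl⟩

theorem dc {α : Type*} {β : Type*} [Finite α] [Finite β] (R : α → β → Prop) (x y : ℕ)
    (h1 : ∀ a, Nat.card {b // R a b} = x) (h2 : ∀ b, Nat.card {a // R a b} = y) :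
    Nat.card α * x = Nat.card β * y := by
  rw [← dcSum R x h1, swapCard R, dcSum (fun b a => R a b) y h2]

theorem dc_le {α : Type*} {β : Type*} [Finite α] [Finite β] (R : α → β → Prop) (x y : ℕ)
    (h1 : ∀ a, Nat.card {b // R a b} = x) (h2 : ∀ b, Nat.card {a // R a b} ≤ y) :
    Nat.card α * x ≤ Nat.card β * y := by
  rw [← dcSum R x h1, swapCard R]
  exact dcSum_le (fun b a => R a b) y h2

/-- removing one point -/
theorem card_rem {Ω : Type*} [Finite Ω] (P : Ω → Prop) (a : Ω) (ha : P a) :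
    Nat.card {c : {c : Ω // c ≠ a} // P c.1} + 1 = Nat.card {c : Ω // P c} := by
  classical
  have e1 : Nat.card {c : {c : Ω // c ≠ a} // P c.1} = ({x | P x} \ {a} : Set Ω).ncard := by
    rw [← Nat.card_coe_set_eq]
    exact Nat.card_congr ⟨fun c => ⟨c.1.1, c.2, c.1.2⟩, fun c => ⟨⟨c.1, c.2.2⟩, c.2.1⟩, fun _ => rfl, fun _ => rfl⟩
  have e2 : Nat.card {c : Ω // P c} = ({x | P x} : Set Ω).ncard := by
    rw [← Nat.card_coe_set_eq]; rfl
  rw [e1, e2]
  exact Set.ncard_diff_singleton_add_one (show a ∈ {x | P x} from ha) (Set.toFinite _)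

variable {G : Type u} {Ω : Type v} [Group G] [Finite G] [MulAction G Ω] [Finite Ω]

theorem fx_conj (g s : G) : fx G Ω (g * s * g⁻¹) = fx G Ω s := by
  unfold fx
  refine Nat.card_congr ⟨fun x => ⟨g⁻¹ • x.1, ?_⟩, fun x => ⟨g • x.1, ?_⟩, fun x => Subtype.ext (smul_inv_smul g x.1), fun x => Subtype.ext (inv_smul_smul g x.1)⟩
  · have := x.2
    rw [mul_smul, mul_smul] at this
    rw [eq_inv_smul_iff]; exact this
  · have := x.2
    rw [mul_smul, mul_smul, inv_smul_smul, this]

theorem fS_conj (g : G) (V V' : Subgroup G) (hV : ∀ x, x ∈ V ↔ g * x * g⁻¹ ∈ V') : fS G Ω V = fS G Ω V' := by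
  unfold fS
  refine Nat.card_congr ⟨fun x => ⟨g • x.1, ?_⟩, fun x => ⟨g⁻¹ • x.1, ?_⟩, fun x => Subtype.ext (inv_smul_smul g x.1), fun x => Subtype.ext (smul_inv_smul g x.1)⟩
  · intro y hy
    have h1 : g⁻¹ * y * g ∈ V := by
      rw [hV]
      have : g * (g⁻¹ * y * g) * g⁻¹ = y := by group
      rwa [this]
    have h2 := x.2 _ h1
    rw [mul_smul, mul_smul, inv_smul_eq_iff] at h2
    exact h2
  · intro y hy
    have h2 := x.2 _ ((hV y).1 hy)
    rw [mul_smul, mul_smul] at h2
    rw [eq_inv_smul_iff]; exact h2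

/-- every involution of `G_a` is conjugate to `t` inside `G_a`; the conjugating element may be chosen to
carry a given second fixed point to `b` -/
theorem to_t (h : B4 G Ω) {a b : Ω} (hab : a ≠ b) {t : G} (ht : Inv t) (hts : t ∈ St G a b) {s : G} (hs : Inv s)
    {c : Ω} (hac : c ≠ a) (hsc : s ∈ St G a c) :
    ∃ g : G, g • a = a ∧ g • c = b ∧ g * s * g⁻¹ = t := by
  obtain ⟨g, hg1, hg2⟩ := h.tr a c a b (Ne.symm hac) hab
  have h1 : g * s * g⁻¹ ∈ St G a b := by
    refine ⟨?_, ?_⟩
    · show (g * s * g⁻¹) • a = a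
      rw [mul_smul, mul_smul, inv_smul_eq_iff.2 hg1.symm, show s • a = a from hsc.1, hg1]
    · show (g * s * g⁻¹) • b = b
      rw [mul_smul, mul_smul, inv_smul_eq_iff.2 hg2.symm, show s • c = c from hsc.2, hg2]
  have h2 : Inv (g * s * g⁻¹) := by
    refine ⟨fun h' => hs.1 ?_, ?_⟩
    · rw [mul_inv_eq_one] at h'
      exact mul_left_cancel (h'.trans (mul_one g).symm)
    · have : g * s * g⁻¹ * (g * s * g⁻¹) = g * (s * s) * g⁻¹ := by group
      rw [this, hs.2, mul_one, mul_inv_cancel]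
  obtain ⟨x, hx, hxs⟩ := (facts4 h hab).2.2.1 _ _ h2 h1 ht hts
  refine ⟨x * g, ?_, ?_, ?_⟩
  · rw [mul_smul, hg1]; exact hx.1
  · rw [mul_smul, hg2]; exact hx.2
  · rw [← hxs]; group

theorem exists_fix (h : B4 G Ω) (he : Even (Nat.card Ω)) {a : Ω} {s : G} (hs : Inv s) (hsa : s • a = a) :
    ∃ c, c ≠ a ∧ s ∈ St G a c := by
  classical
  haveI : Fact (Nat.Prime 2) := ⟨Nat.prime_two⟩
  have hord : orderOf s = 2 := orderOf_eq_prime (by rw [sq]; exact hs.2) hs.1
  have hp : IsPGroup 2 (Subgroup.zpowers s) := IsPGroup.of_card (n := 1) (by rw [Nat.card_zpowers, hord, pow_one])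
  have h1 := hp.card_modEq_card_fixedPoints Ω
  have h2 : Nat.card (fixedPoints (Subgroup.zpowers s) Ω) ≠ 1 := by
    intro h3
    rw [h3] at h1
    have := Nat.even_iff.1 he
    unfold Nat.ModEq at h1
    omega
  have hmem : ∀ x, s • x = x → x ∈ fixedPoints (Subgroup.zpowers s) Ω := by
    intro x hx k
    have : (k : G) ∈ stabilizer G x := (Subgroup.zpowers_le.2 (mem_stabilizer_iff.2 hx)) k.2
    exact this
  haveI : Nonempty (fixedPoints (Subgroup.zpowers s) Ω) := ⟨⟨a, hmem a hsa⟩⟩
  have h3 : ∃ c : fixedPoints (Subgroup.zpowers s) Ω, c ≠ ⟨a, hmem a hsa⟩ := by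
    by_contra hcon
    push Not at hcon
    exact h2 (Nat.card_eq_one_iff_unique.2 ⟨⟨fun x y => (hcon x).trans (hcon y).symm⟩, inferInstance⟩)
  obtain ⟨c, hc⟩ := h3
  refine ⟨c.1, fun h' => hc (Subtype.ext h'), hsa, ?_⟩
  have := c.2 ⟨s, Subgroup.mem_zpowers s⟩
  exact this

theorem counts (h : B4 G Ω) {a b : Ω} (hab : a ≠ b) {t : G} (ht : Inv t) (hts : t ∈ St G a b)
    (hn : Nat.card Ω = fx G Ω t * fx G Ω t) (hk : ∃ k : ℕ, fS G Ω (VV a b t) = 2 ^ k)
    (hm : fx G Ω t = fS G Ω (VV a b t) * fS G Ω (VV a b t)) :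
    (∀ s s' : stabilizer G a, s ≠ 1 → s * s = 1 → s' ≠ 1 → s' * s' = 1 → ∃ g : stabilizer G a, g * s * g⁻¹ = s') ∧
    Nat.card {s : stabilizer G a // s ≠ 1 ∧ s * s = 1} = 3 * (fS G Ω (VV a b t) ^ 2 + 1) ∧
    (∀ r : stabilizer G a, r ≠ 1 → r * r = 1 →
      2 * (fS G Ω (VV a b t) + 1) ≤ Nat.card {s : stabilizer G a // s ≠ 1 ∧ s * s = 1 ∧ s ≠ r ∧ s * r = r * s}) := by
  classical
  have hm2 : 2 ≤ fS G Ω (VV a b t) := (countV4 h hab ht hts).1
  have hev : Even (Nat.card Ω) := by
    obtain ⟨k, hk⟩ := hk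
    have hk0 : k ≠ 0 := by
      rintro rfl
      rw [hk, pow_zero] at hm2
      omega
    have : Even (fS G Ω (VV a b t)) := by
      rw [hk]; exact (Nat.even_pow.2 ⟨even_two, hk0⟩)
    rw [hn, hm]
    exact ((this.mul_right _).mul_right _)
  have hinv : ∀ s : stabilizer G a, s ≠ 1 → s * s = 1 → Inv s.1 := fun s h1 h2 =>
    ⟨fun h' => h1 (Subtype.ext h'), congrArg Subtype.val h2⟩
  have toT : ∀ s : stabilizer G a, s ≠ 1 → s * s = 1 → ∃ g : stabilizer G a, g.1 * s.1 * g.1⁻¹ = t := by
    intro s h1 h2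
    obtain ⟨c, hc, hsc⟩ := exists_fix h hev (hinv s h1 h2) s.2
    obtain ⟨g, hg1, _, hg3⟩ := to_t h hab ht hts (hinv s h1 h2) hc hsc
    exact ⟨⟨g, hg1⟩, hg3⟩
  have hfx : ∀ s : stabilizer G a, s ≠ 1 → s * s = 1 → fx G Ω s.1 = fx G Ω t := by
    intro s h1 h2
    obtain ⟨g, hg⟩ := toT s h1 h2
    rw [← hg, fx_conj]
  set m := fS G Ω (VV a b t) with hmdef
  refine ⟨?_, ?_, ?_⟩
  · intro s s' h1 h2 h3 h4
    obtain ⟨g, hg⟩ := toT s h1 h2
    obtain ⟨g', hg'⟩ := toT s' h3 h4
    refine ⟨g'⁻¹ * g, Subtype.ext ?_⟩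
    change (g'.1⁻¹ * g.1) * s.1 * (g'.1⁻¹ * g.1)⁻¹ = s'.1
    have e1 : (g'.1⁻¹ * g.1) * s.1 * (g'.1⁻¹ * g.1)⁻¹ = g'.1⁻¹ * (g.1 * s.1 * g.1⁻¹) * g'.1 := by group
    rw [e1, hg, ← hg']; group
  · -- counting
    have key := dc (α := {c : Ω // c ≠ a}) (β := {s : stabilizer G a // s ≠ 1 ∧ s * s = 1})
      (fun c s => s.1.1 • c.1 = c.1) 3 (fx G Ω t - 1) (by
        intro c
        rw [← (facts4 h (Ne.symm c.2)).2.1]
        exact Nat.card_congr ⟨fun s => ⟨s.1.1.1, hinv s.1.1 s.1.2.1 s.1.2.2, s.1.1.2, s.2⟩,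
          fun s => ⟨⟨⟨s.1, s.2.2.1⟩, fun h' => s.2.1.1 (congrArg Subtype.val h'), Subtype.ext s.2.1.2⟩, s.2.2.2⟩,
          fun _ => rfl, fun _ => rfl⟩) (by
        intro s
        have := card_rem (fun x => s.1.1 • x = x) a s.1.2
        have e1 : Nat.card {c : Ω // s.1.1 • c = c} = fx G Ω t := hfx s.1 s.2.1 s.2.2
        rw [e1] at this
        omega)
    have hc0 : Nat.card {c : Ω // c ≠ a} + 1 = Nat.card Ω := by
      have e1 := card_rem (fun _ : Ω => True) a trivial
      have e2 : Nat.card {c : {c : Ω // c ≠ a} // True} = Nat.card {c : Ω // c ≠ a} :=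
        Nat.card_congr (Equiv.subtypeUnivEquiv (fun _ => trivial))
      have e3 : Nat.card {c : Ω // True} = Nat.card Ω := Nat.card_congr (Equiv.subtypeUnivEquiv (fun _ => trivial))
      rw [e2, e3] at e1
      exact e1
    have hc1 : Nat.card {c : Ω // c ≠ a} = (m * m - 1) * (m * m + 1) := by
      have e1 : (m * m - 1) * (m * m + 1) + 1 = Nat.card Ω := by
        rw [hn, hm]
        obtain ⟨x, hx⟩ : ∃ x, m * m = x + 1 := ⟨m * m - 1, by have := Nat.mul_le_mul hm2 hm2; omega⟩
        rw [hx, Nat.add_sub_cancel]; ring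
      omega
    rw [hc1, hm] at key
    have hpos : 0 < m * m - 1 := by have := Nat.mul_le_mul hm2 hm2; omega
    have e4 : (m * m - 1) * (3 * (m ^ 2 + 1)) = (m * m - 1) * Nat.card {s : stabilizer G a // s ≠ 1 ∧ s * s = 1} := by
      rw [mul_comm (m * m - 1) (Nat.card _), ← key]; ring
    exact (Nat.eq_of_mul_eq_mul_left hpos e4).symm
  · intro r hr1 hr2
    have hri := hinv r hr1 hr2
    have key := dc_le (α := {c : {c : Ω // c ≠ a} // r.1 • c.1 = c.1})
      (β := {s : stabilizer G a // s ≠ 1 ∧ s * s = 1 ∧ s ≠ r ∧ s * r = r * s})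
      (fun c s => s.1.1 • c.1.1 = c.1.1) 2 (m - 1) (by
        intro c
        have hac : a ≠ c.1.1 := Ne.symm c.1.2
        have hrc : r.1 ∈ St G a c.1.1 := ⟨r.2, c.2⟩
        obtain ⟨v1, v2, v3, v4, _, _, v7, _⟩ := vfacts4 h hac hri hrc
        have hrV : r.1 ∈ VV a c.1.1 r.1 := v7 _ hrc hri
        have e1 : Nat.card {s : {s : stabilizer G a // s ≠ 1 ∧ s * s = 1 ∧ s ≠ r ∧ s * r = r * s} // s.1.1 • c.1.1 = c.1.1}
            = (((VV a c.1.1 r.1 : Subgroup G) : Set G) \ {1, r.1}).ncard := by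
          rw [← Nat.card_coe_set_eq]
          refine Nat.card_congr ⟨fun s => ⟨s.1.1.1, ⟨⟨s.1.1.2, s.2⟩, ?_⟩, ?_⟩, fun s => ⟨⟨⟨s.1, s.2.1.1.1⟩, ?_, ?_, ?_, ?_⟩, s.2.1.1.2⟩, fun _ => rfl, fun _ => rfl⟩
          · exact Subgroup.mem_centralizer_singleton_iff.2 (congrArg Subtype.val s.1.2.2.2.2)
          · rintro (h' | h')
            · exact s.1.2.1 (Subtype.ext h')
            · exact s.1.2.2.2.1 (Subtype.ext h')
          · exact fun h' => s.2.2 (Or.inl (congrArg Subtype.val h'))
          · exact Subtype.ext (v2 _ s.2.1)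
          · exact fun h' => s.2.2 (Or.inr (congrArg Subtype.val h'))
          · exact Subtype.ext (Subgroup.mem_centralizer_singleton_iff.1 s.2.1.2)
        have hsub : ({1, r.1} : Set G) ⊆ ((VV a c.1.1 r.1 : Subgroup G) : Set G) := by
          rintro x (rfl | rfl)
          · exact Subgroup.one_mem _
          · exact hrV
        have e2 := Set.ncard_diff_add_ncard_of_subset hsub (Set.toFinite _)
        have e3 : (((VV a c.1.1 r.1 : Subgroup G) : Set G)).ncard = 4 := by
          rw [← Nat.card_coe_set_eq]; exact v1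
        have e4 : ({1, r.1} : Set G).ncard = 2 := Set.ncard_pair (Ne.symm hri.1)
        rw [e1]
        omega) (by
        intro s
        by_cases hne : Nonempty {c : {c : {c : Ω // c ≠ a} // r.1 • c.1 = c.1} // s.1.1 • c.1.1 = c.1.1}
        swap
        · rw [not_nonempty_iff] at hne
          rw [Nat.card_of_isEmpty]; exact Nat.zero_le _
        obtain ⟨c0⟩ := hne
        have hac : a ≠ c0.1.1.1 := Ne.symm c0.1.1.2
        have hrc : r.1 ∈ St G a c0.1.1.1 := ⟨r.2, c0.1.2⟩
        have hsi := hinv s.1 s.2.1 s.2.2.1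
        have hsc : s.1.1 ∈ St G a c0.1.1.1 := ⟨s.1.2, c0.2⟩
        obtain ⟨v1, v2, v3, v4, _, _, v7, v8⟩ := vfacts4 h hac hri hrc
        have hrV : r.1 ∈ VV a c0.1.1.1 r.1 := v7 _ hrc hri
        have hsV : s.1.1 ∈ VV a c0.1.1.1 r.1 := v7 _ hsc hsi
        -- number of fixed points of the four-group
        have hfS : fS G Ω (VV a c0.1.1.1 r.1) = m := by
          obtain ⟨g, hg1, hg2, hg3⟩ := to_t h hab ht hts hri c0.1.1.2 hrc
          rw [hmdef]
          refine fS_conj g _ _ (fun x => ?_)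
          constructor
          · rintro ⟨⟨hx1, hx2⟩, hx3⟩
            refine ⟨⟨?_, ?_⟩, ?_⟩
            · show (g * x * g⁻¹) • a = a
              rw [mul_smul, mul_smul, inv_smul_eq_iff.2 hg1.symm, show x • a = a from hx1, hg1]
            · show (g * x * g⁻¹) • b = b
              rw [mul_smul, mul_smul, inv_smul_eq_iff.2 hg2.symm, show x • c0.1.1.1 = c0.1.1.1 from hx2, hg2]
            · refine Subgroup.mem_centralizer_singleton_iff.2 ?_
              have e1 := Subgroup.mem_centralizer_singleton_iff.1 hx3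
              rw [← hg3]
              calc g * x * g⁻¹ * (g * r.1 * g⁻¹) = g * (x * r.1) * g⁻¹ := by group
                _ = g * (r.1 * x) * g⁻¹ := by rw [e1]
                _ = _ := by group
          · rintro ⟨⟨hx1, hx2⟩, hx3⟩
            refine ⟨⟨?_, ?_⟩, ?_⟩
            · show x • a = a
              have e1 : (g * x * g⁻¹) • a = a := hx1
              rw [mul_smul, mul_smul, inv_smul_eq_iff.2 hg1.symm] at e1
              exact smul_left_cancel g (e1.trans hg1.symm)
            · show x • c0.1.1.1 = c0.1.1.1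
              have e1 : (g * x * g⁻¹) • b = b := hx2
              rw [mul_smul, mul_smul, inv_smul_eq_iff.2 hg2.symm] at e1
              exact smul_left_cancel g (e1.trans hg2.symm)
            · refine Subgroup.mem_centralizer_singleton_iff.2 ?_
              have e1 := Subgroup.mem_centralizer_singleton_iff.1 hx3
              rw [← hg3] at e1
              have e2 : g * (x * r.1) * g⁻¹ = g * (r.1 * x) * g⁻¹ := by
                calc g * (x * r.1) * g⁻¹ = g * x * g⁻¹ * (g * r.1 * g⁻¹) := by group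
                  _ = g * r.1 * g⁻¹ * (g * x * g⁻¹) := e1
                  _ = _ := by group
              exact mul_left_cancel (mul_right_cancel e2)
        -- elements of the four-group
        have hrs : r.1 ≠ s.1.1 := fun h' => s.2.2.2.1 (Subtype.ext h'.symm)
        have hV4 : ((VV a c0.1.1.1 r.1 : Subgroup G) : Set G) = {1, r.1, s.1.1, r.1 * s.1.1} := by
          symm
          refine Set.eq_of_subset_of_ncard_le ?_ ?_ (Set.toFinite _)
          · rintro x (rfl | rfl | rfl | rfl)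
            · exact Subgroup.one_mem _
            · exact hrV
            · exact hsV
            · exact Subgroup.mul_mem _ hrV hsV
          · rw [← Nat.card_coe_set_eq]
            have e5 : ({1, r.1, s.1.1, r.1 * s.1.1} : Set G).ncard = 4 := by
              rw [Set.ncard_eq_toFinset_card']
              simp only [Set.toFinset_insert, Set.toFinset_singleton]
              rw [Finset.card_insert_of_notMem, Finset.card_insert_of_notMem, Finset.card_insert_of_notMem, Finset.card_singleton]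
              · rw [Finset.mem_singleton]
                intro h'
                exact hri.1 (mul_right_cancel (h'.symm.trans (one_mul _).symm))
              · rw [Finset.mem_insert, Finset.mem_singleton]
                rintro (h' | h')
                · exact hrs h'
                · exact hsi.1 (mul_left_cancel (h'.symm.trans (mul_one _).symm))
              · rw [Finset.mem_insert, Finset.mem_insert, Finset.mem_singleton]
                rintro (h' | h' | h')
                · exact hri.1 h'.symm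
                · exact hsi.1 h'.symm
                · apply hrs
                  have : r.1 * s.1.1 = r.1 * r.1 := by rw [← h', hri.2]
                  exact (mul_left_cancel this).symm
            rw [e5]
            exact le_of_eq v1
        have hcardm : Nat.card {x : {x : Ω // x ≠ a} // ∀ g ∈ VV a c0.1.1.1 r.1, g • x.1 = x.1} + 1 = m := by
          rw [← hfS]
          exact card_rem (fun x : Ω => ∀ g ∈ VV a c0.1.1.1 r.1, g • x = x) a (fun g hg => hg.1.1)
        have hinj : Nat.card {c : {c : {c : Ω // c ≠ a} // r.1 • c.1 = c.1} // s.1.1 • c.1.1 = c.1.1}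
            ≤ Nat.card {x : {x : Ω // x ≠ a} // ∀ g ∈ VV a c0.1.1.1 r.1, g • x.1 = x.1} := by
          refine Nat.card_le_card_of_injective (fun c => ⟨c.1.1, ?_⟩) (fun c c' hcc => ?_)
          · intro g hg
            have hg' : g ∈ ((VV a c0.1.1.1 r.1 : Subgroup G) : Set G) := hg
            rw [hV4] at hg'
            have q1 : r.1 • c.1.1.1 = c.1.1.1 := c.1.2
            have q2 : s.1.1 • c.1.1.1 = c.1.1.1 := c.2
            rcases hg' with rfl | rfl | rfl | rfl
            · exact one_smul _ _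
            · exact q1
            · exact q2
            · rw [mul_smul, q2, q1]
          · have := congrArg Subtype.val hcc
            exact Subtype.ext (Subtype.ext this)
        omega)
    have hcα : Nat.card {c : {c : Ω // c ≠ a} // r.1 • c.1 = c.1} + 1 = m * m := by
      rw [← hm, ← hfx r hr1 hr2]
      exact card_rem (fun x => r.1 • x = x) a r.2
    obtain ⟨x, hx⟩ : ∃ x, m = x + 1 := ⟨m - 1, by omega⟩
    have hx1 : 0 < x := by omega
    have e6 : Nat.card {c : {c : Ω // c ≠ a} // r.1 • c.1 = c.1} = x * (m + 1) := by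
      have : x * (m + 1) + 1 = m * m := by rw [hx]; ring
      omega
    rw [e6, hx, Nat.add_sub_cancel] at key
    rw [hx]
    have e7 : x * (2 * (x + 1 + 1)) ≤ x * Nat.card {s : stabilizer G a // s ≠ 1 ∧ s * s = 1 ∧ s ≠ r ∧ s * r = r * s} := by
      calc x * (2 * (x + 1 + 1)) = x * (x + 1 + 1) * 2 := by ring
        _ ≤ _ := key
        _ = _ := mul_comm _ _
    exact Nat.le_of_mul_le_mul_left e7 hx1

end H39.DA.BB4
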