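import Cfsg.Agent.Lib.H73.DB16b

/-! Identification of `AGL(2,4)` (S3219, piece BB5). -/

set_option autoImplicit false

namespace H39.DA

open MulAction

universe u v

variable {G : Type u} {Ω : Type v} [Group G] [Finite G] [MulAction G Ω] [Finite Ω]

theorem a4final16 (h : B4 G Ω) (hn : Nat.card Ω = 16) {a : Ω} (E : Subgroup G) (hE : Reg G Ω E) (hEc : ∀ g ∈ E, ∀ g' ∈ E, g * g' = g' * g)
    (hE2 : ∀ g ∈ E, g * g = 1) (X : Subgroup (stabilizer G a)) (hX : X.Normal) (hX3 : Nat.card X = 3)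
    (h2 : ∀ Y : Subgroup (stabilizer G a), Y.index ≠ 2) :
    ∃ (F : Type) (_ : Field F) (_ : Fintype F), Fintype.card F = 4 ∧ Nonempty (G ≃* ((Fin 2 → F) ≃ᵃ[F] (Fin 2 → F))) := by
  classical
  obtain ⟨hEn, hEt, hEr⟩ := hE
  haveI := hEn
  obtain ⟨z, hz1, hz3, hzc⟩ := H73.DB16.central X hX hX3 h2
  -- bijection
  let κ : E → Ω := fun x => x.1 • a
  have hκ : Function.Bijective κ := by
    constructor
    · intro x y hxy
      have h1 : (y.1⁻¹ * x.1) • a = a := by
        rw [mul_smul, inv_smul_eq_iff]; exact hxy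
      have h3 := hEr _ (E.mul_mem (E.inv_mem y.2) x.2) a h1
      rw [inv_mul_eq_one] at h3
      exact Subtype.ext h3.symm
    · intro ω
      obtain ⟨g, hg, hgω⟩ := hEt a ω
      exact ⟨⟨g, hg⟩, hgω⟩
  let eκ : E ≃ Ω := Equiv.ofBijective κ hκ
  have hcardE : Nat.card E = 16 := (Nat.card_congr eκ).trans hn
  letI : CommGroup E := { (inferInstance : Group E) with mul_comm := fun x y => Subtype.ext (hEc x.1 x.2 y.1 y.2) }
  let c : G →* MulAut E := MulAut.conjNormal
  have hc : ∀ (g : G) (x : E), (c g x).1 = g * x.1 * g⁻¹ := fun g x => MulAut.conjNormal_apply g x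
  let ζ : Additive E →+ Additive E := (c z.1).toMonoidHom.toAdditive
  have hζv : ∀ v : Additive E, (Additive.toMul (ζ v)).1 = z.1 * (Additive.toMul v).1 * z.1⁻¹ := fun v => hc z.1 (Additive.toMul v)
  -- z fixes no other point
  have hzfix : ∀ x : E, z.1 * x.1 * z.1⁻¹ = x.1 → x = 1 := by
    intro x hx
    by_contra hne
    apply hz1
    have hxa : x.1 • a ≠ a := fun h' => hne (Subtype.ext (hEr _ x.2 a h'))
    refine Subtype.ext (h.faith z.1 (fun ω => ?_))
    by_cases hω : ω = a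
    · rw [hω]; exact z.2
    · obtain ⟨g, hg1, hg2⟩ := h.tr a (x.1 • a) a ω (Ne.symm hxa) (Ne.symm hω)
      have hcom : g * z.1 = z.1 * g := congrArg Subtype.val (hzc ⟨g, hg1⟩)
      have hxz : z.1 * x.1 = x.1 * z.1 := by rwa [mul_inv_eq_iff_eq_mul] at hx
      calc z.1 • ω = z.1 • g • x.1 • a := by rw [hg2]
        _ = (z.1 * g * x.1) • a := by rw [mul_smul, mul_smul]
        _ = (g * (z.1 * x.1)) • a := by rw [← hcom, mul_assoc]
        _ = g • x.1 • z.1 • a := by rw [hxz, mul_smul, mul_smul]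
        _ = ω := by rw [show z.1 • a = a from z.2, hg2]
  have hz3' : z.1 * z.1 * z.1 = 1 := congrArg Subtype.val hz3
  have hζ : ∀ v, ζ (ζ v) + ζ v + v = 0 := by
    intro v
    have h3 : Additive.toMul (ζ (ζ v) + ζ v + v) = 1 := by
      apply hzfix
      have e1 : (Additive.toMul (ζ (ζ v) + ζ v + v)) = Additive.toMul (ζ (ζ v)) * Additive.toMul (ζ v) * Additive.toMul v := rfl
      have e2 : ζ (ζ (ζ v) + ζ v + v) = ζ (ζ v) + ζ v + v := by
        rw [map_add, map_add]
        have e3 : ζ (ζ (ζ v)) = v := by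
          apply Additive.toMul.injective
          apply Subtype.ext
          rw [hζv, hζv, hζv]
          have : z.1 * (z.1 * (z.1 * (Additive.toMul v).1 * z.1⁻¹) * z.1⁻¹) * z.1⁻¹
              = (z.1 * z.1 * z.1) * (Additive.toMul v).1 * (z.1 * z.1 * z.1)⁻¹ := by group
          rw [this, hz3', one_mul, inv_one, mul_one]
        rw [e3]; abel
      have e4 := hζv (ζ (ζ v) + ζ v + v)
      rw [e2] at e4
      exact e4.symm
    exact Additive.toMul.injective h3
  have h2V : ∀ v : Additive E, v + v = 0 := fun v =>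
    Additive.toMul.injective (Subtype.ext (hE2 (Additive.toMul v).1 (Additive.toMul v).2))
  obtain ⟨F, iF, iFt, β, hF4, hβ⟩ := H73.DB16.exists_F4 (V := Additive E) hcardE h2V ζ hζ
  refine ⟨F, iF, iFt, hF4, ?_⟩
  let δ : Ω ≃ (Fin 2 → F) := eκ.symm.trans (Additive.ofMul.trans β.toEquiv)
  have hδ : ∀ x : E, δ (x.1 • a) = β (Additive.ofMul x) := by
    intro x
    have : eκ.symm (x.1 • a) = x := eκ.symm_apply_apply x
    change β (Additive.ofMul (eκ.symm (x.1 • a))) = _
    rw [this]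
  have hsur : ∀ ω : Ω, ∃ x : E, x.1 • a = ω := fun ω => hκ.2 ω
  let Ψ : G →* Equiv.Perm (Fin 2 → F) := (δ.permCongrHom.toMonoidHom).comp (toPermHom G Ω)
  have hΨ : ∀ (g : G) (ω : Ω), Ψ g (δ ω) = δ (g • ω) := by
    intro g ω
    change δ ((toPermHom G Ω g) (δ.symm (δ ω))) = _
    rw [δ.symm_apply_apply]
    rfl
  have hΨi : Function.Injective Ψ := by
    rw [injective_iff_map_eq_one]
    intro g hg
    refine h.faith g (fun ω => ?_)
    apply δ.injective
    rw [← hΨ, hg]
    rfl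
  let Θ : ((Fin 2 → F) ≃ᵃ[F] (Fin 2 → F)) →* Equiv.Perm (Fin 2 → F) :=
    { toFun := AffineEquiv.toEquiv
      map_one' := rfl
      map_mul' := fun _ _ => rfl }
  have hΘi : Function.Injective Θ := AffineEquiv.toEquiv_injective
  have hrange : Ψ.range ≤ Θ.range := by
    rintro _ ⟨g, rfl⟩
    obtain ⟨e, he, hea⟩ := hEt a (g • a)
    have hb : (e⁻¹ * g) • a = a := by rw [mul_smul, inv_smul_eq_iff]; exact hea.symm
    let b : stabilizer G a := ⟨e⁻¹ * g, hb⟩
    let T : Additive E →+ Additive E := (c b.1).toMonoidHom.toAdditive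
    have hTv : ∀ v : Additive E, (Additive.toMul (T v)).1 = b.1 * (Additive.toMul v).1 * b.1⁻¹ := fun v => hc b.1 (Additive.toMul v)
    have hTζ : ∀ v, T (ζ v) = ζ (T v) := by
      intro v
      apply Additive.toMul.injective
      apply Subtype.ext
      rw [hTv, hζv, hζv, hTv]
      have hcom : b.1 * z.1 = z.1 * b.1 := congrArg Subtype.val (hzc b)
      have hcom' : z.1⁻¹ * b.1⁻¹ = b.1⁻¹ * z.1⁻¹ := by rw [← mul_inv_rev, ← mul_inv_rev, hcom]
      calc b.1 * (z.1 * (Additive.toMul v).1 * z.1⁻¹) * b.1⁻¹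
          = (b.1 * z.1) * (Additive.toMul v).1 * (z.1⁻¹ * b.1⁻¹) := by group
        _ = (z.1 * b.1) * (Additive.toMul v).1 * (b.1⁻¹ * z.1⁻¹) := by rw [hcom, hcom']
        _ = z.1 * (b.1 * (Additive.toMul v).1 * b.1⁻¹) * z.1⁻¹ := by group
    obtain ⟨L, hL⟩ := hβ T hTζ
    have hLi : Function.Injective L := by
      rw [injective_iff_map_eq_zero]
      intro w hw
      obtain ⟨v, rfl⟩ := β.surjective w
      rw [← hL] at hw
      have h3 : T v = 0 := by
        apply β.injective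
        rw [hw, map_zero]
      have h4 : v = 0 := by
        apply Additive.toMul.injective
        exact (c b.1).injective (h3.trans (map_one (c b.1)).symm)
      rw [h4, map_zero]
    let φ : (Fin 2 → F) ≃ᵃ[F] (Fin 2 → F) :=
      ((LinearEquiv.ofInjectiveEndo L hLi).toAffineEquiv).trans (AffineEquiv.constVAdd F (Fin 2 → F) (β (Additive.ofMul (⟨e, he⟩ : E))))
    refine ⟨φ, ?_⟩
    ext1 w
    obtain ⟨ω, rfl⟩ := δ.surjective w
    obtain ⟨x, rfl⟩ := hsur ω
    rw [hΨ, hδ]
    have e1 : g • x.1 • a = ((⟨e, he⟩ : E) * c b.1 x).1 • a := by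
      have : ((⟨e, he⟩ : E) * c b.1 x).1 = e * (b.1 * x.1 * b.1⁻¹) := by
        rw [← hc]; rfl
      rw [this]
      have hba : b.1⁻¹ • a = a := by rw [inv_smul_eq_iff]; exact hb.symm
      rw [mul_smul, mul_smul, hba, mul_smul]
      change _ = e • (e⁻¹ * g) • x.1 • a
      rw [mul_smul, smul_inv_smul]
    rw [e1, hδ]
    have e2 : β (Additive.ofMul ((⟨e, he⟩ : E) * c b.1 x)) = β (Additive.ofMul (⟨e, he⟩ : E)) + β (T (Additive.ofMul x)) := by
      rw [← map_add]; rfl
    rw [e2, hL]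
    rfl
  obtain ⟨hAf, hAc⟩ := H73.DB16.card_aff hF4
  haveI := hAf
  have hc1 : Nat.card Ψ.range = 2880 := by
    rw [← H73.DB16.card_G h hn a]
    exact (Nat.card_congr (MonoidHom.ofInjective hΨi).toEquiv).symm
  have hc2 : Nat.card Θ.range ≤ 2880 := by
    refine le_trans (le_of_eq ?_) hAc
    exact (Nat.card_congr (MonoidHom.ofInjective hΘi).toEquiv).symm
  have heq : Ψ.range = Θ.range := Subgroup.eq_of_le_of_card_ge hrange (by rw [hc1]; exact hc2)
  exact ⟨(MonoidHom.ofInjective hΨi).trans ((MulEquiv.subgroupCongr heq).trans (MonoidHom.ofInjective hΘi).symm)⟩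

end H39.DA
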