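import Cfsg.Agent.Lib.H39.DB0
import Cfsg.Agent.Lib.H39.DAQ2
import Cfsg.Agent.Lib.H39.DBD0a
import Cfsg.Agent.Lib.H39.DBD0b
import Cfsg.Agent.Lib.H39.DBD4
set_option autoImplicit false

/-!
# S3219, piece BC1
-/

open MulAction

universe u v

namespace H39.DA


variable {G : Type u} {Ω : Type v} [Group G] [Finite G] [MulAction G Ω] [Finite Ω]

theorem a4B2_eq_odd (h : B4 G Ω) {a b : Ω} (hab : a ≠ b) {t : G} (ht : Inv t) (hts : t ∈ St G a b)
    {u : G} (hu : Inv u) (hua : u • a = b) (hub : u • b = a) (huc : ∀ g ∈ St G a b, u * g = g * u) (htu : IsConj t u)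
    (hm : fS G Ω (VV a b t) = fx G Ω t) (ho : Odd (fx G Ω t)) : False := by
  classical
  obtain ⟨x, hx⟩ := isConj_iff.1 htu
  obtain ⟨hc12, -, hHc, -⟩ := facts4 h hab
  obtain ⟨hV4, hV2, hVc, -, -, -, hVinv, -⟩ := vfacts4 h hab ht hts
  have htV : t ∈ VV a b t := ⟨hts, Subgroup.mem_centralizer_singleton_iff.2 rfl⟩
  -- the fixed points of `V` and `t` coincide
  have hfix : ∀ y : Ω, t • y = y → ∀ g ∈ VV a b t, g • y = y := by
    have h1 : {y : Ω | ∀ g ∈ VV a b t, g • y = y} = {y : Ω | t • y = y} := by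
      apply Set.eq_of_subset_of_ncard_le
      · intro y hy; exact hy t htV
      · exact le_of_eq hm.symm
      · exact Set.toFinite _
    intro y hy
    have h2 : y ∈ {y : Ω | t • y = y} := hy
    rw [← h1] at h2
    exact h2
  have hta : t • a = a := hts.1
  have htb : t • b = b := hts.2
  -- `C(t)` normalizes `V`
  have hconj : ∀ g : G, g * t = t * g → ∀ s ∈ VV a b t, g * s * g⁻¹ ∈ VV a b t := by
    intro g hg s hs
    have hst : s * t = t * s := Subgroup.mem_centralizer_singleton_iff.1 hs.2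
    have hgi : g⁻¹ * t = t * g⁻¹ := by
      rw [inv_mul_eq_iff_eq_mul, ← mul_assoc, hg, mul_inv_cancel_right]
    have key : ∀ y : Ω, t • y = y → (g * s * g⁻¹) • y = y := by
      intro y hy
      have h1 : t • (g⁻¹ • y) = g⁻¹ • y := by rw [← mul_smul, ← hgi, mul_smul, hy]
      rw [mul_smul, mul_smul, hfix _ h1 s hs, smul_inv_smul]
    refine ⟨⟨key a hta, key b htb⟩, ?_⟩
    refine Subgroup.mem_centralizer_singleton_iff.2 ?_
    calc g * s * g⁻¹ * t = g * s * (g⁻¹ * t) := by group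
      _ = g * (s * t) * g⁻¹ := by rw [hgi]; group
      _ = (g * t) * s * g⁻¹ := by rw [hst]; group
      _ = t * (g * s * g⁻¹) := by rw [hg]; group
  have hN : ∀ g : G, g * t = t * g → g ∈ NT (VV a b t) t := by
    intro g hg
    refine ⟨Subgroup.mem_normalizer_iff.2 ?_, Subgroup.mem_centralizer_singleton_iff.2 hg⟩
    intro s
    refine ⟨fun hs => hconj g hg s hs, fun hs => ?_⟩
    have hgi : g⁻¹ * t = t * g⁻¹ := by
      rw [inv_mul_eq_iff_eq_mul, ← mul_assoc, hg, mul_inv_cancel_right]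
    have h1 := hconj g⁻¹ hgi _ hs
    rwa [show g⁻¹ * (g * s * g⁻¹) * g⁻¹⁻¹ = s by group] at h1
  -- the conjugated stabilizer centralizes `t`
  have hA : ∀ g ∈ St G a b, (x⁻¹ * g * x) * t = t * (x⁻¹ * g * x) := by
    intro g hg
    have h1 := huc g hg
    rw [← hx] at h1
    calc (x⁻¹ * g * x) * t = x⁻¹ * (g * (x * t * x⁻¹)) * x := by group
      _ = x⁻¹ * ((x * t * x⁻¹) * g) * x := by rw [h1]
      _ = t * (x⁻¹ * g * x) := by group
  let ψ : St G a b →* NT (VV a b t) t :=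
    { toFun := fun g => ⟨x⁻¹ * g * x, hN _ (hA g g.2)⟩
      map_one' := Subtype.ext (by simp)
      map_mul' := fun g g' => Subtype.ext (by
        show x⁻¹ * ((g : G) * (g' : G)) * x = (x⁻¹ * g * x) * (x⁻¹ * g' * x)
        group) }
  let φ : St G a b →* YB G Ω (VV a b t) t :=
    (resHom (NT (VV a b t) t) (Fx G (Ω := Ω) (VV a b t : Set G)) NT_inv).rangeRestrict.comp ψ
  have hker : ∀ g : St G a b, φ g = 1 → x⁻¹ * (g : G) * x ∈ VV a b t := by
    intro g hg
    have h1 : ∀ y : Ω, (hy : y ∈ Fx G (Ω := Ω) (VV a b t : Set G)) → (x⁻¹ * (g : G) * x) • y = y := by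
      intro y hy
      have h2 := congrArg (fun p : YB G Ω (VV a b t) t => ((p : Equiv.Perm (Fx G (Ω := Ω) (VV a b t : Set G))) ⟨y, hy⟩ : Ω)) hg
      exact h2
    refine ⟨⟨h1 a (fun s hs => hs.1.1), h1 b (fun s hs => hs.1.2)⟩, ?_⟩
    exact Subgroup.mem_centralizer_singleton_iff.2 (hA g g.2)
  have huS : u ∉ St G a b := by
    intro hus
    have h1 : u • a = a := hus.1
    exact hab (h1.symm.trans hua)
  -- no involution of the stabilizer is in the kernel
  have hnk : ∀ g : St G a b, φ g = 1 → Inv (g : G) → False := by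
    intro g hg hgi
    have hall : ∀ s ∈ VV a b t, x⁻¹ * s * x ∈ VV a b t := by
      intro s hs
      by_cases hs1 : s = 1
      · rw [hs1, mul_one, inv_mul_cancel]; exact one_mem _
      · obtain ⟨k, hk, hks⟩ := hHc g s hgi g.2 ⟨hs1, hV2 s hs⟩ hs.1
        have h1 : φ ((⟨k, hk⟩ : St G a b) * g * (⟨k, hk⟩ : St G a b)⁻¹) = 1 := by
          rw [map_mul, map_mul, hg, mul_one, map_inv, mul_inv_cancel]
        have h2 := hker _ h1
        have h3 : (((⟨k, hk⟩ : St G a b) * g * (⟨k, hk⟩ : St G a b)⁻¹ : St G a b) : G) = s := hks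
        rwa [h3] at h2
    -- so `x⁻¹ V x = V`, which contains `t`
    let F : VV a b t → VV a b t := fun s => ⟨x⁻¹ * (s : G) * x, hall s s.2⟩
    have hF : Function.Injective F := by
      intro s s' hss
      have h4 : x⁻¹ * (s : G) * x = x⁻¹ * (s' : G) * x := congrArg Subtype.val hss
      exact Subtype.ext (mul_left_cancel (mul_right_cancel h4))
    obtain ⟨s, hs⟩ := (Finite.injective_iff_surjective.1 hF) ⟨t, htV⟩
    have h5 : x⁻¹ * (s : G) * x = t := congrArg Subtype.val hs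
    have h6 : (s : G) = u := by
      calc (s : G) = x * (x⁻¹ * (s : G) * x) * x⁻¹ := by group
        _ = x * t * x⁻¹ := by rw [h5]
        _ = u := hx
    exact huS (h6 ▸ s.2.1)
  -- a second involution of `V`
  obtain ⟨v, hvV, hv1, hvt⟩ : ∃ v ∈ VV a b t, v ≠ 1 ∧ v ≠ t := by
    by_contra! hcon
    have h1 : (VV a b t : Set G) ⊆ {1, t} := by
      intro y hy
      by_cases hy1 : y = 1
      · exact Or.inl hy1
      · exact Or.inr (hcon y hy hy1)
    have h2 : (VV a b t : Set G).ncard ≤ 2 := (Set.ncard_le_ncard h1 (Set.toFinite _)).trans (Set.ncard_insert_le _ _ |>.trans (by rw [Set.ncard_singleton]))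
    have h3 : (VV a b t : Set G).ncard = 4 := hV4
    omega
  have hX : Odd (Nat.card (Fx G (Ω := Ω) (VV a b t : Set G))) := by
    have h1 : Nat.card (Fx G (Ω := Ω) (VV a b t : Set G)) = fx G Ω t := hm
    rw [h1]; exact ho
  have hvi : Inv v := ⟨hv1, hV2 v hvV⟩
  have htv : Inv (t * v) := by
    refine ⟨fun e => hvt ?_, hV2 _ (mul_mem htV hvV)⟩
    have h1 : v = t⁻¹ := (inv_eq_of_mul_eq_one_right e).symm
    rw [h1]; exact inv_eq_of_mul_eq_one_left ht.2
  have h1 := (sh_odd_inv (sh_YB4 h hab ht hts) hX).1 (φ ⟨t, hts⟩) (φ ⟨v, hvV.1⟩)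
    ⟨fun e => hnk _ e ht, by rw [← map_mul, show (⟨t, hts⟩ : St G a b) * ⟨t, hts⟩ = 1 from Subtype.ext ht.2, map_one]⟩
    ⟨fun e => hnk _ e hvi, by rw [← map_mul, show (⟨v, hvV.1⟩ : St G a b) * ⟨v, hvV.1⟩ = 1 from Subtype.ext hvi.2, map_one]⟩
    (by rw [← map_mul, ← map_mul]; exact congrArg φ (Subtype.ext (hVc t htV v hvV)))
  have h2 : φ ((⟨t, hts⟩ : St G a b) * ⟨v, hvV.1⟩) = 1 := by
    rw [map_mul, h1, ← map_mul, show (⟨v, hvV.1⟩ : St G a b) * ⟨v, hvV.1⟩ = 1 from Subtype.ext hvi.2, map_one]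
  exact hnk _ h2 htv

end H39.DA
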