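import Mathlib
import Cfsg.Agent.Lib.H39.DAR7c

/-!
S3219, pieces BC2 and BC8: common part (helper58).
-/

set_option autoImplicit false

open MulAction

universe u v

namespace H39.DA.B28

open H39.DA.R7

theorem sylow_rel {G : Type u} [Group G] [Finite G] (T0 : Subgroup G) (hel : ∀ g ∈ T0, g * g = 1) (hidx : Odd T0.index)
    (t : G) (ht : t ∈ T0) (ht1 : t ≠ 1) (hall : ∀ s : G, Inv s → IsConj t s) :
    (Subgroup.centralizer ({t} : Set G)).relIndex (Subgroup.normalizer (T0 : Set G)) = Nat.card T0 - 1 := by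
  classical
  haveI : Fact (Nat.Prime 2) := ⟨Nat.prime_two⟩
  have hp : IsPGroup 2 T0 := by
    intro g
    refine ⟨1, Subtype.ext ?_⟩
    have := hel g g.2
    simpa [pow_two] using this
  have hnd : ¬ 2 ∣ T0.index := fun h2 => (Nat.not_even_iff_odd.2 hidx) (even_iff_two_dvd.2 h2)
  let P : Sylow 2 G := hp.toSylow hnd
  have hPT : (P : Subgroup G) = T0 := rfl
  haveI : IsMulCommutative P := by
    refine ⟨⟨fun x y => ?_⟩⟩
    apply Subtype.ext
    have hx := hel x x.2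
    have hy := hel y y.2
    have hxy := hel _ (T0.mul_mem x.2 y.2)
    change (x : G) * y = y * x
    have e1 : (x : G)⁻¹ = x := inv_eq_of_mul_eq_one_left hx
    have e2 : (y : G)⁻¹ = y := inv_eq_of_mul_eq_one_left hy
    have e3 : ((x : G) * y)⁻¹ = x * y := inv_eq_of_mul_eq_one_left hxy
    rw [mul_inv_rev, e1, e2] at e3
    exact e3.symm
  have h1 := relIndex_orbit (Subgroup.normalizer (T0 : Set G)) t ((T0 : Set G) \ {1}) (by
    intro y
    constructor
    · rintro ⟨hy, hy1⟩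
      obtain ⟨g, hg⟩ := isConj_iff.1 (hall y ⟨hy1, hel y hy⟩)
      obtain ⟨n, hn, hn2⟩ := P.conj_eq_normalizer_conj_of_mem t g⁻¹ ht (by rw [inv_inv, hg]; exact hy)
      rw [inv_inv, hg] at hn2
      exact ⟨n⁻¹, inv_mem hn, by rw [inv_inv]; exact hn2.symm⟩
    · rintro ⟨n, hn, rfl⟩
      refine ⟨(Subgroup.mem_normalizer_iff.1 hn t).1 ht, ?_⟩
      intro h2
      apply ht1
      rw [Set.mem_singleton_iff] at h2
      have : n * t * n⁻¹ = n * 1 * n⁻¹ := by rw [h2]; group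
      exact mul_left_cancel (mul_right_cancel this))
  have h2 : ((T0 : Set G) \ {1}).ncard = Nat.card T0 - 1 := by
    rw [Set.ncard_sdiff_singleton_of_mem (one_mem T0)]
    rfl
  rw [← h2, ← h1]

variable {G : Type u} {Ω : Type v} [Group G] [Finite G] [MulAction G Ω] [Finite Ω]

theorem T0lem {a b : Ω} (hab : a ≠ b) {t : G} (ht : Inv t) (hts : t ∈ St G a b)
    {u : G} (hu : Inv u) (hua : u • a = b) (hub : u • b = a) (huc : ∀ g ∈ St G a b, u * g = g * u)
    (vf : ∀ {a b : Ω}, a ≠ b → ∀ {t : G}, Inv t → t ∈ St G a b → ∀ g ∈ VV a b t, g * g = 1)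
    {m : ℕ} (hmX : Nat.card (Fx G (Ω := Ω) (VV a b t : Set G)) = m) (m2 : 2 ≤ m)
    (cNT : Nat.card (NT (VV a b t) t) = 4 * (m * (m - 1)))
    (trNT : ∀ c ∈ Fx G (Ω := Ω) (VV a b t : Set G), ∀ d ∈ Fx G (Ω := Ω) (VV a b t : Set G), c ≠ d →
        ∀ c' ∈ Fx G (Ω := Ω) (VV a b t : Set G), ∀ d' ∈ Fx G (Ω := Ω) (VV a b t : Set G), c' ≠ d' →
        ∃ g ∈ NT (VV a b t) t, g • c = c' ∧ g • d = d')
    (cY : Nat.card (YB G Ω (VV a b t) t) = m * (m - 1))
    (F : Subgroup (YB G Ω (VV a b t) t)) (hReg : Reg (YB G Ω (VV a b t) t) (Fx G (Ω := Ω) (VV a b t : Set G)) F)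
    (hFsq : ∀ g ∈ F, g * g = 1) :
    ∃ T0 : Subgroup G, T0 ≤ NT (VV a b t) t ∧ Nat.card T0 = 4 * m ∧ (∀ g ∈ T0, g * g = 1) ∧ VV a b t ≤ T0 ∧
      (∀ n ∈ NT (VV a b t) t, ∀ g ∈ T0, n * g * n⁻¹ ∈ T0) ∧
      (∀ c ∈ Fx G (Ω := Ω) (VV a b t : Set G), ∃ g ∈ T0, g • a = c) ∧
      (∀ g ∈ T0, g • a = a → g ∈ VV a b t) ∧
      (∀ g ∈ NT (VV a b t) t, (∀ e ∈ T0, g * e = e * g) → g ∈ T0) := by
  classical
  -- basic points
  have htV : t ∈ VV a b t := ⟨hts, Subgroup.mem_centralizer_singleton_iff.2 rfl⟩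
  have haX : a ∈ Fx G (Ω := Ω) (VV a b t : Set G) := fun g hg => hg.1.1
  have hbX : b ∈ Fx G (Ω := Ω) (VV a b t : Set G) := fun g hg => hg.1.2
  let φ : NT (VV a b t) t →* YB G Ω (VV a b t) t := (resHom (NT (VV a b t) t) (Fx G (Ω := Ω) (VV a b t : Set G)) NT_inv).rangeRestrict
  have hφs : Function.Surjective φ := MonoidHom.rangeRestrict_surjective _
  have hφ : ∀ (g : NT (VV a b t) t) (x : Fx G (Ω := Ω) (VV a b t : Set G)), ((φ g • x : Fx G (Ω := Ω) (VV a b t : Set G)) : Ω) = (g : G) • (x : Ω) :=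
    fun g x => rfl
  let T1 : Subgroup (NT (VV a b t) t) := F.comap φ
  let T0 : Subgroup G := T1.map (NT (VV a b t) t).subtype
  have hcF : Nat.card F = m := (reg_card hReg ⟨a, haX⟩).trans hmX
  have hcT1 : Nat.card T1 = 4 * m := by
    have h1 : T1.index = F.index := F.index_comap_of_surjective hφs
    have h2 := T1.card_mul_index
    have h3 := F.card_mul_index
    rw [h1, cNT] at h2
    rw [hcF, cY] at h3
    have h4 : F.index = m - 1 := Nat.eq_of_mul_eq_mul_left (by omega) h3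
    rw [h4] at h2
    have h5 : Nat.card T1 * (m - 1) = (4 * m) * (m - 1) := by rw [h2]; ring
    exact Nat.eq_of_mul_eq_mul_right (by omega) h5
  have hcT0 : Nat.card T0 = 4 * m := by
    rw [Subgroup.card_map_of_injective (Subgroup.subtype_injective _)]
    exact hcT1
  have hfixV : ∀ g ∈ T0, g • a = a → g ∈ VV a b t := by
    rintro _ ⟨g, hg, rfl⟩ h1
    have hgF : φ g ∈ F := hg
    have hgt : (g : G) * t = t * g := Subgroup.mem_centralizer_singleton_iff.1 g.2.2
    have h2 : φ g = 1 := hReg.2.2 _ hgF ⟨a, haX⟩ (Subtype.ext (by rw [hφ]; exact h1))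
    have h3 : (g : G) • b = b := by
      have := hφ g ⟨b, hbX⟩
      rw [h2, one_smul] at this
      exact this.symm
    exact ⟨⟨h1, h3⟩, Subgroup.mem_centralizer_singleton_iff.2 hgt⟩
  have hel : ∀ g ∈ T0, g * g = 1 := by
    intro g0 hg0
    by_cases h1 : g0 • a = a
    · exact vf hab ht hts _ (hfixV g0 hg0 h1)
    · obtain ⟨g, hg, rfl⟩ := hg0
      change (g : G) * (g : G) = 1
      change ¬ (g : G) • a = a at h1
      have hgF : φ g ∈ F := hg
      have hgt : (g : G) * t = t * g := Subgroup.mem_centralizer_singleton_iff.1 g.2.2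
      have hcX : (g : G) • a ∈ Fx G (Ω := Ω) (VV a b t : Set G) := by
        rw [← hφ g ⟨a, haX⟩]
        exact Subtype.mem _
      obtain ⟨c, hc⟩ : ∃ c, c = (g : G) • a := ⟨_, rfl⟩
      rw [← hc] at hcX h1
      have hgc : (g : G) • c = a := by
        have h2 : (φ g * φ g) • (⟨a, haX⟩ : Fx G (Ω := Ω) (VV a b t : Set G)) = ⟨a, haX⟩ := by
          rw [hFsq _ hgF, one_smul]
        have h3 := congrArg Subtype.val h2
        rw [mul_smul, hφ, hφ, ← hc] at h3
        exact h3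
      obtain ⟨y, hyN, hya, hyb⟩ := trNT a haX b hbX hab a haX c hcX (Ne.symm h1)
      have hac : a ≠ c := Ne.symm h1
      have htc : t • c = c := hcX t htV
      have hts' : t ∈ St G a c := ⟨hts.1, htc⟩
      have hu'a : (y * u * y⁻¹) • a = c := by
        rw [mul_smul, mul_smul, inv_smul_eq_iff.2 hya.symm, hua, hyb]
      have hu'c : (y * u * y⁻¹) • c = a := by
        rw [mul_smul, mul_smul, inv_smul_eq_iff.2 hyb.symm, hub, hya]
      have hu'2 : (y * u * y⁻¹) * (y * u * y⁻¹) = 1 := by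
        calc (y * u * y⁻¹) * (y * u * y⁻¹) = y * (u * u) * y⁻¹ := by group
          _ = 1 := by rw [hu.2]; group
      have hu'cen : ∀ g' ∈ St G a c, (y * u * y⁻¹) * g' = g' * (y * u * y⁻¹) := by
        intro g' hg'
        have h2 : y⁻¹ * g' * y ∈ St G a b := by
          refine ⟨?_, ?_⟩
          · change (y⁻¹ * g' * y) • a = a
            rw [mul_smul, mul_smul, hya]
            have : g' • a = a := hg'.1
            rw [this]
            exact inv_smul_eq_iff.2 hya.symm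
          · change (y⁻¹ * g' * y) • b = b
            rw [mul_smul, mul_smul, hyb]
            have : g' • c = c := hg'.2
            rw [this]
            exact inv_smul_eq_iff.2 hyb.symm
        have h3 := huc _ h2
        calc (y * u * y⁻¹) * g' = y * (u * (y⁻¹ * g' * y)) * y⁻¹ := by group
          _ = y * ((y⁻¹ * g' * y) * u) * y⁻¹ := by rw [h3]
          _ = _ := by group
      set u' := y * u * y⁻¹ with hu'
      have hwS : u' * (g : G) ∈ St G a c := by
        refine ⟨?_, ?_⟩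
        · change (u' * (g : G)) • a = a
          rw [mul_smul, ← hc, hu'c]
        · change (u' * (g : G)) • c = c
          rw [mul_smul, hgc, hu'a]
      have hwt : (u' * (g : G)) * t = t * (u' * (g : G)) := by
        rw [mul_assoc, hgt, ← mul_assoc, hu'cen t hts', mul_assoc]
      have hw2 : (u' * (g : G)) * (u' * (g : G)) = 1 :=
        vf hac ht hts' _ ⟨hwS, Subgroup.mem_centralizer_singleton_iff.2 hwt⟩
      have hwu := hu'cen _ hwS
      -- g = u' * w
      have hgw : (g : G) = u' * (u' * (g : G)) := by rw [← mul_assoc, hu'2, one_mul]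
      calc (g : G) * (g : G) = (u' * (u' * (g : G))) * (u' * (u' * (g : G))) := by rw [← hgw]
        _ = ((u' * (g : G)) * u') * (u' * (u' * (g : G))) := by rw [← hwu]
        _ = (u' * (g : G)) * (u' * u') * (u' * (g : G)) := by simp only [mul_assoc]
        _ = 1 := by rw [hu'2, mul_one, hw2]
  have hNTle : T0 ≤ NT (VV a b t) t := by
    rintro _ ⟨g, -, rfl⟩
    exact g.2
  have hVle : VV a b t ≤ T0 := by
    intro w hw
    have hwN : w ∈ NT (VV a b t) t := ⟨Subgroup.le_normalizer hw, hw.2⟩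
    refine ⟨⟨w, hwN⟩, ?_, rfl⟩
    change φ ⟨w, hwN⟩ ∈ F
    have h1 : φ ⟨w, hwN⟩ = 1 := by
      apply Subtype.ext
      ext x
      change w • (x : Ω) = x
      exact x.2 w hw
    rw [h1]; exact one_mem F
  have hnor : ∀ n ∈ NT (VV a b t) t, ∀ g ∈ T0, n * g * n⁻¹ ∈ T0 := by
    rintro n hn _ ⟨g, hg, rfl⟩
    refine ⟨⟨n, hn⟩ * g * ⟨n, hn⟩⁻¹, ?_, rfl⟩
    change φ (⟨n, hn⟩ * g * ⟨n, hn⟩⁻¹) ∈ F
    rw [map_mul, map_mul, map_inv]
    exact hReg.1.conj_mem _ hg _
  have htrans : ∀ c ∈ Fx G (Ω := Ω) (VV a b t : Set G), ∃ g ∈ T0, g • a = c := by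
    intro c hc
    obtain ⟨e, he, hea⟩ := hReg.2.1 ⟨a, haX⟩ ⟨c, hc⟩
    obtain ⟨g, rfl⟩ := hφs e
    exact ⟨g, ⟨g, he, rfl⟩, congrArg Subtype.val hea⟩
  refine ⟨T0, hNTle, hcT0, hel, hVle, hnor, htrans, hfixV, ?_⟩
  intro g hg hcom
  have hga : g • a ∈ Fx G (Ω := Ω) (VV a b t : Set G) := NT_inv g hg a haX
  obtain ⟨e, he, hea⟩ := htrans _ hga
  obtain ⟨e', he', hea'⟩ := htrans b hbX
  have h1 : (e⁻¹ * g) • a = a := by rw [mul_smul, ← hea, inv_smul_smul]
  have hcom' : (e⁻¹ * g) * e' = e' * (e⁻¹ * g) := by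
    have h2 : e⁻¹ * e' = e' * e⁻¹ := by
      have x1 : e⁻¹ = e := inv_eq_of_mul_eq_one_left (hel e he)
      have x2 : e'⁻¹ = e' := inv_eq_of_mul_eq_one_left (hel e' he')
      have x3 : (e * e')⁻¹ = e * e' := inv_eq_of_mul_eq_one_left (hel _ (T0.mul_mem he he'))
      rw [mul_inv_rev, x1, x2] at x3
      rw [x1]; exact x3.symm
    rw [mul_assoc, hcom e' he', ← mul_assoc, h2, mul_assoc]
  have h2 : (e⁻¹ * g) • b = b := by
    rw [← hea', ← mul_smul, hcom', mul_smul, h1]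
  have h3 : e⁻¹ * g ∈ VV a b t := ⟨⟨h1, h2⟩,
    (Subgroup.centralizer ({t} : Set G)).mul_mem ((Subgroup.centralizer ({t} : Set G)).inv_mem (hNTle he).2) hg.2⟩
  have h4 := T0.mul_mem he (hVle h3)
  rwa [mul_inv_cancel_left] at h4

end H39.DA.B28
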