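import Cfsg.Agent.Lib.H39.DB0
import Cfsg.Agent.Lib.H39.DAR7c

/-!
S3219, piece BC2 (core): case B, `m = f` even, `u t` not conjugate to `t`.
-/

set_option autoImplicit false

open MulAction

universe u v

namespace H39.DA.BC2

open H39.DA.R7

theorem arith {n f G0 k : ℕ} (h2 : 2 ≤ f) (hfn : f < n) (hk : f = 2 ^ k) (hG : G0 = 12 * (n * (n - 1)))
    (hn : 3 * (n - f) = f * (f - 1)) (hd : (f + 2) * (4 * (f * (f - 1))) ∣ G0) : False := by
  obtain ⟨c, hc⟩ := hd
  obtain ⟨x, rfl⟩ : ∃ x, f = x + 2 := ⟨f - 2, by omega⟩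
  obtain ⟨y, rfl⟩ : ∃ y, n = x + 2 + y := ⟨n - (x + 2), by omega⟩
  have e1 : x + 2 + y - (x + 2) = y := by omega
  have e2 : x + 2 - 1 = x + 1 := by omega
  have e3 : x + 2 + y - 1 = x + 1 + y := by omega
  rw [e1, e2] at hn
  rw [e2] at hc
  rw [e3] at hG
  have h3 : 3 * c = x + 5 := by
    have h4 : 9 * G0 = 12 * ((3 * (x + 2 + y)) * (3 * (x + 1 + y))) := by rw [hG]; ring
    have h5 : 3 * (x + 2 + y) = (x + 2) * (x + 4) := by
      have : 3 * (x + 2 + y) = 3 * (x + 2) + 3 * y := by ring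
      rw [this, hn]; ring
    have h6 : 3 * (x + 1 + y) = (x + 5) * (x + 1) := by
      have : 3 * (x + 1 + y) = 3 * (x + 1) + 3 * y := by ring
      rw [this, hn]; ring
    rw [h5, h6, hc] at h4
    have h7 : (12 * ((x + 2) * (x + 4) * (x + 1))) * (3 * c) = (12 * ((x + 2) * (x + 4) * (x + 1))) * (x + 5) := by
      linear_combination h4
    exact Nat.eq_of_mul_eq_mul_left (by positivity) h7
  have h4 : 3 ∣ 2 ^ k := by
    rw [← hk]
    exact ⟨c - 1, by omega⟩
  have h5 := Nat.Prime.dvd_of_dvd_pow Nat.prime_three h4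
  omega

variable {G : Type u} {Ω : Type v} [Group G] [Finite G] [MulAction G Ω] [Finite Ω]

theorem core {a b : Ω} (hab : a ≠ b) {t : G} (ht : Inv t) (hts : t ∈ St G a b)
    {u : G} (hu : Inv u) (hua : u • a = b) (hub : u • b = a) (huc : ∀ g ∈ St G a b, u * g = g * u)
    (htu : IsConj t u) (hut : ¬ IsConj t (u * t))
    (hm : fS G Ω (VV a b t) = fx G Ω t) (he : Even (fx G Ω t))
    (vf : ∀ {a b : Ω}, a ≠ b → ∀ {t : G}, Inv t → t ∈ St G a b → ∀ g ∈ VV a b t, g * g = 1)
    (cV : Nat.card (VV a b t) = 4)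
    (hst : ∀ s s' : G, Inv s → s ∈ St G a b → Inv s' → s' ∈ St G a b → ∃ g ∈ St G a b, g * s * g⁻¹ = s')
    (hcnt : Nat.card G = 12 * (Nat.card Ω * (Nat.card Ω - 1)) ∧
      Nat.card (Subgroup.centralizer ({t} : Set G)) = 4 * (fx G Ω t * (fx G Ω t - 1)) ∧
      2 ≤ fx G Ω t ∧ fx G Ω t < Nat.card Ω ∧
      3 * (Nat.card Ω - fx G Ω t) = fx G Ω t * (fx G Ω t - 1) * Nat.card {s : G // IsConj t s ∧ s • a = b ∧ s • b = a} ∧
      Nat.card {s : G // IsConj t s} * (fx G Ω t * (fx G Ω t - 1)) = 3 * (Nat.card Ω * (Nat.card Ω - 1)))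
    (hcV : let m := fS G Ω (VV a b t)
      2 ≤ m ∧ m ≤ fx G Ω t ∧ Nat.card (Subgroup.normalizer (VV a b t : Set G)) = 12 * (m * (m - 1)) ∧
      Nat.card (NT (VV a b t) t) = 4 * (m * (m - 1)) ∧
      (∀ c ∈ Fx G (Ω := Ω) (VV a b t : Set G), ∀ d ∈ Fx G (Ω := Ω) (VV a b t : Set G), c ≠ d →
        ∀ c' ∈ Fx G (Ω := Ω) (VV a b t : Set G), ∀ d' ∈ Fx G (Ω := Ω) (VV a b t : Set G), c' ≠ d' →
        ∃ g ∈ NT (VV a b t) t, g • c = c' ∧ g • d = d') ∧
      (∀ g ∈ NT (VV a b t) t, ∀ c ∈ Fx G (Ω := Ω) (VV a b t : Set G), ∀ d ∈ Fx G (Ω := Ω) (VV a b t : Set G), c ≠ d →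
        g • c = c → g • d = d → g ∈ VV a b t))
    (she : Even (Nat.card (Fx G (Ω := Ω) (VV a b t : Set G))) →
      Nat.card (YB G Ω (VV a b t) t) = Nat.card (Fx G (Ω := Ω) (VV a b t : Set G)) * (Nat.card (Fx G (Ω := Ω) (VV a b t : Set G)) - 1) ∧
      ∃ (k : ℕ) (F : Subgroup (YB G Ω (VV a b t) t)), 1 ≤ k ∧ Nat.card (Fx G (Ω := Ω) (VV a b t : Set G)) = 2 ^ k ∧
      Reg (YB G Ω (VV a b t) t) (Fx G (Ω := Ω) (VV a b t : Set G)) F ∧
      (∀ g ∈ F, g * g = 1) ∧ (∀ g : YB G Ω (VV a b t) t, (∀ x : Fx G (Ω := Ω) (VV a b t : Set G), g • x ≠ x) → g ∈ F) ∧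
      (∀ g ∈ F, g ≠ 1 → ∀ g' ∈ F, g' ≠ 1 → ∃ y : YB G Ω (VV a b t) t, y * g * y⁻¹ = g') ∧
      (2 < Nat.card (Fx G (Ω := Ω) (VV a b t : Set G)) → ∀ H : Subgroup (YB G Ω (VV a b t) t), H.index ≠ 2)) : False := by
  classical
  obtain ⟨cG, cC, f2, fn, cj, -⟩ := hcnt
  set m := fS G Ω (VV a b t) with hmdef
  set f := fx G Ω t with hfdef
  obtain ⟨m2, mf, -, cNT, trNT, stNT⟩ := hcV
  have hmX : Nat.card (Fx G (Ω := Ω) (VV a b t : Set G)) = m := rfl
  have hme : Even m := by rw [hm]; exact he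
  obtain ⟨cY, k, F, hk1, hX2, hReg, hFsq, -, -, -⟩ := she (by rw [hmX]; exact hme)
  rw [hmX] at cY hX2
  -- basic points
  have htV : t ∈ VV a b t := ⟨hts, Subgroup.mem_centralizer_singleton_iff.2 rfl⟩
  have haX : a ∈ Fx G (Ω := Ω) (VV a b t : Set G) := fun g hg => hg.1.1
  have hbX : b ∈ Fx G (Ω := Ω) (VV a b t : Set G) := fun g hg => hg.1.2
  let φ : NT (VV a b t) t →* YB G Ω (VV a b t) t := (resHom (NT (VV a b t) t) (Fx G (Ω := Ω) (VV a b t : Set G)) NT_inv).rangeRestrict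
  have hφs : Function.Surjective φ := MonoidHom.rangeRestrict_surjective _
  have hφ : ∀ (g : NT (VV a b t) t) (x : Fx G (Ω := Ω) (VV a b t : Set G)), ((φ g • x : Fx G (Ω := Ω) (VV a b t : Set G)) : Ω) = (g : G) • (x : Ω) :=
    fun g x => rfl
  let T1 : Subgroup (NT (VV a b t) t) := F.comap φ
  let T0 : Subgroup G := T1.map (NT (VV a b t) t).subtype
  have hcF : Nat.card F = m := (reg_card hReg ⟨a, haX⟩).trans hmX
  have hcT1 : Nat.card T1 = 4 * m := by
    have h1 : T1.index = F.index := F.index_comap_of_surjective hφs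
    have h2 := T1.card_mul_index
    have h3 := F.card_mul_index
    rw [h1, cNT] at h2
    rw [hcF, cY] at h3
    have h4 : F.index = m - 1 := Nat.eq_of_mul_eq_mul_left (by omega) h3
    rw [h4] at h2
    have h5 : Nat.card T1 * (m - 1) = (4 * m) * (m - 1) := by rw [h2]; ring
    exact Nat.eq_of_mul_eq_mul_right (by omega) h5
  have hcT0 : Nat.card T0 = 4 * m := by
    rw [Subgroup.card_map_of_injective (Subgroup.subtype_injective _)]
    exact hcT1
  have hel : ∀ g ∈ T0, g * g = 1 := by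
    rintro _ ⟨g, hg, rfl⟩
    change (g : G) * (g : G) = 1
    have hgF : φ g ∈ F := hg
    have hgt : (g : G) * t = t * g := Subgroup.mem_centralizer_singleton_iff.1 g.2.2
    by_cases h1 : (g : G) • a = a
    · have h2 : φ g = 1 := hReg.2.2 _ hgF ⟨a, haX⟩ (Subtype.ext (by rw [hφ]; exact h1))
      have h3 : (g : G) • b = b := by
        have := hφ g ⟨b, hbX⟩
        rw [h2, one_smul] at this
        exact this.symm
      exact vf hab ht hts _ ⟨⟨h1, h3⟩, Subgroup.mem_centralizer_singleton_iff.2 hgt⟩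
    · have hcX : (g : G) • a ∈ Fx G (Ω := Ω) (VV a b t : Set G) := by
        rw [← hφ g ⟨a, haX⟩]
        exact Subtype.mem _
      obtain ⟨c, hc⟩ : ∃ c, c = (g : G) • a := ⟨_, rfl⟩
      rw [← hc] at hcX h1
      have hgc : (g : G) • c = a := by
        have h2 : (φ g * φ g) • (⟨a, haX⟩ : Fx G (Ω := Ω) (VV a b t : Set G)) = ⟨a, haX⟩ := by
          rw [hFsq _ hgF, one_smul]
        have h3 := congrArg Subtype.val h2
        rw [mul_smul, hφ, hφ, ← hc] at h3
        exact h3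
      obtain ⟨y, hyN, hya, hyb⟩ := trNT a haX b hbX hab a haX c hcX (Ne.symm h1)
      have hac : a ≠ c := Ne.symm h1
      have htc : t • c = c := hcX t htV
      have hts' : t ∈ St G a c := ⟨hts.1, htc⟩
      have hu'a : (y * u * y⁻¹) • a = c := by
        rw [mul_smul, mul_smul, inv_smul_eq_iff.2 hya.symm, hua, hyb]
      have hu'c : (y * u * y⁻¹) • c = a := by
        rw [mul_smul, mul_smul, inv_smul_eq_iff.2 hyb.symm, hub, hya]
      have hu'2 : (y * u * y⁻¹) * (y * u * y⁻¹) = 1 := by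
        calc (y * u * y⁻¹) * (y * u * y⁻¹) = y * (u * u) * y⁻¹ := by group
          _ = 1 := by rw [hu.2]; group
      have hu'cen : ∀ g' ∈ St G a c, (y * u * y⁻¹) * g' = g' * (y * u * y⁻¹) := by
        intro g' hg'
        have h2 : y⁻¹ * g' * y ∈ St G a b := by
          refine ⟨?_, ?_⟩
          · change (y⁻¹ * g' * y) • a = a
            rw [mul_smul, mul_smul, hya]
            have : g' • a = a := hg'.1
            rw [this]
            exact inv_smul_eq_iff.2 hya.symm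
          · change (y⁻¹ * g' * y) • b = b
            rw [mul_smul, mul_smul, hyb]
            have : g' • c = c := hg'.2
            rw [this]
            exact inv_smul_eq_iff.2 hyb.symm
        have h3 := huc _ h2
        calc (y * u * y⁻¹) * g' = y * (u * (y⁻¹ * g' * y)) * y⁻¹ := by group
          _ = y * ((y⁻¹ * g' * y) * u) * y⁻¹ := by rw [h3]
          _ = _ := by group
      set u' := y * u * y⁻¹ with hu'
      have hwS : u' * (g : G) ∈ St G a c := by
        refine ⟨?_, ?_⟩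
        · change (u' * (g : G)) • a = a
          rw [mul_smul, ← hc, hu'c]
        · change (u' * (g : G)) • c = c
          rw [mul_smul, hgc, hu'a]
      have hwt : (u' * (g : G)) * t = t * (u' * (g : G)) := by
        rw [mul_assoc, hgt, ← mul_assoc, hu'cen t hts', mul_assoc]
      have hw2 : (u' * (g : G)) * (u' * (g : G)) = 1 :=
        vf hac ht hts' _ ⟨hwS, Subgroup.mem_centralizer_singleton_iff.2 hwt⟩
      have hwu := hu'cen _ hwS
      -- g = u' * w
      have hgw : (g : G) = u' * (u' * (g : G)) := by rw [← mul_assoc, hu'2, one_mul]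
      calc (g : G) * (g : G) = (u' * (u' * (g : G))) * (u' * (u' * (g : G))) := by rw [← hgw]
        _ = ((u' * (g : G)) * u') * (u' * (u' * (g : G))) := by rw [← hwu]
        _ = (u' * (g : G)) * (u' * u') * (u' * (g : G)) := by simp only [mul_assoc]
        _ = 1 := by rw [hu'2, mul_one, hw2]
  have htT0 : t ∈ T0 := by
    have htN : t ∈ NT (VV a b t) t := ⟨Subgroup.le_normalizer htV, Subgroup.mem_centralizer_singleton_iff.2 rfl⟩
    refine ⟨⟨t, htN⟩, ?_, rfl⟩
    change φ ⟨t, htN⟩ ∈ F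
    have h1 : φ ⟨t, htN⟩ = 1 := by
      apply Subtype.ext
      ext x
      change t • (x : Ω) = x
      exact x.2 t htV
    rw [h1]; exact one_mem F
  -- `C(t) = N_t`
  have hCN : NT (VV a b t) t = Subgroup.centralizer ({t} : Set G) := by
    apply Subgroup.eq_of_le_of_card_ge
    · exact inf_le_right
    · rw [cNT, cC, hm]
  have hT0C : T0 ≤ Subgroup.centralizer ({t} : Set G) := by
    rintro _ ⟨g, -, rfl⟩
    exact g.2.2
  -- `T0` is normal in `C(t)`
  have hT1n : T1.Normal := hReg.1.comap φ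
  have hnorm : ∀ g : G, g ∈ Subgroup.centralizer ({t} : Set G) → ∀ x ∈ T0, g * x * g⁻¹ ∈ T0 := by
    rintro g hg _ ⟨x, hx, rfl⟩
    have hg' : g ∈ NT (VV a b t) t := by rw [hCN]; exact hg
    exact ⟨⟨g, hg'⟩ * x * ⟨g, hg'⟩⁻¹, hT1n.conj_mem x hx _, rfl⟩
  have fin_norm : ∀ g : G, (∀ x ∈ T0, g * x * g⁻¹ ∈ T0) → g ∈ Subgroup.normalizer (T0 : Set G) := by
    intro g hg
    have h1 : T0.map (MulAut.conj g).toMonoidHom = T0 := by
      apply Subgroup.eq_of_le_of_card_ge
      · rintro _ ⟨x, hx, rfl⟩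
        exact hg x hx
      · have h5 : Nat.card (T0.map (MulAut.conj g).toMonoidHom) = Nat.card T0 :=
          Subgroup.card_map_of_injective (MulAut.conj g).injective
        exact h5.ge
    rw [Subgroup.mem_normalizer_iff]
    intro h
    constructor
    · intro hh
      exact hg h hh
    · intro hh
      have h2 : g * h * g⁻¹ ∈ T0.map (MulAut.conj g).toMonoidHom := by rw [h1]; exact hh
      obtain ⟨x, hx, hx2⟩ := h2
      have h3 : g * x * g⁻¹ = g * h * g⁻¹ := hx2
      have h4 : x = h := mul_left_cancel (mul_right_cancel h3)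
      rw [← h4]; exact hx
  -- every involution of `C(t)` lies in `T0`
  have hall : ∀ s : G, s ∈ Subgroup.centralizer ({t} : Set G) → s * s = 1 → s ∈ T0 := by
    intro s hs hs2
    have hn : (T0.subgroupOf (Subgroup.centralizer ({t} : Set G))).Normal := by
      constructor
      intro x hx g
      exact hnorm g g.2 x hx
    have hi : (T0.subgroupOf (Subgroup.centralizer ({t} : Set G))).index = f - 1 := by
      have h1 := Subgroup.card_mul_index (T0.subgroupOf (Subgroup.centralizer ({t} : Set G)))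
      rw [cC, Nat.card_congr (Subgroup.subgroupOfEquivOfLe hT0C).toEquiv, hcT0, hm] at h1
      have h2 : (4 * f) * (T0.subgroupOf (Subgroup.centralizer ({t} : Set G))).index = (4 * f) * (f - 1) := by
        rw [h1]; ring
      exact Nat.eq_of_mul_eq_mul_left (by omega) h2
    have h1 := Subgroup.pow_index_mem (T0.subgroupOf (Subgroup.centralizer ({t} : Set G))) ⟨s, hs⟩
    rw [hi] at h1
    obtain ⟨q, hq⟩ : ∃ q, f - 1 = 2 * q + 1 := by
      obtain ⟨q, hq⟩ := he
      exact ⟨q - 1, by omega⟩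
    rw [hq, pow_succ, pow_mul] at h1
    have h2 : (⟨s, hs⟩ : Subgroup.centralizer ({t} : Set G)) ^ 2 = 1 := by
      apply Subtype.ext
      change s ^ 2 = 1
      rw [pow_two, hs2]
    rw [h2, one_pow, one_mul] at h1
    exact h1
  have hcomm : ∀ x ∈ T0, ∀ y ∈ T0, x * y = y * x := by
    intro x hx y hy
    have e1 : x⁻¹ = x := inv_eq_of_mul_eq_one_left (hel x hx)
    have e2 : y⁻¹ = y := inv_eq_of_mul_eq_one_left (hel y hy)
    have e3 : (x * y)⁻¹ = x * y := inv_eq_of_mul_eq_one_left (hel _ (T0.mul_mem hx hy))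
    rw [mul_inv_rev, e1, e2] at e3
    exact e3.symm
  -- swappers conjugate to `t`
  have huniq : ∀ s : G, IsConj t s → s • a = b → s • b = a → s = u := by
    intro s hs hsa hsb
    have hs2 : s * s = 1 := by
      obtain ⟨g, hg⟩ := isConj_iff.1 hs
      rw [← hg]
      calc g * t * g⁻¹ * (g * t * g⁻¹) = g * (t * t) * g⁻¹ := by group
        _ = 1 := by rw [ht.2]; group
    have hw : u * s ∈ St G a b := by
      refine ⟨?_, ?_⟩
      · change (u * s) • a = a
        rw [mul_smul, hsa, hub]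
      · change (u * s) • b = b
        rw [mul_smul, hsb, hua]
    have hsu : s = u * (u * s) := by rw [← mul_assoc, hu.2, one_mul]
    by_cases h1 : u * s = 1
    · rw [hsu, h1, mul_one]
    · exfalso
      have hc := huc _ hw
      have hw2 : (u * s) * (u * s) = 1 := by
        have h3 : (u * (u * s)) * (u * (u * s)) = 1 := by rw [← hsu]; exact hs2
        calc (u * s) * (u * s) = (u * u) * ((u * s) * (u * s)) := by rw [hu.2, one_mul]
          _ = u * (u * (u * s)) * (u * s) := by simp only [mul_assoc]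
          _ = u * ((u * s) * u) * (u * s) := by rw [hc]
          _ = (u * (u * s)) * (u * (u * s)) := by simp only [mul_assoc]
          _ = 1 := h3
      obtain ⟨g, hg, hg2⟩ := hst t (u * s) ht hts ⟨h1, hw2⟩ hw
      apply hut
      refine hs.trans ?_
      rw [isConj_comm, isConj_iff]
      refine ⟨g, ?_⟩
      have h3 := huc g hg
      calc g * (u * t) * g⁻¹ = (g * u) * t * g⁻¹ := by group
        _ = (u * g) * t * g⁻¹ := by rw [← h3]
        _ = u * (g * t * g⁻¹) := by group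
        _ = s := by rw [hg2]; exact hsu.symm
  have hj : Nat.card {s : G // IsConj t s ∧ s • a = b ∧ s • b = a} = 1 := by
    rw [Nat.card_eq_one_iff_unique]
    refine ⟨⟨?_⟩, ⟨⟨u, htu, hua, hub⟩⟩⟩
    rintro ⟨s, hs, hs1, hs2⟩ ⟨s', hs', hs1', hs2'⟩
    apply Subtype.ext
    change s = s'
    rw [huniq s hs hs1 hs2, huniq s' hs' hs1' hs2']
  rw [hj, mul_one] at cj
  -- the conjugates of `t` in `T0`
  have hfix : ∀ s ∈ T0, s • a = a → s ∈ VV a b t := by
    rintro _ ⟨g, hg, rfl⟩ hga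
    have hgF : φ g ∈ F := hg
    have h2 : φ g = 1 := hReg.2.2 _ hgF ⟨a, haX⟩ (Subtype.ext (by rw [hφ]; exact hga))
    have h3 : (g : G) • b = b := by
      have := hφ g ⟨b, hbX⟩
      rw [h2, one_smul] at this
      exact this.symm
    exact ⟨⟨hga, h3⟩, g.2.2⟩
  have hVT : VV a b t ≤ T0 := fun s hs => hall s hs.2 (vf hab ht hts s hs)
  have hT0X : ∀ s ∈ T0, s • a ∈ Fx G (Ω := Ω) (VV a b t : Set G) := by
    rintro _ ⟨g, -, rfl⟩
    exact NT_inv (g : G) g.2 a haX
  -- the unique conjugate moving `a` to `c`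
  have hc1 : ∀ c ∈ Fx G (Ω := Ω) (VV a b t : Set G), c ≠ a → ∃ s ∈ T0, IsConj t s ∧ s • a = c := by
    intro c hc hca
    obtain ⟨y, hyN, hya, hyb⟩ := trNT a haX b hbX hab a haX c hc (Ne.symm hca)
    have hyC : y ∈ Subgroup.centralizer ({t} : Set G) := hyN.2
    have huC : u ∈ Subgroup.centralizer ({t} : Set G) := Subgroup.mem_centralizer_singleton_iff.2 (huc t hts)
    refine ⟨y * u * y⁻¹, ?_, htu.trans (isConj_iff.2 ⟨y, rfl⟩), ?_⟩
    · apply hall _ (mul_mem (mul_mem hyC huC) (inv_mem hyC))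
      calc (y * u * y⁻¹) * (y * u * y⁻¹) = y * (u * u) * y⁻¹ := by group
        _ = 1 := by rw [hu.2]; group
    · rw [mul_smul, mul_smul, inv_smul_eq_iff.2 hya.symm, hua, hyb]
  have hc2 : ∀ s ∈ T0, ∀ s' ∈ T0, IsConj t s → IsConj t s' → s • a ≠ a → s • a = s' • a → s = s' := by
    intro s hs s' hs' hts1 hts2 hsa hss
    obtain ⟨y, hyN, hya, hyb⟩ := trNT a haX b hbX hab a haX (s • a) (hT0X s hs) (Ne.symm hsa)
    have key : ∀ r ∈ T0, IsConj t r → r • a = s • a → y⁻¹ * r * y = u := by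
      intro r hr htr hra
      apply huniq
      · exact htr.trans (isConj_iff.2 ⟨y⁻¹, by rw [inv_inv]⟩)
      · rw [mul_smul, mul_smul, hya, hra]
        exact inv_smul_eq_iff.2 hyb.symm
      · have h7 : r • (r • a) = a := by rw [← mul_smul, hel r hr, one_smul]
        rw [mul_smul, mul_smul, hyb, ← hra, h7]
        exact inv_smul_eq_iff.2 hya.symm
    have h1 := key s hs hts1 rfl
    have h2 := key s' hs' hts2 hss.symm
    have h3 : y⁻¹ * s * y = y⁻¹ * s' * y := h1.trans h2.symm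
    exact mul_left_cancel (mul_right_cancel h3)
  let O : Set G := {s | s ∈ T0 ∧ IsConj t s}
  have hO1 : ((VV a b t : Set G) \ {1}).ncard = 3 := by
    rw [Set.ncard_sdiff_singleton_of_mem (one_mem _)]
    have : (VV a b t : Set G).ncard = 4 := cV
    rw [this]
  have hO2 : ({s | s ∈ O ∧ s • a ≠ a} : Set G).ncard = m - 1 := by
    have h1 : ({s | s ∈ O ∧ s • a ≠ a} : Set G).ncard = (Fx G (Ω := Ω) (VV a b t : Set G) \ {a}).ncard := by
      apply Set.ncard_congr (fun s _ => s • a)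
      · rintro s ⟨⟨hs, -⟩, hsa⟩
        exact ⟨hT0X s hs, hsa⟩
      · rintro s s' ⟨⟨hs, hs1⟩, hsa⟩ ⟨⟨hs', hs1'⟩, -⟩ hss
        exact hc2 s hs s' hs' hs1 hs1' hsa hss
      · rintro c ⟨hc, hca⟩
        obtain ⟨s, hs, hs1, hs2⟩ := hc1 c hc hca
        exact ⟨s, ⟨⟨hs, hs1⟩, by rw [hs2]; exact hca⟩, hs2⟩
    rw [h1, Set.ncard_sdiff_singleton_of_mem haX]
    rfl
  have hOc : O.ncard = f + 2 := by
    have h1 : O = ((VV a b t : Set G) \ {1}) ∪ {s | s ∈ O ∧ s • a ≠ a} := by
      ext s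
      constructor
      · rintro ⟨hs, hs1⟩
        by_cases hsa : s • a = a
        · left
          refine ⟨hfix s hs hsa, ?_⟩
          intro h1
          rw [Set.mem_singleton_iff] at h1
          obtain ⟨g, hg⟩ := isConj_iff.1 hs1
          apply ht.1
          have : g * t * g⁻¹ = g * 1 * g⁻¹ := by rw [hg, h1]; group
          exact mul_left_cancel (mul_right_cancel this)
        · right
          exact ⟨⟨hs, hs1⟩, hsa⟩
      · rintro (⟨hs, hs1⟩ | ⟨hs, -⟩)
        · refine ⟨hVT hs, ?_⟩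
          obtain ⟨g, -, hg⟩ := hst t s ht hts ⟨hs1, vf hab ht hts s hs⟩ hs.1
          exact isConj_iff.2 ⟨g, hg⟩
        · exact hs
    rw [h1, Set.ncard_union_eq, hO1, hO2, hm]
    · omega
    · rw [Set.disjoint_left]
      rintro s ⟨hs, -⟩ ⟨-, hsa⟩
      exact hsa hs.1.1
  have hrel := relIndex_orbit (Subgroup.normalizer (T0 : Set G)) t O (by
    intro y
    constructor
    · rintro ⟨hy, hy1⟩
      obtain ⟨g, hg⟩ := isConj_iff.1 hy1
      have h1 : g⁻¹ ∈ Subgroup.normalizer (T0 : Set G) := by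
        apply fin_norm
        intro x hx
        rw [inv_inv]
        apply hall
        · rw [Subgroup.mem_centralizer_singleton_iff]
          have h2 := hcomm x hx y hy
          rw [← hg] at h2
          have h3 : x * (g * t * g⁻¹) = g * t * g⁻¹ * x := h2
          calc g⁻¹ * x * g * t = g⁻¹ * (x * (g * t * g⁻¹)) * g := by group
            _ = g⁻¹ * (g * t * g⁻¹ * x) * g := by rw [h3]
            _ = t * (g⁻¹ * x * g) := by group
        · calc g⁻¹ * x * g * (g⁻¹ * x * g) = g⁻¹ * (x * x) * g := by group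
            _ = 1 := by rw [hel x hx]; group
      have h2 := inv_mem h1
      rw [inv_inv] at h2
      exact ⟨g, h2, hg⟩
    · rintro ⟨n, hn, rfl⟩
      exact ⟨(Subgroup.mem_normalizer_iff.1 hn t).1 htT0, isConj_iff.2 ⟨n, rfl⟩⟩)
  rw [hOc] at hrel
  have hle : Subgroup.centralizer ({t} : Set G) ≤ Subgroup.normalizer (T0 : Set G) := fun g hg =>
    fin_norm g (hnorm g hg)
  have hcard : (f + 2) * (4 * (f * (f - 1))) = Nat.card (Subgroup.normalizer (T0 : Set G)) := by
    have h1 := Subgroup.card_mul_index ((Subgroup.centralizer ({t} : Set G)).subgroupOf (Subgroup.normalizer (T0 : Set G)))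
    rw [Nat.card_congr (Subgroup.subgroupOfEquivOfLe hle).toEquiv, cC] at h1
    have h2 : ((Subgroup.centralizer ({t} : Set G)).subgroupOf (Subgroup.normalizer (T0 : Set G))).index = f + 2 := hrel
    rw [h2] at h1
    rw [← h1]; ring
  have hdvd : (f + 2) * (4 * (f * (f - 1))) ∣ Nat.card G := by
    rw [hcard]
    exact Subgroup.card_subgroup_dvd_card _
  exact arith f2 fn (by rw [← hm]; exact hX2) cG cj hdvd

end H39.DA.BC2
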