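import Cfsg.Agent.Lib.H39.DB0

/-!
S3219, piece B-C4: in case B with `t ~ u` all involutions are conjugate.
-/

set_option autoImplicit false

open MulAction

universe u v

namespace H39.DA

variable {G : Type u} {Ω : Type v} [Group G] [Finite G] [MulAction G Ω] [Finite Ω]

namespace BC4

omit [Finite G] [Finite Ω] in
theorem mem_St {a b : Ω} {g : G} : g ∈ St G a b ↔ g • a = a ∧ g • b = b := by
  unfold St
  rw [Subgroup.mem_inf, mem_stabilizer_iff, mem_stabilizer_iff]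

omit [Finite G] [Finite Ω] in
/-- swapping elements -/
theorem swap_form {a b : Ω} {u : G} (hu : Inv u) (hua : u • a = b) (hub : u • b = a)
    (huc : ∀ g ∈ St G a b, u * g = g * u) {g : G} (ga : g • a = b) (gb : g • b = a) (gg : g * g = 1) :
    ∃ x ∈ St G a b, x * x = 1 ∧ g = u * x := by
  refine ⟨u⁻¹ * g, ?_, ?_, by group⟩
  · rw [mem_St, mul_smul, mul_smul, ga, gb, inv_smul_eq_iff, inv_smul_eq_iff]
    exact ⟨hua.symm, hub.symm⟩
  · have hx : u⁻¹ * g ∈ St G a b := by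
      rw [mem_St, mul_smul, mul_smul, ga, gb, inv_smul_eq_iff, inv_smul_eq_iff]
      exact ⟨hua.symm, hub.symm⟩
    have h1 := huc _ hx
    have h2 : g = u * (u⁻¹ * g) := by group
    have h3 : (u * (u⁻¹ * g)) * (u * (u⁻¹ * g)) = 1 := by rw [← h2]; exact gg
    have h4 : (u * (u⁻¹ * g)) * (u * (u⁻¹ * g)) = (u * u) * ((u⁻¹ * g) * (u⁻¹ * g)) := by
      calc (u * (u⁻¹ * g)) * (u * (u⁻¹ * g)) = u * ((u⁻¹ * g) * u) * (u⁻¹ * g) := by group
        _ = u * (u * (u⁻¹ * g)) * (u⁻¹ * g) := by rw [h1]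
        _ = _ := by group
    rw [h4, hu.2, one_mul] at h3
    exact h3

omit [Finite Ω] in
theorem core (h : TT G Ω) {a b : Ω} (hab : a ≠ b) {t : G} (ht : Inv t) (hts : t ∈ St G a b)
    (h15 : Nat.card {s : G // Inv s ∧ s ∈ St G a b} = 3)
    (hcj : ∀ s s' : G, Inv s → s ∈ St G a b → Inv s' → s' ∈ St G a b → ∃ g ∈ St G a b, g * s * g⁻¹ = s')
    (hV4 : Nat.card (VV a b t) = 4) (hVsq : ∀ g ∈ VV a b t, g * g = 1)
    {u : G} (hu : Inv u) (hua : u • a = b) (hub : u • b = a) (huc : ∀ g ∈ St G a b, u * g = g * u) (htu : IsConj t u)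
    (hdel : IsConj t (u * t) ∨ ∀ v ∈ VV a b t, v ≠ 1 → v ≠ t →
      ∃ g : G, g * t = t * g ∧ (g * v * g⁻¹) • a = b ∧ (g * v * g⁻¹) • b = a)
    (hf2 : 2 ≤ fx G Ω t) (hfn : fx G Ω t < Nat.card Ω)
    (hc1 : 3 * (Nat.card Ω - fx G Ω t) =
      fx G Ω t * (fx G Ω t - 1) * Nat.card {s : G // IsConj t s ∧ s • a = b ∧ s • b = a})
    (hc2 : Nat.card {s : G // IsConj t s} * (fx G Ω t * (fx G Ω t - 1)) = 3 * (Nat.card Ω * (Nat.card Ω - 1))) :
    (∀ s : G, Inv s → IsConj t s) ∧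
      3 * Nat.card Ω = fx G Ω t * (4 * fx G Ω t - 1) ∧
      3 * Nat.card {s : G // IsConj t s} = (4 * fx G Ω t - 1) * (4 * fx G Ω t + 3) := by
  classical
  have hmemV : ∀ {x : G}, x ∈ VV a b t ↔ x ∈ St G a b ∧ x * t = t * x := by
    intro x
    unfold VV
    rw [Subgroup.mem_inf, Subgroup.mem_centralizer_singleton_iff]
  have htV : t ∈ VV a b t := hmemV.2 ⟨hts, rfl⟩
  -- a third element
  obtain ⟨v, hv, hv1, hvt⟩ : ∃ v ∈ VV a b t, v ≠ 1 ∧ v ≠ t := by
    by_contra hcon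
    push Not at hcon
    have hsub : (VV a b t : Set G) ⊆ ({1, t} : Set G) := by
      intro x hx
      by_cases hx1 : x = 1
      · left; exact hx1
      · right; exact hcon x hx hx1
    have h1 := Set.ncard_le_ncard hsub (Set.toFinite _)
    have h2 : (VV a b t : Set G).ncard = 4 := by rw [← Nat.card_coe_set_eq]; exact hV4
    have h3 : ({1, t} : Set G).ncard ≤ 2 := by
      refine (Set.ncard_insert_le _ _).trans ?_
      rw [Set.ncard_singleton]
    omega
  have hconjH : ∀ x ∈ St G a b, x ≠ 1 → x * x = 1 → IsConj t x := by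
    intro x hx hx1 hxx
    obtain ⟨g, -, hg⟩ := hcj t x ht hts ⟨hx1, hxx⟩ hx
    exact isConj_iff.2 ⟨g, hg⟩
  -- all `u x` are conjugate to `t`
  have hkey : ∃ s ∈ St G a b, s ≠ 1 ∧ s * s = 1 ∧ IsConj t (u * s) := by
    rcases hdel with hdel | hdel
    · exact ⟨t, hts, ht.1, ht.2, hdel⟩
    obtain ⟨g, hgt, ga, gb⟩ := hdel v hv hv1 hvt
    have hvv := hVsq v hv
    have hww : (g * v * g⁻¹) * (g * v * g⁻¹) = 1 := by
      calc (g * v * g⁻¹) * (g * v * g⁻¹) = g * (v * v) * g⁻¹ := by group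
        _ = 1 := by rw [hvv]; group
    obtain ⟨x, hx, hxx, hgx⟩ := swap_form hu hua hub huc ga gb hww
    have htw : IsConj t (u * x) := by
      rw [← hgx]
      exact (hconjH v (hmemV.1 hv).1 hv1 hvv).trans (isConj_iff.2 ⟨g, rfl⟩)
    by_cases hx1 : x = 1
    · -- `g v g⁻¹ = u`
      subst hx1
      rw [mul_one] at hgx
      refine ⟨t, hts, ht.1, ht.2, ?_⟩
      have h1 : g * (v * t) * g⁻¹ = u * t := by
        have h2 : g * t * g⁻¹ = t := by rw [hgt]; group
        calc g * (v * t) * g⁻¹ = (g * v * g⁻¹) * (g * t * g⁻¹) := by group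
          _ = u * t := by rw [hgx, h2]
      have h3 : v * t ≠ 1 := by
        intro h4
        apply hvt
        have h5 : v = t⁻¹ := eq_inv_of_mul_eq_one_left h4
        have h6 : t⁻¹ = t := inv_eq_of_mul_eq_one_left ht.2
        rw [h5, h6]
      have h4 : v * t ∈ VV a b t := mul_mem hv htV
      rw [← h1]
      exact (hconjH (v * t) (hmemV.1 h4).1 h3 (hVsq _ h4)).trans (isConj_iff.2 ⟨g, rfl⟩)
    · exact ⟨x, hx, hx1, hxx, htw⟩
  have hall : ∀ x ∈ St G a b, x * x = 1 → IsConj t (u * x) := by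
    intro x hx hxx
    by_cases hx1 : x = 1
    · subst hx1; rw [mul_one]; exact htu
    obtain ⟨s, hs, hs1, hss, hts'⟩ := hkey
    obtain ⟨g, hg, hgs⟩ := hcj s x ⟨hs1, hss⟩ hs ⟨hx1, hxx⟩ hx
    have h1 : g * (u * s) * g⁻¹ = u * x := by
      rw [← hgs]
      calc g * (u * s) * g⁻¹ = (g * u) * s * g⁻¹ := by group
        _ = (u * g) * s * g⁻¹ := by rw [huc g hg]
        _ = u * (g * s * g⁻¹) := by group
    rw [← h1]
    exact hts'.trans (isConj_iff.2 ⟨g, rfl⟩)
  -- swapping involutions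
  have hsw : ∀ g : G, g * g = 1 → g • a = b → g • b = a → IsConj t g := by
    intro g gg ga gb
    obtain ⟨x, hx, hxx, hgx⟩ := swap_form hu hua hub huc ga gb gg
    rw [hgx]
    exact hall x hx hxx
  have hconj : ∀ s : G, Inv s → IsConj t s := by
    intro s hs
    obtain ⟨c, hc⟩ : ∃ c : Ω, s • c ≠ c := by
      by_contra hcon
      push Not at hcon
      exact hs.1 (h.faith s hcon)
    obtain ⟨g, hgc, hgd⟩ := h.tr c (s • c) a b (Ne.symm hc) hab
    have hsc : s • (s • c) = c := by rw [← mul_smul, hs.2, one_smul]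
    have h1 : g⁻¹ • a = c := by rw [← hgc, inv_smul_smul]
    have h2 : g⁻¹ • b = s • c := by rw [← hgd, inv_smul_smul]
    have h3 : (g * s * g⁻¹) • a = b := by rw [mul_smul, mul_smul, h1, hgd]
    have h4 : (g * s * g⁻¹) • b = a := by rw [mul_smul, mul_smul, h2, hsc, hgc]
    have h5 : (g * s * g⁻¹) * (g * s * g⁻¹) = 1 := by
      calc (g * s * g⁻¹) * (g * s * g⁻¹) = g * (s * s) * g⁻¹ := by group
        _ = 1 := by rw [hs.2]; group
    exact (hsw _ h5 h3 h4).trans (isConj_iff.2 ⟨g⁻¹, by group⟩)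
  -- counting the swapping conjugates
  have h16 : Nat.card {s : G // IsConj t s ∧ s • a = b ∧ s • b = a} = 4 := by
    have htt : ∀ s : G, IsConj t s → s * s = 1 := by
      intro s hs
      obtain ⟨g, rfl⟩ := isConj_iff.1 hs
      calc (g * t * g⁻¹) * (g * t * g⁻¹) = g * (t * t) * g⁻¹ := by group
        _ = 1 := by rw [ht.2]; group
    have e1 : {s : G // IsConj t s ∧ s • a = b ∧ s • b = a} ≃ {x : G // x ∈ St G a b ∧ x * x = 1} :=
      { toFun := fun s => ⟨u⁻¹ * s.1, by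
          obtain ⟨x, hx, hxx, hgx⟩ := swap_form hu hua hub huc s.2.2.1 s.2.2.2 (htt _ s.2.1)
          have : u⁻¹ * s.1 = x := by rw [hgx]; group
          rw [this]
          exact ⟨hx, hxx⟩⟩
        invFun := fun x => ⟨u * x.1, hall _ x.2.1 x.2.2, by
          rw [mul_smul, (mem_St.1 x.2.1).1, hua], by
          rw [mul_smul, (mem_St.1 x.2.1).2, hub]⟩
        left_inv := fun s => Subtype.ext (by simp)
        right_inv := fun x => Subtype.ext (by simp) }
    rw [Nat.card_congr e1]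
    have hset : ({x : G | x ∈ St G a b ∧ x * x = 1} : Set G) = insert 1 {s : G | Inv s ∧ s ∈ St G a b} := by
      ext x
      simp only [Set.mem_ofPred_eq, Set.mem_insert_iff, Inv]
      constructor
      · rintro ⟨h1, h2⟩
        by_cases hx : x = 1
        · left; exact hx
        · right; exact ⟨⟨hx, h2⟩, h1⟩
      · rintro (rfl | ⟨⟨-, h2⟩, h1⟩)
        · exact ⟨one_mem _, one_mul 1⟩
        · exact ⟨h1, h2⟩
    have h1 : ({x : G | x ∈ St G a b ∧ x * x = 1} : Set G).ncard = 4 := by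
      rw [hset, Set.ncard_insert_of_notMem (fun h0 => h0.1.1 rfl) (Set.toFinite _)]
      have h2 : ({s : G | Inv s ∧ s ∈ St G a b} : Set G).ncard = 3 := by
        rw [← Nat.card_coe_set_eq]; exact h15
      rw [h2]
    rw [← Nat.card_coe_set_eq] at h1
    exact h1
  rw [h16] at hc1
  generalize fx G Ω t = f at *
  generalize Nat.card Ω = n at *
  generalize Nat.card {s : G // IsConj t s} = T at *
  obtain ⟨k, rfl⟩ : ∃ k, f = k + 1 := ⟨f - 1, by omega⟩
  obtain ⟨l, rfl⟩ : ∃ l, n = k + 1 + l := ⟨n - (k + 1), by omega⟩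
  have hk : 1 ≤ k := by omega
  have e1 : k + 1 + l - (k + 1) = l := by omega
  have e2 : k + 1 - 1 = k := by omega
  have e3 : k + 1 + l - 1 = k + l := by omega
  have e4 : 4 * (k + 1) - 1 = 4 * k + 3 := by omega
  rw [e1, e2] at hc1
  rw [e2, e3] at hc2
  refine ⟨hconj, ?_, ?_⟩
  · rw [e4]
    nlinarith
  · rw [e4]
    have h1 : 3 * T * ((k + 1) * k) = (4 * k + 3) * (4 * (k + 1) + 3) * ((k + 1) * k) := by
      have h2 : 3 * (T * ((k + 1) * k)) = (3 * (k + 1 + l)) * (3 * (k + l)) := by rw [hc2]; ring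
      have h3 : 3 * (k + 1 + l) = (k + 1) * (4 * k + 3) := by nlinarith
      have h4 : 3 * (k + l) = k * (4 * (k + 1) + 3) := by nlinarith
      calc 3 * T * ((k + 1) * k) = 3 * (T * ((k + 1) * k)) := by ring
        _ = ((k + 1) * (4 * k + 3)) * (k * (4 * (k + 1) + 3)) := by rw [h2, h3, h4]
        _ = _ := by ring
    exact Nat.eq_of_mul_eq_mul_right (Nat.mul_pos (by omega) (by omega)) h1

end BC4

end H39.DA
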