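import Cfsg.Agent.Lib.H39.DBD0a
import Cfsg.Agent.Lib.H39.DBD0b
import Cfsg.Agent.Lib.H39.DBD2
import Cfsg.Agent.Lib.H39.DBD5
import Cfsg.Agent.Lib.H39.DBC4core

/-!
S3219, piece B-C4.
-/

set_option autoImplicit false

open MulAction

universe u v

namespace H39.DA

variable {G : Type u} {Ω : Type v} [Group G] [Finite G] [MulAction G Ω] [Finite Ω]

theorem a4B2_conj (h : B4 G Ω) {a b : Ω} (hab : a ≠ b) {t : G} (ht : Inv t) (hts : t ∈ St G a b)
    {u : G} (hu : Inv u) (hua : u • a = b) (hub : u • b = a) (huc : ∀ g ∈ St G a b, u * g = g * u) (htu : IsConj t u)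
    (hut : IsConj t (u * t) ∨ fS G Ω (VV a b t) < fx G Ω t) : (∀ s : G, Inv s → IsConj t s) ∧
      3 * Nat.card Ω = fx G Ω t * (4 * fx G Ω t - 1) ∧ 3 * Nat.card {s : G // IsConj t s} = (4 * fx G Ω t - 1) * (4 * fx G Ω t + 3) := by
  obtain ⟨-, f1, f2, -⟩ := facts4 h hab
  obtain ⟨v1, v2, -, -, -, -, -, -⟩ := vfacts4 h hab ht hts
  obtain ⟨-, -, c1, c2, c3, c4⟩ := count4 h hab ht hts
  refine BC4.core h.toTT hab ht hts f1 f2 v1 v2 hu hua hub huc htu ?_ c1 c2 c3 c4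
  rcases hut with hut | hut
  · exact Or.inl hut
  · exact Or.inr fun v hv hv1 hvt => (delta4 h hab ht hts hut hv hv1 hvt).1

end H39.DA
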