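import Cfsg.Agent.Lib.H39.DBC3core
import Cfsg.Agent.Lib.H39.DAQ1
import Cfsg.Agent.Lib.H39.DBD0b
import Cfsg.Agent.Lib.H39.DBD2
import Cfsg.Agent.Lib.H39.DBD3
import Cfsg.Agent.Lib.H39.DBD4
import Cfsg.Agent.Lib.H39.DBC4

/-!
S3219, piece BC3 (helper91).
-/

set_option autoImplicit false

open MulAction

universe u v

namespace H39.DA

variable {G : Type u} {Ω : Type v} [Group G] [Finite G] [MulAction G Ω] [Finite Ω]

theorem a4B2_eq_even_four (h : B4 G Ω) {a b : Ω} (hab : a ≠ b) {t : G} (ht : Inv t) (hts : t ∈ St G a b)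
    {u : G} (hu : Inv u) (hua : u • a = b) (hub : u • b = a) (huc : ∀ g ∈ St G a b, u * g = g * u) (htu : IsConj t u)
    (hm : fS G Ω (VV a b t) = fx G Ω t) (he : Even (fx G Ω t)) (hut : IsConj t (u * t)) : False :=
  BC3.core hab ht hts hu hua hub huc hm he
    (fun {_ _} hab' {_} ht' hts' => (vfacts4 h hab' ht' hts').2.1)
    (count4 h hab ht hts)
    (countV4 h hab ht hts)
    (a4B2_conj h hab ht hts hu hua hub huc htu (Or.inl hut))
    (fun hx => sh_even (sh_YB4 h hab ht hts) hx)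

end H39.DA
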