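import Mathlib
import Cfsg.Agent.Lib.H39.DB0

/-!
S3219, piece BC3 (core): case B2, all involutions conjugate, `f = m` even (helper91, after helper58's R7).
-/

set_option autoImplicit false

open MulAction

universe u v

namespace H39.DA.BC3

theorem arith {k G0 f : ℕ} (hk : f = 2 ^ k) (h2 : 2 ≤ f)
    (hG : 3 * G0 = 4 * (f * (f - 1)) * ((4 * f - 1) * (4 * f + 3))) (hd : (4 * f - 1) * (4 * (f * (f - 1))) ∣ G0) : False := by
  obtain ⟨c, hc⟩ := hd
  rw [hc] at hG
  have h3 : ((4 * f - 1) * (4 * (f * (f - 1)))) * (3 * c) = ((4 * f - 1) * (4 * (f * (f - 1)))) * (4 * f + 3) := by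
    calc ((4 * f - 1) * (4 * (f * (f - 1)))) * (3 * c) = 3 * ((4 * f - 1) * (4 * (f * (f - 1))) * c) := by ring
      _ = 4 * (f * (f - 1)) * ((4 * f - 1) * (4 * f + 3)) := hG
      _ = _ := by ring
  have hpos : 0 < (4 * f - 1) * (4 * (f * (f - 1))) :=
    Nat.mul_pos (by omega) (Nat.mul_pos (by norm_num) (Nat.mul_pos (by omega) (by omega)))
  have h4 := Nat.eq_of_mul_eq_mul_left hpos h3
  have h5 : 3 ∣ f := by omega
  rw [hk] at h5
  have h6 := (Nat.Prime.dvd_of_dvd_pow Nat.prime_three h5)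
  omega

/-- number of conjugates under a subgroup -/
theorem relIndex_orbit {G : Type u} [Group G] (M : Subgroup G) (x : G) (O : Set G) (hO : ∀ y, y ∈ O ↔ ∃ n ∈ M, n * x * n⁻¹ = y) :
    (Subgroup.centralizer ({x} : Set G)).relIndex M = O.ncard := by
  letI : MulAction M G := MulAction.compHom G ((MulAut.conj (G := G)).comp M.subtype)
  have hs : ∀ (m : M) (y : G), m • y = (m : G) * y * (m : G)⁻¹ := fun m y => rfl
  have h1 := MulAction.index_stabilizer M x
  have h2 : MulAction.stabilizer M x = (Subgroup.centralizer ({x} : Set G)).subgroupOf M := by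
    ext m
    rw [MulAction.mem_stabilizer_iff, hs, Subgroup.mem_subgroupOf, Subgroup.mem_centralizer_singleton_iff, mul_inv_eq_iff_eq_mul]
  have h3 : MulAction.orbit M x = O := by
    ext y
    rw [MulAction.mem_orbit_iff, hO]
    constructor
    · rintro ⟨m, hm⟩
      exact ⟨m, m.2, by rw [← hm, hs]⟩
    · rintro ⟨n, hn, hn2⟩
      exact ⟨⟨n, hn⟩, by rw [hs]; exact hn2⟩
  rw [h2, h3] at h1
  exact h1

/-- an elementary abelian Sylow 2-subgroup, all involutions conjugate -/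
theorem sylow_rel {G : Type u} [Group G] [Finite G] (T0 : Subgroup G) (hel : ∀ g ∈ T0, g * g = 1) (hidx : Odd T0.index)
    (t : G) (ht : t ∈ T0) (ht1 : t ≠ 1) (hall : ∀ s : G, Inv s → IsConj t s) :
    (Subgroup.centralizer ({t} : Set G)).relIndex (Subgroup.normalizer (T0 : Set G)) = Nat.card T0 - 1 := by
  classical
  haveI : Fact (Nat.Prime 2) := ⟨Nat.prime_two⟩
  have hp : IsPGroup 2 T0 := by
    intro g
    refine ⟨1, Subtype.ext ?_⟩
    have := hel g g.2
    simpa [pow_two] using this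
  have hnd : ¬ 2 ∣ T0.index := fun h2 => (Nat.not_even_iff_odd.2 hidx) (even_iff_two_dvd.2 h2)
  let P : Sylow 2 G := hp.toSylow hnd
  have hPT : (P : Subgroup G) = T0 := rfl
  haveI : IsMulCommutative P := by
    refine ⟨⟨fun x y => ?_⟩⟩
    apply Subtype.ext
    have hx := hel x x.2
    have hy := hel y y.2
    have hxy := hel _ (T0.mul_mem x.2 y.2)
    change (x : G) * y = y * x
    have e1 : (x : G)⁻¹ = x := inv_eq_of_mul_eq_one_left hx
    have e2 : (y : G)⁻¹ = y := inv_eq_of_mul_eq_one_left hy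
    have e3 : ((x : G) * y)⁻¹ = x * y := inv_eq_of_mul_eq_one_left hxy
    rw [mul_inv_rev, e1, e2] at e3
    exact e3.symm
  have h1 := relIndex_orbit (Subgroup.normalizer (T0 : Set G)) t ((T0 : Set G) \ {1}) (by
    intro y
    constructor
    · rintro ⟨hy, hy1⟩
      obtain ⟨g, hg⟩ := isConj_iff.1 (hall y ⟨hy1, hel y hy⟩)
      obtain ⟨n, hn, hn2⟩ := P.conj_eq_normalizer_conj_of_mem t g⁻¹ ht (by rw [inv_inv, hg]; exact hy)
      rw [inv_inv, hg] at hn2
      exact ⟨n⁻¹, inv_mem hn, by rw [inv_inv]; exact hn2.symm⟩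
    · rintro ⟨n, hn, rfl⟩
      refine ⟨(Subgroup.mem_normalizer_iff.1 hn t).1 ht, ?_⟩
      intro h2
      apply ht1
      rw [Set.mem_singleton_iff] at h2
      have : n * t * n⁻¹ = n * 1 * n⁻¹ := by rw [h2]; group
      exact mul_left_cancel (mul_right_cancel this))
  have h2 : ((T0 : Set G) \ {1}).ncard = Nat.card T0 - 1 := by
    rw [Set.ncard_sdiff_singleton_of_mem (one_mem T0)]
    rfl
  rw [← h2, ← h1]

theorem reg_card {Y : Type u} {X : Type v} [Group Y] [MulAction Y X] {F : Subgroup Y} (hR : Reg Y X F) (x0 : X) :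
    Nat.card F = Nat.card X := by
  obtain ⟨-, htr, hfree⟩ := hR
  refine Nat.card_congr (Equiv.ofBijective (fun g : F => (g : Y) • x0) ⟨?_, ?_⟩)
  · intro g g' hgg
    beta_reduce at hgg
    have h1 : ((g' : Y)⁻¹ * (g : Y)) • x0 = x0 := by
      rw [mul_smul, hgg, inv_smul_smul]
    have h2 := hfree _ (mul_mem (inv_mem g'.2) g.2) x0 h1
    exact Subtype.ext (inv_mul_eq_one.1 h2).symm
  · intro y
    obtain ⟨g, hg, hgy⟩ := htr x0 y
    exact ⟨⟨g, hg⟩, hgy⟩

variable {G : Type u} {Ω : Type v} [Group G] [Finite G] [MulAction G Ω] [Finite Ω]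

theorem core {a b : Ω} (hab : a ≠ b) {t : G} (ht : Inv t) (hts : t ∈ St G a b)
    {u : G} (hu : Inv u) (hua : u • a = b) (hub : u • b = a) (huc : ∀ g ∈ St G a b, u * g = g * u)
    (hm : fS G Ω (VV a b t) = fx G Ω t) (he : Even (fx G Ω t))
    (vf : ∀ {a b : Ω}, a ≠ b → ∀ {t : G}, Inv t → t ∈ St G a b → ∀ g ∈ VV a b t, g * g = 1)
    (hcnt : Nat.card G = 12 * (Nat.card Ω * (Nat.card Ω - 1)) ∧
      Nat.card (Subgroup.centralizer ({t} : Set G)) = 4 * (fx G Ω t * (fx G Ω t - 1)) ∧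
      2 ≤ fx G Ω t ∧ fx G Ω t < Nat.card Ω ∧
      3 * (Nat.card Ω - fx G Ω t) = fx G Ω t * (fx G Ω t - 1) * Nat.card {s : G // IsConj t s ∧ s • a = b ∧ s • b = a} ∧
      Nat.card {s : G // IsConj t s} * (fx G Ω t * (fx G Ω t - 1)) = 3 * (Nat.card Ω * (Nat.card Ω - 1)))
    (hcV : let m := fS G Ω (VV a b t)
      2 ≤ m ∧ m ≤ fx G Ω t ∧ Nat.card (Subgroup.normalizer (VV a b t : Set G)) = 12 * (m * (m - 1)) ∧
      Nat.card (NT (VV a b t) t) = 4 * (m * (m - 1)) ∧
      (∀ c ∈ Fx G (Ω := Ω) (VV a b t : Set G), ∀ d ∈ Fx G (Ω := Ω) (VV a b t : Set G), c ≠ d →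
        ∀ c' ∈ Fx G (Ω := Ω) (VV a b t : Set G), ∀ d' ∈ Fx G (Ω := Ω) (VV a b t : Set G), c' ≠ d' →
        ∃ g ∈ NT (VV a b t) t, g • c = c' ∧ g • d = d') ∧
      (∀ g ∈ NT (VV a b t) t, ∀ c ∈ Fx G (Ω := Ω) (VV a b t : Set G), ∀ d ∈ Fx G (Ω := Ω) (VV a b t : Set G), c ≠ d →
        g • c = c → g • d = d → g ∈ VV a b t))
    (hcj : (∀ s : G, Inv s → IsConj t s) ∧
      3 * Nat.card Ω = fx G Ω t * (4 * fx G Ω t - 1) ∧ 3 * Nat.card {s : G // IsConj t s} = (4 * fx G Ω t - 1) * (4 * fx G Ω t + 3))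
    (she : Even (Nat.card (Fx G (Ω := Ω) (VV a b t : Set G))) →
      Nat.card (YB G Ω (VV a b t) t) = Nat.card (Fx G (Ω := Ω) (VV a b t : Set G)) * (Nat.card (Fx G (Ω := Ω) (VV a b t : Set G)) - 1) ∧
      ∃ (k : ℕ) (F : Subgroup (YB G Ω (VV a b t) t)), 1 ≤ k ∧ Nat.card (Fx G (Ω := Ω) (VV a b t : Set G)) = 2 ^ k ∧
      Reg (YB G Ω (VV a b t) t) (Fx G (Ω := Ω) (VV a b t : Set G)) F ∧
      (∀ g ∈ F, g * g = 1) ∧ (∀ g : YB G Ω (VV a b t) t, (∀ x : Fx G (Ω := Ω) (VV a b t : Set G), g • x ≠ x) → g ∈ F) ∧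
      (∀ g ∈ F, g ≠ 1 → ∀ g' ∈ F, g' ≠ 1 → ∃ y : YB G Ω (VV a b t) t, y * g * y⁻¹ = g') ∧
      (2 < Nat.card (Fx G (Ω := Ω) (VV a b t : Set G)) → ∀ H : Subgroup (YB G Ω (VV a b t) t), H.index ≠ 2)) : False := by
  classical
  obtain ⟨cG, cL, f2, -, -, cc⟩ := hcnt
  set m := fS G Ω (VV a b t) with hmdef
  set f := fx G Ω t with hfdef
  obtain ⟨m2, mf, -, cNT, trNT, stNT⟩ := hcV
  have hmX : Nat.card (Fx G (Ω := Ω) (VV a b t : Set G)) = m := rfl
  have hme : Even m := by rw [hm]; exact he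
  obtain ⟨hconj, -, ht3⟩ := hcj
  obtain ⟨cY, k, F, hk1, hX2, hReg, hFsq, -, -, -⟩ := she (by rw [hmX]; exact hme)
  rw [hmX] at cY hX2
  -- basic points
  have htV : t ∈ VV a b t := ⟨hts, Subgroup.mem_centralizer_singleton_iff.2 rfl⟩
  have haX : a ∈ Fx G (Ω := Ω) (VV a b t : Set G) := fun g hg => hg.1.1
  have hbX : b ∈ Fx G (Ω := Ω) (VV a b t : Set G) := fun g hg => hg.1.2
  let φ : NT (VV a b t) t →* YB G Ω (VV a b t) t := (resHom (NT (VV a b t) t) (Fx G (Ω := Ω) (VV a b t : Set G)) NT_inv).rangeRestrict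
  have hφs : Function.Surjective φ := MonoidHom.rangeRestrict_surjective _
  have hφ : ∀ (g : NT (VV a b t) t) (x : Fx G (Ω := Ω) (VV a b t : Set G)), ((φ g • x : Fx G (Ω := Ω) (VV a b t : Set G)) : Ω) = (g : G) • (x : Ω) :=
    fun g x => rfl
  let T1 : Subgroup (NT (VV a b t) t) := F.comap φ
  let T0 : Subgroup G := T1.map (NT (VV a b t) t).subtype
  have hcF : Nat.card F = m := (reg_card hReg ⟨a, haX⟩).trans hmX
  have hcT1 : Nat.card T1 = 4 * m := by
    have h1 : T1.index = F.index := F.index_comap_of_surjective hφs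
    have h2 := T1.card_mul_index
    have h3 := F.card_mul_index
    rw [h1, cNT] at h2
    rw [hcF, cY] at h3
    have h4 : F.index = m - 1 := Nat.eq_of_mul_eq_mul_left (by omega) h3
    rw [h4] at h2
    have h5 : Nat.card T1 * (m - 1) = (4 * m) * (m - 1) := by rw [h2]; ring
    exact Nat.eq_of_mul_eq_mul_right (by omega) h5
  have hcT0 : Nat.card T0 = 4 * m := by
    rw [Subgroup.card_map_of_injective (Subgroup.subtype_injective _)]
    exact hcT1
  have hel : ∀ g ∈ T0, g * g = 1 := by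
    rintro _ ⟨g, hg, rfl⟩
    change (g : G) * (g : G) = 1
    have hgF : φ g ∈ F := hg
    have hgt : (g : G) * t = t * g := Subgroup.mem_centralizer_singleton_iff.1 g.2.2
    by_cases h1 : (g : G) • a = a
    · have h2 : φ g = 1 := hReg.2.2 _ hgF ⟨a, haX⟩ (Subtype.ext (by rw [hφ]; exact h1))
      have h3 : (g : G) • b = b := by
        have := hφ g ⟨b, hbX⟩
        rw [h2, one_smul] at this
        exact this.symm
      exact vf hab ht hts _ ⟨⟨h1, h3⟩, Subgroup.mem_centralizer_singleton_iff.2 hgt⟩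
    · have hcX : (g : G) • a ∈ Fx G (Ω := Ω) (VV a b t : Set G) := by
        rw [← hφ g ⟨a, haX⟩]
        exact Subtype.mem _
      obtain ⟨c, hc⟩ : ∃ c, c = (g : G) • a := ⟨_, rfl⟩
      rw [← hc] at hcX h1
      have hgc : (g : G) • c = a := by
        have h2 : (φ g * φ g) • (⟨a, haX⟩ : Fx G (Ω := Ω) (VV a b t : Set G)) = ⟨a, haX⟩ := by
          rw [hFsq _ hgF, one_smul]
        have h3 := congrArg Subtype.val h2
        rw [mul_smul, hφ, hφ, ← hc] at h3
        exact h3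
      obtain ⟨y, hyN, hya, hyb⟩ := trNT a haX b hbX hab a haX c hcX (Ne.symm h1)
      have hac : a ≠ c := Ne.symm h1
      have htc : t • c = c := hcX t htV
      have hts' : t ∈ St G a c := ⟨hts.1, htc⟩
      have hu'a : (y * u * y⁻¹) • a = c := by
        rw [mul_smul, mul_smul, inv_smul_eq_iff.2 hya.symm, hua, hyb]
      have hu'c : (y * u * y⁻¹) • c = a := by
        rw [mul_smul, mul_smul, inv_smul_eq_iff.2 hyb.symm, hub, hya]
      have hu'2 : (y * u * y⁻¹) * (y * u * y⁻¹) = 1 := by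
        calc (y * u * y⁻¹) * (y * u * y⁻¹) = y * (u * u) * y⁻¹ := by group
          _ = 1 := by rw [hu.2]; group
      have hu'cen : ∀ g' ∈ St G a c, (y * u * y⁻¹) * g' = g' * (y * u * y⁻¹) := by
        intro g' hg'
        have h2 : y⁻¹ * g' * y ∈ St G a b := by
          refine ⟨?_, ?_⟩
          · change (y⁻¹ * g' * y) • a = a
            rw [mul_smul, mul_smul, hya]
            have : g' • a = a := hg'.1
            rw [this]
            exact inv_smul_eq_iff.2 hya.symm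
          · change (y⁻¹ * g' * y) • b = b
            rw [mul_smul, mul_smul, hyb]
            have : g' • c = c := hg'.2
            rw [this]
            exact inv_smul_eq_iff.2 hyb.symm
        have h3 := huc _ h2
        calc (y * u * y⁻¹) * g' = y * (u * (y⁻¹ * g' * y)) * y⁻¹ := by group
          _ = y * ((y⁻¹ * g' * y) * u) * y⁻¹ := by rw [h3]
          _ = _ := by group
      set u' := y * u * y⁻¹ with hu'
      have hwS : u' * (g : G) ∈ St G a c := by
        refine ⟨?_, ?_⟩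
        · change (u' * (g : G)) • a = a
          rw [mul_smul, ← hc, hu'c]
        · change (u' * (g : G)) • c = c
          rw [mul_smul, hgc, hu'a]
      have hwt : (u' * (g : G)) * t = t * (u' * (g : G)) := by
        rw [mul_assoc, hgt, ← mul_assoc, hu'cen t hts', mul_assoc]
      have hw2 : (u' * (g : G)) * (u' * (g : G)) = 1 :=
        vf hac ht hts' _ ⟨hwS, Subgroup.mem_centralizer_singleton_iff.2 hwt⟩
      have hwu := hu'cen _ hwS
      -- g = u' * w
      have hgw : (g : G) = u' * (u' * (g : G)) := by rw [← mul_assoc, hu'2, one_mul]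
      calc (g : G) * (g : G) = (u' * (u' * (g : G))) * (u' * (u' * (g : G))) := by rw [← hgw]
        _ = ((u' * (g : G)) * u') * (u' * (u' * (g : G))) := by rw [← hwu]
        _ = (u' * (g : G)) * (u' * u') * (u' * (g : G)) := by simp only [mul_assoc]
        _ = 1 := by rw [hu'2, mul_one, hw2]
  have htT0 : t ∈ T0 := by
    have htN : t ∈ NT (VV a b t) t := ⟨Subgroup.le_normalizer htV, Subgroup.mem_centralizer_singleton_iff.2 rfl⟩
    refine ⟨⟨t, htN⟩, ?_, rfl⟩
    change φ ⟨t, htN⟩ ∈ F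
    have h1 : φ ⟨t, htN⟩ = 1 := by
      apply Subtype.ext
      ext x
      change t • (x : Ω) = x
      exact x.2 t htV
    rw [h1]; exact one_mem F
  -- order of G
  have hG3 : 3 * Nat.card G = 4 * (f * (f - 1)) * ((4 * f - 1) * (4 * f + 3)) := by
    rw [← ht3, cG]
    calc 3 * (12 * (Nat.card Ω * (Nat.card Ω - 1))) = 12 * (3 * (Nat.card Ω * (Nat.card Ω - 1))) := by ring
      _ = 12 * (Nat.card {s : G // IsConj t s} * (f * (f - 1))) := by rw [← cc]
      _ = _ := by ring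
  have hf1 : 1 ≤ f := by omega
  have hidx : Odd T0.index := by
    have h1 := T0.card_mul_index
    rw [hcT0, hm] at h1
    have h2 : (4 * f) * (3 * T0.index) = (4 * f) * ((f - 1) * ((4 * f - 1) * (4 * f + 3))) := by
      calc (4 * f) * (3 * T0.index) = 3 * (4 * f * T0.index) := by ring
        _ = 3 * Nat.card G := by rw [h1]
        _ = 4 * (f * (f - 1)) * ((4 * f - 1) * (4 * f + 3)) := hG3
        _ = _ := by ring
    have h3 := Nat.eq_of_mul_eq_mul_left (by omega) h2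
    have o1 : Odd (f - 1) := by
      obtain ⟨q, hq⟩ := he
      exact ⟨q - 1, by omega⟩
    have o2 : Odd (4 * f - 1) := ⟨2 * f - 1, by omega⟩
    have o3 : Odd (4 * f + 3) := ⟨2 * f + 1, by omega⟩
    have h4 : Odd (3 * T0.index) := by
      rw [h3]
      exact o1.mul (o2.mul o3)
    exact (Nat.odd_mul.1 h4).2
  have hrel := sylow_rel T0 hel hidx t htT0 ht.1 hconj
  -- NT = C(t)
  have hNTL : NT (VV a b t) t = Subgroup.centralizer ({t} : Set G) := by
    refine Subgroup.eq_of_le_of_card_ge inf_le_right ?_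
    rw [cL, cNT, hm]
  have hLN : Subgroup.centralizer ({t} : Set G) ≤ Subgroup.normalizer (T0 : Set G) := by
    rw [← hNTL]
    intro y hy
    have hTn : T1.Normal := by
      haveI := hReg.1
      exact Subgroup.Normal.comap hReg.1 φ
    have key : ∀ z ∈ NT (VV a b t) t, ∀ g ∈ T0, z * g * z⁻¹ ∈ T0 := by
      rintro z hz _ ⟨g, hg, rfl⟩
      exact ⟨⟨z, hz⟩ * g * ⟨z, hz⟩⁻¹, hTn.conj_mem g hg ⟨z, hz⟩, rfl⟩
    rw [Subgroup.mem_normalizer_iff]
    intro g
    constructor
    · intro hg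
      exact key y hy g hg
    · intro hg
      have h1 := key y⁻¹ (inv_mem hy) _ hg
      have h2 : y⁻¹ * (y * g * y⁻¹) * y⁻¹⁻¹ = g := by group
      rwa [h2] at h1
  have hcN : Nat.card (Subgroup.normalizer (T0 : Set G)) = (4 * f - 1) * (4 * (f * (f - 1))) := by
    have h1 := Subgroup.relIndex_mul_relIndex (⊥ : Subgroup G) (Subgroup.centralizer ({t} : Set G)) (Subgroup.normalizer (T0 : Set G)) bot_le hLN
    rw [Subgroup.relIndex_bot_left, Subgroup.relIndex_bot_left, hrel, hcT0, cL, hm] at h1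
    rw [← h1]; ring
  have hdvd := Subgroup.card_subgroup_dvd_card (Subgroup.normalizer (T0 : Set G))
  rw [hcN] at hdvd
  exact arith (by rw [← hm]; exact hX2) f2 hG3 hdvd

end H39.DA.BC3
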