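import Cfsg.Agent.Lib.H39.DB0
import Cfsg.Agent.Lib.H39.DBD0b
import Cfsg.Agent.Lib.H39.DBD2
import Cfsg.Agent.Lib.H39.DBD5
import Cfsg.Agent.Lib.H39.DBD7
import Cfsg.Agent.Lib.H39.DBC4
set_option autoImplicit false

/-!
# S3219, piece BC5
-/

open MulAction

universe u v

namespace H39.DA


namespace BC5

/-- arithmetic of the odd case -/
theorem arith_odd {f m r k q i T : ℕ} (hr : r.Prime) (hk : 1 ≤ k) (hf : f = r ^ k) (hm : m * m = f) (ho : Odd f)
    (hT : 3 * T = (4 * f - 1) * (4 * f + 3)) (hq : q = r ^ i) (hmod : T ≡ q [MOD r]) : False := by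
  have hrf : r ∣ f := by rw [hf]; exact dvd_pow_self r (by omega)
  have hrm : r ∣ m := by
    rw [← hm] at hrf
    rcases (Nat.Prime.dvd_mul hr).1 hrf with h | h <;> exact h
  obtain ⟨l, hl⟩ := hrm
  have hf1 : 1 ≤ f := Nat.pos_of_ne_zero (by rintro rfl; exact absurd ho (by decide))
  have h1 : 3 * (T + 1) = f * (16 * f + 8) := by
    obtain ⟨f', rfl⟩ : ∃ f', f = f' + 1 := ⟨f - 1, by omega⟩
    have : 4 * (f' + 1) - 1 = 4 * f' + 3 := by omega
    rw [this] at hT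
    rw [mul_add, hT]; ring
  have h2 : r * r ∣ 3 * (T + 1) := by
    rw [h1, ← hm, hl]
    exact ⟨l * l * (16 * (r * l * (r * l)) + 8), by ring⟩
  have h3 : r ∣ T + 1 := by
    by_cases h3' : r ∣ 3
    · have hr3 : r = 3 := (Nat.prime_dvd_prime_iff_eq hr Nat.prime_three).1 h3'
      rw [hr3] at h2 ⊢
      exact Nat.dvd_of_mul_dvd_mul_left (by norm_num) h2
    · exact ((Nat.Prime.dvd_mul hr).1 ((Dvd.intro _ rfl).trans h2)).resolve_left h3'
  have h4 : T + 1 ≡ q + 1 [MOD r] := Nat.ModEq.add_right 1 hmod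
  have h5 : r ∣ q + 1 := (Nat.modEq_zero_iff_dvd.1 (h4.symm.trans (Nat.modEq_zero_iff_dvd.2 h3)))
  rcases Nat.eq_zero_or_pos i with hi | hi
  · rw [hq, hi, pow_zero] at h5
    have h6 : r = 2 := (Nat.prime_dvd_prime_iff_eq hr Nat.prime_two).1 h5
    rw [h6] at hrf
    obtain ⟨a, ha⟩ := hrf
    obtain ⟨b, hb⟩ := ho
    omega
  · have h7 : r ∣ q := by rw [hq]; exact dvd_pow_self r hi.ne'
    have h6 : r ∣ 1 := (Nat.dvd_add_right h7).1 h5
    exact hr.one_lt.ne' (Nat.dvd_one.1 h6)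

end BC5

variable {G : Type u} {Ω : Type v} [Group G] [Finite G] [MulAction G Ω] [Finite Ω]

theorem a4B2_one_odd (h : B4 G Ω) {a b : Ω} (hab : a ≠ b) {t : G} (ht : Inv t) (hts : t ∈ St G a b)
    {u : G} (hu : Inv u) (hua : u • a = b) (hub : u • b = a) (huc : ∀ g ∈ St G a b, u * g = g * u) (htu : IsConj t u)
    (hm : fS G Ω (VV a b t) * fS G Ω (VV a b t) = fx G Ω t) (ho : Odd (fx G Ω t)) : False := by
  classical
  obtain ⟨hV4, hV2, hVc, -, hVn, -, -⟩ := vfacts4 h hab ht hts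
  obtain ⟨-, -, hf2, -, -, -⟩ := count4 h hab ht hts
  have hlt : fS G Ω (VV a b t) < fx G Ω t := by
    rw [← hm] at hf2 ⊢
    have h1 : 2 ≤ fS G Ω (VV a b t) := by
      by_contra hcon
      have h2 : fS G Ω (VV a b t) ≤ 1 := by omega
      have := Nat.mul_le_mul h2 h2
      omega
    nlinarith
  -- a second involution of `V`
  obtain ⟨v, hvV, hv1, hvt⟩ : ∃ v ∈ VV a b t, v ≠ 1 ∧ v ≠ t := by
    by_contra! hcon
    have h1 : (VV a b t : Set G) ⊆ {1, t} := by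
      intro y hy
      by_cases hy1 : y = 1
      · exact Or.inl hy1
      · exact Or.inr (hcon y hy hy1)
    have h2 : (VV a b t : Set G).ncard ≤ 2 := (Set.ncard_le_ncard h1 (Set.toFinite _)).trans (Set.ncard_insert_le _ _ |>.trans (by rw [Set.ncard_singleton]))
    have h3 : (VV a b t : Set G).ncard = 4 := hV4
    omega
  obtain ⟨s, hst, hsa, hsb, hns⟩ := delta_s4 h hab ht hts hlt hvV hv1 hvt hm.symm
  obtain ⟨-, hodd, -⟩ := delta_one4 h hab ht hts hlt hvV hv1 hvt hst hsa hsb hns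
  obtain ⟨-, -, hT⟩ := a4B2_conj h hab ht hts hu hua hub huc htu (Or.inr hlt)
  obtain ⟨r, k, E, hr, hk, hrk, hE, hEc, hEr⟩ := hodd ho
  obtain ⟨q, i, hq, hmod, -, -⟩ := modr4 h hab ht hts hm ho r k hr hrk E hE hEc hEr
  exact BC5.arith_odd hr hk hrk hm ho hT hq hmod

end H39.DA
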