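import Cfsg.Agent.Lib.H39.DBC6core
import Cfsg.Agent.Lib.H39.DAQ1
import Cfsg.Agent.Lib.H39.DBD0b
import Cfsg.Agent.Lib.H39.DBD2
import Cfsg.Agent.Lib.H39.DBD4
import Cfsg.Agent.Lib.H39.DBD5
import Cfsg.Agent.Lib.H39.DBC4

/-!
S3219, piece B-C6: `f = m²` with `f` even and `m > 2` is impossible in case B with `t ~ u`.
-/

set_option autoImplicit false

open MulAction

universe u v

namespace H39.DA

variable {G : Type u} {Ω : Type v} [Group G] [Finite G] [MulAction G Ω] [Finite Ω]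

theorem a4B2_one_even (h : B4 G Ω) {a b : Ω} (hab : a ≠ b) {t : G} (ht : Inv t) (hts : t ∈ St G a b)
    {u : G} (hu : Inv u) (hua : u • a = b) (hub : u • b = a) (huc : ∀ g ∈ St G a b, u * g = g * u) (htu : IsConj t u)
    (hm : fS G Ω (VV a b t) * fS G Ω (VV a b t) = fx G Ω t) (he : Even (fx G Ω t)) (h2 : 2 < fS G Ω (VV a b t)) : False := by
  classical
  obtain ⟨hV4, hVsq, -, -, -, -, -, -⟩ := vfacts4 h hab ht hts
  obtain ⟨cG, cnt, -, -, -, cc⟩ := count4 h hab ht hts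
  have hlt : fS G Ω (VV a b t) < fx G Ω t := by rw [← hm]; nlinarith
  obtain ⟨hT, hker⟩ := t2_CB4 h hab ht hts hlt
  -- `m` is a power of two
  have hme : Even (fS G Ω (VV a b t)) := by
    rw [← hm] at he
    rcases Nat.even_mul.1 he with h1 | h1 <;> exact h1
  have hcY : Nat.card (Fx G (Ω := Ω) (VV a b t : Set G)) = fS G Ω (VV a b t) := rfl
  obtain ⟨-, k, -, -, hk, -⟩ := sh_even (sh_YB4 h hab ht hts) (by rw [hcY]; exact hme)
  rw [hcY] at hk
  have hf : fx G Ω t = 2 ^ (k + k) := by rw [← hm, hk, pow_add]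
  -- the element `v`
  obtain ⟨v, hv, hv1, hvt⟩ : ∃ v ∈ VV a b t, v ≠ 1 ∧ v ≠ t := by
    by_contra hcon
    push Not at hcon
    have hsub : (VV a b t : Set G) ⊆ ({1, t} : Set G) := by
      intro x hx
      by_cases hx1 : x = 1
      · left; exact hx1
      · right; exact hcon x hx hx1
    have h1 := Set.ncard_le_ncard hsub (Set.toFinite _)
    have h2 : (VV a b t : Set G).ncard = 4 := by rw [← Nat.card_coe_set_eq]; exact hV4
    have h3 : ({1, t} : Set G).ncard ≤ 2 := by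
      refine (Set.ncard_insert_le _ _).trans ?_
      rw [Set.ncard_singleton]
    omega
  obtain ⟨s, hst, hsa, hsb, hns⟩ := delta_s4 h hab ht hts hlt hv hv1 hvt hm.symm
  obtain ⟨-, -, hd⟩ := delta_one4 h hab ht hts hlt hv hv1 hvt hst hsa hsb hns
  obtain ⟨E, hE, hEc⟩ := hd _ hf
  obtain ⟨hall, -, h3⟩ := a4B2_conj h hab ht hts hu hua hub huc htu (Or.inr hlt)
  exact BC6.core hab ht hts hu hua hub huc hVsq cG cnt cc hT hker hv hv1 hvt
    (fun hvc => fx_CB4 h hab ht hts hv hv1 hvt hvc) E hE hEc hall h3 hf hm h2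

end H39.DA
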