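import Cfsg.Agent.Lib.H39.DB0
import Cfsg.Agent.Lib.H39.DAQ8core
import Cfsg.Agent.Lib.H68.BC6abs

set_option autoImplicit false
set_option linter.unusedSectionVars false
set_option linter.style.haveILetI false
set_option maxHeartbeats 1000000

namespace H39.DA.BC6

open MulAction H39.DA.Q8

universe u v

section reg

variable {C : Type u} {X : Type v} [Group C] [Finite C] [MulAction C X] [Finite X]

theorem reg_card {E : Subgroup C} (hE : Reg C X E) (x0 : X) : Nat.card E = Nat.card X := by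
  apply Nat.card_congr
  refine Equiv.ofBijective (fun e : E => (e : C) • x0) ⟨?_, ?_⟩
  · intro a b hab
    have h1 : (a : C) • x0 = (b : C) • x0 := hab
    have h2 : ((a : C)⁻¹ * b) • x0 = x0 := by rw [mul_smul, ← h1, inv_smul_smul]
    have h3 := hE.2.2 _ (mul_mem (inv_mem a.2) b.2) x0 h2
    exact Subtype.ext (inv_mul_eq_one.1 h3)
  · intro y
    obtain ⟨e, hee, hy⟩ := hE.2.1 x0 y
    exact ⟨⟨e, hee⟩, hy⟩

/-- all nontrivial elements of `E` are conjugate to the element taking `a` to `b`, which is an involution -/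
theorem reg_sq (h : TT C X) {E : Subgroup C} (hE : Reg C X E) (hev : Even (Nat.card X)) {a b : X} (hab : a ≠ b) :
    ∃ e1 ∈ E, e1 • a = b ∧ e1 • b = a ∧ e1 * e1 = 1 ∧ ∀ e ∈ E, e ≠ 1 → ∃ k : C, k * e * k⁻¹ = e1 := by
  obtain ⟨e1, he1, hab1⟩ := hE.2.1 a b
  have huniq : ∀ e ∈ E, e • a = b → e = e1 := by
    intro e he hea
    have h1 : (e⁻¹ * e1) • a = a := by rw [mul_smul, hab1, ← hea, inv_smul_smul]
    have h2 := hE.2.2 _ (mul_mem (inv_mem he) he1) a h1
    exact inv_mul_eq_one.1 h2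
  have hconj : ∀ e ∈ E, e ≠ 1 → ∃ k : C, k * e * k⁻¹ = e1 := by
    intro e he hne
    have h1 : a ≠ e • a := fun h2 => hne (hE.2.2 e he a h2.symm)
    obtain ⟨k, hk1, hk2⟩ := h.tr a (e • a) a b h1 hab
    refine ⟨k, huniq _ (hE.1.conj_mem e he k) ?_⟩
    have h3 : k⁻¹ • a = a := by rw [inv_smul_eq_iff, hk1]
    rw [mul_smul, mul_smul, h3, hk2]
  haveI : Fact (Nat.Prime 2) := ⟨Nat.prime_two⟩
  obtain ⟨z, hz⟩ := exists_prime_orderOf_dvd_card' (G := E) 2 (by rw [reg_card hE a]; exact hev.two_dvd)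
  have hz1 : (z : C) ≠ 1 := by
    intro h1
    have : z = 1 := Subtype.ext h1
    rw [this, orderOf_one] at hz
    norm_num at hz
  have hz2 : (z : C) * z = 1 := by
    have h1 : z ^ 2 = 1 := by rw [← hz]; exact pow_orderOf_eq_one z
    rw [pow_two] at h1
    exact congrArg Subtype.val h1
  obtain ⟨k, hk⟩ := hconj z z.2 hz1
  have hsq : e1 * e1 = 1 := by
    rw [← hk]
    have : k * z * k⁻¹ * (k * z * k⁻¹) = k * (z * z) * k⁻¹ := by group
    rw [this, hz2]; group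
  refine ⟨e1, he1, hab1, ?_, hsq, hconj⟩
  rw [← hab1, ← mul_smul, hsq, one_smul]

/-- centralizer bound -/
theorem reg_bound {E : Subgroup C} (hE : Reg C X E) (hEc : ∀ g ∈ E, ∀ g' ∈ E, g * g' = g' * g) {m : ℕ} (hm1 : 1 ≤ m)
    (hfix : ∀ g : C, g ≠ 1 → (∃ c d : X, c ≠ d ∧ g • c = c ∧ g • d = d) → fx C X g = m) (x0 : X)
    (hX : ∀ g : C, (∀ x : X, g • x = x) → g = 1) {s : C} (hs : s ∉ E)
    (D : Subgroup C) (hD : D ≤ E) (hDs : ∀ d ∈ D, s * d = d * s) : Nat.card D ≤ m := by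
  obtain ⟨e, he, hes⟩ := hE.2.1 x0 (s • x0)
  obtain ⟨w, hw⟩ : ∃ w, w = e⁻¹ * s := ⟨_, rfl⟩
  have hw0 : w • x0 = x0 := by rw [hw, mul_smul, ← hes, inv_smul_smul]
  have hw1 : w ≠ 1 := by
    intro h1
    rw [hw, inv_mul_eq_one] at h1
    exact hs (h1 ▸ he)
  have hDw : ∀ d ∈ D, w * d = d * w := by
    intro d hd
    rw [hw, mul_assoc, hDs d hd, ← mul_assoc, ← mul_assoc, hEc _ (inv_mem he) _ (hD hd)]
  have hle : Nat.card D ≤ fx C X w := by
    apply Nat.card_le_card_of_injective (fun d : D => (⟨(d : C) • x0, by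
      rw [← mul_smul, hDw d d.2, mul_smul, hw0]⟩ : {x : X // w • x = x}))
    intro d d' hdd
    have h1 : (d : C) • x0 = (d' : C) • x0 := congrArg Subtype.val hdd
    have h2 : ((d : C)⁻¹ * d') • x0 = x0 := by rw [mul_smul, ← h1, inv_smul_smul]
    have h3 := hE.2.2 _ (mul_mem (inv_mem (hD d.2)) (hD d'.2)) x0 h2
    exact Subtype.ext (inv_mul_eq_one.1 h3)
  by_cases h2 : ∃ d : X, d ≠ x0 ∧ w • d = d
  · obtain ⟨d, hd, hdw⟩ := h2
    rw [← hfix w hw1 ⟨x0, d, hd.symm, hw0, hdw⟩]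
    exact hle
  · push Not at h2
    have h3 : fx C X w ≤ 1 := by
      haveI : Subsingleton {x : X // w • x = x} := by
        refine ⟨fun x y => Subtype.ext ?_⟩
        have hx : (x : X) = x0 := by_contra fun h4 => h2 _ h4 x.2
        have hy : (y : X) = x0 := by_contra fun h4 => h2 _ h4 y.2
        rw [hx, hy]
      exact Finite.card_le_one_iff_subsingleton.2 inferInstance
    omega

end reg

variable {G : Type u} {Ω : Type v} [Group G] [Finite G] [MulAction G Ω] [Finite Ω]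

theorem core {a b : Ω} (hab : a ≠ b) {t : G} (ht : Inv t) (hts : t ∈ St G a b)
    {u : G} (hu : Inv u) (hua : u • a = b) (hub : u • b = a) (huc : ∀ g ∈ St G a b, u * g = g * u)
    {m : ℕ} (hVsq : ∀ g ∈ VV a b t, g * g = 1)
    (cG : Nat.card G = 12 * (Nat.card Ω * (Nat.card Ω - 1)))
    (cnt : Nat.card (Subgroup.centralizer ({t} : Set G)) = 4 * (fx G Ω t * (fx G Ω t - 1)))
    (cc : Nat.card {s : G // IsConj t s} * (fx G Ω t * (fx G Ω t - 1)) = 3 * (Nat.card Ω * (Nat.card Ω - 1)))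
    (hT : T2 (CB G Ω t) (Fx G (Ω := Ω) ({t} : Set G)))
    (hker : ∀ (g : G) (hg : g ∈ Subgroup.centralizer ({t} : Set G)), cb Ω hg = 1 ↔ (g = 1 ∨ g = t))
    {v : G} (hv : v ∈ VV a b t) (hv1 : v ≠ 1) (hvt : v ≠ t)
    (hfx : ∀ (hvc : v ∈ Subgroup.centralizer ({t} : Set G)),
      fx (CB G Ω t) (Fx G (Ω := Ω) ({t} : Set G)) (cb Ω hvc) = m)
    (E : Subgroup (CB G Ω t)) (hE : Reg (CB G Ω t) (Fx G (Ω := Ω) ({t} : Set G)) E)
    (hEc : ∀ g ∈ E, ∀ g' ∈ E, g * g' = g' * g)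
    (hall : ∀ s : G, Inv s → IsConj t s)
    (h3 : 3 * Nat.card {s : G // IsConj t s} = (4 * fx G Ω t - 1) * (4 * fx G Ω t + 3))
    {k : ℕ} (hf : fx G Ω t = 2 ^ k) (hm : m * m = fx G Ω t) (hm2 : 2 < m) : False := by
  classical
  have hta : t • a = a := (Subgroup.mem_inf.1 hts).1
  have htb : t • b = b := (Subgroup.mem_inf.1 hts).2
  obtain ⟨f, hff⟩ : ∃ f, f = fx G Ω t := ⟨_, rfl⟩
  have hcX : Nat.card (Fx G (Ω := Ω) ({t} : Set G)) = f := by
    rw [hff]
    unfold fx Fx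
    apply Nat.card_congr
    refine Equiv.subtypeEquivRight fun x => ?_
    constructor
    · intro h1; exact h1 t rfl
    · intro h1 s hs
      rw [Set.mem_singleton_iff.1 hs]; exact h1
  rw [← hff] at cnt cc h3 hf hm
  have hf9 : 9 ≤ f := by rw [← hm]; nlinarith
  have hfe : Even f := by
    rw [hf]
    refine (Nat.even_pow.2 ⟨even_two, ?_⟩)
    rintro rfl
    rw [pow_zero] at hf; omega
  obtain ⟨a', ha'⟩ : ∃ a' : Fx G (Ω := Ω) ({t} : Set G), (a' : Ω) = a :=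
    ⟨⟨a, fun s hs => by rw [Set.mem_singleton_iff.1 hs]; exact hta⟩, rfl⟩
  obtain ⟨b', hb'⟩ : ∃ b' : Fx G (Ω := Ω) ({t} : Set G), (b' : Ω) = b :=
    ⟨⟨b, fun s hs => by rw [Set.mem_singleton_iff.1 hs]; exact htb⟩, rfl⟩
  have hab' : a' ≠ b' := fun e => hab (by rw [← ha', ← hb', e])
  have hval : ∀ (g : Subgroup.centralizer ({t} : Set G)) (x : Fx G (Ω := Ω) ({t} : Set G)),
      ((rho G Ω t g • x : Fx G (Ω := Ω) ({t} : Set G)) : Ω) = (g : G) • (x : Ω) := fun g x => rfl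
  have hvc : v ∈ Subgroup.centralizer ({t} : Set G) := (Subgroup.mem_inf.1 hv).2
  have hvS : v ∈ St G a b := (Subgroup.mem_inf.1 hv).1
  have hvS' : cb Ω hvc ∈ St (CB G Ω t) a' b' := by
    refine Subgroup.mem_inf.2 ⟨?_, ?_⟩
    · apply Subtype.ext
      show v • (a' : Ω) = a'
      rw [ha']; exact (Subgroup.mem_inf.1 hvS).1
    · apply Subtype.ext
      show v • (b' : Ω) = b'
      rw [hb']; exact (Subgroup.mem_inf.1 hvS).2
  have hv1' : cb Ω hvc ≠ 1 := by
    intro h1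
    rcases (hker v hvc).1 h1 with h2 | h2
    · exact hv1 h2
    · exact hvt h2
  obtain ⟨-, -, -, hCB, -, hconj, -⟩ := t2_main hT hab' hvS' hv1'
  rw [hcX] at hCB
  have hfix : ∀ g : CB G Ω t, g ≠ 1 → (∃ c d : Fx G (Ω := Ω) ({t} : Set G), c ≠ d ∧ g • c = c ∧ g • d = d) →
      fx (CB G Ω t) (Fx G (Ω := Ω) ({t} : Set G)) g = m := by
    intro g hg hcd
    rw [fx_conj (hconj g hg hcd)]
    exact hfx hvc
  have hk : ∀ g : Subgroup.centralizer ({t} : Set G), rho G Ω t g = 1 → (g : G) = 1 ∨ (g : G) = t :=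
    fun g hg => (hker g g.2).1 hg
  have htt := ht.2
  -- the square
  obtain ⟨e1, he1, hab1, hba1, he1sq, hcj⟩ := reg_sq hT.toTT hE (by rw [hcX]; exact hfe) hab'
  obtain ⟨g1, hg1⟩ := rho_surj (X := Ω) t e1
  have hg1a : (g1 : G) • a = b := by
    have h1 := hval g1 a'
    rw [hg1, hab1, ha', hb'] at h1
    exact h1.symm
  have hg1b : (g1 : G) • b = a := by
    have h1 := hval g1 b'
    rw [hg1, hba1, ha', hb'] at h1
    exact h1.symm
  have hg1c := mc' g1.2
  have hut : u * t = t * u := huc t hts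
  have hg1sq : (g1 : G) * g1 = 1 := by
    have huinv : u⁻¹ = u := inv_eq_of_mul_eq_one_left hu.2
    have hx : u * g1 ∈ St G a b := by
      refine Subgroup.mem_inf.2 ⟨?_, ?_⟩
      · show (u * (g1 : G)) • a = a
        rw [mul_smul, hg1a, hub]
      · show (u * (g1 : G)) • b = b
        rw [mul_smul, hg1b, hua]
    have hxV : u * g1 ∈ VV a b t := by
      refine Subgroup.mem_inf.2 ⟨hx, mc ?_⟩
      rw [mul_assoc, hg1c, ← mul_assoc, hut, mul_assoc]
    have h1 := hVsq _ hxV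
    have h2 := huc _ hx
    have h4 : (g1 : G) = u * (u * g1) := by rw [← mul_assoc, hu.2, one_mul]
    have h5 : (g1 : G) * g1 = u * (u * g1) * (u * (u * g1)) := by rw [← h4]
    have h6 : u * (u * g1) * (u * (u * g1)) = u * ((u * g1) * u) * (u * g1) := by simp only [mul_assoc]
    have h7 : u * ((u * (g1 : G)) * u) * (u * g1) = u * (u * (u * g1)) * (u * g1) := by rw [h2]
    have h8 : u * (u * (u * (g1 : G))) * (u * g1) = (u * u) * ((u * g1) * (u * g1)) := by simp only [mul_assoc]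
    rw [h5, h6, h7, h8, hu.2, h1, one_mul]
  have hEsq : ∀ g : Subgroup.centralizer ({t} : Set G), rho G Ω t g ∈ E → (g : G) * g = 1 := by
    intro g hg
    by_cases h1 : rho G Ω t g = 1
    · rcases hk g h1 with h2 | h2
      · rw [h2, one_mul]
      · rw [h2, htt]
    · obtain ⟨c, hc⟩ := hcj _ hg h1
      obtain ⟨c, rfl⟩ := rho_surj (X := Ω) t c
      have h2 : rho G Ω t (c * g * c⁻¹ * g1⁻¹) = 1 := by
        rw [map_mul, map_mul, map_mul, map_inv, map_inv, hc, hg1, mul_inv_cancel]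
      have h3 : ((c * g * c⁻¹ * g1⁻¹ : Subgroup.centralizer ({t} : Set G)) : G) = (c : G) * g * (c : G)⁻¹ * (g1 : G)⁻¹ := rfl
      have h4 : ((c : G) * g * (c : G)⁻¹) * ((c : G) * g * (c : G)⁻¹) = 1 := by
        rcases hk _ h2 with h5 | h5
        · rw [h3, mul_inv_eq_one] at h5
          rw [h5, hg1sq]
        · rw [h3, mul_inv_eq_iff_eq_mul] at h5
          rw [h5]
          have h6 : t * (g1 : G) * (t * g1) = t * ((g1 : G) * t) * g1 := by simp only [mul_assoc]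
          rw [h6, hg1c]
          have h7 : t * (t * (g1 : G)) * g1 = (t * t) * (g1 * g1) := by simp only [mul_assoc]
          rw [h7, htt, hg1sq, one_mul]
      have h5 : ((c : G) * g * (c : G)⁻¹) * ((c : G) * g * (c : G)⁻¹) = (c : G) * (g * g) * (c : G)⁻¹ := by group
      rw [h5, mul_inv_eq_one] at h4
      exact mul_eq_left.1 h4
  obtain ⟨R, hR⟩ : ∃ R : Subgroup.centralizer ({t} : Set G) →* CB G Ω t, R = rho G Ω t := ⟨_, rfl⟩
  have hRs : Function.Surjective R := by rw [hR]; exact rho_surj t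
  have hcomap : ∀ A : Subgroup (CB G Ω t), Nat.card (A.comap R) = 2 * Nat.card A := by
    intro A
    have h1 := Subgroup.card_mul_index (A.comap R)
    rw [Subgroup.index_comap_of_surjective A hRs, cnt] at h1
    have h2 := Subgroup.card_mul_index A
    rw [hCB] at h2
    have h4 : 0 < A.index := Nat.pos_of_ne_zero Subgroup.index_ne_zero_of_finite
    apply Nat.eq_of_mul_eq_mul_right h4
    rw [h1, mul_assoc, h2]; ring
  obtain ⟨Et, hEt⟩ : ∃ Et : Subgroup G, Et = (E.comap R).map (Subgroup.centralizer ({t} : Set G)).subtype := ⟨_, rfl⟩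
  have hEtm : ∀ g, g ∈ Et ↔ ∃ hg : g ∈ Subgroup.centralizer ({t} : Set G), R ⟨g, hg⟩ ∈ E := by
    intro g
    rw [hEt]
    constructor
    · rintro ⟨x, hx, rfl⟩
      exact ⟨x.2, hx⟩
    · rintro ⟨hg, h1⟩
      exact ⟨⟨g, hg⟩, h1, rfl⟩
  have hEtc : Nat.card Et = 2 * f := by
    rw [hEt, Subgroup.card_map_of_injective (Subgroup.subtype_injective _), hcomap, reg_card hE a', hcX]
  have hEt2 : ∀ e ∈ Et, e * e = 1 := by
    intro e he
    obtain ⟨hec, h1⟩ := (hEtm e).1 he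
    exact hEsq ⟨e, hec⟩ (by rw [← hR]; exact h1)
  have htEt : t ∈ Et := by
    have htc : t ∈ Subgroup.centralizer ({t} : Set G) := mc rfl
    refine (hEtm t).2 ⟨htc, ?_⟩
    have : R ⟨t, htc⟩ = 1 := by
      rw [hR]
      exact (hker t htc).2 (Or.inr rfl)
    rw [this]; exact one_mem _
  have hEtn : ∀ g, g * t = t * g → ∀ e ∈ Et, g * e * g⁻¹ ∈ Et := by
    intro g hg e he
    obtain ⟨hec, h1⟩ := (hEtm e).1 he
    refine (hEtm _).2 ⟨mul_mem (mul_mem (mc hg) hec) (inv_mem (mc hg)), ?_⟩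
    have h2 : R ⟨g * e * g⁻¹, mul_mem (mul_mem (mc hg) hec) (inv_mem (mc hg))⟩ = R ⟨g, mc hg⟩ * R ⟨e, hec⟩ * (R ⟨g, mc hg⟩)⁻¹ := by
      rw [← map_inv, ← map_mul, ← map_mul]; rfl
    rw [h2]
    exact hE.1.conj_mem _ h1 _
  have h8 : ¬ 8 * f ∣ Nat.card (Subgroup.centralizer ({t} : Set G)) := by
    rw [cnt]
    rintro ⟨c, hc⟩
    have h1 : f * (f - 1) = f * (2 * c) := by nlinarith
    have h2 : f - 1 = 2 * c := Nat.eq_of_mul_eq_mul_left (by omega) h1
    obtain ⟨d, hd⟩ := hfe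
    omega
  have hbd : ∀ s, s * t = t * s → s * s = 1 → s ∉ Et → ∀ D : Subgroup G, D ≤ Et → (∀ d ∈ D, s * d = d * s) → Nat.card D < f := by
    intro s hst _ hs D hD hDs
    obtain ⟨D0, hD0⟩ : ∃ D0, D0 = D.subgroupOf (Subgroup.centralizer ({t} : Set G)) := ⟨_, rfl⟩
    have hDC : D ≤ Subgroup.centralizer ({t} : Set G) := fun d hd => ((hEtm d).1 (hD hd)).1
    have h1 : Nat.card D0 = Nat.card D := by
      rw [hD0]
      exact Nat.card_congr (Subgroup.subgroupOfEquivOfLe hDC).toEquiv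
    have h2 : Nat.card D0 ≤ 2 * Nat.card (D0.map R) := by
      rw [← hcomap]
      exact Subgroup.card_le_of_le (Subgroup.le_comap_map R D0)
    have h4 : R ⟨s, mc hst⟩ ∉ E := fun h5 => hs ((hEtm s).2 ⟨mc hst, h5⟩)
    have h5 : D0.map R ≤ E := by
      rintro _ ⟨x, hx, rfl⟩
      rw [hD0] at hx
      exact ((hEtm x).1 (hD hx)).2
    have h6 : ∀ d ∈ D0.map R, R ⟨s, mc hst⟩ * d = d * R ⟨s, mc hst⟩ := by
      rintro _ ⟨x, hx, rfl⟩
      rw [hD0] at hx
      rw [← map_mul, ← map_mul]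
      congr 1
      exact Subtype.ext (hDs x hx)
    have h7 := reg_bound hE hEc (by omega) hfix a' hT.faith h4 _ h5 h6
    have h9 : 2 * m < m * m := by nlinarith
    omega
  have hdvd := H68.BC6.absC6 ht.1 htt hf Et htEt hEt2 hEtc hEtn (fun s h1 h2 => hall s ⟨h1, h2⟩) h8 hbd
  have hidx : (Subgroup.centralizer ({t} : Set G)).index = Nat.card {s : G // IsConj t s} := by
    have h1 := Subgroup.card_mul_index (Subgroup.centralizer ({t} : Set G))
    rw [cnt, cG] at h1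
    have h2 : 0 < f * (f - 1) := Nat.mul_pos (by omega) (by omega)
    apply Nat.eq_of_mul_eq_mul_right h2
    rw [cc]
    nlinarith
  rw [hidx] at hdvd
  have hd2 : (2 * f - 1) ∣ 3 * Nat.card {s : G // IsConj t s} := Dvd.dvd.mul_left hdvd 3
  rw [h3] at hd2
  have h10 : (4 * f - 1) * (4 * f + 3) = (2 * f - 1) * (8 * f + 8) + 5 := by
    obtain ⟨g, rfl⟩ : ∃ g, f = g + 1 := ⟨f - 1, by omega⟩
    have e1 : 4 * (g + 1) - 1 = 4 * g + 3 := by omega
    have e2 : 2 * (g + 1) - 1 = 2 * g + 1 := by omega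
    rw [e1, e2]; ring
  rw [h10] at hd2
  have h11 := (Nat.dvd_add_right (Dvd.intro _ rfl)).1 hd2
  have h12 := Nat.le_of_dvd (by norm_num) h11
  omega

end H39.DA.BC6
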