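import Cfsg.Agent.Lib.H39.DB0
set_option autoImplicit false
open MulAction
universe u v
namespace H39.DA.BC7

variable {G : Type u} {Ω : Type v} [Group G] [Finite G] [MulAction G Ω] [Finite Ω]

theorem card_St (h : B4 G Ω) {a b : Ω} (hab : a ≠ b) : Nat.card (St G a b) = 12 := by
  obtain ⟨e⟩ := h.a4 a b hab
  rw [Nat.card_congr e.toEquiv, nat_card_alternatingGroup]
  simp [Nat.factorial]

theorem orbit_eq (h : B4 G Ω) {a b : Ω} (hab : a ≠ b) :
    orbit (stabilizer G a) b = {x : Ω | x ≠ a} := by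
  ext x
  constructor
  · rintro ⟨g, rfl⟩
    intro hx
    have hx : (g : G) • b = a := hx
    have hg : (g : G) • a = a := g.2
    have : (g : G) • b = (g : G) • a := hx.trans hg.symm
    exact hab ((smul_left_cancel (g : G) this).symm)
  · intro hx
    have hx : x ≠ a := hx
    obtain ⟨g, hg1, hg2⟩ := h.tr a b a x hab (Ne.symm hx)
    exact ⟨⟨g, hg1⟩, hg2⟩

theorem ncard_ne (hn : Nat.card Ω = 20) (a : Ω) : ({x : Ω | x ≠ a} : Set Ω).ncard = 19 := by
  classical
  have h1 : ({x : Ω | x ≠ a} : Set Ω) = ({a} : Set Ω)ᶜ := by ext x; simp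
  have h2 := Set.ncard_add_ncard_compl ({a} : Set Ω)
  rw [Set.ncard_singleton, hn] at h2
  rw [h1]; omega

theorem card_A (h : B4 G Ω) (hn : Nat.card Ω = 20) {a b : Ω} (hab : a ≠ b) :
    Nat.card (stabilizer G a) = 228 := by
  have h1 := (stabilizer (stabilizer G a) b).card_mul_index
  rw [MulAction.index_stabilizer, orbit_eq h hab, ncard_ne hn] at h1
  have h2 : Nat.card (stabilizer (stabilizer G a) b) = 12 := by
    rw [← card_St h hab]
    refine Nat.card_congr
      { toFun := fun g => ⟨(g.1 : G), g.1.2, g.2⟩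
        invFun := fun g => ⟨⟨g.1, g.2.1⟩, g.2.2⟩
        left_inv := fun g => rfl
        right_inv := fun g => rfl }
  rw [h2] at h1
  omega

end H39.DA.BC7

namespace H39.DA
variable {G : Type u} {Ω : Type v} [Group G] [Finite G] [MulAction G Ω] [Finite Ω]

theorem a4_not20 (h : B4 G Ω) (hn : Nat.card Ω = 20) : False := by
  classical
  obtain ⟨a, b, hab⟩ := h.two
  haveI : Fact (Nat.Prime 19) := ⟨by norm_num⟩
  have hcA := BC7.card_A h hn hab
  set A := stabilizer G a with hA
  let P : Sylow 19 A := default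
  have hPc : Nat.card P = 19 := by
    rw [P.card_eq_multiplicity, hcA]
    have : (228 : ℕ).factorization 19 = 1 := by
      have h1 : (228 : ℕ) = 19 ^ 1 * 12 := by norm_num
      rw [h1, Nat.factorization_mul (by norm_num) (by norm_num), Finsupp.add_apply,
        Nat.Prime.factorization_pow (by norm_num), Finsupp.single_eq_same,
        Nat.factorization_eq_zero_of_not_dvd (by norm_num)]
    rw [this, pow_one]
  have hind : (P : Subgroup A).index = 12 := by
    have h1 := (P : Subgroup A).card_mul_index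
    have hPc' : Nat.card (P : Subgroup A) = 19 := hPc
    rw [hcA, hPc'] at h1
    omega
  have hs1 : Nat.card (Sylow 19 A) ∣ 12 := by
    rw [← hind]; exact P.card_dvd_index
  have hs2 : Nat.card (Sylow 19 A) ≡ 1 [MOD 19] := card_sylow_modEq_one 19 A
  have hs3 : Nat.card (Sylow 19 A) = 1 := by
    have h1 : Nat.card (Sylow 19 A) ≤ 12 := Nat.le_of_dvd (by norm_num) hs1
    have h2 : Nat.card (Sylow 19 A) % 19 = 1 % 19 := hs2
    rw [Nat.mod_eq_of_lt (by omega)] at h2
    exact h2
  haveI : Subsingleton (Sylow 19 A) := (Nat.card_eq_one_iff_unique.1 hs3).1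
  have hPn : (P : Subgroup A).Normal := P.normal_of_subsingleton
  -- a generator
  obtain ⟨p, hpgen⟩ : ∃ p : (P : Subgroup A), ∀ x : (P : Subgroup A), x ∈ Subgroup.zpowers p := by
    haveI : IsCyclic (P : Subgroup A) := isCyclic_of_prime_card (p := 19) hPc
    exact IsCyclic.exists_generator
  have hpo : orderOf p = 19 := by
    have := orderOf_eq_card_of_forall_mem_zpowers hpgen
    rw [this]; exact hPc
  -- noncommuting elements of the two-point stabilizer
  obtain ⟨e⟩ := h.a4 a b hab
  obtain ⟨x', y', hxy'⟩ : ∃ x y : alternatingGroup (Fin 4), x * y ≠ y * x := by decide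
  obtain ⟨x, rfl⟩ := e.surjective x'
  obtain ⟨y, rfl⟩ := e.surjective y'
  have hxy : x * y ≠ y * x := fun hh => hxy' (by rw [← map_mul, ← map_mul, hh])
  have hxy2 : (x : G) * y ≠ y * x := fun hh => hxy (Subtype.ext hh)
  -- conjugation on P
  have hconj : ∀ g : A, ∃ i : ℤ, g * (p : A) * g⁻¹ = (p : A) ^ i := by
    intro g
    have h1 : g * (p : A) * g⁻¹ ∈ (P : Subgroup A) := hPn.conj_mem _ p.2 g
    obtain ⟨i, hi⟩ := Subgroup.mem_zpowers_iff.1 (hpgen ⟨_, h1⟩)
    refine ⟨i, ?_⟩
    have := congrArg (Subtype.val) hi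
    simpa using this.symm
  let X : A := ⟨x, x.2.1⟩
  let Y : A := ⟨y, y.2.1⟩
  obtain ⟨i, hi⟩ := hconj X
  obtain ⟨j, hj⟩ := hconj Y
  have hXY : (X * Y) * (p : A) * (X * Y)⁻¹ = (Y * X) * (p : A) * (Y * X)⁻¹ := by
    have e1 : (X * Y) * (p : A) * (X * Y)⁻¹ = X * (Y * (p : A) * Y⁻¹) * X⁻¹ := by group
    have e2 : (Y * X) * (p : A) * (Y * X)⁻¹ = Y * (X * (p : A) * X⁻¹) * Y⁻¹ := by group
    rw [e1, e2, hi, hj, ← conj_zpow, ← conj_zpow, hi, hj, ← zpow_mul, ← zpow_mul, mul_comm]
  set c : A := (Y * X)⁻¹ * (X * Y) with hc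
  have hcp : c * (p : A) = (p : A) * c := by
    have h1 : c * (p : A) * c⁻¹ = p := by
      have : c * (p : A) * c⁻¹ = (Y * X)⁻¹ * ((X * Y) * (p : A) * (X * Y)⁻¹) * (Y * X) := by
        rw [hc]; group
      rw [this, hXY]; group
    exact mul_inv_eq_iff_eq_mul.1 h1
  have hcb : (c : G) • b = b := by
    have h1 : (x : G) • b = b := x.2.2
    have h2 : (y : G) • b = b := y.2.2
    have h3 : (c : G) = ((y : G) * x)⁻¹ * (x * y) := rfl
    rw [h3, mul_smul, mul_smul, h2, h1, inv_smul_eq_iff, mul_smul, h1, h2]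
  have hca : (c : G) • a = a := c.2
  -- p is transitive on the points other than a
  have hstab : ∀ k : ℕ, ((p : A) : G) ^ k • b = b → 19 ∣ k := by
    intro k hk
    have h1 : ((p : A) : G) ^ k ∈ St G a b := ⟨Subgroup.pow_mem _ (p : A).2 k, hk⟩
    have h2 : (((p : A) : G) ^ k) ^ 12 = 1 := by
      have h3 : (⟨_, h1⟩ : St G a b) ^ 12 = 1 := by
        rw [← BC7.card_St h hab]; exact pow_card_eq_one'
      exact congrArg Subtype.val h3
    have h3 : orderOf ((p : A) : G) = 19 := by
      rw [Subgroup.orderOf_coe, Subgroup.orderOf_coe, hpo]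
    rw [← pow_mul, ← orderOf_dvd_iff_pow_eq_one, h3] at h2
    rcases (Nat.Prime.dvd_mul (by norm_num)).1 h2 with h4 | h4
    · exact h4
    · exact absurd h4 (by norm_num)
  have hcover : ∀ z : Ω, z ≠ a → ∃ k : ℕ, ((p : A) : G) ^ k • b = z := by
    have hinj : Set.InjOn (fun k : ℕ => ((p : A) : G) ^ k • b) (Finset.range 19 : Set ℕ) := by
      have key : ∀ k l : ℕ, k < 19 → l < 19 → k ≤ l → ((p : A) : G) ^ k • b = ((p : A) : G) ^ l • b → k = l := by
        intro k l hk hl hkl hh
        have h1 : ((p : A) : G) ^ l = ((p : A) : G) ^ k * ((p : A) : G) ^ (l - k) := by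
          rw [← pow_add]; congr 1; omega
        rw [h1, mul_smul] at hh
        have h2 := smul_left_cancel _ hh
        have h3 := hstab (l - k) h2.symm
        omega
      intro k hk l hl hh
      have hk : k < 19 := by simpa using hk
      have hl : l < 19 := by simpa using hl
      rcases le_total k l with hkl | hkl
      · exact key k l hk hl hkl hh
      · exact (key l k hl hk hkl hh.symm).symm
    have hsub : (fun k : ℕ => ((p : A) : G) ^ k • b) '' (Finset.range 19 : Set ℕ) ⊆ {z : Ω | z ≠ a} := by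
      rintro _ ⟨k, _, rfl⟩
      intro hh
      have hh : ((p : A) : G) ^ k • b = a := hh
      have h1 : ((p : A) : G) ^ k • a = a := Subgroup.pow_mem _ (p : A).2 k
      exact hab (smul_left_cancel _ (h1.trans hh.symm))
    have heq := Set.eq_of_subset_of_ncard_le hsub (by
      rw [BC7.ncard_ne hn, Set.ncard_image_of_injOn hinj, Set.ncard_coe_finset, Finset.card_range]) (Set.toFinite _)
    intro z hz
    have hz' : z ∈ {z : Ω | z ≠ a} := hz
    rw [← heq] at hz'
    obtain ⟨k, _, hk⟩ := hz'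
    exact ⟨k, hk⟩
  have hcG : (c : G) * ((p : A) : G) = ((p : A) : G) * c := congrArg Subtype.val hcp
  have hc1 : (c : G) = 1 := by
    apply h.faith
    intro z
    by_cases hz : z = a
    · rw [hz]; exact hca
    · obtain ⟨k, rfl⟩ := hcover z hz
      have h1 : Commute (c : G) (((p : A) : G) ^ k) := Commute.pow_right hcG k
      rw [← mul_smul, h1.eq, mul_smul, hcb]
  have h3 : (c : G) = ((y : G) * x)⁻¹ * (x * y) := rfl
  rw [h3, inv_mul_eq_one] at hc1
  exact hxy2 hc1.symm
end H39.DA
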