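import Mathlib
import Cfsg.Agent.Lib.H39.DBC28
import Cfsg.Agent.Lib.H39.DB0

/-!
S3219, piece BC8 (core): case B, all involutions conjugate, `f = m (2 m - 1)` even (helper58).
-/

set_option autoImplicit false

open MulAction

universe u v

namespace H39.DA.B8

open H39.DA.R7 H39.DA.B28

theorem arith8 {m k G0 f : ℕ} (hk : m = 2 ^ k) (h1 : 1 ≤ k) (hf : f = m * (2 * m - 1))
    (hG : 3 * G0 = 4 * (f * (f - 1)) * ((4 * f - 1) * (4 * f + 3))) (hd : (4 * m - 1) ∣ G0) : m = 4 := by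
  have hm2 : 2 ≤ m := by
    rw [hk]
    calc 2 = 2 ^ 1 := by norm_num
      _ ≤ 2 ^ k := Nat.pow_le_pow_right (by norm_num) h1
  have hf1 : 1 ≤ f := by
    rw [hf]
    exact Nat.mul_pos (by omega) (by omega)
  obtain ⟨c, hc⟩ := hd
  have e1 : ((4 * m - 1 : ℕ) : ℤ) = 4 * (m : ℤ) - 1 := by
    rw [Nat.cast_sub (by omega)]; push_cast; ring
  have e2 : (f : ℤ) = m * (2 * m - 1) := by
    rw [hf]; push_cast [Nat.cast_sub (show 1 ≤ 2 * m by omega)]; ring
  have e3 : 3 * (G0 : ℤ) = 4 * (f * (f - 1)) * ((4 * f - 1) * (4 * f + 3)) := by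
    have := congrArg (fun x : ℕ => (x : ℤ)) hG
    push_cast [Nat.cast_sub hf1, Nat.cast_sub (show 1 ≤ 4 * f by omega)] at this
    exact this
  have e4 : (G0 : ℤ) = (4 * m - 1) * c := by
    have := congrArg (fun x : ℕ => (x : ℤ)) hc
    push_cast [Nat.cast_sub (show 1 ≤ 4 * m by omega)] at this
    exact this
  have hdvd : (4 * (m : ℤ) - 1) ∣ 135 := by
    set d : ℤ := 4 * (m : ℤ) - 1 with hd
    have h8 : 8 * (f : ℤ) = d ^ 2 - 1 := by rw [e2, hd]; ring
    -- (8f)(8f-8)(8f-2)(8f+6) = 64 * 4 * f (f-1) (4f-1)(4f+3) = 64 * 3 * G0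
    have h9 : 192 * (G0 : ℤ) = (8 * f) * (8 * f - 8) * ((8 * f - 2) * (8 * f + 6)) := by
      linear_combination 64 * e3
    rw [h8, e4] at h9
    refine ⟨d ^ 7 - 8 * d ^ 5 - 26 * d ^ 3 + 168 * d - 192 * c, ?_⟩
    linear_combination h9
  have hd2 : (4 * m - 1) ∣ 135 := by
    rw [← e1] at hdvd
    exact_mod_cast hdvd
  have h3 := Nat.le_of_dvd (by norm_num) hd2
  have h4 : k ≤ 5 := by
    by_contra hcon
    have h5 : 2 ^ 6 ≤ 2 ^ k := Nat.pow_le_pow_right (by norm_num) (by omega)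
    rw [← hk] at h5
    omega
  subst hk
  interval_cases k <;> revert hd2 <;> norm_num


variable {G : Type u} {Ω : Type v} [Group G] [Finite G] [MulAction G Ω] [Finite Ω]

theorem core8 {a b : Ω} (hab : a ≠ b) {t : G} (ht : Inv t) (hts : t ∈ St G a b)
    {u : G} (hu : Inv u) (hua : u • a = b) (hub : u • b = a) (huc : ∀ g ∈ St G a b, u * g = g * u)
    (hm : fx G Ω t = fS G Ω (VV a b t) * (2 * fS G Ω (VV a b t) - 1)) (he : Even (fx G Ω t))
    (vf : ∀ {a b : Ω}, a ≠ b → ∀ {t : G}, Inv t → t ∈ St G a b → ∀ g ∈ VV a b t, g * g = 1)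
    (hcnt : Nat.card G = 12 * (Nat.card Ω * (Nat.card Ω - 1)) ∧
      Nat.card (Subgroup.centralizer ({t} : Set G)) = 4 * (fx G Ω t * (fx G Ω t - 1)) ∧
      2 ≤ fx G Ω t ∧ fx G Ω t < Nat.card Ω ∧
      3 * (Nat.card Ω - fx G Ω t) = fx G Ω t * (fx G Ω t - 1) * Nat.card {s : G // IsConj t s ∧ s • a = b ∧ s • b = a} ∧
      Nat.card {s : G // IsConj t s} * (fx G Ω t * (fx G Ω t - 1)) = 3 * (Nat.card Ω * (Nat.card Ω - 1)))
    (hcV : let m := fS G Ω (VV a b t)
      2 ≤ m ∧ m ≤ fx G Ω t ∧ Nat.card (Subgroup.normalizer (VV a b t : Set G)) = 12 * (m * (m - 1)) ∧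
      Nat.card (NT (VV a b t) t) = 4 * (m * (m - 1)) ∧
      (∀ c ∈ Fx G (Ω := Ω) (VV a b t : Set G), ∀ d ∈ Fx G (Ω := Ω) (VV a b t : Set G), c ≠ d →
        ∀ c' ∈ Fx G (Ω := Ω) (VV a b t : Set G), ∀ d' ∈ Fx G (Ω := Ω) (VV a b t : Set G), c' ≠ d' →
        ∃ g ∈ NT (VV a b t) t, g • c = c' ∧ g • d = d') ∧
      (∀ g ∈ NT (VV a b t) t, ∀ c ∈ Fx G (Ω := Ω) (VV a b t : Set G), ∀ d ∈ Fx G (Ω := Ω) (VV a b t : Set G), c ≠ d →
        g • c = c → g • d = d → g ∈ VV a b t))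
    (hcj : (∀ s : G, Inv s → IsConj t s) ∧
      3 * Nat.card Ω = fx G Ω t * (4 * fx G Ω t - 1) ∧ 3 * Nat.card {s : G // IsConj t s} = (4 * fx G Ω t - 1) * (4 * fx G Ω t + 3))
    (she : Even (Nat.card (Fx G (Ω := Ω) (VV a b t : Set G))) →
      Nat.card (YB G Ω (VV a b t) t) = Nat.card (Fx G (Ω := Ω) (VV a b t : Set G)) * (Nat.card (Fx G (Ω := Ω) (VV a b t : Set G)) - 1) ∧
      ∃ (k : ℕ) (F : Subgroup (YB G Ω (VV a b t) t)), 1 ≤ k ∧ Nat.card (Fx G (Ω := Ω) (VV a b t : Set G)) = 2 ^ k ∧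
      Reg (YB G Ω (VV a b t) t) (Fx G (Ω := Ω) (VV a b t : Set G)) F ∧
      (∀ g ∈ F, g * g = 1) ∧ (∀ g : YB G Ω (VV a b t) t, (∀ x : Fx G (Ω := Ω) (VV a b t : Set G), g • x ≠ x) → g ∈ F) ∧
      (∀ g ∈ F, g ≠ 1 → ∀ g' ∈ F, g' ≠ 1 → ∃ y : YB G Ω (VV a b t) t, y * g * y⁻¹ = g') ∧
      (2 < Nat.card (Fx G (Ω := Ω) (VV a b t : Set G)) → ∀ H : Subgroup (YB G Ω (VV a b t) t), H.index ≠ 2))
    (no45 : ∀ {M : Type u} [Group M] [Finite M] (T : Subgroup M) [T.Normal], Nat.card T = 16 → (∀ g ∈ T, g * g = 1) →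
      (∀ g : M, (∀ e ∈ T, g * e = e * g) → g ∈ T) → Odd T.index → 45 ∣ T.index → False) : False := by
  classical
  obtain ⟨cG, -, f2, -, -, cc⟩ := hcnt
  set m := fS G Ω (VV a b t) with hmdef
  set f := fx G Ω t with hfdef
  obtain ⟨m2, mf, -, cNT, trNT, stNT⟩ := hcV
  have hmX : Nat.card (Fx G (Ω := Ω) (VV a b t : Set G)) = m := rfl
  have hodd : Odd (2 * m - 1) := by
    refine ⟨m - 1, ?_⟩
    omega
  have hme : Even m := by
    rw [hm] at he
    rcases Nat.even_mul.1 he with h1 | h1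
    · exact h1
    · exact absurd hodd (Nat.not_odd_iff_even.2 h1)
  obtain ⟨hconj, -, ht3⟩ := hcj
  obtain ⟨cY, k, F, hk1, hX2, hReg, hFsq, -, -, -⟩ := she (by rw [hmX]; exact hme)
  rw [hmX] at cY hX2
  have htV : t ∈ VV a b t := ⟨hts, Subgroup.mem_centralizer_singleton_iff.2 rfl⟩
  obtain ⟨T0, hT0N, hcT0, hel, hVT, hnor, htrans, hfix, hcen⟩ :=
    T0lem hab ht hts hu hua hub huc vf hmX m2 cNT trNT cY F hReg hFsq
  have htT0 : t ∈ T0 := hVT htV
  have hG3 : 3 * Nat.card G = 4 * (f * (f - 1)) * ((4 * f - 1) * (4 * f + 3)) := by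
    rw [← ht3, cG]
    calc 3 * (12 * (Nat.card Ω * (Nat.card Ω - 1))) = 12 * (3 * (Nat.card Ω * (Nat.card Ω - 1))) := by ring
      _ = 12 * (Nat.card {s : G // IsConj t s} * (f * (f - 1))) := by rw [← cc]
      _ = _ := by ring
  have hidx : Odd T0.index := by
    have h1 := T0.card_mul_index
    rw [hcT0] at h1
    have h2 : (4 * m) * (3 * T0.index) = (4 * m) * ((2 * m - 1) * (f - 1) * ((4 * f - 1) * (4 * f + 3))) := by
      calc (4 * m) * (3 * T0.index) = 3 * (4 * m * T0.index) := by ring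
        _ = 3 * Nat.card G := by rw [h1]
        _ = 4 * (f * (f - 1)) * ((4 * f - 1) * (4 * f + 3)) := hG3
        _ = 4 * ((m * (2 * m - 1)) * (f - 1)) * ((4 * f - 1) * (4 * f + 3)) := by rw [← hm]
        _ = _ := by ring
    have h3 := Nat.eq_of_mul_eq_mul_left (by omega) h2
    have o1 : Odd (f - 1) := by
      obtain ⟨q, hq⟩ := he
      exact ⟨q - 1, by omega⟩
    have o2 : Odd (4 * f - 1) := ⟨2 * f - 1, by omega⟩
    have o3 : Odd (4 * f + 3) := ⟨2 * f + 1, by omega⟩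
    have h4 : Odd (3 * T0.index) := by
      rw [h3]
      exact (hodd.mul o1).mul (o2.mul o3)
    exact (Nat.odd_mul.1 h4).2
  have hrel := sylow_rel T0 hel hidx t htT0 ht.1 hconj
  rw [hcT0] at hrel
  have hdvd : (4 * m - 1) ∣ Nat.card G := by
    rw [← hrel]
    exact (Subgroup.relIndex_dvd_card _ _).trans (Subgroup.card_subgroup_dvd_card _)
  have hm4 : m = 4 := arith8 hX2 hk1 hm hG3 hdvd
  -- the normalizer of `T0`
  rw [hm4] at hcT0 hrel cNT
  have hNTM : NT (VV a b t) t ≤ Subgroup.normalizer (T0 : Set G) := by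
    intro n hn
    rw [Subgroup.mem_normalizer_iff]
    intro g
    constructor
    · exact fun hg => hnor n hn g hg
    · intro hg
      have h1 := hnor n⁻¹ (inv_mem hn) _ hg
      have h2 : n⁻¹ * (n * g * n⁻¹) * n⁻¹⁻¹ = g := by group
      rwa [h2] at h1
  have hTM : T0 ≤ Subgroup.normalizer (T0 : Set G) := Subgroup.le_normalizer
  set M := Subgroup.normalizer (T0 : Set G) with hMdef
  have hTn : (T0.subgroupOf M).Normal := Subgroup.normal_in_normalizer
  have hcT : Nat.card (T0.subgroupOf M) = 16 := by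
    rw [Nat.card_congr (Subgroup.subgroupOfEquivOfLe hTM).toEquiv, hcT0]
  refine no45 (M := M) (T0.subgroupOf M) hcT ?_ ?_ ?_ ?_
  · intro g hg
    exact Subtype.ext (hel g hg)
  · intro g hg
    have h1 : ∀ e ∈ T0, (g : G) * e = e * g := by
      intro e he
      exact congrArg Subtype.val (hg ⟨e, hTM he⟩ he)
    refine hcen (g : G) ⟨?_, ?_⟩ h1
    · change (g : G) ∈ Subgroup.normalizer ((VV a b t : Subgroup G) : Set G)
      rw [Subgroup.mem_normalizer_iff]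
      intro w
      constructor
      · intro hw
        rw [h1 w (hVT hw), mul_inv_cancel_right]
        exact hw
      · intro hw
        have h2 := h1 _ (hVT hw)
        have h3 : (g : G) * w * (g : G)⁻¹ = w := by
          have h4 : (g : G) * ((g : G) * w * (g : G)⁻¹) = (g : G) * w := by
            rw [h2, inv_mul_cancel_right]
          exact mul_left_cancel h4
        rwa [h3] at hw
    · exact Subgroup.mem_centralizer_singleton_iff.2 (h1 t htT0)
  · have h1 : T0.relIndex M * M.index = T0.index := Subgroup.relIndex_mul_index hTM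
    rw [← h1] at hidx
    exact (Nat.odd_mul.1 hidx).1
  · have h1 : Nat.card ((Subgroup.centralizer ({t} : Set G)).subgroupOf M) * (4 * 4 - 1) = Nat.card M := by
      rw [← hrel]
      exact Subgroup.card_mul_index _
    have h2 : Nat.card ((NT (VV a b t) t).subgroupOf M) ∣ Nat.card ((Subgroup.centralizer ({t} : Set G)).subgroupOf M) := by
      apply Subgroup.card_dvd_of_le
      intro x hx
      exact hx.2
    have h3 : Nat.card ((NT (VV a b t) t).subgroupOf M) = 48 := by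
      rw [Nat.card_congr (Subgroup.subgroupOfEquivOfLe hNTM).toEquiv, cNT]
    rw [h3] at h2
    obtain ⟨c, hc⟩ := h2
    have h4 := (T0.subgroupOf M).card_mul_index
    rw [hcT, ← h1, hc] at h4
    exact ⟨c, by omega⟩

end H39.DA.B8
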