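import Mathlib
import Cfsg.Agent.Lib.H39.DBC8c
import Cfsg.Agent.Lib.H39.DAQ1
import Cfsg.Agent.Lib.H39.DBD0a
import Cfsg.Agent.Lib.H39.DBD0b
import Cfsg.Agent.Lib.H39.DBD2
import Cfsg.Agent.Lib.H39.DBD3
import Cfsg.Agent.Lib.H39.DBD4
import Cfsg.Agent.Lib.H39.DBD5
import Cfsg.Agent.Lib.H39.DBC4core
import Cfsg.Agent.Lib.H39.DBC9

/-!
S3219, piece BC8 (helper58).
-/

set_option autoImplicit false

open MulAction

universe u v

namespace H39.DA

variable {G : Type u} {Ω : Type v} [Group G] [Finite G] [MulAction G Ω] [Finite Ω]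

theorem a4B2_two_even (h : B4 G Ω) {a b : Ω} (hab : a ≠ b) {t : G} (ht : Inv t) (hts : t ∈ St G a b)
    {u : G} (hu : Inv u) (hua : u • a = b) (hub : u • b = a) (huc : ∀ g ∈ St G a b, u * g = g * u) (htu : IsConj t u)
    (hm : fx G Ω t = fS G Ω (VV a b t) * (2 * fS G Ω (VV a b t) - 1)) (he : Even (fx G Ω t)) : False := by
  have hlt : fS G Ω (VV a b t) < fx G Ω t := by
    have h2 := (countV4 h hab ht hts).1
    rw [hm]
    have h3 : 3 ≤ 2 * fS G Ω (VV a b t) - 1 := by omega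
    nlinarith
  have hcj := BC4.core h.toTT hab ht hts (facts4 h hab).2.1 (facts4 h hab).2.2.1
    (vfacts4 h hab ht hts).1 (vfacts4 h hab ht hts).2.1 hu hua hub huc htu
    (Or.inr (fun v hv hv1 hvt => (delta4 h hab ht hts hlt hv hv1 hvt).1))
    (count4 h hab ht hts).2.2.1 (count4 h hab ht hts).2.2.2.1 (count4 h hab ht hts).2.2.2.2.1
    (count4 h hab ht hts).2.2.2.2.2
  exact B8.core8 hab ht hts hu hua hub huc hm he (fun hab _ ht hts => (vfacts4 h hab ht hts).2.1) (count4 h hab ht hts)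
    (countV4 h hab ht hts) hcj (sh_even (sh_YB4 h hab ht hts)) no45

end H39.DA
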