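import Cfsg.Agent.Lib.H39.DB0
import Cfsg.Agent.Lib.H36.A4c

/-! S3219, piece B-D1: the dichotomy for the setwise stabilizer of two points. -/

set_option autoImplicit false

open MulAction

universe u v

namespace H39.DA

variable {G : Type u} {Ω : Type v} [Group G] [Finite G] [MulAction G Ω] [Finite Ω]

set_option linter.unusedSectionVars false in
theorem dich4 (h : B4 G Ω) {a b : Ω} (hab : a ≠ b) {t : G} (ht : Inv t) (hts : t ∈ St G a b) :
    CaseB G a b ∨ CaseA4 a b t := by
  obtain ⟨φ⟩ := h.a4 a b hab
  exact H36.A4c.dich hab φ (h.tr a b b a hab hab.symm) ht hts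

end H39.DA
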