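import Cfsg.Agent.Lib.H39.DAQ9bCore

/-!
S3219, piece BD7: the abstract part, extended (order of the centralizer of the odd lift).
-/

set_option autoImplicit false
set_option linter.unusedSectionVars false
set_option linter.unusedVariables false
set_option linter.style.haveILetI false

open MulAction

universe u v w

namespace H39.DA

namespace Q9b

variable {G : Type u} [Group G] [Finite G]

/-- four-group acting on an odd order group, one involution fixed and the other two fused -/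
theorem fourCount {t v : G} (ht : Inv t) (hv : Inv v) (htv : t * v = v * t) (X V : Subgroup G)
    (hXo : Odd (Nat.card X)) (hVX : V ≤ Subgroup.normalizer (X : Set G))
    (hVm : ∀ x : G, x ∈ V ↔ (x = 1 ∨ x = t ∨ x = v ∨ x = t * v)) (hV2 : ∀ x ∈ V, x * x = 1)
    {σ : G} (hσt : σ * t = t * σ) (hσv : σ * v * σ⁻¹ = t * v) (hσX : ∀ x, x ∈ X ↔ σ * x * σ⁻¹ ∈ X) :
    ∃ n : ℕ, Nat.card X = Nat.card (X ⊓ Subgroup.centralizer ({t} : Set G) : Subgroup G) * (n * n) := by
  classical
  have htV : t ∈ V := (hVm t).2 (Or.inr (Or.inl rfl))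
  have hvV : v ∈ V := (hVm v).2 (Or.inr (Or.inr (Or.inl rfl)))
  have hoddX : ∀ x ∈ X, Odd (orderOf x) := by
    intro x hx
    have h6 : orderOf x ∣ Nat.card X := by
      have := orderOf_dvd_natCard (⟨x, hx⟩ : X)
      rwa [Subgroup.orderOf_mk] at this
    exact Odd.of_dvd_nat hXo h6
  have hXV : ∀ x ∈ X, x ∈ V → x = 1 := by
    intro x hx hxV
    obtain ⟨k, hk⟩ := hoddX x hx
    have h1 : x ^ (2 * k + 1) = 1 := by rw [← hk, pow_orderOf_eq_one]
    rwa [pow_succ, pow_mul, pow_two, hV2 x hxV, one_pow, one_mul] at h1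
  have hVcomm : ∀ x ∈ V, ∀ y ∈ V, x * y = y * x := by
    intro x hx y hy
    have h1 := hV2 _ (mul_mem hx hy)
    have hxi : x⁻¹ = x := inv_eq_of_mul_eq_one_left (hV2 x hx)
    have hyi : y⁻¹ = y := inv_eq_of_mul_eq_one_left (hV2 y hy)
    have h2 : x * y = (x * y)⁻¹ := (inv_eq_of_mul_eq_one_left h1).symm
    rw [h2, mul_inv_rev, hxi, hyi]
  have hnX : ∀ s ∈ V, ∀ y ∈ X, s * y * s⁻¹ ∈ X := fun s hs y hy =>
    (Subgroup.mem_normalizer_iff.1 (hVX hs) y).1 hy
  let W : Subgroup G :=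
    { carrier := {g | ∃ x ∈ X, ∃ s ∈ V, x * s = g}
      one_mem' := ⟨1, one_mem _, 1, one_mem _, one_mul 1⟩
      mul_mem' := by
        rintro _ _ ⟨x, hx, s, hs, rfl⟩ ⟨y, hy, s', hs', rfl⟩
        refine ⟨x * (s * y * s⁻¹), mul_mem hx (hnX s hs y hy), s * s', mul_mem hs hs', ?_⟩
        group
      inv_mem' := by
        rintro _ ⟨x, hx, s, hs, rfl⟩
        refine ⟨s⁻¹ * x⁻¹ * s, ?_, s⁻¹, inv_mem hs, ?_⟩
        · have := hnX _ (inv_mem hs) _ (inv_mem hx)
          rwa [inv_inv] at this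
        · group }
  have hWm : ∀ g : G, g ∈ W ↔ ∃ x ∈ X, ∃ s ∈ V, x * s = g := fun g => Iff.rfl
  have hXW : ∀ x ∈ X, x ∈ W := fun x hx => ⟨x, hx, 1, one_mem _, mul_one x⟩
  have hVW : ∀ s ∈ V, s ∈ W := fun s hs => ⟨1, one_mem _, s, hs, one_mul s⟩
  have huniq : ∀ x ∈ X, ∀ s ∈ V, ∀ y ∈ X, ∀ s' ∈ V, x * s = y * s' → x = y ∧ s = s' := by
    intro x hx s hs y hy s' hs' h
    have h1 : y⁻¹ * x = s' * s⁻¹ := by
      have : x = y * s' * s⁻¹ := by rw [← h]; group
      rw [this]; group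
    have h2 : y⁻¹ * x = 1 := hXV _ (mul_mem (inv_mem hy) hx) (by rw [h1]; exact mul_mem hs' (inv_mem hs))
    have h3 : y = x := inv_mul_eq_one.1 h2
    refine ⟨h3.symm, ?_⟩
    rw [h2] at h1
    exact (mul_inv_eq_one.1 h1.symm).symm
  -- odd order elements of W are in X
  have hWodd : ∀ g ∈ W, Odd (orderOf g) → g ∈ X := by
    rintro g ⟨x, hx, s, hs, rfl⟩ ho
    obtain ⟨k, hk⟩ := ho
    have hsq : (x * s) * (x * s) ∈ X := by
      have : (x * s) * (x * s) = x * (s * x * s⁻¹) * (s * s) := by group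
      rw [this, hV2 s hs, mul_one]
      exact mul_mem hx (hnX s hs x hx)
    have h1 : x * s = ((x * s) * (x * s)) ^ (k + 1) := by
      rw [← pow_two, ← pow_mul]
      have h2 : 2 * (k + 1) = orderOf (x * s) + 1 := by omega
      rw [h2, pow_succ, pow_orderOf_eq_one, one_mul]
    rw [h1]; exact pow_mem hsq _
  let tW : W := ⟨t, hVW t htV⟩
  let vW : W := ⟨v, hVW v hvV⟩
  have hiso : Cfsg.IsIsolatedInvolution tW := by
    refine ⟨?_, fun g hg => ?_⟩
    · rw [Subgroup.orderOf_mk]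
      exact orderOf_eq_prime (by rw [pow_two, ht.2]) ht.1
    · obtain ⟨x, hx, s, hs, hxs⟩ := g.2
      have h1 : (g : G) * t * (g : G)⁻¹ = x * t * x⁻¹ := by
        rw [← hxs]
        calc x * s * t * (x * s)⁻¹ = x * (s * t) * s⁻¹ * x⁻¹ := by group
          _ = x * (t * s) * s⁻¹ * x⁻¹ := by rw [hVcomm s hs t htV]
          _ = x * t * x⁻¹ := by group
      have h2 : t * ((g : G) * t * (g : G)⁻¹) = ((g : G) * t * (g : G)⁻¹) * t := congrArg Subtype.val hg
      have h3 : t * (x * t * x⁻¹) ∈ X := by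
        have : t * (x * t * x⁻¹) = (t * x * t⁻¹) * (t * t) * x⁻¹ := by group
        rw [this, ht.2, mul_one]
        exact mul_mem (hnX t htV x hx) (inv_mem hx)
      have h4 : (t * (x * t * x⁻¹)) * (t * (x * t * x⁻¹)) = 1 := by
        rw [h1] at h2
        calc (t * (x * t * x⁻¹)) * (t * (x * t * x⁻¹)) = (t * (x * t * x⁻¹)) * ((x * t * x⁻¹) * t) := by rw [h2]
          _ = t * x * (t * t) * x⁻¹ * t := by group
          _ = t * x * 1 * x⁻¹ * t := by rw [ht.2]
          _ = t * t := by group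
          _ = 1 := ht.2
      obtain ⟨k, hk⟩ := hoddX _ h3
      have h5 : (t * (x * t * x⁻¹)) ^ (2 * k + 1) = 1 := by rw [← hk, pow_orderOf_eq_one]
      rw [pow_succ, pow_mul, pow_two, h4, one_pow, one_mul] at h5
      apply Subtype.ext
      show (g : G) * t * (g : G)⁻¹ = t
      rw [h1]
      have h6 := eq_inv_of_mul_eq_one_right h5
      rw [h6]
      exact inv_eq_of_mul_eq_one_left ht.2
  have hof := H25.Isolated.order_formula hiso (s := vW) (Subtype.ext hv.2)
    (show vW * tW = tW * vW from Subtype.ext htv.symm)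
  -- cardinalities
  have hcW : Nat.card W = Nat.card X * Nat.card V := by
    rw [← Nat.card_prod]
    symm
    apply Nat.card_eq_of_bijective (fun p : X × V => (⟨(p.1 : G) * p.2, ⟨p.1, p.1.2, p.2, p.2.2, rfl⟩⟩ : W))
    constructor
    · rintro ⟨x, s⟩ ⟨y, s'⟩ h
      obtain ⟨h1, h2⟩ := huniq x x.2 s s.2 y y.2 s' s'.2 (congrArg Subtype.val h)
      exact Prod.ext (Subtype.ext h1) (Subtype.ext h2)
    · rintro ⟨g, x, hx, s, hs, rfl⟩
      exact ⟨(⟨x, hx⟩, ⟨s, hs⟩), rfl⟩
  set F : Subgroup G := X ⊓ Subgroup.centralizer ({t} : Set G) with hF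
  have hFm : ∀ x : G, x ∈ F ↔ x ∈ X ∧ x * t = t * x := by
    intro x
    rw [hF, Subgroup.mem_inf, Subgroup.mem_centralizer_singleton_iff]
  have hcC : Nat.card (Subgroup.centralizer ({tW} : Set W)) = Nat.card F * Nat.card V := by
    rw [← Nat.card_prod]
    symm
    have key : ∀ p : F × V, (⟨(p.1 : G) * p.2, ⟨p.1, ((hFm _).1 p.1.2).1, p.2, p.2.2, rfl⟩⟩ : W) ∈
        Subgroup.centralizer ({tW} : Set W) := by
      rintro ⟨x, s⟩
      rw [Subgroup.mem_centralizer_singleton_iff]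
      apply Subtype.ext
      show (x : G) * s * t = t * ((x : G) * s)
      rw [mul_assoc, hVcomm s s.2 t htV, ← mul_assoc, ((hFm _).1 x.2).2, mul_assoc]
    apply Nat.card_eq_of_bijective (fun p : F × V => (⟨_, key p⟩ : Subgroup.centralizer ({tW} : Set W)))
    constructor
    · rintro ⟨x, s⟩ ⟨y, s'⟩ h
      obtain ⟨h1, h2⟩ := huniq x ((hFm _).1 x.2).1 s s.2 y ((hFm _).1 y.2).1 s' s'.2
        (congrArg Subtype.val (congrArg Subtype.val h))
      exact Prod.ext (Subtype.ext h1) (Subtype.ext h2)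
    · rintro ⟨⟨g, x, hx, s, hs, rfl⟩, hg⟩
      rw [Subgroup.mem_centralizer_singleton_iff] at hg
      have h1 : (x * s) * t = t * (x * s) := congrArg Subtype.val hg
      have h2 : x * t = t * x := by
        rw [mul_assoc, hVcomm s hs t htV, ← mul_assoc, ← mul_assoc] at h1
        exact mul_right_cancel h1
      exact ⟨(⟨x, (hFm x).2 ⟨hx, h2⟩⟩, ⟨s, hs⟩), rfl⟩
  -- the two factors are equal
  have hσinv : ∀ x, x ∈ X ↔ σ⁻¹ * x * σ ∈ X := by
    intro x
    rw [hσX (σ⁻¹ * x * σ)]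
    have : σ * (σ⁻¹ * x * σ) * σ⁻¹ = x := by group
    rw [this]
  have hσt' : σ * t * σ⁻¹ = t := mul_inv_eq_iff_eq_mul.2 hσt
  have hσt'' : σ⁻¹ * t * σ = t := by
    nth_rw 1 [← hσt']; group
  have hσv' : σ⁻¹ * (v * t) * σ = v := by
    rw [← htv, ← hσv]; group
  have hordc : ∀ a x : G, orderOf (a * x * a⁻¹) = orderOf x := by
    intro a x
    have := orderOf_injective (MulAut.conj a).toMonoidHom (MulAut.conj a).injective x
    simpa using this
  have hkX : ∀ k : W, Odd (orderOf k) → (k : G) ∈ X := fun k hk =>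
    hWodd k k.2 (by rw [Subgroup.orderOf_coe]; exact hk)
  have hn : Nat.card {k : W // Odd (orderOf k) ∧ tW * k * tW⁻¹ = k⁻¹ ∧ Commute k (vW * tW)} =
      Nat.card {k : W // Odd (orderOf k) ∧ tW * k * tW⁻¹ = k⁻¹ ∧ Commute k vW} := by
    apply Nat.card_congr
    refine
      { toFun := fun k => ⟨⟨σ⁻¹ * (k : W) * σ, hXW _ ((hσinv _).1 (hkX _ k.2.1))⟩, ?_, ?_, ?_⟩
        invFun := fun k => ⟨⟨σ * (k : W) * σ⁻¹, hXW _ ((hσX _).1 (hkX _ k.2.1))⟩, ?_, ?_, ?_⟩
        left_inv := fun k => by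
          apply Subtype.ext; apply Subtype.ext
          show σ * (σ⁻¹ * ((k : W) : G) * σ) * σ⁻¹ = k
          group
        right_inv := fun k => by
          apply Subtype.ext; apply Subtype.ext
          show σ⁻¹ * (σ * ((k : W) : G) * σ⁻¹) * σ = k
          group }
    · have h1 := k.2.1
      rw [Subgroup.orderOf_mk]
      have h2 := hordc σ⁻¹ ((k : W) : G)
      rw [inv_inv] at h2
      rw [h2, Subgroup.orderOf_coe]; exact h1
    · have h1 : t * ((k : W) : G) * t⁻¹ = ((k : W) : G)⁻¹ := congrArg Subtype.val k.2.2.1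
      apply Subtype.ext
      show t * (σ⁻¹ * ((k : W) : G) * σ) * t⁻¹ = (σ⁻¹ * ((k : W) : G) * σ)⁻¹
      have h2 : t * (σ⁻¹ * ((k : W) : G) * σ) * t⁻¹ = σ⁻¹ * ((σ * t * σ⁻¹) * ((k : W) : G) * (σ * t * σ⁻¹)⁻¹) * σ := by
        group
      rw [h2, hσt', h1]; group
    · have h1 : ((k : W) : G) * (v * t) = (v * t) * ((k : W) : G) := congrArg Subtype.val k.2.2.2
      apply Subtype.ext
      show (σ⁻¹ * ((k : W) : G) * σ) * v = v * (σ⁻¹ * ((k : W) : G) * σ)
      calc (σ⁻¹ * ((k : W) : G) * σ) * v = (σ⁻¹ * ((k : W) : G) * σ) * (σ⁻¹ * (v * t) * σ) := by rw [hσv']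
        _ = σ⁻¹ * (((k : W) : G) * (v * t)) * σ := by group
        _ = σ⁻¹ * ((v * t) * ((k : W) : G)) * σ := by rw [h1]
        _ = (σ⁻¹ * (v * t) * σ) * (σ⁻¹ * ((k : W) : G) * σ) := by group
        _ = _ := by rw [hσv']
    · have h1 := k.2.1
      rw [Subgroup.orderOf_mk, hordc, Subgroup.orderOf_coe]; exact h1
    · have h1 : t * ((k : W) : G) * t⁻¹ = ((k : W) : G)⁻¹ := congrArg Subtype.val k.2.2.1
      apply Subtype.ext
      show t * (σ * ((k : W) : G) * σ⁻¹) * t⁻¹ = (σ * ((k : W) : G) * σ⁻¹)⁻¹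
      have h2 : t * (σ * ((k : W) : G) * σ⁻¹) * t⁻¹ = σ * ((σ⁻¹ * t * σ) * ((k : W) : G) * (σ⁻¹ * t * σ)⁻¹) * σ⁻¹ := by
        group
      rw [h2, hσt'', h1]; group
    · have h1 : ((k : W) : G) * v = v * ((k : W) : G) := congrArg Subtype.val k.2.2.2
      have h3 : σ * v * σ⁻¹ = v * t := by rw [hσv, htv]
      apply Subtype.ext
      show (σ * ((k : W) : G) * σ⁻¹) * (v * t) = (v * t) * (σ * ((k : W) : G) * σ⁻¹)
      calc (σ * ((k : W) : G) * σ⁻¹) * (v * t) = (σ * ((k : W) : G) * σ⁻¹) * (σ * v * σ⁻¹) := by rw [h3]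
        _ = σ * (((k : W) : G) * v) * σ⁻¹ := by group
        _ = σ * (v * ((k : W) : G)) * σ⁻¹ := by rw [h1]
        _ = (σ * v * σ⁻¹) * (σ * ((k : W) : G) * σ⁻¹) := by group
        _ = _ := by rw [h3]
  rw [hn, hcW, hcC] at hof
  refine ⟨Nat.card {k : W // Odd (orderOf k) ∧ tW * k * tW⁻¹ = k⁻¹ ∧ Commute k vW}, ?_⟩
  apply Nat.eq_of_mul_eq_mul_right (Nat.card_pos (α := V))
  rw [hof]
  ring

theorem core4 {t v : G} (ht : Inv t) (hv : Inv v) (hvt : v ≠ t) (htv : t * v = v * t) {r : ℕ}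
    (hr : r.Prime) (hr2 : r ≠ 2) (Et : Subgroup G) (h1 : ∀ e ∈ Et, e * t = t * e)
    (hab : ∀ e ∈ Et, ∀ e' ∈ Et, e * e' = e' * e) (hexp : ∀ e ∈ Et, e ^ r = 1)
    (hc : ∀ g : G, g * t = t * g → (∀ e ∈ Et, g * e = e * g) → g ∈ Et ∨ g * t ∈ Et)
    (hvE : ∀ e ∈ Et, v * e * v⁻¹ ∈ Et)
    (hr1 : ∀ s : G, s = t ∨ s = v ∨ s = t * v → ∀ y : G, Odd (orderOf y) →
      (∀ e ∈ Et, y * e = e * y) → y * s = s * y → y ^ r = 1) :
    ∃ q i : ℕ, q = r ^ i ∧ Nat.card {s : G // IsConj t s} ≡ q [MOD r] ∧ q * Nat.card Et ∣ Nat.card G ∧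
      ((∃ σ : G, σ * t = t * σ ∧ σ * v * σ⁻¹ = t * v ∧ ∀ e ∈ Et, σ * e * σ⁻¹ ∈ Et) → ∃ c : ℕ, q = c * c) := by
  classical
  haveI : Fact (Nat.Prime 2) := ⟨Nat.prime_two⟩
  haveI : Fact r.Prime := ⟨hr⟩
  have hcop : ∀ k : ℕ, Nat.Coprime (2 ^ k) r := fun k =>
    Nat.Coprime.pow_left k ((Nat.coprime_primes Nat.prime_two hr).2 (Ne.symm hr2))
  have hone : ∀ x : G, ∀ k : ℕ, x ^ r = 1 → x ^ 2 ^ k = 1 → x = 1 := by
    intro x k h2 h3
    have h4 : orderOf x ∣ Nat.gcd (2 ^ k) r := Nat.dvd_gcd (orderOf_dvd_of_pow_eq_one h3)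
      (orderOf_dvd_of_pow_eq_one h2)
    rw [hcop k] at h4
    exact orderOf_eq_one_iff.1 (Nat.dvd_one.1 h4)
  set J := Subgroup.centralizer (Et : Set G) with hJ
  have hmemJ : ∀ g : G, g ∈ J ↔ ∀ e ∈ Et, g * e = e * g := by
    intro g
    rw [hJ, Subgroup.mem_centralizer_iff]
    exact ⟨fun h e he => (h e he).symm, fun h e he => (h e he).symm⟩
  have htJ : t ∈ J := (hmemJ t).2 fun e he => (h1 e he).symm
  have hEJ : Et ≤ J := fun e he => (hmemJ e).2 fun e' he' => hab e he e' he'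
  have htinv : t⁻¹ = t := inv_eq_of_mul_eq_one_left ht.2
  have hvinv : v⁻¹ = v := inv_eq_of_mul_eq_one_left hv.2
  -- 2-elements of C_J(t)
  have hcJ : ∀ c : J, c * ⟨t, htJ⟩ = ⟨t, htJ⟩ * c → (∃ k : ℕ, c ^ 2 ^ k = 1) → c = 1 ∨ c = ⟨t, htJ⟩ := by
    rintro ⟨c, hcJ⟩ hct ⟨k, hk⟩
    have hct' : c * t = t * c := congrArg Subtype.val hct
    have hk' : c ^ 2 ^ k = 1 := by simpa using congrArg Subtype.val hk
    rcases hc c hct' ((hmemJ c).1 hcJ) with h3 | h3
    · left
      exact Subtype.ext (hone c k (hexp c h3) hk')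
    · right
      have h4 : (c * t) ^ 2 ^ (k + 1) = 1 := by
        rw [(show Commute c t from hct').mul_pow, pow_succ 2 k, pow_mul, hk', one_pow, one_mul,
          mul_comm (2 ^ k) 2, pow_mul, pow_two, ht.2, one_pow]
      have h5 := hone _ (k + 1) (hexp _ h3) h4
      apply Subtype.ext
      show c = t
      rw [← htinv]
      exact eq_inv_of_mul_eq_one_left h5
  obtain ⟨⟨K, hKn, hKo, hKi, hKm⟩, hconj⟩ := compl (J := J) (t := ⟨t, htJ⟩)
    (fun h => ht.1 (congrArg Subtype.val h)) (Subtype.ext ht.2) hcJ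
  set X : Subgroup G := K.map J.subtype with hX
  have hmemX : ∀ g : G, g ∈ X ↔ g ∈ J ∧ Odd (orderOf g) := by
    intro g
    constructor
    · rintro ⟨x, hx, rfl⟩
      refine ⟨x.2, ?_⟩
      have := (hKm x).1 hx
      rw [← Subgroup.orderOf_coe] at this
      exact this
    · rintro ⟨hg, hgo⟩
      refine ⟨⟨g, hg⟩, (hKm _).2 ?_, rfl⟩
      rw [Subgroup.orderOf_mk]; exact hgo
  have hXc : Nat.card X = Nat.card K := Subgroup.card_map_of_injective J.subtype_injective
  have hXo : Odd (Nat.card X) := by rw [hXc]; exact hKo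
  -- invariance
  have hinvJ : ∀ s : G, s * s = 1 → (∀ e ∈ Et, s * e * s⁻¹ ∈ Et) → ∀ y ∈ J, s * y * s⁻¹ ∈ J := by
    intro s hs hsE y hy
    rw [hmemJ] at hy ⊢
    intro e he
    have hsi : s⁻¹ = s := inv_eq_of_mul_eq_one_left hs
    have h3 := hy _ (hsE e he)
    rw [hsi] at h3 ⊢
    have h4 : s * y * s * e = s * (y * (s * e * s)) * s := by
      calc s * y * s * e = s * y * s * e * (s * s) := by rw [hs, mul_one]
        _ = _ := by group
    rw [h4, h3]
    calc s * (s * e * s * y) * s = (s * s) * e * (s * y * s) := by group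
      _ = _ := by rw [hs, one_mul]
  have hinvX : ∀ s : G, s * s = 1 → (∀ e ∈ Et, s * e * s⁻¹ ∈ Et) → ∀ y ∈ X, s * y * s⁻¹ ∈ X := by
    intro s hs hsE y hy
    rw [hmemX] at hy ⊢
    refine ⟨hinvJ s hs hsE y hy.1, ?_⟩
    have h3 : orderOf (s * y * s⁻¹) = orderOf y := by
      have := orderOf_injective (MulAut.conj s).toMonoidHom (MulAut.conj s).injective y
      simpa using this
    rw [h3]; exact hy.2
  have htE : ∀ e ∈ Et, t * e * t⁻¹ ∈ Et := by
    intro e he
    rw [← h1 e he, mul_assoc, mul_inv_cancel, mul_one]; exact he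
  -- the four-group
  have hvt' : t * v ≠ 1 := by
    intro h
    apply hvt
    rw [mul_eq_one_iff_eq_inv, hvinv] at h
    exact h.symm
  let V : Subgroup G :=
    { carrier := {x | x = 1 ∨ x = t ∨ x = v ∨ x = t * v}
      one_mem' := Or.inl rfl
      mul_mem' := by
        have e1 : t * (t * v) = v := by rw [← mul_assoc, ht.2, one_mul]
        have e2 : v * (t * v) = t := by rw [htv, ← mul_assoc, hv.2, one_mul]
        have e3 : (t * v) * t = v := by rw [htv, mul_assoc, ht.2, mul_one]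
        have e4 : (t * v) * v = t := by rw [mul_assoc, hv.2, mul_one]
        have e5 : (t * v) * (t * v) = 1 := by rw [← mul_assoc, e3, hv.2]
        rintro x y (rfl | rfl | rfl | rfl) (rfl | rfl | rfl | rfl) <;>
          simp only [Set.mem_ofPred_eq, one_mul, mul_one, e1, e2, e3, e4, e5, ht.2, hv.2, ← htv] <;> tauto
      inv_mem' := by
        rintro x (rfl | rfl | rfl | rfl)
        · left; exact inv_one
        · right; left; exact htinv
        · right; right; left; exact hvinv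
        · right; right; right; rw [mul_inv_rev, htinv, hvinv, htv] }
  have hVm : ∀ x : G, x ∈ V ↔ (x = 1 ∨ x = t ∨ x = v ∨ x = t * v) := fun x => Iff.rfl
  have hV2 : ∀ x ∈ V, x * x = 1 := by
    rintro x (rfl | rfl | rfl | rfl)
    · exact one_mul 1
    · exact ht.2
    · exact hv.2
    · calc t * v * (t * v) = t * (v * t) * v := by group
        _ = t * (t * v) * v := by rw [htv]
        _ = (t * t) * (v * v) := by group
        _ = 1 := by rw [ht.2, hv.2, one_mul]
  have hVE : ∀ x ∈ V, ∀ e ∈ Et, x * e * x⁻¹ ∈ Et := by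
    rintro x (rfl | rfl | rfl | rfl) e he
    · simpa using he
    · exact htE e he
    · exact hvE e he
    · have := htE _ (hvE e he)
      rwa [show t * v * e * (t * v)⁻¹ = t * (v * e * v⁻¹) * t⁻¹ by group]
  have hVp : IsPGroup 2 V := fun x => ⟨1, Subtype.ext (by
    show (x : G) ^ 2 ^ 1 = 1
    rw [pow_one, pow_two, hV2 x x.2])⟩
  have hVX : V ≤ Subgroup.normalizer (X : Set G) := by
    intro x hx
    have hstep : ∀ y ∈ X, x * y * x⁻¹ ∈ X := hinvX x (hV2 x hx) (hVE x hx)
    rw [Subgroup.mem_normalizer_iff]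
    intro y
    refine ⟨hstep y, fun hy => ?_⟩
    have h3 := hstep _ hy
    have hxi : x⁻¹ = x := inv_eq_of_mul_eq_one_left (hV2 x hx)
    rw [hxi] at h3
    have h4 : x * (x * y * x) * x = y := by
      calc x * (x * y * x) * x = (x * x) * y * (x * x) := by group
        _ = y := by rw [hV2 x hx, one_mul, mul_one]
    rwa [h4] at h3
  have hVcop : (Nat.card V).Coprime (Nat.card X) := by
    obtain ⟨n, hn⟩ := IsPGroup.iff_card.1 hVp
    rw [hn]
    exact Nat.Coprime.pow_left n (Nat.coprime_two_left.2 hXo)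
  have hVsol : Group.IsSolvable V := by
    haveI := hVp.isNilpotent
    infer_instance
  -- X is an r-group
  have hXr : ∀ {d : ℕ}, d.Prime → d ∣ Nat.card X → d = r := by
    intro d hd hdX
    by_contra hne
    haveI : Fact d.Prime := ⟨hd⟩
    obtain ⟨Y, ⟨hYX, hYc⟩, hYV⟩ := H1.Coprime2.exists_invariant_sylow V X hVX hVcop (Or.inl hVsol) d
    have hkill : ∀ s : G, s = t ∨ s = v ∨ s = t * v → ∀ y ∈ Y, s * y * s⁻¹ = y → y = 1 := by
      intro s hs y hy hsy
      have h3 := (hmemX y).1 (hYX hy)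
      have h4 : y ^ r = 1 := hr1 s hs y h3.2 ((hmemJ y).1 h3.1) (mul_inv_eq_iff_eq_mul.1 hsy).symm
      have h5 : orderOf y ∣ r := orderOf_dvd_of_pow_eq_one h4
      have h6 : orderOf y ∣ Nat.card Y := by
        have := orderOf_dvd_natCard (⟨y, hy⟩ : Y)
        rwa [Subgroup.orderOf_mk] at this
      rw [hYc] at h6
      have h7 : orderOf y ∣ Nat.gcd r (d ^ (Nat.card X).factorization d) := Nat.dvd_gcd h5 h6
      have h8 : Nat.Coprime r (d ^ (Nat.card X).factorization d) :=
        Nat.Coprime.pow_right _ ((Nat.coprime_primes hr hd).2 (Ne.symm hne))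
      rw [h8] at h7
      exact orderOf_eq_one_iff.1 (Nat.dvd_one.1 h7)
    have hinvY : ∀ s ∈ V, ∀ y ∈ Y, s * y * s⁻¹ ∈ Y := fun s hs y hy =>
      (Subgroup.mem_normalizer_iff.1 (hYV hs) y).1 hy
    have htV : t ∈ V := Or.inr (Or.inl rfl)
    have hvV : v ∈ V := Or.inr (Or.inr (Or.inl rfl))
    have hti := H81.InvertSylow.inverts_of_fixedPointFree Y ht.2 (hinvY t htV) (hkill t (Or.inl rfl))
    have hvi := H81.InvertSylow.inverts_of_fixedPointFree Y hv.2 (hinvY v hvV) (hkill v (Or.inr (Or.inl rfl)))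
    have hY1 : ∀ y ∈ Y, y = 1 := by
      intro y hy
      apply hkill (t * v) (Or.inr (Or.inr rfl)) y hy
      calc t * v * y * (t * v)⁻¹ = t * (v * y * v⁻¹) * t⁻¹ := by group
        _ = t * y⁻¹ * t⁻¹ := by rw [hvi y hy]
        _ = y := by rw [hti _ (inv_mem hy), inv_inv]
    have hYbot : Y = ⊥ := (Subgroup.eq_bot_iff_forall Y).2 hY1
    rw [hYbot, Subgroup.card_bot] at hYc
    have h9 : d ∣ d ^ (Nat.card X).factorization d := by
      apply dvd_pow_self
      exact (hd.factorization_pos_of_dvd Nat.card_pos.ne' hdX).ne'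
    rw [← hYc] at h9
    exact hd.one_lt.ne' (Nat.dvd_one.1 h9)
  have hXpow := Nat.eq_prime_pow_of_unique_prime_dvd (n := Nat.card X) (p := r) Nat.card_pos.ne' hXr
  -- the count
  set q := Nat.card {s : J // IsConj ⟨t, htJ⟩ s} with hq
  have hq1 : q * Nat.card (Subgroup.centralizer ({(⟨t, htJ⟩ : J)} : Set J)) = Nat.card J :=
    H25.Isolated.card_conj_mul_card_centralizer _
  have hq2 : 2 ∣ Nat.card (Subgroup.centralizer ({(⟨t, htJ⟩ : J)} : Set J)) := by
    have h3 : orderOf (⟨⟨t, htJ⟩, Subgroup.mem_centralizer_singleton_iff.2 rfl⟩ :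
        Subgroup.centralizer ({(⟨t, htJ⟩ : J)} : Set J)) = 2 := by
      rw [Subgroup.orderOf_mk, Subgroup.orderOf_mk]
      exact orderOf_eq_prime (by rw [pow_two, ht.2]) ht.1
    rw [← h3]; exact orderOf_dvd_natCard _
  have hEX : Et = X ⊓ Subgroup.centralizer ({t} : Set G) := by
    apply le_antisymm
    · intro e he
      refine ⟨(hmemX e).2 ⟨hEJ he, ?_⟩, Subgroup.mem_centralizer_singleton_iff.2 (h1 e he)⟩
      exact Odd.of_dvd_nat (hr.odd_of_ne_two hr2) (orderOf_dvd_of_pow_eq_one (hexp e he))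
    · rintro x ⟨hx, hxt⟩
      have hxt' : x * t = t * x := Subgroup.mem_centralizer_singleton_iff.1 hxt
      obtain ⟨hxJ, hxo⟩ := (hmemX x).1 hx
      rcases hc x hxt' ((hmemJ x).1 hxJ) with h3 | h3
      · exact h3
      · exfalso
        obtain ⟨k, hk⟩ := hxo
        obtain ⟨l, hl⟩ := hr.odd_of_ne_two hr2
        have h4 : (x * t) ^ (orderOf x * r) = 1 := by rw [mul_comm, pow_mul, hexp _ h3, one_pow]
        rw [(show Commute x t from hxt').mul_pow, pow_mul, pow_orderOf_eq_one, one_pow, one_mul] at h4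
        have h5 : orderOf x * r = 2 * (k * r + l) + 1 := by rw [hk, hl]; ring
        rw [h5, pow_succ, pow_mul, pow_two, ht.2, one_pow, one_mul] at h4
        exact ht.1 h4
  have hXJ : Nat.card J = 2 * Nat.card X := by
    rw [hXc, ← K.card_mul_index, hKi, mul_comm]
  have hcC : Nat.card (Subgroup.centralizer ({(⟨t, htJ⟩ : J)} : Set J)) = 2 * Nat.card Et := by
    have h3 : 2 * Nat.card Et = Nat.card (Et × Bool) := by
      rw [Nat.card_prod, Nat.card_eq_fintype_card (α := Bool), Fintype.card_bool, mul_comm]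
    rw [h3]
    symm
    have key : ∀ p : Et × Bool, (p.1 : G) * (if p.2 then t else 1) ∈ J ∧
        (p.1 : G) * (if p.2 then t else 1) * t = t * ((p.1 : G) * (if p.2 then t else 1)) := by
      rintro ⟨x, b⟩
      cases b
      · simp only [Bool.false_eq_true, if_false, mul_one]
        exact ⟨hEJ x.2, h1 x x.2⟩
      · simp only [if_true]
        refine ⟨mul_mem (hEJ x.2) htJ, ?_⟩
        calc (x : G) * t * t = t * x * t := by rw [h1 x x.2]
          _ = t * (x * t) := mul_assoc _ _ _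
    have key' : ∀ p : Et × Bool, (⟨(p.1 : G) * (if p.2 then t else 1), (key p).1⟩ : J) ∈
        Subgroup.centralizer ({(⟨t, htJ⟩ : J)} : Set J) := fun p =>
      Subgroup.mem_centralizer_singleton_iff.2 (Subtype.ext (key p).2)
    apply Nat.card_eq_of_bijective (fun p : Et × Bool =>
      (⟨_, key' p⟩ : Subgroup.centralizer ({(⟨t, htJ⟩ : J)} : Set J)))
    have htE' : t ∉ Et := by
      intro h4
      exact ht.1 (hone t 1 (hexp t h4) (by rw [pow_one, pow_two, ht.2]))
    constructor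
    · rintro ⟨x, b⟩ ⟨y, b'⟩ h
      have h4 : (x : G) * (if b then t else 1) = (y : G) * (if b' then t else 1) :=
        congrArg Subtype.val (congrArg Subtype.val h)
      cases b <;> cases b' <;> simp only [Bool.false_eq_true, if_false, if_true, mul_one] at h4
      · exact Prod.ext (Subtype.ext h4) rfl
      · exfalso
        apply htE'
        have : t = (y : G)⁻¹ * x := by rw [h4]; group
        rw [this]; exact mul_mem (inv_mem y.2) x.2
      · exfalso
        apply htE'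
        have : t = (x : G)⁻¹ * y := by rw [← h4]; group
        rw [this]; exact mul_mem (inv_mem x.2) y.2
      · exact Prod.ext (Subtype.ext (mul_right_cancel h4)) rfl
    · rintro ⟨⟨g, hgJ⟩, hg⟩
      have h4 : g * t = t * g := congrArg Subtype.val (Subgroup.mem_centralizer_singleton_iff.1 hg)
      rcases hc g h4 ((hmemJ g).1 hgJ) with h5 | h5
      · refine ⟨(⟨g, h5⟩, false), ?_⟩
        apply Subtype.ext; apply Subtype.ext
        show g * (if false = true then t else 1) = g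
        simp
      · refine ⟨(⟨g * t, h5⟩, true), ?_⟩
        apply Subtype.ext; apply Subtype.ext
        show g * t * (if true = true then t else 1) = g
        simp only [if_true]
        rw [mul_assoc, ht.2, mul_one]
  have hqE : q * Nat.card Et = Nat.card X := by
    rw [hcC, hXJ] at hq1
    have h4 : 2 * (q * Nat.card Et) = 2 * Nat.card X := by rw [← hq1]; ring
    exact Nat.eq_of_mul_eq_mul_left (by norm_num) h4
  have hqX : q ∣ Nat.card X := ⟨_, hqE.symm⟩
  rw [hXpow] at hqX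
  obtain ⟨j, -, hj⟩ := (Nat.dvd_prime_pow hr).1 hqX
  refine ⟨q, j, hj, ?_, ?_, ?_⟩
  rotate_left
  · rw [hqE]
    exact Subgroup.card_subgroup_dvd_card X
  · rintro ⟨σ, hσt, hσv, hσE⟩
    -- σ normalizes Et, J, X
    have hσE' : ∀ e ∈ Et, σ⁻¹ * e * σ ∈ Et := by
      intro e he
      have hle : Et.map (MulAut.conj σ).toMonoidHom ≤ Et := by
        rintro _ ⟨x, hx, rfl⟩
        exact hσE x hx
      have heq : Et.map (MulAut.conj σ).toMonoidHom = Et := by
        apply Subgroup.eq_of_le_of_card_ge hle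
        rw [Subgroup.card_map_of_injective (MulAut.conj σ).injective]
      rw [← heq] at he
      obtain ⟨x, hx, hxe⟩ := he
      have hxe' : σ * x * σ⁻¹ = e := hxe
      have : σ⁻¹ * e * σ = x := by rw [← hxe']; group
      rw [this]; exact hx
    have hconjX : ∀ a : G, (∀ e ∈ Et, a⁻¹ * e * a ∈ Et) → ∀ x ∈ X, a * x * a⁻¹ ∈ X := by
      intro a ha x hx
      rw [hmemX] at hx ⊢
      obtain ⟨hxJ, hxo⟩ := hx
      constructor
      · rw [hmemJ] at hxJ ⊢
        intro e he
        have h3 := hxJ _ (ha e he)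
        calc a * x * a⁻¹ * e = a * (x * (a⁻¹ * e * a)) * a⁻¹ := by group
          _ = a * ((a⁻¹ * e * a) * x) * a⁻¹ := by rw [h3]
          _ = e * (a * x * a⁻¹) := by group
      · have h3 : orderOf (a * x * a⁻¹) = orderOf x := by
          have := orderOf_injective (MulAut.conj a).toMonoidHom (MulAut.conj a).injective x
          simpa using this
        rw [h3]; exact hxo
    have hσX : ∀ x, x ∈ X ↔ σ * x * σ⁻¹ ∈ X := by
      intro x
      refine ⟨hconjX σ hσE' x, fun hx => ?_⟩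
      have h3 := hconjX σ⁻¹ (fun e he => by rw [inv_inv]; exact hσE e he) _ hx
      have h4 : σ⁻¹ * (σ * x * σ⁻¹) * σ⁻¹⁻¹ = x := by group
      rwa [h4] at h3
    obtain ⟨n, hn⟩ := fourCount ht hv htv X V hXo hVX hVm hV2 hσt hσv hσX
    rw [← hEX, ← hqE] at hn
    refine ⟨n, ?_⟩
    apply Nat.eq_of_mul_eq_mul_left (Nat.card_pos (α := Et))
    rw [← hn, mul_comm]
  · -- action of Et on the class of t
    letI act : MulAction Et {s : G // IsConj t s} :=
      { smul := fun e s => ⟨(e : G) * s * (e : G)⁻¹, s.2.trans (isConj_iff.2 ⟨e, rfl⟩)⟩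
        one_smul := fun s => Subtype.ext (by
          show ((1 : Et) : G) * (s : G) * ((1 : Et) : G)⁻¹ = s
          simp)
        mul_smul := fun e e' s => Subtype.ext (by
          show ((e * e' : Et) : G) * (s : G) * ((e * e' : Et) : G)⁻¹ =
            (e : G) * ((e' : G) * s * (e' : G)⁻¹) * (e : G)⁻¹
          rw [Subgroup.coe_mul]; group) }
    have hEp : IsPGroup r Et := fun e => ⟨1, Subtype.ext (by
      show (e : G) ^ r ^ 1 = 1
      rw [pow_one]; exact hexp e e.2)⟩
    have h3 := hEp.card_modEq_card_fixedPoints {s : G // IsConj t s}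
    have h4 : Nat.card (fixedPoints Et {s : G // IsConj t s}) = q := by
      have hfix : ∀ s : {s : G // IsConj t s}, s ∈ fixedPoints Et {s : G // IsConj t s} ↔ (s : G) ∈ J := by
        intro s
        rw [mem_fixedPoints, hmemJ]
        constructor
        · intro h e he
          have h5 : e * (s : G) * e⁻¹ = s := congrArg Subtype.val (h ⟨e, he⟩)
          exact (mul_inv_eq_iff_eq_mul.1 h5).symm
        · intro h e
          apply Subtype.ext
          show (e : G) * (s : G) * (e : G)⁻¹ = s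
          rw [← h e e.2]; group
      have hsinv : ∀ s : G, IsConj t s → s ≠ 1 ∧ s * s = 1 := by
        intro s hs
        obtain ⟨g, rfl⟩ := isConj_iff.1 hs
        constructor
        · intro h5
          apply ht.1
          have h6 : g * t = g := mul_inv_eq_one.1 h5
          exact mul_eq_left.1 h6
        · calc g * t * g⁻¹ * (g * t * g⁻¹) = g * (t * t) * g⁻¹ := by group
            _ = 1 := by rw [ht.2]; group
      rw [hq]
      apply Nat.card_congr
      refine
        { toFun := fun s => ⟨⟨((s : {s : G // IsConj t s}) : G), (hfix s).1 s.2⟩, ?_⟩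
          invFun := fun s => ⟨⟨((s : J) : G), ?_⟩, ?_⟩
          left_inv := fun s => rfl
          right_inv := fun s => rfl }
      · apply hconj
        · intro h5
          exact (hsinv _ (s : {s : G // IsConj t s}).2).1 (congrArg Subtype.val h5)
        · exact Subtype.ext (hsinv _ (s : {s : G // IsConj t s}).2).2
      · obtain ⟨g, hg⟩ := isConj_iff.1 s.2
        exact isConj_iff.2 ⟨(g : G), congrArg Subtype.val hg⟩
      · exact (hfix _).2 (s : J).2
    rw [h4] at h3
    exact h3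

end Q9b

end H39.DA
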