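import Mathlib
import Cfsg.Prelude.Def_Transfer
import Cfsg.Prelude.Def_LocalEven
import Cfsg.Agent.Lib.H39.PNilp
import Cfsg.Agent.Lib.H39.SectInd
import Cfsg.Agent.S0072

set_option autoImplicit false

/-!
Minimal counterexamples to Thompson's normal `p`-complement criterion in functor form.
-/

namespace H39.ThomNC

open Cfsg H38.Basic H39.Sect H39.MinFail
open scoped commutatorElement

universe u

/-- the criterion for the group `X` -/
def CC (p : ℕ) (W : ∀ (Q : Type u) [Group Q], Subgroup Q) (X : Type u) [Group X] : Prop :=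
  ∀ T : Sylow p X, HasNormalPComplement p ↥(NW W (T : Subgroup X)) → HasNormalPComplement p X

variable {p : ℕ} [hp : Fact p.Prime] {W : ∀ (Q : Type u) [Group Q], Subgroup Q}

theorem normalizer_map_of_injective {X G : Type u} [Group X] [Group G] {f : X →* G} (hf : Function.Injective f)
    (A : Subgroup X) : (Subgroup.normalizer (A : Set X)).map f = f.range ⊓ Subgroup.normalizer ((A.map f : Subgroup G) : Set G) := by
  have h1 := map_inf_normalizer hf ⊤ A
  rwa [top_inf_eq, ← MonoidHom.range_eq_map] at h1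

theorem CC.equiv {X Y : Type u} [Group X] [Group Y] [Finite X] [Finite Y] (hW : IsCharPFunctor.{u} p W)
    (e : X ≃* Y) (h : CC p W X) : CC p W Y := by
  intro T hT
  let T' : Sylow p X := T.mapSurjective (f := e.symm.toMonoidHom) e.symm.surjective
  have h1 : (NW W (T : Subgroup Y)).map e.symm.toMonoidHom = NW W (T' : Subgroup X) := by
    rw [NW, NW, normalizer_map_of_injective (f := e.symm.toMonoidHom) e.symm.injective,
      MonoidHom.range_eq_top.2 e.symm.surjective, top_inf_eq, ← ind_map hW (f := e.symm.toMonoidHom) e.symm.injective T.2]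
    rfl
  have h2 : HasNormalPComplement p ↥(NW W (T' : Subgroup X)) := by
    rw [← h1]
    exact (PNilp.congr ((NW W (T : Subgroup Y)).equivMapOfInjective e.symm.toMonoidHom e.symm.injective)).1 hT
  exact (PNilp.congr e).1 (h T' h2)

section core

variable {G : Type u} [Group G] [Finite G] (hW : IsCharPFunctor.{u} p W)
  (ihsub : ∀ K : Subgroup G, K ≠ ⊤ → CC p W ↥K)

include hW ihsub in
/-- the subgroup form of the induction hypothesis -/
theorem npc_of_sub {K P : Subgroup G} (hK : K ≠ ⊤) (hP : IsSyl p P K)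
    (hN : HasNormalPComplement p ↥(NW W P)) : HasNormalPComplement p ↥K := by
  apply ihsub K hK hP.toSylow
  have h1 : (NW W (hP.toSylow : Subgroup ↥K)).map K.subtype = K ⊓ NW W P := by
    rw [NW, normalizer_map_of_injective K.subtype_injective, Subgroup.range_subtype,
      ← ind_map hW K.subtype_injective hP.toSylow.2, hP.map_toSylow, NW]
  have h2 : HasNormalPComplement p ↥(K ⊓ NW W P) := PNilp.of_le inf_le_right hN
  rw [← h1] at h2
  exact (PNilp.congr ((NW W (hP.toSylow : Subgroup ↥K)).equivMapOfInjective K.subtype K.subtype_injective)).2 h2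

theorem NW_conj (hW : IsCharPFunctor.{u} p W) {P : Subgroup G} (hP : IsPGroup p P) (g : G) :
    (NW W P).map (MulAut.conj g).toMonoidHom = NW W (P.map (MulAut.conj g).toMonoidHom) := by
  rw [NW, NW, conj_normalizer, ind_map hW (MulAut.conj g).injective hP]

include hW ihsub in
theorem pCore_ne_bot (S : Sylow p G) (hN : HasNormalPComplement p ↥(NW W (S : Subgroup G)))
    (hfail : ¬ HasNormalPComplement p G) : pCore p G ≠ ⊥ := by
  classical
  rw [Cfsg.Agent.S0072.result p] at hfail
  push Not at hfail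
  obtain ⟨Q₀, hQ₀p, hQ₀ne, hQ₀⟩ := hfail
  obtain ⟨P₀, hP₀⟩ := exists_isSyl (p := p) (Subgroup.normalizer (Q₀ : Set G))
  -- maximal choice
  obtain ⟨⟨Q, P⟩, hmem, hmax⟩ := Set.exists_max_image
    {x : Subgroup G × Subgroup G | IsPGroup p x.1 ∧ x.1 ≠ ⊥ ∧
      ¬ HasNormalPComplement p ↥(Subgroup.normalizer (x.1 : Set G)) ∧ IsSyl p x.2 (Subgroup.normalizer (x.1 : Set G))}
    (fun x => Nat.card x.2) (Set.toFinite _) ⟨(Q₀, P₀), hQ₀p, hQ₀ne, hQ₀, hP₀⟩
  obtain ⟨hQp, hQne, hQ, hP⟩ := hmem
  simp only at hQp hQne hQ hP hmax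
  by_cases htop : Subgroup.normalizer (Q : Set G) = ⊤
  · intro hbot
    apply hQne
    rw [← le_bot_iff, ← hbot]
    exact H52.PCore.le_pCore (Subgroup.normalizer_eq_top_iff.1 htop) hQp
  · exfalso
    apply hQ
    apply npc_of_sub hW ihsub htop hP
    -- `N(W(P))` has a normal `p`-complement
    have hPne : P ≠ ⊥ := by
      intro h
      have h1 := hP.card_le hQp Subgroup.le_normalizer
      rw [h, Subgroup.card_bot] at h1
      apply hQne
      exact Subgroup.card_eq_one.1 (le_antisymm h1 Nat.card_pos)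
    obtain ⟨P₁, hP₁, hPP₁⟩ := exists_isSyl_ge (p := p) (H := ⊤) hP.2.1 le_top
    rcases hPP₁.eq_or_lt with h | h
    · -- `P` is Sylow in `G`
      obtain ⟨g, _, hg⟩ := (isSyl_sylow S).exists_conj_eq (h ▸ hP₁)
      rw [← hg, ← NW_conj hW S.2 g]
      exact (PNilp.congr ((NW W (S : Subgroup G)).equivMapOfInjective _ (MulAut.conj g).injective)).1 hN
    · by_contra hcon
      have h1 : P < P₁ ⊓ Subgroup.normalizer (P : Set G) := lt_inf_normalizer hP₁.2.1 h
      have h2 : P₁ ⊓ Subgroup.normalizer (P : Set G) ≤ NW W P := inf_le_right.trans (le_NW hW hP.2.1)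
      obtain ⟨P₂, hP₂⟩ := exists_isSyl (p := p) (NW W P)
      have hWne : inducedFunctor W P ≠ ⊥ := H38.Functor.W_ne_bot (ind_isConjugacyFunctor hW) hP.2.1 hPne
      have h3 := hmax (inducedFunctor W P, P₂) ⟨hP.2.1.to_le (ind_le W P), hWne, hcon, hP₂⟩
      have h4 := hP₂.card_le (hP₁.2.1.to_le inf_le_left) h2
      have h5 := Chief.card_lt_card h1
      simp only at h3
      omega

variable (ihquo : ∀ (R : Subgroup G) [R.Normal], R ≠ ⊥ → CC p W (G ⧸ R))

include hW ihquo in
theorem eq_bot_of_coprime (S : Sylow p G) (hN : HasNormalPComplement p ↥(NW W (S : Subgroup G)))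
    (hfail : ¬ HasNormalPComplement p G) (R : Subgroup G) [R.Normal] (hR : (Nat.card R).Coprime p) : R = ⊥ := by
  by_contra hne
  apply hfail
  apply PNilp.of_quotient R hR
  apply ihquo R hne (S.mapSurjective (QuotientGroup.mk'_surjective R))
  have hdisj : R ⊓ (S : Subgroup G) = ⊥ := H66.CoprimeConj.disjoint_of_coprime_pgroup R S hR S.2
  have h1 : NW W ((S.mapSurjective (QuotientGroup.mk'_surjective R) : Sylow p (G ⧸ R)) : Subgroup (G ⧸ R)) =
      (NW W (S : Subgroup G)).map (QuotientGroup.mk' R) := by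
    rw [Sylow.coe_mapSurjective, NW, NW, ind_map' hW _ S.2, H66.CoprimeConj.normalizer_map_mk' R hR]
    · exact S.2.to_le (ind_le W _)
    · intro x hx hx1
      have hxR : x ∈ R := (QuotientGroup.eq_one_iff x).1 hx1
      have : x ∈ R ⊓ (S : Subgroup G) := Subgroup.mem_inf.2 ⟨hxR, hx⟩
      rwa [hdisj] at this
  rw [h1]
  exact PNilp.of_surjective ((QuotientGroup.mk' R).subgroupMap (NW W (S : Subgroup G)))
    (MonoidHom.subgroupMap_surjective _ _) hN

theorem pCore_quotient_eq_bot : pCore p (G ⧸ pCore p G) = ⊥ := by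
  rw [H52.PCore.pCore_eq_bot_iff]
  intro N hN hNp
  have h1 : N.comap (QuotientGroup.mk' (pCore p G)) ≤ pCore p G := by
    apply H52.PCore.le_pCore inferInstance
    exact hNp.comap_of_ker_isPGroup _ (by rw [QuotientGroup.ker_mk']; exact H52.PCore.isPGroup_pCore)
  rw [← Subgroup.map_comap_eq_self_of_surjective (QuotientGroup.mk'_surjective (pCore p G)) N,
    Subgroup.map_eq_bot_iff, QuotientGroup.ker_mk']
  exact h1

theorem not_normal (hW : IsCharPFunctor.{u} p W) (S : Sylow p G)
    (hN : HasNormalPComplement p ↥(NW W (S : Subgroup G)))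
    (hfail : ¬ HasNormalPComplement p G) : ¬ (inducedFunctor W (S : Subgroup G)).Normal := by
  intro hn
  apply hfail
  have h1 : NW W (S : Subgroup G) = ⊤ := Subgroup.normalizer_eq_top_iff.2 hn
  rw [h1] at hN
  exact (PNilp.congr Subgroup.topEquiv).1 hN

include hW ihsub ihquo in
/-- `G / O_p(G)` has a normal `p`-complement -/
theorem npc_quotient (S : Sylow p G) (hN : HasNormalPComplement p ↥(NW W (S : Subgroup G)))
    (hfail : ¬ HasNormalPComplement p G) : HasNormalPComplement p (G ⧸ pCore p G) := by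
  set H := pCore p G with hH
  have hHn : H.Normal := inferInstance
  have hHS : H ≤ (S : Subgroup G) := H52.PCore.pCore_le_sylow S
  set f := QuotientGroup.mk' H with hf
  have hsurj : Function.Surjective f := QuotientGroup.mk'_surjective H
  apply ihquo H (pCore_ne_bot hW ihsub S hN hfail) (S.mapSurjective hsurj)
  rw [Sylow.coe_mapSurjective]
  have hS'p : IsPGroup p ((S : Subgroup G).map f) := S.2.map f
  have hSnn : ¬ (S : Subgroup G).Normal := by
    intro hn
    apply hfail
    have h1 : NW W (S : Subgroup G) = ⊤ := by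
      rw [← top_le_iff, ← Subgroup.normalizer_eq_top_iff.2 hn]
      exact le_NW hW S.2
    rw [h1] at hN
    exact (PNilp.congr Subgroup.topEquiv).1 hN
  have hS'ne : (S : Subgroup G).map f ≠ ⊥ := by
    rw [Ne, Subgroup.map_eq_bot_iff, hf, QuotientGroup.ker_mk']
    intro hSH
    apply hSnn
    have : (S : Subgroup G) = H := le_antisymm hSH hHS
    rw [this]; exact hHn
  set L := (NW W ((S : Subgroup G).map f)).comap f with hL
  have hLtop : L ≠ ⊤ := by
    intro htop
    have h1 : NW W ((S : Subgroup G).map f) = ⊤ := by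
      rw [← Subgroup.map_comap_eq_self_of_surjective hsurj (NW W ((S : Subgroup G).map f)), ← hL, htop,
        Subgroup.map_top_of_surjective _ hsurj]
    have h2 : inducedFunctor W ((S : Subgroup G).map f) ≤ ⊥ := by
      rw [← pCore_quotient_eq_bot (G := G) (p := p)]
      exact H52.PCore.le_pCore (Subgroup.normalizer_eq_top_iff.1 h1) (hS'p.to_le (ind_le W _))
    exact H38.Functor.W_ne_bot (ind_isConjugacyFunctor hW) hS'p hS'ne (le_bot_iff.1 h2)
  have hSL : (S : Subgroup G) ≤ L := by
    rw [hL, ← Subgroup.map_le_iff_le_comap]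
    exact Subgroup.le_normalizer.trans (le_NW hW hS'p)
  have h1 : HasNormalPComplement p ↥L := npc_of_sub hW ihsub hLtop ((isSyl_sylow S).of_le hSL le_top) hN
  have h2 : L.map f = NW W ((S : Subgroup G).map f) := Subgroup.map_comap_eq_self_of_surjective hsurj _
  rw [← h2]
  exact PNilp.of_surjective (f.subgroupMap L) (MonoidHom.subgroupMap_surjective _ _) h1

include hW ihsub ihquo in
theorem centralizer_le (S : Sylow p G) (hN : HasNormalPComplement p ↥(NW W (S : Subgroup G)))
    (hfail : ¬ HasNormalPComplement p G) :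
    Subgroup.centralizer ((pCore p G : Subgroup G) : Set G) ≤ pCore p G := by
  set H := pCore p G with hH
  have hHn : H.Normal := inferInstance
  have hHp : IsPGroup p H := H52.PCore.isPGroup_pCore
  set C := Subgroup.centralizer (H : Set G) with hC
  have hCn : C.Normal := inferInstance
  obtain ⟨K, hKn, hKco, j, hKi⟩ := PNilp.iff_exists.1 (npc_quotient hW ihsub ihquo S hN hfail)
  -- `K₁ = C ∩ preimage of K`
  set f := QuotientGroup.mk' H with hf
  set K₁ := C ⊓ K.comap f with hK₁
  have hK₁n : K₁.Normal := inferInstance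
  -- the intersection with `H` is a central Sylow subgroup of `K₁`
  have hHK : IsSyl p (K₁ ⊓ H) K₁ := by
    refine ⟨inf_le_left, hHp.to_le inf_le_right, ?_⟩
    have h1 : (K₁ ⊓ H).relIndex K₁ ∣ Nat.card K := by
      rw [Subgroup.inf_relIndex_left]
      have h3 : H.relIndex K₁ = Nat.card ↥(K₁.map f) := by
        have h4 : f.ker.relIndex K₁ = Nat.card ↥(K₁.map f) := by
          rw [Subgroup.relIndex_ker]
        rw [← h4, hf, QuotientGroup.ker_mk']
      rw [h3]
      apply Subgroup.card_dvd_of_le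
      rw [Subgroup.map_le_iff_le_comap]
      exact inf_le_right
    intro hd
    have := Nat.Coprime.eq_one_of_dvd hKco.symm (hd.trans h1)
    exact hp.out.one_lt.ne' this
  have hcent : K₁ ≤ Subgroup.centralizer ((K₁ ⊓ H : Subgroup G) : Set G) :=
    inf_le_left.trans (Subgroup.centralizer_le inf_le_right)
  obtain ⟨L, hL1, hL2, hL3⟩ := H38.PPrime.exists_complement_of_central hHK hcent
  have hLn : L.Normal := by
    refine ⟨fun x hx g => ?_⟩
    rw [hL1] at hx ⊢
    exact ⟨hK₁n.conj_mem x hx.1 g, by rw [H38.PPrime.orderOf_conj]; exact hx.2⟩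
  have hLbot := eq_bot_of_coprime hW ihquo S hN hfail L hL2
  have hK₁H : K₁ ≤ H := by
    intro x hx
    obtain ⟨t, ht, k, hk, rfl⟩ := hL3 x hx
    rw [hLbot] at hk
    have : k = 1 := hk
    rw [this, mul_one]
    exact (Subgroup.mem_inf.1 ht).2
  -- `C` is a `p`-group
  apply H52.PCore.le_pCore hCn
  intro x
  have h5 : ∃ k : ℕ, (f (x : G)) ^ p ^ k ∈ K := by
    obtain ⟨k, hk⟩ := (IsPGroup.of_card hKi : IsPGroup p ((G ⧸ H) ⧸ K)) (QuotientGroup.mk' K (f x))
    refine ⟨k, ?_⟩
    rw [← map_pow] at hk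
    exact (QuotientGroup.eq_one_iff _).1 hk
  obtain ⟨k, hk⟩ := h5
  have h6 : (x : G) ^ p ^ k ∈ H := by
    apply hK₁H
    refine Subgroup.mem_inf.2 ⟨C.pow_mem x.2 _, ?_⟩
    rw [Subgroup.mem_comap, map_pow]
    exact hk
  obtain ⟨l, hl⟩ := hHp ⟨_, h6⟩
  refine ⟨k + l, Subtype.ext ?_⟩
  rw [pow_add, pow_mul]
  show ((x : G) ^ p ^ k) ^ p ^ l = 1
  exact congrArg Subtype.val hl

include hW ihsub ihquo in
theorem isCoatom (S : Sylow p G) (hN : HasNormalPComplement p ↥(NW W (S : Subgroup G)))
    (hfail : ¬ HasNormalPComplement p G) : IsCoatom (S : Subgroup G) := by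
  set H := pCore p G with hH
  have hHn : H.Normal := inferInstance
  have hHS : H ≤ (S : Subgroup G) := H52.PCore.pCore_le_sylow S
  refine ⟨fun htop => ?_, fun M hM => ?_⟩
  · apply hfail
    apply PNilp.of_isPGroup
    have h1 : IsPGroup p (⊤ : Subgroup G) := htop ▸ S.2
    exact h1.of_equiv Subgroup.topEquiv
  · by_contra hMtop
    have h1 : HasNormalPComplement p ↥M := npc_of_sub hW ihsub hMtop ((isSyl_sylow S).of_le hM.le le_top) hN
    obtain ⟨K, hKn, hKco, j, hKi⟩ := PNilp.iff_exists.1 h1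
    have hKM : K.map M.subtype ≤ M := Subgroup.map_subtype_le K
    have hcard : Nat.card ↥(K.map M.subtype) = Nat.card K := PNilp.card_map_injective _ M.subtype_injective K
    have hKH : K.map M.subtype ⊓ H = ⊥ := by
      rw [← disjoint_iff]
      apply Subgroup.disjoint_of_coprime_natCard
      rw [hcard]
      obtain ⟨n, hn⟩ := IsPGroup.iff_card.1 (H52.PCore.isPGroup_pCore (p := p) (G := G))
      rw [hn]
      exact Nat.Coprime.pow_right n hKco
    have hMK : M ≤ Subgroup.normalizer ((K.map M.subtype : Subgroup G) : Set G) := by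
      intro m hm
      rw [mem_normalizer_iff']
      apply Subgroup.eq_of_le_of_card_ge
      · rintro _ ⟨_, ⟨k, hk, rfl⟩, rfl⟩
        exact ⟨⟨m, hm⟩ * k * ⟨m, hm⟩⁻¹, hKn.conj_mem k hk ⟨m, hm⟩, rfl⟩
      · rw [card_conj]
    have hcomm : ⁅K.map M.subtype, H⁆ = ⊥ := by
      rw [← le_bot_iff, ← hKH]
      refine le_inf ?_ (Subgroup.commutator_le_right _ _)
      exact Subgroup.le_normalizer_iff_commutator_le_left.1 ((hHS.trans hM.le).trans hMK)
    have hKC : K.map M.subtype ≤ Subgroup.centralizer (H : Set G) :=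
      Subgroup.commutator_eq_bot_iff_le_centralizer.1 hcomm
    have hK0 : K.map M.subtype = ⊥ := by
      rw [← le_bot_iff, ← hKH]
      exact le_inf le_rfl (hKC.trans (centralizer_le hW ihsub ihquo S hN hfail))
    have hKbot : K = ⊥ := (Subgroup.map_eq_bot_iff_of_injective _ M.subtype_injective).1 hK0
    rw [hKbot, Subgroup.index_bot] at hKi
    exact hM.ne ((isSyl_sylow S).eq_of_le (IsPGroup.of_card hKi) le_top hM.le)

end core

end H39.ThomNC
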