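import Mathlib
import Cfsg.Agent.Lib.H39.ThomNC
import Cfsg.Agent.Lib.H39.Avg
import Cfsg.Agent.Lib.H39.NPS
import Cfsg.Agent.Lib.H39.MinFail2
import Cfsg.Agent.Lib.H39.SFMin
import Cfsg.Agent.Lib.H13.Coprime

set_option autoImplicit false

/-!
A group with a maximal Sylow `p`-subgroup whose quotient by `O_p` has a normal `p`-complement: elements outside `O_p(X)` do
not satisfy `(x - 1)^(p-1) = 0` on a chief factor in `O_p(X)` unless they centralize it.
-/

namespace H39.ThomAb

open Cfsg H38.Basic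
open scoped commutatorElement

universe u

section

variable {X : Type*} [Group X] [Finite X] {p : ℕ} [hp : Fact p.Prime]

omit [Finite X] in
theorem eq_of_invariant {T K A : Subgroup X} (hT : IsPGroup p T) (hTc : IsCoatom T) (hK : (Nat.card K).Coprime p)
    (hAK : A ≤ K) (hTA : T ≤ Subgroup.normalizer (A : Set X)) (hA : A ≠ ⊥) [Finite X] : A = K := by
  have hKT : K ⊓ T = ⊥ := by
    rw [← disjoint_iff]
    apply Subgroup.disjoint_of_coprime_natCard
    obtain ⟨n, hn⟩ := IsPGroup.iff_card.1 hT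
    rw [hn]
    exact Nat.Coprime.pow_right n hK
  have h1 : T ⊔ A = ⊤ := by
    apply hTc.2
    refine lt_of_le_of_ne le_sup_left fun h => hA ?_
    rw [← le_bot_iff, ← hKT]
    exact le_inf hAK (h ▸ le_sup_right)
  refine le_antisymm hAK fun k hk => ?_
  have h2 : k ∈ T ⊔ A := by rw [h1]; trivial
  obtain ⟨t, ht, a, ha, rfl⟩ := SFMin.mem_sup_of_norm hTA h2
  have h3 : t ∈ K ⊓ T := by
    refine Subgroup.mem_inf.2 ⟨?_, ht⟩
    have := K.mul_mem hk (K.inv_mem (hAK ha))
    rwa [mul_inv_cancel_right] at this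
  rw [hKT] at h3
  rw [Subgroup.mem_bot.1 h3, one_mul]
  exact ha

theorem comm_of_coatom {T K : Subgroup X} (hT : IsPGroup p T) (hTc : IsCoatom T) (hK : (Nat.card K).Coprime p)
    (hKn : K.Normal) : ∀ x ∈ K, ∀ y ∈ K, x * y = y * x := by
  by_cases hKbot : K = ⊥
  · subst hKbot
    intro x hx y hy
    rw [Subgroup.mem_bot.1 hx, Subgroup.mem_bot.1 hy]
  have hcard : Nat.card K ≠ 1 := fun h => hKbot (Subgroup.card_eq_one.1 h)
  obtain ⟨r, hr, hrd⟩ := Nat.exists_prime_and_dvd hcard
  have : Fact r.Prime := ⟨hr⟩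
  have hTK : T ≤ Subgroup.normalizer (K : Set X) := by rw [Subgroup.normalizer_eq_top]; exact le_top
  obtain ⟨R, hR⟩ := H13.Coprime.exists_invariant_sylow hT hK hTK r
  have hRne : (R : Subgroup K).map K.subtype ≠ ⊥ := by
    intro h
    have h1 : (R : Subgroup K) = ⊥ := (Subgroup.map_eq_bot_iff_of_injective _ K.subtype_injective).1 h
    have h2 := R.dvd_card_of_dvd_card hrd
    rw [h1, Subgroup.card_bot] at h2
    exact hr.one_lt.ne' (Nat.dvd_one.1 h2)
  have hRK := eq_of_invariant hT hTc hK (Subgroup.map_subtype_le _) hR hRne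
  have hKr : IsPGroup r K := by
    have := R.2.map K.subtype
    rwa [hRK] at this
  have hZn : ((Subgroup.center K).map K.subtype).Normal := inferInstance
  have hZne : (Subgroup.center K).map K.subtype ≠ ⊥ := by
    have hnt : Nontrivial K := (Subgroup.nontrivial_iff_ne_bot K).2 hKbot
    have := hKr.center_nontrivial
    intro h
    have h1 := (Subgroup.map_eq_bot_iff_of_injective _ K.subtype_injective).1 h
    exact (Subgroup.nontrivial_iff_ne_bot _).1 this h1
  have hZK := eq_of_invariant hT hTc hK (Subgroup.map_subtype_le _)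
    (by rw [Subgroup.normalizer_eq_top]; exact le_top) hZne
  intro x hx y hy
  rw [← hZK] at hx
  obtain ⟨z, hz, rfl⟩ := hx
  have := Subgroup.mem_center_iff.1 hz ⟨y, hy⟩
  exact (congrArg Subtype.val this).symm

omit [Finite X] in
theorem chief_map {U V : Subgroup X} (h : IsChiefFactor U V) [V.Normal] :
    ∀ N : Subgroup (X ⧸ V), N.Normal → N ≤ U.map (QuotientGroup.mk' V) → N = ⊥ ∨ N = U.map (QuotientGroup.mk' V) := by
  obtain ⟨hlt, hUn, hVn, hmin⟩ := h
  intro N hN hNU
  set f := QuotientGroup.mk' V with hf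
  have hc : (N.comap f).Normal := inferInstance
  have hVN : V ≤ N.comap f := by
    intro v hv
    have : f v = 1 := (QuotientGroup.eq_one_iff _).2 hv
    rw [Subgroup.mem_comap, this]; exact one_mem _
  have hNU' : N.comap f ≤ U := by
    intro x hx
    obtain ⟨u, hu, hux⟩ := hNU hx
    have h1 : x⁻¹ * u ∈ V := (QuotientGroup.eq).1 hux.symm
    have : x = u * (x⁻¹ * u)⁻¹ := by group
    rw [this]
    exact mul_mem hu (inv_mem (hlt.le h1))
  have hNe : N = (N.comap f).map f := (Subgroup.map_comap_eq_self_of_surjective (QuotientGroup.mk'_surjective V) N).symm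
  rcases hmin _ hc hVN hNU' with h | h
  · left
    rw [hNe, h, ← Degree.le_iff_map_eq_bot]
  · right
    rw [hNe, h]

omit hp [Finite X] in
theorem coprime_card_map {Y : Type*} [Group Y] (φ : X →* Y) {H K : Subgroup X} (hH : H ≤ φ.ker)
    (hco : (H.relIndex K).Coprime p) : (Nat.card (K.map φ)).Coprime p := by
  rw [← Subgroup.relIndex_ker]
  exact Nat.Coprime.coprime_dvd_left (Subgroup.relIndex_dvd_of_le_left K hH) hco

/-- the action of `X` on the section `U / V` -/
noncomputable def act (U V : Subgroup X) [U.Normal] [V.Normal] : X →* MulAut ↥(U.map (QuotientGroup.mk' V)) :=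
  haveI : (U.map (QuotientGroup.mk' V)).Normal := (inferInstance : U.Normal).map _ (QuotientGroup.mk'_surjective V)
  (MulAut.conjNormal (H := U.map (QuotientGroup.mk' V))).comp (QuotientGroup.mk' V)

omit [Finite X] in
theorem act_apply (U V : Subgroup X) [U.Normal] [V.Normal] (x : X) (e : ↥(U.map (QuotientGroup.mk' V))) :
    ((act U V x e : ↥(U.map (QuotientGroup.mk' V))) : X ⧸ V) =
      QuotientGroup.mk' V x * e * (QuotientGroup.mk' V x)⁻¹ := rfl

omit [Finite X] in
theorem mem_ker_act (U V : Subgroup X) [U.Normal] [V.Normal] {x : X} :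
    x ∈ (act U V).ker ↔ ∀ u ∈ U, ⁅x, u⁆ ∈ V := by
  rw [MonoidHom.mem_ker]
  constructor
  · intro h u hu
    have h1 := congrArg (fun φ => ((φ ⟨QuotientGroup.mk' V u, ⟨u, hu, rfl⟩⟩ : ↥(U.map (QuotientGroup.mk' V))) : X ⧸ V)) h
    simp only [act_apply, MulAut.one_apply] at h1
    rw [← QuotientGroup.eq_one_iff]
    change QuotientGroup.mk' V ⁅x, u⁆ = 1
    rw [map_commutatorElement, commutatorElement_def, h1, mul_inv_cancel]
  · intro h
    ext ⟨_, u, hu, rfl⟩
    rw [act_apply, MulAut.one_apply]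
    have h1 : QuotientGroup.mk' V ⁅x, u⁆ = 1 := (QuotientGroup.eq_one_iff _).2 (h u hu)
    rw [map_commutatorElement, commutatorElement_def, mul_inv_eq_one] at h1
    exact h1

end

section main

variable {X : Type u} [Group X] [Finite X] {p : ℕ} [hp : Fact p.Prime]

theorem norm_eq_one {U V : Subgroup X} [U.Normal] [V.Normal] (hUU : ⁅U, U⁆ ≤ V) (hUp : ∀ u ∈ U, u ^ p ∈ V) {g : X}
    (hiter : iterCommutator U (Subgroup.zpowers g) (p - 1) ≤ V) (A : Subgroup (MulAut ↥(U.map (QuotientGroup.mk' V))))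
    (hA : ∀ a ∈ A, ∀ b ∈ A, a * b = b * a)
    (hcop : (Nat.card A).Coprime p) (hc : ∀ a ∈ A, (act U V g)⁻¹ * a * (act U V g) ∈ A) :
    ∀ a ∈ A, act U V g * a = a * act U V g := by
  have hcomm : ∀ a b : ↥(U.map (QuotientGroup.mk' V)), a * b = b * a := by
    rintro ⟨_, a, ha, rfl⟩ ⟨_, b, hb, rfl⟩
    apply Subtype.ext
    show QuotientGroup.mk' V a * QuotientGroup.mk' V b = QuotientGroup.mk' V b * QuotientGroup.mk' V a
    have h1 : QuotientGroup.mk' V ⁅a, b⁆ = 1 := (QuotientGroup.eq_one_iff _).2 (hUU (Subgroup.commutator_mem_commutator ha hb))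
    rwa [map_commutatorElement, commutatorElement_eq_one_iff_mul_comm] at h1
  letI : CommGroup ↥(U.map (QuotientGroup.mk' V)) := { (inferInstance : Group ↥(U.map (QuotientGroup.mk' V))) with mul_comm := hcomm }
  have hE : ∀ e : ↥(U.map (QuotientGroup.mk' V)), e ^ p = 1 := by
    rintro ⟨_, u, hu, rfl⟩
    apply Subtype.ext
    show (QuotientGroup.mk' V u) ^ p = 1
    rw [← map_pow]
    exact (QuotientGroup.eq_one_iff _).2 (hUp u hu)
  refine Avg.commute_of_norm (E := ↥(U.map (QuotientGroup.mk' V))) (p := p) hE A hA hcop (act U V g) hc ?_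
  intro e
  refine Norm.prod_eq_one (A := ↥(U.map (QuotientGroup.mk' V))) (act U V g) (MonoidHom.id _) hE
    (fun n => ((iterCommutator U (Subgroup.zpowers g) n).map (QuotientGroup.mk' V)).subgroupOf (U.map (QuotientGroup.mk' V))) ?_ ?_ ?_ e
  · exact Subgroup.subgroupOf_self _
  · intro n e he
    rw [Subgroup.mem_subgroupOf] at he ⊢
    obtain ⟨u, hu, hue⟩ := he
    refine ⟨⁅g, u⁆, ?_, ?_⟩
    · show ⁅g, u⁆ ∈ ⁅iterCommutator U (Subgroup.zpowers g) n, Subgroup.zpowers g⁆
      rw [Subgroup.commutator_comm]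
      exact Subgroup.commutator_mem_commutator (Subgroup.mem_zpowers g) hu
    · rw [map_commutatorElement, commutatorElement_def, hue]
      rfl
  · intro e he
    rw [Subgroup.mem_subgroupOf] at he
    obtain ⟨u, hu, hue⟩ := he
    apply Subtype.ext
    show (e : X ⧸ V) = 1
    rw [← hue]
    exact (QuotientGroup.eq_one_iff _).2 (hiter hu)

theorem false_of_norm (T : Sylow p X) (hTc : IsCoatom (T : Subgroup X)) (hNPC : HasNormalPComplement p (X ⧸ pCore p X))
    {g : X} (hgT : g ∈ (T : Subgroup X)) (hg : g ∉ pCore p X) {U V : Subgroup X} (hUV : IsChiefFactor U V)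
    (hU : U ≤ pCore p X) (hiter : iterCommutator U (Subgroup.zpowers g) (p - 1) ≤ V)
    (hne : ¬ ⁅U, Subgroup.zpowers g⁆ ≤ V) : False := by
  have hUn : U.Normal := hUV.2.1
  have hVn : V.Normal := hUV.2.2.1
  set H := pCore p X with hH
  have hHn : H.Normal := inferInstance
  have hHp : IsPGroup p H := H52.PCore.isPGroup_pCore
  have hHT : H ≤ (T : Subgroup X) := H52.PCore.pCore_le_sylow T
  obtain ⟨K', hK'n, hK'co, j, hK'i⟩ := PNilp.iff_exists.1 hNPC
  set f := QuotientGroup.mk' H with hf
  have hfs : Function.Surjective f := QuotientGroup.mk'_surjective H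
  set K := K'.comap f with hK
  have hKn : K.Normal := inferInstance
  have hHK : H ≤ K := by
    intro h hh
    have : f h = 1 := (QuotientGroup.eq_one_iff h).2 hh
    rw [hK, Subgroup.mem_comap, this]; exact one_mem _
  -- `K'` is commutative
  have hT'c : IsCoatom ((T : Subgroup X).map f) := by
    refine ⟨fun h => hTc.1 ?_, fun M hM => ?_⟩
    · rw [← Subgroup.comap_map_eq_self (f := f) (H := (T : Subgroup X)) (by rw [hf, QuotientGroup.ker_mk']; exact hHT), h,
        Subgroup.comap_top]
    · have h1 : (T : Subgroup X) < M.comap f := by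
        refine lt_of_le_of_ne (Subgroup.map_le_iff_le_comap.1 hM.le) fun h => hM.ne ?_
        rw [h, Subgroup.map_comap_eq_self_of_surjective hfs]
      have h2 := hTc.2 _ h1
      rw [← Subgroup.map_comap_eq_self_of_surjective hfs M, h2, Subgroup.map_top_of_surjective _ hfs]
  have hK'comm := comm_of_coatom (T.2.map f) hT'c hK'co hK'n
  -- `T K = X`
  have hTK : (T : Subgroup X) ⊔ K = ⊤ := by
    rw [← Subgroup.index_eq_one]
    have h1 : ((T : Subgroup X) ⊔ K).index ∣ (T : Subgroup X).index := Subgroup.index_dvd_of_le le_sup_left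
    have h2 : ((T : Subgroup X) ⊔ K).index ∣ p ^ j := by
      rw [← hK'i, ← Subgroup.index_comap_of_surjective K' hfs]
      exact Subgroup.index_dvd_of_le le_sup_right
    have h3 : (p ^ j).Coprime (T : Subgroup X).index :=
      Nat.Coprime.pow_left j ((Nat.Prime.coprime_iff_not_dvd hp.out).2 T.not_dvd_index)
    exact Nat.eq_one_of_dvd_coprimes h3 h2 h1
  -- the action on the chief factor
  set φ := act U V with hφ
  have hHker : H ≤ φ.ker := by
    intro h hh
    rw [hφ, mem_ker_act]
    intro u hu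
    have h1 := Chief.commutator_le_of_chief hUV hHn hHp.isNilpotent hU
    apply h1
    rw [Subgroup.commutator_comm]
    exact Subgroup.commutator_mem_commutator hh hu
  have hUU : ⁅U, U⁆ ≤ V := (Subgroup.commutator_mono le_rfl hU).trans
    (Chief.commutator_le_of_chief hUV hHn hHp.isNilpotent hU)
  have hUp : ∀ u ∈ U, u ^ p ∈ V := Chief.pow_mem_of_chief hUV (hHp.to_le hU)
  have hcomK : ∀ k ∈ K, ∀ l ∈ K, ⁅k, l⁆ ∈ H := by
    intro k hk l hl
    rw [← QuotientGroup.eq_one_iff]
    change f ⁅k, l⁆ = 1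
    rw [map_commutatorElement, commutatorElement_eq_one_iff_mul_comm]
    exact hK'comm _ hk _ hl
  have hmain : ∀ a ∈ K.map φ, φ g * a = a * φ g := by
    apply norm_eq_one hUU hUp hiter (K.map φ)
    · rintro _ ⟨k, hk, rfl⟩ _ ⟨l, hl, rfl⟩
      have h1 : φ ⁅k, l⁆ = 1 := hHker (hcomK k hk l hl)
      rwa [map_commutatorElement, commutatorElement_eq_one_iff_mul_comm] at h1
    · have h2 : H.relIndex K = Nat.card K' := by
        have h3 := Subgroup.relIndex_ker K f
        rw [hf, QuotientGroup.ker_mk', ← hf] at h3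
        rw [h3, hK, Subgroup.map_comap_eq_self_of_surjective hfs]
      rw [← h2] at hK'co
      exact coprime_card_map φ hHker hK'co
    · rintro _ ⟨k, hk, rfl⟩
      refine ⟨g⁻¹ * k * g, ?_, by simp [hφ]⟩
      have := hKn.conj_mem k hk g⁻¹
      rwa [inv_inv] at this
  have hcent : ∀ k ∈ K, ⁅g, k⁆ ∈ φ.ker := by
    intro k hk
    rw [MonoidHom.mem_ker, map_commutatorElement, commutatorElement_eq_one_iff_mul_comm]
    exact hmain _ ⟨k, hk, rfl⟩
  set K₀ := K ⊓ φ.ker with hK₀
  have hK₀n : K₀.Normal := inferInstance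
  by_cases hK₀T : K₀ ≤ (T : Subgroup X)
  · -- `K₀ ≤ H`, so that `g` centralizes `K / H`
    have hK₀H : K₀ ≤ H := H52.PCore.le_pCore hK₀n (T.2.to_le hK₀T)
    set D := (T : Subgroup X) ⊓ (Subgroup.centralizer (K' : Set (X ⧸ H))).comap f with hD
    have hHD : H ≤ D := by
      refine le_inf hHT fun h hh => ?_
      have : f h = 1 := (QuotientGroup.eq_one_iff h).2 hh
      rw [Subgroup.mem_comap, this]; exact one_mem _
    have hDn : D.Normal := by
      rw [← Subgroup.normalizer_eq_top_iff, ← top_le_iff, ← hTK]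
      refine sup_le ?_ ?_
      · rw [hD]
        refine le_trans ?_ (Comm.inf_normalizer_le _ _)
        refine le_inf Subgroup.le_normalizer ?_
        rw [Subgroup.normalizer_eq_top]; exact le_top
      · intro k hk
        rw [mem_normalizer_iff']
        apply Subgroup.eq_of_le_of_card_ge
        · rintro _ ⟨x, hx, rfl⟩
          show k * x * k⁻¹ ∈ D
          have h1 : k * x * k⁻¹ = ⁅k, x⁆ * x := by rw [commutatorElement_def]; group
          rw [h1]
          refine D.mul_mem (hHD ?_) hx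
          rw [← QuotientGroup.eq_one_iff]
          change f ⁅k, x⁆ = 1
          rw [map_commutatorElement, commutatorElement_eq_one_iff_mul_comm]
          exact Subgroup.mem_centralizer_iff.1 (Subgroup.mem_inf.1 hx).2 _ hk
        · rw [card_conj]
    apply hg
    have hDH : D ≤ H := H52.PCore.le_pCore hDn (T.2.to_le inf_le_left)
    apply hDH
    refine Subgroup.mem_inf.2 ⟨hgT, ?_⟩
    rw [Subgroup.mem_comap, Subgroup.mem_centralizer_iff]
    intro y hy
    obtain ⟨k, rfl⟩ := hfs y
    have h1 : ⁅g, k⁆ ∈ H := by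
      apply hK₀H
      refine Subgroup.mem_inf.2 ⟨?_, hcent k hy⟩
      exact Subgroup.commutator_le_right ⊤ K (Subgroup.commutator_mem_commutator (Subgroup.mem_top g) hy)
    have h2 : f ⁅g, k⁆ = 1 := (QuotientGroup.eq_one_iff _).2 h1
    rw [map_commutatorElement, commutatorElement_eq_one_iff_mul_comm] at h2
    exact h2.symm
  · -- `X` induces a `p`-group on `U / V`
    have htop : (T : Subgroup X) ⊔ K₀ = ⊤ := by
      apply hTc.2
      exact lt_of_le_of_ne le_sup_left fun h => hK₀T (h ▸ le_sup_right)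
    have hTn : (T : Subgroup X) ≤ Subgroup.normalizer (K₀ : Set X) := by
      rw [Subgroup.normalizer_eq_top]; exact le_top
    set π := QuotientGroup.mk' V with hπ
    have hUp' : (U.map π).Normal := hUn.map _ (QuotientGroup.mk'_surjective V)
    have hPp : IsPGroup p (U.map π) := (hHp.to_le hU).map π
    have hUne : U.map π ≠ ⊥ := by
      rw [Ne, hπ, ← Degree.le_iff_map_eq_bot]
      exact not_le_of_gt hUV.1
    have hfix := NPS.inf_centralizer_ne_bot (P := U.map π) (K := ⊤) hPp hUne (by
      intro k _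
      obtain ⟨x, rfl⟩ := QuotientGroup.mk'_surjective V k
      have hx : x ∈ (T : Subgroup X) ⊔ K₀ := by rw [htop]; trivial
      obtain ⟨t, ht, k₀, hk₀, rfl⟩ := SFMin.mem_sup_of_norm hTn hx
      obtain ⟨i, hi⟩ := T.2 ⟨t, ht⟩
      have hi' : t ^ p ^ i = 1 := congrArg Subtype.val hi
      refine ⟨i, ?_⟩
      have h1 : (t * k₀) ^ p ^ i ∈ K₀ := by
        have h0 : ∀ n : ℕ, ∃ y ∈ K₀, (t * k₀) ^ n = t ^ n * y := by
          intro n
          induction n with
          | zero => exact ⟨1, one_mem _, by simp⟩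
          | succ n ih =>
            obtain ⟨y, hy, hyy⟩ := ih
            refine ⟨t⁻¹ * y * t * k₀, K₀.mul_mem ?_ hk₀, ?_⟩
            · have := hK₀n.conj_mem y hy t⁻¹
              rwa [inv_inv] at this
            · rw [pow_succ, hyy, pow_succ]; group
        obtain ⟨y, hy, hyy⟩ := h0 (p ^ i)
        rw [hyy, hi', one_mul]; exact hy
      have h2 := (mem_ker_act U V).1 (Subgroup.mem_inf.1 h1).2
      rw [← map_pow, Subgroup.mem_centralizer_iff]
      rintro _ ⟨u, hu, rfl⟩
      have h3 : π ⁅(t * k₀) ^ p ^ i, u⁆ = 1 := (QuotientGroup.eq_one_iff _).2 (h2 u hu)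
      rw [map_commutatorElement, commutatorElement_eq_one_iff_mul_comm] at h3
      exact h3.symm)
    have hcn : (U.map π ⊓ Subgroup.centralizer ((⊤ : Subgroup (X ⧸ V)) : Set (X ⧸ V))).Normal := inferInstance
    rcases chief_map hUV _ hcn inf_le_left with h | h
    · exact hfix h
    · apply hne
      rw [Degree.le_iff_map_eq_bot, Subgroup.map_commutator, Subgroup.commutator_eq_bot_iff_le_centralizer]
      exact (inf_eq_left.1 h).trans (Subgroup.centralizer_le (fun _ _ => trivial))

end main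

end H39.ThomAb
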