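import Mathlib
import Cfsg.Agent.Lib.H39.ThomNC

set_option autoImplicit false

/-!
Induction for Thompson's normal `p`-complement criterion in functor form.
-/

namespace H39.ThomInd

open Cfsg H38.Basic H39.Sect H39.MinFail H39.ThomNC H39.SectInd

universe u

variable {G : Type u} [Group G] [Finite G] {p : ℕ} [hp : Fact p.Prime] {W : ∀ (Q : Type u) [Group Q], Subgroup Q}

/-- the criterion holds for all groups involved in `G` if no section of `G` is a minimal counterexample -/
theorem cc_of_core (hW : IsCharPFunctor.{u} p W)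
    (h : ∀ (K R : Subgroup G) [(R.subgroupOf K).Normal],
      (∀ L : Subgroup (↥K ⧸ R.subgroupOf K), L ≠ ⊤ → CC p W ↥L) →
      (∀ (N : Subgroup (↥K ⧸ R.subgroupOf K)) [N.Normal], N ≠ ⊥ → CC p W ((↥K ⧸ R.subgroupOf K) ⧸ N)) →
      ∀ T : Sylow p (↥K ⧸ R.subgroupOf K), HasNormalPComplement p ↥(NW W (T : Subgroup (↥K ⧸ R.subgroupOf K))) →
      ¬ HasNormalPComplement p (↥K ⧸ R.subgroupOf K) → False) :
    ∀ (X : Type u) [Group X], Involves X G → CC p W X := by
  refine section_induction (G := G) (fun X _ => CC p W X) ?_ ?_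
  · intro X Y _ _ e hX hC
    have := finite_of_involves hX
    have : Finite Y := Finite.of_equiv X e.toEquiv
    exact hC.equiv hW e
  · intro K R hR ih T hT
    by_contra hcon
    refine h K R (fun L hL => ?_) (fun N _ hN => ?_) T hT hcon
    · exact ih ↥L (involves_subgroup L) (KTrans.card_lt_of_ne_top hL)
    · exact ih _ (involves_quotient N) (KTrans.card_quotient_lt hN)

end H39.ThomInd
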