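import Mathlib
import Cfsg.Agent.S2006
import Cfsg.Agent.Lib.H39.Cubic2
import Cfsg.Agent.Lib.H39.Crit
import Cfsg.Agent.Lib.H39.KLocal
import Cfsg.Agent.Lib.H39.SylowAux

set_option autoImplicit false

/-!
Normal `p`-complements from the normalizer of `K_∞(S)`, `p` odd.
-/

namespace H39.KThom

open Cfsg H38.Basic H39.Sect H39.MinFail
open scoped commutatorElement

universe u

variable {G : Type u} [Group G] [Finite G] {p : ℕ} [hp : Fact p.Prime]

theorem npc_of_normalizer (hp2 : p ≠ 2) {W : ∀ (Q : Type u) [Group Q], Subgroup Q} (hW : W = kInfLower ∨ W = kInfUpper)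
    (S : Sylow p G) (hN : HasNormalPComplement p ↥(Subgroup.normalizer ((inducedFunctor W (S : Subgroup G) : Subgroup G) : Set G))) :
    HasNormalPComplement p G := by
  refine Cfsg.Agent.S2006.result W (KLocal.kInf_charPFunctor hW) S hN ?_
  intro K R hR hC T hT
  obtain ⟨A, hA⟩ := Crit.exists_isCrit (H52.PCore.isPGroup_pCore (p := p) (G := ↥K ⧸ R.subgroupOf K))
  obtain ⟨g, hg1, hg2, -, -, h⟩ := Cubic2.cubic T hA (by
    rcases hW with rfl | rfl
    · exact Or.inl hT
    · exact Or.inr hT)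
  obtain ⟨U, V, hUV, hUA, hq, hne⟩ := h hC
  refine ⟨g, hg1, hg2, U, V, hUV, hUA.trans hA.le, ?_, hne⟩
  have h2 : 2 ≤ p - 1 := by
    have := hp.out.two_le
    omega
  have hUn : U.Normal := hUV.2.1
  refine (Degree.iter_anti (N := U) (H := Subgroup.zpowers g) ?_ h2).trans hq
  rw [Subgroup.normalizer_eq_top]; exact le_top

theorem npc_of_centralizes {K : Subgroup G} (S : Sylow p G) (hn : (S : Subgroup G) ≤ Subgroup.normalizer (K : Set G))
    (hCK : (S : Subgroup G) ⊓ Subgroup.centralizer (K : Set G) ≤ K)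
    (h : ∀ g ∈ Subgroup.normalizer (K : Set G), (orderOf g).Coprime p → g ∈ Subgroup.centralizer (K : Set G)) :
    HasNormalPComplement p ↥(Subgroup.normalizer (K : Set G)) := by
  set N := Subgroup.normalizer (K : Set G) with hN
  set C := Subgroup.centralizer (K : Set G) with hC
  have hCN : C ≤ N := Subgroup.centralizer_le_normalizer _
  have hSC : IsSyl p ((S : Subgroup G) ⊓ C) C :=
    ((isSyl_sylow S).of_le hn le_top).inf_normal hCN (Comm.normalizer_le_normalizer_centralizer K)
  have hcent : C ≤ Subgroup.centralizer (((S : Subgroup G) ⊓ C : Subgroup G) : Set G) :=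
    Subgroup.centralizer_le hCK
  obtain ⟨L, hL1, hL2, -⟩ := H38.PPrime.exists_complement_of_central hSC hcent
  have hLn : (L.subgroupOf N).Normal := by
    refine ⟨fun x hx g => ?_⟩
    rw [Subgroup.mem_subgroupOf] at hx ⊢
    rw [hL1] at hx ⊢
    refine ⟨?_, ?_⟩
    · have := (mem_normalizer_iff'.1 (Comm.normalizer_le_normalizer_centralizer K g.2))
      rw [← hC] at this
      rw [← this]
      exact ⟨(x : G), hx.1, rfl⟩
    · show (orderOf ((g : G) * (x : G) * (g : G)⁻¹)).Coprime p
      rw [H38.PPrime.orderOf_conj]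
      exact hx.2
  refine PNilp.of_normal (L.subgroupOf N) hLn ?_ ?_
  · rw [PNilp.card_subgroupOf]
    exact Nat.Coprime.coprime_dvd_left (Subgroup.card_dvd_of_le inf_le_left) hL2
  · apply SylowAux.index_pow_of_coprime_mem
    intro x hx
    rw [Subgroup.mem_subgroupOf, hL1]
    rw [← Subgroup.orderOf_coe] at hx
    exact ⟨h _ x.2 hx, hx⟩

theorem inf_centralizer_le {W : ∀ (Q : Type u) [Group Q], Subgroup Q} (hW : W = kInfLower ∨ W = kInfUpper)
    (S : Sylow p G) : (S : Subgroup G) ⊓ Subgroup.centralizer ((inducedFunctor W (S : Subgroup G) : Subgroup G) : Set G) ≤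
      inducedFunctor W (S : Subgroup G) := by
  have hnil : Group.IsNilpotent ↥(S : Subgroup G) := S.2.isNilpotent
  have h1 : Subgroup.centralizer ((W ↥(S : Subgroup G) : Subgroup ↥(S : Subgroup G)) : Set ↥(S : Subgroup G)) ≤
      W ↥(S : Subgroup G) := by
    rcases hW with rfl | rfl
    · exact KInf.centralizer_kInfLower_le
    · exact KInf.centralizer_kInfUpper_le
  intro x hx
  refine ⟨⟨x, (Subgroup.mem_inf.1 hx).1⟩, h1 ?_, rfl⟩
  rw [Subgroup.mem_centralizer_iff]
  intro y hy
  apply Subtype.ext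
  exact Subgroup.mem_centralizer_iff.1 (Subgroup.mem_inf.1 hx).2 _ ⟨y, hy, rfl⟩

end H39.KThom
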