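import Mathlib
import Cfsg.Agent.Lib.H94.M11Iso
import Cfsg.Agent.Lib.H13.Cores

/-! `M₁₁` is determined by its order and the set of numbers of elements of each order. -/

set_option autoImplicit false
open Subgroup

namespace H39.NseM11

universe u
variable {G : Type u} [Group G] [Finite G]

theorem cnt_modEq {p : ℕ} [hp : Fact p.Prime] {x : G} (hx : orderOf x = p) (n : ℕ) :
    Nat.card {g : G // orderOf g = n} ≡ Nat.card {g : G // orderOf g = n ∧ x * g = g * x} [MOD p] := by
  classical
  have hc : ∀ (y g : G), orderOf (y * g * y⁻¹) = orderOf g := fun y g => (MulAut.conj y).orderOf_eq g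
  let f : Function.End {g : G // orderOf g = n} := fun g => ⟨x * g * x⁻¹, by rw [hc]; exact g.2⟩
  have hf : ∀ m : ℕ, ∀ g : {g : G // orderOf g = n}, ((f ^ m) g : G) = x ^ m * g * (x ^ m)⁻¹ := by
    intro m
    induction m with
    | zero =>
      intro g
      change (g : G) = x ^ 0 * g * (x ^ 0)⁻¹
      simp
    | succ m ih =>
      intro g
      rw [pow_succ', Function.End.mul_def]
      change x * ((f ^ m) g : G) * x⁻¹ = _
      rw [ih g]
      group
  have h1 : f ^ p ^ 1 = 1 := by
    funext g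
    apply Subtype.ext
    rw [hf, pow_one, ← hx, pow_orderOf_eq_one]
    change 1 * (g : G) * 1⁻¹ = g
    simp
  let _ := Fintype.ofFinite G
  have h2 := Equiv.Perm.card_fixedPoints_modEq (p := p) (n := 1) h1
  rw [Nat.card_eq_fintype_card, Nat.card_eq_fintype_card]
  refine h2.trans (Nat.ModEq.symm ?_)
  have h3 : Fintype.card {g : G // orderOf g = n ∧ x * g = g * x} = Fintype.card f.fixedPoints := by
    apply Fintype.card_congr
    refine ⟨fun g => ⟨⟨g.1, g.2.1⟩, ?_⟩, fun g => ⟨g.1.1, g.1.2, ?_⟩, fun g => rfl, fun g => rfl⟩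
    · rw [Function.mem_fixedPoints]
      apply Subtype.ext
      change x * g.1 * x⁻¹ = g.1
      rw [g.2.2, mul_inv_cancel_right]
    · have h4 := congrArg Subtype.val g.2
      change x * g.1.1 * x⁻¹ = g.1.1 at h4
      rw [mul_inv_eq_iff_eq_mul] at h4
      exact h4
  rw [h3]

theorem zpowers_eq_sylow {p : ℕ} [Fact p.Prime] {x : G} (hx : orderOf x = p) (P : Sylow p G)
    (hP : Nat.card (P : Subgroup G) = p) (hxP : x ∈ (P : Subgroup G)) : zpowers x = (P : Subgroup G) :=
  Subgroup.eq_of_le_of_card_ge ((Subgroup.zpowers_le).2 hxP) (by rw [hP, Nat.card_zpowers, hx])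

theorem cnt_prime {p : ℕ} [hp : Fact p.Prime] (hP : ∀ P : Sylow p G, Nat.card (P : Subgroup G) = p) :
    Nat.card {g : G // orderOf g = p} = Nat.card (Sylow p G) * (p - 1) := by
  classical
  have hord : ∀ (P : Sylow p G) (y : (P : Subgroup G)), y ≠ 1 → orderOf (y : G) = p := by
    intro P y hy
    have h1 : orderOf y ∣ p := (orderOf_dvd_natCard y).trans (hP P).dvd
    rcases (Nat.dvd_prime hp.out).1 h1 with h2 | h2
    · exact absurd (orderOf_eq_one_iff.1 h2) hy
    · rw [Subgroup.orderOf_coe]; exact h2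
  let F : (Σ P : Sylow p G, {y : (P : Subgroup G) // y ≠ 1}) → {g : G // orderOf g = p} :=
    fun a => ⟨a.2.1.1, hord a.1 a.2.1 a.2.2⟩
  have hF : Function.Bijective F := by
    constructor
    · rintro ⟨P, y, hy⟩ ⟨Q, z, hz⟩ h
      have h1 : (y : G) = (z : G) := congrArg Subtype.val h
      have h2 : P = Q := by
        apply Sylow.ext
        rw [← zpowers_eq_sylow (hord P y hy) P (hP P) y.2, h1, zpowers_eq_sylow (hord Q z hz) Q (hP Q) z.2]
      subst h2
      have h3 : y = z := Subtype.ext h1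
      subst h3
      rfl
    · rintro ⟨g, hg⟩
      have h1 : IsPGroup p (zpowers g) := IsPGroup.of_card (n := 1) (by rw [Nat.card_zpowers, hg, pow_one])
      obtain ⟨P, hP1⟩ := h1.exists_le_sylow
      refine ⟨⟨P, ⟨⟨g, hP1 (mem_zpowers g)⟩, ?_⟩⟩, rfl⟩
      intro h
      have h2 : g = 1 := congrArg Subtype.val h
      rw [h2, orderOf_one] at hg
      exact hp.out.one_lt.ne hg
  let _ := Fintype.ofFinite (Sylow p G)
  rw [← Nat.card_congr (Equiv.ofBijective F hF), Nat.card_sigma, Finset.sum_const_nat (m := p - 1), Finset.card_univ,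
    Nat.card_eq_fintype_card]
  intro P _
  let _ := Fintype.ofFinite (P : Subgroup G)
  rw [Nat.card_eq_fintype_card, Fintype.card_subtype_compl, ← Nat.card_eq_fintype_card, hP P]
  simp

/-- no elements of other orders commute with an element of order `p` that is self-centralizing -/
theorem cnt_self {p : ℕ} [hp : Fact p.Prime] {x : G} (hx : orderOf x = p)
    (hC : Nat.card (centralizer ({x} : Set G)) = p) {n : ℕ} (h1 : n ≠ 1) (h2 : n ≠ p) :
    p ∣ Nat.card {g : G // orderOf g = n} := by
  have h := cnt_modEq hx n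
  have h0 : Nat.card {g : G // orderOf g = n ∧ x * g = g * x} = 0 := by
    have : IsEmpty {g : G // orderOf g = n ∧ x * g = g * x} := by
      refine ⟨?_⟩
      rintro ⟨g, hg, hc⟩
      have h3 : orderOf (⟨g, mem_centralizer_singleton_iff.2 hc.symm⟩ : centralizer ({x} : Set G)) ∣ p := by
        rw [← hC]; exact orderOf_dvd_natCard _
      rw [← Subgroup.orderOf_coe] at h3
      change orderOf g ∣ p at h3
      rw [hg] at h3
      rcases (Nat.dvd_prime hp.out).1 h3 with h4 | h4
      · exact h1 h4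
      · exact h2 h4
    exact Nat.card_of_isEmpty
  rw [h0] at h
  exact (Nat.modEq_zero_iff_dvd).1 h

omit [Finite G] in
theorem cnt_one : Nat.card {g : G // orderOf g = 1} = 1 := by
  rw [Nat.card_eq_one_iff_unique]
  refine ⟨⟨fun a b => Subtype.ext ?_⟩, ⟨1, orderOf_one⟩⟩
  rw [orderOf_eq_one_iff.1 a.2, orderOf_eq_one_iff.1 b.2]

/-- the number of Sylow 11-subgroups is 144 and their normalizers have order 55 -/
theorem syl11_data {M : Type*} [Group M] [Finite M] [IsSimpleGroup M] (hM : Nat.card M = 7920) (hG : Nat.card G = 7920)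
    (hnse : {c : ℕ | 0 < c ∧ ∃ n : ℕ, c = Nat.card {g : G // orderOf g = n}} =
      {c : ℕ | 0 < c ∧ ∃ n : ℕ, c = Nat.card {g : M // orderOf g = n}}) :
    (∀ n : ℕ, 0 < Nat.card {g : G // orderOf g = n} → Nat.card {g : G // orderOf g = n} = 1 ∨
      Nat.card {g : G // orderOf g = n} = 1440 ∨ 11 ∣ Nat.card {g : G // orderOf g = n}) ∧
    Nat.card (Sylow 11 G) = 144 := by
  have : Fact (Nat.Prime 11) := ⟨by norm_num⟩
  have h11 : ∀ P : Sylow 11 M, Nat.card (P : Subgroup M) = 11 := H94.M11.card_syl11 hM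
  have hcM : Nat.card {g : M // orderOf g = 11} = 1440 := by
    rw [cnt_prime h11, H94.M11.card_sylow11 hM]
  obtain ⟨x, hx⟩ := exists_prime_orderOf_dvd_card' (G := M) 11 (by rw [hM]; norm_num)
  have hself : ∀ n : ℕ, n ≠ 1 → n ≠ 11 → 11 ∣ Nat.card {g : M // orderOf g = n} := fun n h1 h2 =>
    cnt_self hx (H94.M11.card_cent11 hM hx) h1 h2
  have key : ∀ n : ℕ, 0 < Nat.card {g : G // orderOf g = n} → Nat.card {g : G // orderOf g = n} = 1 ∨
      Nat.card {g : G // orderOf g = n} = 1440 ∨ 11 ∣ Nat.card {g : G // orderOf g = n} := by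
    intro n hn
    have h1 : Nat.card {g : G // orderOf g = n} ∈ {c : ℕ | 0 < c ∧ ∃ n : ℕ, c = Nat.card {g : G // orderOf g = n}} :=
      ⟨hn, n, rfl⟩
    rw [hnse] at h1
    obtain ⟨-, m, hm⟩ := h1
    by_cases hm1 : m = 1
    · rw [hm1, cnt_one] at hm
      exact Or.inl hm
    · by_cases hm11 : m = 11
      · rw [hm11, hcM] at hm
        exact Or.inr (Or.inl hm)
      · exact Or.inr (Or.inr (hm ▸ hself m hm1 hm11))
  refine ⟨key, ?_⟩
  have hG11 : ∀ P : Sylow 11 G, Nat.card (P : Subgroup G) = 11 := fun P => by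
    have := H21.SylowTools.card_sylow_eq_pow (a := 1) (m := 720) (by rw [hG]; norm_num) (by norm_num) P
    rw [this, pow_one]
  have hc := cnt_prime hG11
  have h2 : Nat.card (Sylow 11 G) ≡ 1 [MOD 11] := card_sylow_modEq_one 11 G
  have h3 : 0 < Nat.card (Sylow 11 G) := Nat.card_pos
  have h4 := key 11 (by rw [hc]; omega)
  rw [hc] at h4
  unfold Nat.ModEq at h2
  rcases h4 with h4 | h4 | h4
  · omega
  · omega
  · omega

/-- a cyclic group of order 55 has 40 generators -/
theorem cnt55 {H : Type*} [Group H] [Finite H] (hH : Nat.card H = 55) (hc : IsCyclic H) :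
    Nat.card {g : H // orderOf g = 55} = 40 := by
  classical
  let _ := Fintype.ofFinite H
  rw [Nat.card_eq_fintype_card, Fintype.card_subtype]
  rw [IsCyclic.card_orderOf_eq_totient (by rw [← Nat.card_eq_fintype_card, hH])]
  decide +kernel

theorem cent11 {M : Type*} [Group M] [Finite M] [IsSimpleGroup M] (hM : Nat.card M = 7920) (hG : Nat.card G = 7920)
    (hnse : {c : ℕ | 0 < c ∧ ∃ n : ℕ, c = Nat.card {g : G // orderOf g = n}} =
      {c : ℕ | 0 < c ∧ ∃ n : ℕ, c = Nat.card {g : M // orderOf g = n}}) {x : G} (hx : orderOf x = 11) :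
    Nat.card (normalizer (zpowers x : Set G)) = 55 ∧ Nat.card (centralizer ({x} : Set G)) = 11 := by
  have : Fact (Nat.Prime 11) := ⟨by norm_num⟩
  have : Fact (Nat.Prime 5) := ⟨by norm_num⟩
  obtain ⟨key, h144⟩ := syl11_data hM hG hnse
  have hG11 : ∀ P : Sylow 11 G, Nat.card (P : Subgroup G) = 11 := fun P => by
    have := H21.SylowTools.card_sylow_eq_pow (a := 1) (m := 720) (by rw [hG]; norm_num) (by norm_num) P
    rw [this, pow_one]
  have h1 : IsPGroup 11 (zpowers x) := IsPGroup.of_card (n := 1) (by rw [Nat.card_zpowers, hx, pow_one])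
  obtain ⟨P, hP⟩ := h1.exists_le_sylow
  have h2 : zpowers x = (P : Subgroup G) := zpowers_eq_sylow hx P (hG11 P) (hP (mem_zpowers x))
  have hN : Nat.card (normalizer (zpowers x : Set G)) = 55 := by
    have h3 := P.card_eq_index_normalizer
    have h4 := Subgroup.card_mul_index (normalizer ((P : Subgroup G) : Set G))
    rw [h2]
    rw [h144] at h3
    rw [hG] at h4
    change 144 = (normalizer ((P : Subgroup G) : Set G)).index at h3
    rw [← h3] at h4
    omega
  refine ⟨hN, ?_⟩
  have hle : centralizer ({x} : Set G) ≤ normalizer (zpowers x : Set G) := by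
    rw [← H94.PNorm.centralizer_zpowers]
    exact Subgroup.centralizer_le_normalizer _
  have h5 : Nat.card (centralizer ({x} : Set G)) ∣ 55 := by
    rw [← hN]; exact Subgroup.card_dvd_of_le hle
  have h6 : 11 ∣ Nat.card (centralizer ({x} : Set G)) := by
    have : orderOf (⟨x, mem_centralizer_singleton_iff.2 rfl⟩ : centralizer ({x} : Set G)) ∣ _ := orderOf_dvd_natCard _
    rw [← Subgroup.orderOf_coe] at this
    change orderOf x ∣ _ at this
    rwa [hx] at this
  have h7 : Nat.card (centralizer ({x} : Set G)) = 11 ∨ Nat.card (centralizer ({x} : Set G)) = 55 := by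
    obtain ⟨k, hk⟩ := h6
    rw [hk] at h5 ⊢
    have h8 : k ∣ 5 := Nat.dvd_of_mul_dvd_mul_left (by norm_num : 0 < 11) (h5.trans (by norm_num))
    rcases (Nat.dvd_prime (by norm_num)).1 h8 with h9 | h9
    · left; omega
    · right; omega
  rcases h7 with h7 | h7
  · exact h7
  exfalso
  -- the centralizer is cyclic
  set C := centralizer ({x} : Set G) with hC
  obtain ⟨y, hy⟩ := exists_prime_orderOf_dvd_card' (G := C) 5 (by rw [h7]; norm_num)
  have hyo : orderOf (y : G) = 5 := by rw [Subgroup.orderOf_coe]; exact hy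
  have hxy : Commute (y : G) x := mem_centralizer_singleton_iff.1 y.2
  have ho : orderOf ((y : G) * x) = 55 := by
    rw [hxy.orderOf_mul_eq_mul_orderOf_of_coprime (by rw [hyo, hx]; norm_num), hyo, hx]
  have hxC : x ∈ C := mem_centralizer_singleton_iff.2 rfl
  have hcyc : IsCyclic C := by
    apply isCyclic_of_orderOf_eq_card (⟨(y : G) * x, mul_mem y.2 hxC⟩ : C)
    rw [← Subgroup.orderOf_coe, h7]
    exact ho
  have h40 : Nat.card {g : G // orderOf g = 55 ∧ x * g = g * x} = 40 := by
    rw [← cnt55 h7 hcyc]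
    apply Nat.card_congr
    refine ⟨fun g => ⟨⟨g.1, mem_centralizer_singleton_iff.2 g.2.2.symm⟩, ?_⟩,
      fun g => ⟨g.1.1, ?_, (mem_centralizer_singleton_iff.1 g.1.2).symm⟩, fun g => rfl, fun g => rfl⟩
    · rw [← Subgroup.orderOf_coe]; exact g.2.1
    · rw [Subgroup.orderOf_coe]; exact g.2
  have h8 := cnt_modEq hx 55
  rw [h40] at h8
  unfold Nat.ModEq at h8
  have hpos : 0 < Nat.card {g : G // orderOf g = 55} := by
    have : Nonempty {g : G // orderOf g = 55} := ⟨⟨_, ho⟩⟩
    exact Nat.card_pos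
  rcases key 55 hpos with h9 | h9 | h9
  · omega
  · omega
  · omega

/-- `x` of order 11 normalizing a subgroup `Q` of order prime to 11, self-centralizing -/
theorem card_modEq_one {x : G} (hx : orderOf x = 11) (hC : Nat.card (centralizer ({x} : Set G)) = 11)
    {Q : Subgroup G} (hQ : ∀ g ∈ Q, x * g * x⁻¹ ∈ Q) (h11 : ¬ 11 ∣ Nat.card Q) : Nat.card Q ≡ 1 [MOD 11] := by
  classical
  have : Fact (Nat.Prime 11) := ⟨by norm_num⟩
  let f : Function.End Q := fun g => ⟨x * g * x⁻¹, hQ g g.2⟩
  have hf : ∀ m : ℕ, ∀ g : Q, ((f ^ m) g : G) = x ^ m * g * (x ^ m)⁻¹ := by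
    intro m
    induction m with
    | zero =>
      intro g
      change (g : G) = x ^ 0 * g * (x ^ 0)⁻¹
      simp
    | succ m ih =>
      intro g
      rw [pow_succ', Function.End.mul_def]
      change x * ((f ^ m) g : G) * x⁻¹ = _
      rw [ih g]
      group
  have h1 : f ^ 11 ^ 1 = 1 := by
    funext g
    apply Subtype.ext
    rw [hf, pow_one, ← hx, pow_orderOf_eq_one]
    change 1 * (g : G) * 1⁻¹ = g
    simp
  let _ := Fintype.ofFinite G
  have h2 := Equiv.Perm.card_fixedPoints_modEq (p := 11) (n := 1) h1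
  rw [Nat.card_eq_fintype_card]
  refine h2.trans ?_
  have h3 : Fintype.card f.fixedPoints = 1 := by
    rw [Fintype.card_eq_one_iff]
    refine ⟨⟨1, ?_⟩, ?_⟩
    · rw [Function.mem_fixedPoints]
      apply Subtype.ext
      change x * ((1 : Q) : G) * x⁻¹ = ((1 : Q) : G)
      simp
    · rintro ⟨g, hg⟩
      apply Subtype.ext
      apply Subtype.ext
      have h4 := congrArg Subtype.val hg
      change x * g.1 * x⁻¹ = g.1 at h4
      rw [mul_inv_eq_iff_eq_mul] at h4
      have h5 : orderOf (⟨g.1, mem_centralizer_singleton_iff.2 h4.symm⟩ : centralizer ({x} : Set G)) ∣ 11 := by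
        rw [← hC]; exact orderOf_dvd_natCard _
      rw [← Subgroup.orderOf_coe] at h5
      change orderOf (g : G) ∣ 11 at h5
      rcases (Nat.dvd_prime (by norm_num)).1 h5 with h6 | h6
      · exact orderOf_eq_one_iff.1 h6
      · exfalso
        apply h11
        rw [← h6, Subgroup.orderOf_coe]
        exact orderOf_dvd_natCard g
  rw [h3]

theorem div720 : ∀ d ∈ Nat.divisors 720, d % 11 = 1 → d = 1 ∨ 6 ∣ d ∨ 15 ∣ d := by decide +kernel

section simple
variable (hG : Nat.card G = 7920)
  (hN : ∀ x : G, orderOf x = 11 → Nat.card (normalizer (zpowers x : Set G)) = 55)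
  (hC : ∀ x : G, orderOf x = 11 → Nat.card (centralizer ({x} : Set G)) = 11)
include hG hN hC

omit hN in
theorem normal_trivial {N : Subgroup G} (hNn : N.Normal) (h11 : ¬ 11 ∣ Nat.card N) : N = ⊥ := by
  have : Fact (Nat.Prime 11) := ⟨by norm_num⟩
  by_contra hne
  have h1 : Nat.card N ≠ 1 := fun h => hne (Subgroup.eq_bot_of_card_eq N h)
  obtain ⟨q, hq, hqN⟩ := Nat.exists_prime_and_dvd h1
  have : Fact q.Prime := ⟨hq⟩
  obtain ⟨Q⟩ : Nonempty (Sylow q N) := inferInstance
  have h2 := Q.normalizer_sup_eq_top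
  set Q' := (Q : Subgroup N).map N.subtype with hQ'
  have h3 : 11 ∣ Nat.card (normalizer (Q' : Set G)) := by
    have h4 := H13.Cores.card_sup_dvd (normalizer (Q' : Set G)) N
    rw [h2, Subgroup.card_top, hG] at h4
    have h5 : 11 ∣ Nat.card (normalizer (Q' : Set G)) * Nat.card N := (by norm_num : 11 ∣ 7920).trans h4
    exact ((by norm_num : Nat.Prime 11).dvd_mul.1 h5).resolve_right h11
  obtain ⟨y, hy⟩ := exists_prime_orderOf_dvd_card' (G := normalizer (Q' : Set G)) 11 h3
  have hy' : orderOf (y : G) = 11 := by rw [Subgroup.orderOf_coe]; exact hy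
  have hcQ : Nat.card Q' = Nat.card (Q : Subgroup N) := Subgroup.card_map_of_injective N.subtype_injective
  have h5 : Nat.card Q' ∣ Nat.card N := by
    rw [hcQ]; exact Subgroup.card_subgroup_dvd_card _
  have h6 := card_modEq_one hy' (hC y hy') (Q := Q') (fun g hg => (Subgroup.mem_normalizer_iff.1 y.2 g).1 hg)
    (fun h => h11 (h.trans h5))
  have h7 : Nat.card Q' ∣ 720 := by
    have h8 : Nat.card Q' ∣ 11 * 720 := by
      have := Subgroup.card_subgroup_dvd_card Q'
      rw [hG] at this
      exact this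
    have h9 : Nat.Coprime (Nat.card Q') 11 := by
      rw [Nat.coprime_comm, Nat.Prime.coprime_iff_not_dvd (by norm_num)]
      exact fun h => h11 (h.trans h5)
    exact h9.dvd_of_dvd_mul_left h8
  obtain ⟨k, hk⟩ := IsPGroup.iff_card.1 Q.2
  rw [← hcQ] at hk
  have hqQ : q ∣ Nat.card Q' := by
    rw [hcQ]; exact Q.dvd_card_of_dvd_card hqN
  have only : ∀ r : ℕ, r.Prime → r ∣ Nat.card Q' → r = q := by
    intro r hr h
    rw [hk] at h
    exact (Nat.prime_dvd_prime_iff_eq hr hq).1 (hr.dvd_of_dvd_pow h)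
  rcases div720 _ (Nat.mem_divisors.2 ⟨h7, by norm_num⟩) h6 with h8 | h8 | h8
  · rw [h8] at hqQ; exact hq.one_lt.ne' (Nat.dvd_one.1 hqQ)
  · have h9 := only 2 Nat.prime_two ((by norm_num : 2 ∣ 6).trans h8)
    have h10 := only 3 Nat.prime_three ((by norm_num : 3 ∣ 6).trans h8)
    omega
  · have h9 := only 5 (by norm_num) ((by norm_num : 5 ∣ 15).trans h8)
    have h10 := only 3 Nat.prime_three ((by norm_num : 3 ∣ 15).trans h8)
    omega

theorem normal_top {N : Subgroup G} (hNn : N.Normal) (h11 : 11 ∣ Nat.card N) : N = ⊤ := by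
  have : Fact (Nat.Prime 11) := ⟨by norm_num⟩
  by_contra hne
  obtain ⟨y, hy⟩ := exists_prime_orderOf_dvd_card' (G := N) 11 h11
  have hx : orderOf (y : G) = 11 := by rw [Subgroup.orderOf_coe]; exact hy
  set x : G := (y : G) with hxdef
  have hG11 : ∀ P : Sylow 11 G, Nat.card (P : Subgroup G) = 11 := fun P => by
    have := H21.SylowTools.card_sylow_eq_pow (a := 1) (m := 720) (by rw [hG]; norm_num) (by norm_num) P
    rw [this, pow_one]
  have h1 : IsPGroup 11 (zpowers x) := IsPGroup.of_card (n := 1) (by rw [Nat.card_zpowers, hx, pow_one])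
  obtain ⟨P, hP⟩ := h1.exists_le_sylow
  have h2 : zpowers x = (P : Subgroup G) := zpowers_eq_sylow hx P (hG11 P) (hP (mem_zpowers x))
  have hPN : (P : Subgroup G) ≤ N := by rw [← h2, zpowers_le]; exact y.2
  have h55 := hN x hx
  rw [h2] at h55
  have hF := P.normalizer_sup_eq_top' hPN
  have h3 : 7920 ∣ 55 * Nat.card N := by
    have h4 := H13.Cores.card_sup_dvd (normalizer ((P : Subgroup G) : Set G)) N
    rw [h55] at h4
    change Nat.card ↥(normalizer ((P : Subgroup G) : Set G) ⊔ N : Subgroup G) ∣ _ at h4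
    have h5 : (normalizer ((P : Subgroup G) : Set G) ⊔ N : Subgroup G) = ⊤ := hF
    rw [h5, Subgroup.card_top, hG] at h4
    exact h4
  have h4 : Nat.card N ∣ 7920 := by rw [← hG]; exact Subgroup.card_subgroup_dvd_card N
  have h5 : Nat.card N = 1584 := by
    have h6 : Nat.card N ≠ 7920 := fun h => hne (Subgroup.eq_top_of_card_eq N (by rw [h, hG]))
    have h7 : 144 ∣ Nat.card N := by
      have : 55 * 144 ∣ 55 * Nat.card N := h3
      exact Nat.dvd_of_mul_dvd_mul_left (by norm_num) this
    have h8 : 1584 ∣ Nat.card N := (Nat.Coprime.mul_dvd_of_dvd_of_dvd (by norm_num : Nat.Coprime 144 11) h7 h11)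
    obtain ⟨a, ha⟩ := h8
    have h9 : a ∣ 5 := by
      rw [ha] at h4
      exact Nat.dvd_of_mul_dvd_mul_left (by norm_num : 0 < 1584) h4
    rcases (Nat.dvd_prime (by norm_num)).1 h9 with h10 | h10
    · rw [ha, h10]
    · exact absurd (by rw [ha, h10]) h6
  -- Burnside in `N`
  let PN : Sylow 11 N := P.subtype hPN
  have hPNc : Nat.card (PN : Subgroup N) = 11 := by
    have := H21.SylowTools.card_sylow_eq_pow (a := 1) (m := 144) (by rw [h5]; norm_num) (by norm_num) PN
    rw [this, pow_one]
  have hmap : (PN : Subgroup N).map N.subtype = (P : Subgroup G) := by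
    change ((P : Subgroup G).subgroupOf N).map N.subtype = _
    rw [Subgroup.subgroupOf_map_subtype, inf_of_le_left hPN]
  have hNN : normalizer ((PN : Subgroup N) : Set N) = (PN : Subgroup N) := by
    symm
    apply Subgroup.eq_of_le_of_card_ge Subgroup.le_normalizer
    rw [hPNc]
    have h6 : Nat.card (normalizer ((PN : Subgroup N) : Set N)) ∣ 55 := by
      have h7 : (normalizer ((PN : Subgroup N) : Set N)).map N.subtype ≤ normalizer ((P : Subgroup G) : Set G) := by
        refine (Subgroup.le_normalizer_map _).trans ?_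
        rw [hmap]
      have h8 := Subgroup.card_dvd_of_le h7
      rw [Subgroup.card_map_of_injective N.subtype_injective, h55] at h8
      exact h8
    have h7 : Nat.card (normalizer ((PN : Subgroup N) : Set N)) ∣ 1584 := by
      rw [← h5]; exact Subgroup.card_subgroup_dvd_card _
    have h8 := Nat.dvd_gcd h6 h7
    have h9 : Nat.gcd 55 1584 = 11 := by decide +kernel
    rw [h9] at h8
    exact Nat.le_of_dvd (by norm_num) h8
  have hcomm : normalizer ((PN : Subgroup N) : Set N) ≤ centralizer ((PN : Subgroup N) : Set N) := by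
    rw [hNN]
    have : IsCyclic (PN : Subgroup N) := isCyclic_of_prime_card (p := 11) hPNc
    have : IsMulCommutative (PN : Subgroup N) := inferInstance
    exact Subgroup.le_centralizer _
  have hcompl := MonoidHom.ker_transferSylow_isComplement' PN hcomm
  set K := (MonoidHom.transferSylow PN hcomm).ker with hK
  have hKc : Nat.card K = 144 := by
    have := hcompl.card_mul_card
    rw [hPNc, h5] at this
    omega
  have hKi : K.index = 11 := by
    have := K.card_mul_index
    rw [hKc, h5] at this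
    omega
  have hKmem : ∀ n : N, n ∈ K ↔ n ^ 144 = 1 := by
    intro n
    constructor
    · intro hn
      have h6 : (⟨n, hn⟩ : K) ^ 144 = 1 := by rw [← hKc]; exact pow_card_eq_one'
      exact congrArg Subtype.val h6
    · intro hn
      have h6 : ((QuotientGroup.mk n : N ⧸ K)) ^ 144 = 1 := by
        rw [← QuotientGroup.mk_pow, hn]; rfl
      have h7 : ((QuotientGroup.mk n : N ⧸ K)) ^ K.index = 1 := pow_card_eq_one' (G := N ⧸ K)
      rw [hKi] at h7
      have h8 : orderOf (QuotientGroup.mk n : N ⧸ K) ∣ 1 := by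
        have := Nat.dvd_gcd (orderOf_dvd_of_pow_eq_one h6) (orderOf_dvd_of_pow_eq_one h7)
        exact this.trans (by decide +kernel)
      exact (QuotientGroup.eq_one_iff n).1 (orderOf_eq_one_iff.1 (Nat.dvd_one.1 h8))
  have hKn : (K.map N.subtype).Normal := by
    refine ⟨?_⟩
    rintro _ ⟨n, hn, rfl⟩ g
    have h6 : g * n * g⁻¹ ∈ N := hNn.conj_mem _ n.2 g
    refine ⟨⟨_, h6⟩, ?_, rfl⟩
    change (⟨_, h6⟩ : N) ∈ K
    rw [hKmem]
    apply Subtype.ext
    change (g * n * g⁻¹) ^ 144 = 1
    rw [conj_pow]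
    have h7 : (n : G) ^ 144 = 1 := congrArg Subtype.val ((hKmem n).1 hn)
    rw [h7, mul_one, mul_inv_cancel]
  have h6 : Nat.card (K.map N.subtype) = 144 := by
    rw [Subgroup.card_map_of_injective N.subtype_injective, hKc]
  have h7 := normal_trivial hG hC hKn (by rw [h6]; norm_num)
  rw [h7, Subgroup.card_bot] at h6
  omega

theorem simple : IsSimpleGroup G := by
  have : Nontrivial G := Finite.one_lt_card_iff_nontrivial.1 (by rw [hG]; norm_num)
  refine ⟨fun N hNn => ?_⟩
  by_cases h11 : 11 ∣ Nat.card N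
  · exact Or.inr (normal_top hG hN hC hNn h11)
  · exact Or.inl (normal_trivial hG hC hNn h11)

end simple

end H39.NseM11
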