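import Mathlib
import Cfsg.Agent.Lib.H38.FamilyControl
import Cfsg.Agent.Lib.H39.Comm

set_option autoImplicit false

/-!
A variant of the induction behind Alperin's theorem where only the subgroups containing a conjugate of the centre of the
Sylow subgroup matter.
-/

namespace H39.PairInd

open H38.Basic H38.Alperin H38.Functor H38.Control H38.FamilyControl Cfsg

variable {G : Type*} [Group G] {p : ℕ}

/-- `H` lies between the centre of a conjugate of `S` and that conjugate -/
def InH (S H : Subgroup G) : Prop :=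
  ∃ x : G, (S ⊓ Subgroup.centralizer (S : Set G)).map (MulAut.conj x).toMonoidHom ≤ H ∧
    H ≤ S.map (MulAut.conj x).toMonoidHom

theorem InH.conj {S H : Subgroup G} (h : InH S H) (g : G) : InH S (H.map (MulAut.conj g).toMonoidHom) := by
  obtain ⟨x, h1, h2⟩ := h
  refine ⟨g * x, ?_, ?_⟩
  · rw [← conj_conj]; exact conj_mono h1 g
  · rw [← conj_conj]; exact conj_mono h2 g

theorem inH_of_le {S H : Subgroup G} (h1 : S ⊓ Subgroup.centralizer (S : Set G) ≤ H) (h2 : H ≤ S) : InH S H :=
  ⟨1, by rwa [conj_one], by rwa [conj_one]⟩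

variable [Finite G] [hp : Fact p.Prime]

/-- A fusion relation containing all maps on subgroups larger than `U`, and insensitive to the centralizer, contains
`N_G(U)` if `U` does not contain the centre of `S`. -/
theorem rel_of_not_inH (S : Sylow p G) {R : Set G → G → Prop} (hR : IsFusionRel R)
    (hRc : ∀ (A : Set G) (g g' : G), R A g → (∀ a ∈ A, g * a * g⁻¹ = g' * a * g'⁻¹) → R A g')
    {U : Subgroup G} (hU : U ≤ (S : Subgroup G))
    (hsyl : IsSyl p ((S : Subgroup G) ⊓ Subgroup.normalizer (U : Set G)) (Subgroup.normalizer (U : Set G)))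
    (hnot : ¬ InH (S : Subgroup G) U)
    (hbig : ∀ Q : Subgroup G, Q ≤ (S : Subgroup G) → Nat.card U < Nat.card Q →
      ∀ x, Q.map (MulAut.conj x).toMonoidHom ≤ (S : Subgroup G) → R (Q : Set G) x) :
    ∀ x ∈ Subgroup.normalizer (U : Set G), R (U : Set G) x := by
  intro x hx
  set N := Subgroup.normalizer (U : Set G) with hN
  set C := Subgroup.centralizer (U : Set G) with hC
  set T := (S : Subgroup G) ⊓ C with hT
  have hCN : C ≤ N := Subgroup.centralizer_le_normalizer _
  have hNC : N ≤ Subgroup.normalizer (C : Set G) := Comm.normalizer_le_normalizer_centralizer U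
  have hTs : IsSyl p T C := by
    have h1 := hsyl.inf_normal hCN hNC
    have h2 : ((S : Subgroup G) ⊓ N) ⊓ C = T := by
      rw [hT, inf_assoc, inf_eq_right.2 hCN]
    rwa [h2] at h1
  have hTx : IsSyl p (T.map (MulAut.conj x).toMonoidHom) C := by
    have h1 := hTs.conj x
    rwa [mem_normalizer_iff'.1 (hNC hx)] at h1
  obtain ⟨c, hc, hcx⟩ := hTx.exists_conj_eq hTs
  rw [conj_conj] at hcx
  -- `c x` normalizes `U` and `T`
  have hcxU : U.map (MulAut.conj (c * x)).toMonoidHom = U := mem_normalizer_iff'.1 (mul_mem (hCN hc) hx)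
  have hQx : (T ⊔ U).map (MulAut.conj (c * x)).toMonoidHom = T ⊔ U := by rw [conj_sup, hcx, hcxU]
  have hQS : T ⊔ U ≤ (S : Subgroup G) := sup_le inf_le_left hU
  have hlt : U < T ⊔ U := by
    refine lt_of_le_of_ne le_sup_right fun h => hnot ?_
    refine inH_of_le ?_ hU
    have h1 : T ≤ U := h ▸ le_sup_left
    refine le_trans ?_ h1
    exact inf_le_inf_left _ (Subgroup.centralizer_le hU)
  have h1 := hbig (T ⊔ U) hQS (card_lt_of_lt hlt) (c * x) (by rw [hQx]; exact hQS)
  have h2 := hR.mono (A := (U : Set G)) hlt.le h1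
  refine hRc _ _ _ h2 ?_
  intro a ha
  have h3 : x * a * x⁻¹ ∈ U := (Subgroup.mem_normalizer_iff.1 hx a).1 ha
  have h4 : x * a * x⁻¹ * c = c * (x * a * x⁻¹) := Subgroup.mem_centralizer_iff.1 hc _ h3
  calc c * x * a * (c * x)⁻¹ = c * (x * a * x⁻¹) * c⁻¹ := by group
    _ = x * a * x⁻¹ := by rw [← h4]; group

/-- The induction. -/
theorem pair_induction (S : Sylow p G) {R : Set G → G → Prop} (hR : IsFusionRel R)
    (hRc : ∀ (A : Set G) (g g' : G), R A g → (∀ a ∈ A, g * a * g⁻¹ = g' * a * g'⁻¹) → R A g')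
    (B : Subgroup G → Prop)
    (hB : ∀ U : Subgroup G, U ≤ (S : Subgroup G) → InH (S : Subgroup G) U →
      IsSyl p ((S : Subgroup G) ⊓ Subgroup.normalizer (U : Set G)) (Subgroup.normalizer (U : Set G)) →
      B U → ∀ x ∈ Subgroup.normalizer (U : Set G), R (U : Set G) x)
    (hstep : ∀ U : Subgroup G, U ≤ (S : Subgroup G) → InH (S : Subgroup G) U →
      IsSyl p ((S : Subgroup G) ⊓ Subgroup.normalizer (U : Set G)) (Subgroup.normalizer (U : Set G)) →
      (∀ Q : Subgroup G, Q ≤ (S : Subgroup G) →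
        Nat.card ↥((S : Subgroup G) ⊓ Subgroup.normalizer (U : Set G)) < Nat.card ↥Q →
        ∀ x, Q.map (MulAut.conj x).toMonoidHom ≤ (S : Subgroup G) → R (Q : Set G) x) →
      (∀ V : Subgroup G, V ≤ (S : Subgroup G) → InH (S : Subgroup G) V →
        IsSyl p ((S : Subgroup G) ⊓ Subgroup.normalizer (V : Set G)) (Subgroup.normalizer (V : Set G)) →
        Nat.card ↥((S : Subgroup G) ⊓ Subgroup.normalizer (U : Set G)) <
          Nat.card ↥((S : Subgroup G) ⊓ Subgroup.normalizer (V : Set G)) → B V) → B U) :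
    ∀ Q : Subgroup G, Q ≤ (S : Subgroup G) → ∀ x, Q.map (MulAut.conj x).toMonoidHom ≤ (S : Subgroup G) →
      R (Q : Set G) x := by
  have key : ∀ d m : ℕ, Nat.card ↥(S : Subgroup G) < d + m →
      (∀ U : Subgroup G, U ≤ (S : Subgroup G) → InH (S : Subgroup G) U →
        IsSyl p ((S : Subgroup G) ⊓ Subgroup.normalizer (U : Set G)) (Subgroup.normalizer (U : Set G)) →
        m ≤ Nat.card ↥((S : Subgroup G) ⊓ Subgroup.normalizer (U : Set G)) → B U) ∧
      (∀ Q : Subgroup G, Q ≤ (S : Subgroup G) → m ≤ Nat.card ↥Q →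
        ∀ x, Q.map (MulAut.conj x).toMonoidHom ≤ (S : Subgroup G) → R (Q : Set G) x) := by
    intro d
    induction d with
    | zero =>
      intro m hm
      rw [zero_add] at hm
      refine ⟨fun U _ _ _ h => ?_, fun Q hQ h => ?_⟩
      · have := Subgroup.card_le_of_le (inf_le_left : (S : Subgroup G) ⊓ Subgroup.normalizer (U : Set G) ≤ S)
        omega
      · have := Subgroup.card_le_of_le hQ
        omega
    | succ d ih =>
      intro m hm
      obtain ⟨ihB, ihA⟩ := ih (m + 1) (by omega)
      have hBm : ∀ U : Subgroup G, U ≤ (S : Subgroup G) → InH (S : Subgroup G) U →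
        IsSyl p ((S : Subgroup G) ⊓ Subgroup.normalizer (U : Set G)) (Subgroup.normalizer (U : Set G)) →
        m ≤ Nat.card ↥((S : Subgroup G) ⊓ Subgroup.normalizer (U : Set G)) → B U := by
        intro U hU hne hsyl hm
        apply hstep U hU hne hsyl
        · intro Q hQ hcard x hx
          exact ihA Q hQ (by omega) x hx
        · intro V hV hVne hVs hcard
          exact ihB V hV hVne hVs (by omega)
      have hN : ∀ U : Subgroup G, U ≤ (S : Subgroup G) →
        IsSyl p ((S : Subgroup G) ⊓ Subgroup.normalizer (U : Set G)) (Subgroup.normalizer (U : Set G)) →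
        m ≤ Nat.card U → ∀ x ∈ Subgroup.normalizer (U : Set G), R (U : Set G) x := by
        intro U hU hsyl hmU
        by_cases hin : InH (S : Subgroup G) U
        · exact hB U hU hin hsyl (hBm U hU hin hsyl
            (hmU.trans (Subgroup.card_le_of_le (le_inf hU Subgroup.le_normalizer))))
        · refine rel_of_not_inH S hR hRc hU hsyl hin ?_
          intro Q hQ hcard x hx
          exact ihA Q hQ (by omega) x hx
      refine ⟨hBm, ?_⟩
      intro Q hQ hmQ x hx
      refine alperin_abs S hR m ?_ ?_ Q hQ hmQ x hx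
      · have hmS : m ≤ Nat.card ↥(S : Subgroup G) := hmQ.trans (Subgroup.card_le_of_le hQ)
        have e : (S : Subgroup G) ⊓ Subgroup.normalizer ((S : Subgroup G) : Set G) = S :=
          inf_eq_left.2 Subgroup.le_normalizer
        have hs : IsSyl p ((S : Subgroup G) ⊓ Subgroup.normalizer ((S : Subgroup G) : Set G))
            (Subgroup.normalizer ((S : Subgroup G) : Set G)) := by
          rw [e]; exact (isSyl_sylow S).of_le Subgroup.le_normalizer le_top
        exact hN _ le_rfl hs hmS
      · intro Q₁ hQ₁ hm1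
        obtain ⟨h, h1, h2, h3⟩ := exists_fullyNormalized S hQ₁.le
        refine ⟨_, ⟨h, rfl⟩, h2, hN _ h1 h2 ?_⟩
        rw [card_conj]; exact hm1
  intro Q hQ
  exact (key (Nat.card ↥(S : Subgroup G) + 1) 0 (by omega)).2 Q hQ (Nat.zero_le _)

end H39.PairInd
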