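import Mathlib
import Cfsg.Agent.Lib.H39.PairInd

set_option autoImplicit false

/-!
Control of strong fusion and transfer by a conjugacy functor together with a central functor.
-/

namespace H39.PairControl

open H38.Basic H38.Alperin H38.Functor H38.Control H38.FamilyControl H39.PairInd Cfsg

variable {G : Type*} [Group G] {p : ℕ}

/-- the centre of a subgroup -/
abbrev ZZ (H : Subgroup G) : Subgroup G := H ⊓ Subgroup.centralizer (H : Set G)

/-- the admissible steps -/
def st (W V : Subgroup G → Subgroup G) (T H : Subgroup G) : Set G :=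
  {x | x ∈ H ⊓ Subgroup.normalizer ((W T : Subgroup G) : Set G) ∨ x ∈ H ⊓ Subgroup.centralizer ((V T : Subgroup G) : Set G)}

theorem st_inv (W V : Subgroup G → Subgroup G) (T H : Subgroup G) : ∀ x ∈ st W V T H, x⁻¹ ∈ st W V T H := by
  rintro x (hx | hx)
  · exact Or.inl (inv_mem hx)
  · exact Or.inr (inv_mem hx)

theorem cj_st {W V : Subgroup G → Subgroup G} (hW : IsConjugacyFunctor p W) (hV : IsConjugacyFunctor p V) {T : Subgroup G}
    (hT : IsPGroup p ↥T) (H : Subgroup G) (g : G) :
    cj g (st W V T H) = st W V (T.map (MulAut.conj g).toMonoidHom) (H.map (MulAut.conj g).toMonoidHom) := by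
  have h1 : ∀ y : G, (y ∈ st W V T H ↔ g * y * g⁻¹ ∈ st W V (T.map (MulAut.conj g).toMonoidHom)
      (H.map (MulAut.conj g).toMonoidHom)) := by
    intro y
    show (_ ∨ _) ↔ (_ ∨ _)
    rw [W_conj hW hT, W_conj hV hT, ← conj_normalizer, ← conj_centralizer', ← conj_inf, ← conj_inf, conj_mem_conj,
      conj_mem_conj]
  ext x
  constructor
  · rintro ⟨y, hy, rfl⟩
    exact (h1 y).1 hy
  · intro hx
    refine ⟨g⁻¹ * x * g, (h1 _).2 ?_, by group⟩
    have : g * (g⁻¹ * x * g) * g⁻¹ = x := by group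
    rwa [this]

theorem famIn_conj {W V : Subgroup G → Subgroup G} (hW : IsConjugacyFunctor p W) (hV : IsConjugacyFunctor p V)
    {T H : Subgroup G} (hT : IsPGroup p ↥T) (h : FamIn (st W V T H) T H) (g : G) :
    FamIn (st W V (T.map (MulAut.conj g).toMonoidHom) (H.map (MulAut.conj g).toMonoidHom))
      ((T.map (MulAut.conj g).toMonoidHom : Subgroup G) : Set G) (H.map (MulAut.conj g).toMonoidHom) := by
  intro A x hx hA hxA
  rw [mem_conj] at hx
  have h1 := h (cj g⁻¹ A) (g⁻¹ * x * g) hx (by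
    have := cj_mono hA g⁻¹
    rwa [cj_coe, conj_conj, inv_mul_cancel, conj_one] at this) (by
    have := cj_mono hxA g⁻¹
    rw [cj_coe, conj_conj, inv_mul_cancel, conj_one, cj_cj] at this
    rw [cj_cj, mul_assoc, mul_inv_cancel, mul_one]
    exact this)
  have h2 := h1.congr g
  rw [cj_st hW hV hT, cj_coe, cj_cj, mul_inv_cancel, cj_one] at h2
  have e : g * (g⁻¹ * x * g) * g⁻¹ = x := by group
  rwa [e] at h2

section sf

variable [Finite G] [hp : Fact p.Prime]

theorem strongFusion (S : Sylow p G) (hSne : (S : Subgroup G) ≠ ⊥) {W V : Subgroup G → Subgroup G}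
    (hW : IsConjugacyFunctor p W) (hV : IsConjugacyFunctor p V)
    (hWZ : ∀ H : Subgroup G, IsPGroup p ↥H → ZZ H ≤ W H)
    (hVmono : ∀ H K : Subgroup G, IsPGroup p ↥H → IsPGroup p ↥K → H ≠ ⊥ → K ≠ ⊥ → ZZ H ≤ ZZ K → V H ≤ V K)
    (hloc : ∀ H : Subgroup G, ZZ (S : Subgroup G) ≤ H → H ≤ (S : Subgroup G) →
      ∃ Q : Subgroup G, IsSyl p Q (Subgroup.normalizer (H : Set G)) ∧
        FamIn (st W V Q (Subgroup.normalizer (H : Set G))) Q (Subgroup.normalizer (H : Set G))) :
    FamIn (st W V (S : Subgroup G) ⊤) ((S : Subgroup G) : Set G) ⊤ := by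
  -- local hypothesis for all relevant subgroups
  have hloc' : ∀ U : Subgroup G, InH (S : Subgroup G) U → ∀ Q : Subgroup G, IsSyl p Q (Subgroup.normalizer (U : Set G)) →
      FamIn (st W V Q (Subgroup.normalizer (U : Set G))) Q (Subgroup.normalizer (U : Set G)) := by
    rintro U ⟨x, h1, h2⟩ Q hQ
    obtain ⟨Q₀, hQ₀, h3⟩ := hloc (U.map (MulAut.conj x⁻¹).toMonoidHom) (by rw [le_conj_iff, inv_inv]; exact h1)
      (by rw [conj_le_iff, inv_inv]; exact h2)
    have h4 := famIn_conj hW hV hQ₀.2.1 h3 x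
    have h5 := hQ₀.conj x
    rw [conj_normalizer, conj_conj, mul_inv_cancel, conj_one] at h4 h5
    obtain ⟨g, hg, hgQ⟩ := h5.exists_conj_eq hQ
    have h6 := famIn_conj hW hV h5.2.1 h4 g
    rwa [hgQ, conj_eq_of_mem hg] at h6
  set R : Set G → G → Prop := QR (st W V (S : Subgroup G) ⊤) ((S : Subgroup G) : Set G) with hRdef
  have hR : IsFusionRel R := QR_isFusionRel (st_inv _ _ _ _)
  have hRc : ∀ (A : Set G) (g g' : G), R A g → (∀ a ∈ A, g * a * g⁻¹ = g' * a * g'⁻¹) → R A g' := by
    rintro A g g' ⟨k, hk, hka⟩ h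
    exact ⟨k, hk, fun a ha => (hka a ha).trans (h a ha)⟩
  have main := pair_induction S hR hRc (fun U => ∀ (A : Set G) (x : G), x ∈ Subgroup.normalizer (U : Set G) →
      A ⊆ (((S : Subgroup G) ⊓ Subgroup.normalizer (U : Set G) : Subgroup G) : Set G) →
      cj x A ⊆ (((S : Subgroup G) ⊓ Subgroup.normalizer (U : Set G) : Subgroup G) : Set G) → R A x) ?_ ?_
  · intro A h _ hA hhA
    have h1 : Subgroup.closure A ≤ (S : Subgroup G) := (Subgroup.closure_le _).2 hA
    exact hR.mono Subgroup.subset_closure (main _ h1 h (closure_conj_le fun a ha => hhA (mem_cj ha)))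
  · intro U hU _ _ hB x hx
    have h1 : U ≤ (S : Subgroup G) ⊓ Subgroup.normalizer (U : Set G) := le_inf hU Subgroup.le_normalizer
    refine hB (U : Set G) x hx h1 ?_
    rw [cj_coe, mem_normalizer_iff'.1 hx]; exact h1
  · intro U hU hin hsyl hA hB A x hx hAP hxAP
    set P := (S : Subgroup G) ⊓ Subgroup.normalizer (U : Set G) with hP
    have hPS' : P ≤ (S : Subgroup G) := inf_le_left
    have hPp : IsPGroup p ↥P := S.2.to_inf_left
    have hZSP : ZZ (S : Subgroup G) ≤ P := by
      refine le_inf inf_le_left (inf_le_right.trans ((Subgroup.centralizer_le hU).trans (Subgroup.centralizer_le_normalizer _)))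
    have hZZ : ZZ (S : Subgroup G) ≤ ZZ P := le_inf hZSP (inf_le_right.trans (Subgroup.centralizer_le hPS'))
    have hPne : P ≠ ⊥ := by
      intro h
      obtain ⟨y, h1, h2⟩ := hin
      have hZne : ZZ (S : Subgroup G) ≠ ⊥ := by
        intro h0
        have hnt : Nontrivial ↥(S : Subgroup G) := (Subgroup.nontrivial_iff_ne_bot _).2 hSne
        have := S.2.center_nontrivial
        have h3 : Subgroup.center ↥(S : Subgroup G) = ⊥ := by
          rw [eq_bot_iff]
          intro z hz
          have h4 : (z : G) ∈ ZZ (S : Subgroup G) := by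
            refine Subgroup.mem_inf.2 ⟨z.2, ?_⟩
            rw [Subgroup.mem_centralizer_iff]
            intro s hs
            exact congrArg Subtype.val (Subgroup.mem_center_iff.1 hz ⟨s, hs⟩)
          rw [h0] at h4
          exact Subtype.ext h4
        exact (Subgroup.nontrivial_iff_ne_bot _).1 this h3
      exact hZne (le_bot_iff.1 (h ▸ hZSP))
    have hVS : V (S : Subgroup G) ≤ V P := hVmono _ _ S.2 hPp hSne hPne hZZ
    obtain ⟨k, hk, hka⟩ := hloc' U hin P hsyl A x hx hAP hxAP
    have hchain : R A k := by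
      clear hka hxAP
      induction hk with
      | nil hA' => exact QR_one (hA'.trans (SetLike.coe_subset_coe.2 inf_le_left))
      | snoc y g hy hg hyA ih =>
        refine hR.trans ih ?_
        -- the set we act on
        set C := cj g A with hC
        have hCP : C ⊆ (P : Set G) := hg.subset_right
        have hCP' : cj y C ⊆ (P : Set G) := by rw [hC, cj_cj]; exact hyA
        have hCS : C ⊆ ((S : Subgroup G) : Set G) := hCP.trans (SetLike.coe_subset_coe.2 hPS')
        have hCS' : cj y C ⊆ ((S : Subgroup G) : Set G) := hCP'.trans (SetLike.coe_subset_coe.2 hPS')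
        rcases hy with hyW | hyV
        · rcases (inf_le_left : P ≤ (S : Subgroup G)).eq_or_lt with hPS | hPS
          · replace hPS : P = (S : Subgroup G) := hPS
            rw [hPS] at hyW
            exact ⟨y, WChain.single (Or.inl ⟨trivial, hyW.2⟩) hCS hCS', fun _ _ => rfl⟩
          · set V' := W P with hV'
            have hVP : V' ≤ P := W_le hW hPp
            have hNV : P < (S : Subgroup G) ⊓ Subgroup.normalizer (V' : Set G) :=
              lt_of_lt_of_le (lt_inf_normalizer S.2 hPS) (inf_le_inf_left _ (normalizer_le hW hPp))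
            have hV'in : InH (S : Subgroup G) V' := inH_of_le (hZZ.trans (hWZ P hPp)) (hVP.trans inf_le_left)
            obtain ⟨h, h1, h2, h3⟩ := exists_fullyNormalized S (hVP.trans inf_le_left)
            have hRh : R (((S : Subgroup G) ⊓ Subgroup.normalizer (V' : Set G) : Subgroup G) : Set G) h :=
              hA _ inf_le_left (card_lt_of_lt hNV) h (h3.trans inf_le_left)
            have hcardV : Nat.card ↥P < Nat.card ↥((S : Subgroup G) ⊓
                Subgroup.normalizer ((V'.map (MulAut.conj h).toMonoidHom : Subgroup G) : Set G)) :=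
              (card_lt_of_lt hNV).trans_le (by rw [← card_conj _ h]; exact Subgroup.card_le_of_le h3)
            have hB' := hB _ h1 (hV'in.conj h) h2 hcardV
            have hy' : h * y * h⁻¹ ∈ Subgroup.normalizer ((V'.map (MulAut.conj h).toMonoidHom : Subgroup G) : Set G) := by
              rw [← conj_normalizer]; exact conj_mem_conj.2 hyW.2
            have hsub : ∀ D : Set G, D ⊆ (P : Set G) → cj h D ⊆ (((S : Subgroup G) ⊓
                Subgroup.normalizer ((V'.map (MulAut.conj h).toMonoidHom : Subgroup G) : Set G) : Subgroup G) : Set G) := by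
              intro D hD
              refine (cj_mono (hD.trans (SetLike.coe_subset_coe.2 hNV.le)) h).trans ?_
              rw [cj_coe]; exact h3
            have e1 : cj (h * y * h⁻¹) (cj h C) = cj h (cj y C) := by
              have e0 : h * y * h⁻¹ * h = h * y := by group
              rw [cj_cj h (h * y * h⁻¹) C, cj_cj y h C, e0]
            have r1 : R (cj h C) (h * y * h⁻¹) := hB' _ _ hy' (hsub C hCP) (by rw [e1]; exact hsub _ hCP')
            have r2 : R C h := hR.mono (hCP.trans (SetLike.coe_subset_coe.2 hNV.le)) hRh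
            have r3 : R (cj y C) h := hR.mono (hCP'.trans (SetLike.coe_subset_coe.2 hNV.le)) hRh
            have r4 := hR.trans r2 r1
            have e2 : h * y * h⁻¹ * h = h * y := by group
            rw [e2] at r4
            have r5 := hR.symm r3
            rw [cj_cj] at r5
            have r6 := hR.trans r4 r5
            have e3 : h⁻¹ * (h * y) = y := by group
            rwa [e3] at r6
        · refine ⟨y, WChain.single (Or.inr ⟨trivial, ?_⟩) hCS hCS', fun _ _ => rfl⟩
          exact Subgroup.centralizer_le hVS hyV.2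
    obtain ⟨k', hk', hka'⟩ := hchain
    exact ⟨k', hk', fun a ha => (hka' a ha).trans (hka a ha)⟩

end sf

/-! ### the `Fin` form of chains -/

theorem wchain_of_list {X T A : Set G} (hX : ∀ x ∈ X, x⁻¹ ∈ X) {n : ℕ} (b : Fin n → G) (hb : ∀ i, b i ∈ X)
    (hA : ∀ k : ℕ, k ≤ n → cj (((List.ofFn b).take k).prod)⁻¹ A ⊆ T) :
    WChain X T A ((List.ofFn b).prod)⁻¹ := by
  have key : ∀ k : ℕ, k ≤ n → WChain X T A (((List.ofFn b).take k).prod)⁻¹ := by
    intro k
    induction k with
    | zero =>
      intro h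
      rw [List.take_zero, List.prod_nil, inv_one]
      apply WChain.nil
      have := hA 0 h
      rwa [List.take_zero, List.prod_nil, inv_one, cj_one] at this
    | succ k ih =>
      intro h
      have h1 : (List.ofFn b).take (k + 1) = (List.ofFn b).take k ++ [b ⟨k, h⟩] := by
        rw [List.take_add_one]
        congr 1
        rw [List.getElem?_ofFn]
        simp [Nat.lt_of_succ_le h]
      have h2 : (((List.ofFn b).take (k + 1)).prod)⁻¹ = (b ⟨k, h⟩)⁻¹ * (((List.ofFn b).take k).prod)⁻¹ := by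
        rw [h1, List.prod_append, List.prod_singleton, mul_inv_rev]
      rw [h2]
      refine WChain.snoc _ _ (hX _ (hb _)) (ih (by omega)) ?_
      rw [← h2]
      exact hA _ h
  have := key n le_rfl
  rwa [List.take_of_length_le (by rw [List.length_ofFn])] at this

theorem exists_list_of_wchain {X T A : Set G} (hX : ∀ x ∈ X, x⁻¹ ∈ X) {g : G} (h : WChain X T A g) :
    ∃ (n : ℕ) (b : Fin n → G), (∀ i, b i ∈ X) ∧ (List.ofFn b).prod = g⁻¹ ∧
      ∀ k : ℕ, k ≤ n → cj (((List.ofFn b).take k).prod)⁻¹ A ⊆ T := by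
  induction h with
  | nil hA =>
    refine ⟨0, Fin.elim0, fun i => i.elim0, by simp, fun k _ => ?_⟩
    simp only [List.ofFn_zero, List.take_nil, List.prod_nil, inv_one]
    rwa [cj_one]
  | snoc x g hx hg hA ih =>
    obtain ⟨n, b, h1, h2, h3⟩ := ih
    have e : List.ofFn (Fin.snoc b x⁻¹ : Fin (n + 1) → G) = List.ofFn b ++ [x⁻¹] := by
      rw [List.ofFn_succ', List.concat_eq_append]
      simp
    refine ⟨n + 1, Fin.snoc b x⁻¹, ?_, ?_, ?_⟩
    · intro i
      refine Fin.lastCases ?_ (fun j => ?_) i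
      · rw [Fin.snoc_last]; exact hX _ hx
      · rw [Fin.snoc_castSucc]; exact h1 j
    · rw [e, List.prod_append, List.prod_singleton, h2, mul_inv_rev]
    · intro k hk
      rw [e]
      rcases Nat.lt_or_ge n k with hnk | hkn
      · have hk' : k = n + 1 := by omega
        subst hk'
        rw [List.take_of_length_le (by simp), List.prod_append, List.prod_singleton, h2, mul_inv_rev, inv_inv, inv_inv]
        exact hA
      · rw [List.take_append_of_le_length (by simpa using hkn)]
        exact h3 k hkn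

theorem famIn_of {W V : Subgroup G → Subgroup G} {Q L : Subgroup G}
    (h : ∀ (X : Set G) (a : G), X ⊆ Q → a ∈ L → (fun x => a⁻¹ * x * a) '' X ⊆ Q → ∃ c ∈ L ⊓ Subgroup.centralizer X,
      ∃ (n : ℕ) (b : Fin n → G), (∀ i, b i ∈ L ⊓ Subgroup.normalizer ((W Q : Subgroup G) : Set G) ∨
        b i ∈ L ⊓ Subgroup.centralizer ((V Q : Subgroup G) : Set G)) ∧ a = c * (List.ofFn b).prod ∧
        ∀ k : ℕ, k ≤ n → (fun x => (((List.ofFn b).take k).prod)⁻¹ * x * ((List.ofFn b).take k).prod) ''
          ((fun x => c⁻¹ * x * c) '' X) ⊆ Q) : FamIn (st W V Q L) (Q : Set G) L := by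
  intro A g hg hA hgA
  obtain ⟨c, hc, n, b, hb, hcb, hk⟩ := h A g⁻¹ hA (inv_mem hg) (by
    refine Set.Subset.trans ?_ hgA
    rintro _ ⟨x, hx, rfl⟩
    exact ⟨x, hx, by simp⟩)
  have hcA : (fun x => c⁻¹ * x * c) '' A = A := by
    ext x
    constructor
    · rintro ⟨y, hy, rfl⟩
      have : y * c = c * y := Subgroup.mem_centralizer_iff.1 (Subgroup.mem_inf.1 hc).2 y hy
      have e : c⁻¹ * y * c = y := by rw [mul_assoc, this]; group
      show c⁻¹ * y * c ∈ A
      rwa [e]
    · intro hx
      refine ⟨x, hx, ?_⟩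
      have : x * c = c * x := Subgroup.mem_centralizer_iff.1 (Subgroup.mem_inf.1 hc).2 x hx
      show c⁻¹ * x * c = x
      rw [mul_assoc, this]; group
  rw [hcA] at hk
  refine ⟨((List.ofFn b).prod)⁻¹, wchain_of_list (st_inv _ _ _ _) b hb ?_, ?_⟩
  · intro k hkn
    refine Set.Subset.trans ?_ (hk k hkn)
    rintro _ ⟨x, hx, rfl⟩
    exact ⟨x, hx, by simp⟩
  · intro a ha
    have h1 : g = ((List.ofFn b).prod)⁻¹ * c⁻¹ := by rw [← mul_inv_rev, ← hcb, inv_inv]
    have h2 : a * c = c * a := Subgroup.mem_centralizer_iff.1 (Subgroup.mem_inf.1 hc).2 a ha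
    have h3 : c⁻¹ * a * c = a := by rw [mul_assoc, h2]; group
    calc ((List.ofFn b).prod)⁻¹ * a * (((List.ofFn b).prod)⁻¹)⁻¹
        = ((List.ofFn b).prod)⁻¹ * (c⁻¹ * a * c) * (((List.ofFn b).prod)⁻¹)⁻¹ := by rw [h3]
      _ = g * a * g⁻¹ := by rw [h1]; group

theorem of_famIn {W V : Subgroup G → Subgroup G} {Q L : Subgroup G} (h : FamIn (st W V Q L) (Q : Set G) L) :
    ∀ (X : Set G) (a : G), X ⊆ Q → a ∈ L → (fun x => a⁻¹ * x * a) '' X ⊆ Q → ∃ c ∈ Subgroup.centralizer X,
      ∃ (n : ℕ) (b : Fin n → G), (∀ i, b i ∈ L ⊓ Subgroup.normalizer ((W Q : Subgroup G) : Set G) ∨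
        b i ∈ L ⊓ Subgroup.centralizer ((V Q : Subgroup G) : Set G)) ∧ a = c * (List.ofFn b).prod ∧
        ∀ k : ℕ, k ≤ n → (fun x => (((List.ofFn b).take k).prod)⁻¹ * x * ((List.ofFn b).take k).prod) ''
          ((fun x => c⁻¹ * x * c) '' X) ⊆ Q := by
  intro X a hX ha haX
  obtain ⟨k, hk, hka⟩ := h X a⁻¹ (inv_mem ha) hX (by
    refine Set.Subset.trans ?_ haX
    rintro _ ⟨x, hx, rfl⟩
    exact ⟨x, hx, by simp⟩)
  obtain ⟨n, b, h1, h2, h3⟩ := exists_list_of_wchain (st_inv _ _ _ _) hk
  have hcc : ∀ x ∈ X, (a * k) * x * (a * k)⁻¹ = x := by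
    intro x hx
    have h4 : k * x * k⁻¹ = a⁻¹ * x * a⁻¹⁻¹ := hka x hx
    calc (a * k) * x * (a * k)⁻¹ = a * (k * x * k⁻¹) * a⁻¹ := by group
      _ = x := by rw [h4]; group
  refine ⟨a * k, ?_, n, b, h1, by rw [h2]; group, ?_⟩
  · rw [Subgroup.mem_centralizer_iff]
    intro x hx
    have h4 := hcc x hx
    calc x * (a * k) = (a * k * x * (a * k)⁻¹) * (a * k) := by rw [h4]
      _ = a * k * x := by group
  · intro j hj
    refine Set.Subset.trans ?_ (h3 j hj)
    rintro _ ⟨_, ⟨x, hx, rfl⟩, rfl⟩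
    refine ⟨x, hx, ?_⟩
    have h4 := hcc x hx
    have h5 : (a * k)⁻¹ * x * (a * k) = x := by
      calc (a * k)⁻¹ * x * (a * k) = (a * k)⁻¹ * ((a * k) * x * (a * k)⁻¹) * (a * k) := by rw [h4]
        _ = x := by group
    show (((List.ofFn b).take j).prod)⁻¹ * x * (((List.ofFn b).take j).prod)⁻¹⁻¹ = _
    simp only [h5, inv_inv]

end H39.PairControl
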