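import Mathlib
import Cfsg.Agent.Lib.H39.PairControl

set_option autoImplicit false

/-!
Control of transfer by a conjugacy functor together with a central functor.
-/

namespace H39.PairTransfer

open H38.Basic H38.Alperin H38.Functor H38.Control H38.FamilyControl H39.PairInd H39.PairControl Cfsg

variable {G : Type*} [Group G] {p : ℕ}

/-- "the local subgroups generate the transfer kernel" -/
def TT (W V : Subgroup G → Subgroup G) (Q L : Subgroup G) : Prop :=
  Q ⊓ ⁅L, L⁆ ≤ (Q ⊓ ⁅L ⊓ Subgroup.normalizer ((W Q : Subgroup G) : Set G), L ⊓ Subgroup.normalizer ((W Q : Subgroup G) : Set G)⁆) ⊔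
    (Q ⊓ ⁅L ⊓ Subgroup.centralizer ((V Q : Subgroup G) : Set G), L ⊓ Subgroup.centralizer ((V Q : Subgroup G) : Set G)⁆)

theorem TT.conj {W V : Subgroup G → Subgroup G} (hW : IsConjugacyFunctor p W) (hV : IsConjugacyFunctor p V)
    {Q L : Subgroup G} (hQ : IsPGroup p ↥Q) (h : TT W V Q L) (g : G) :
    TT W V (Q.map (MulAut.conj g).toMonoidHom) (L.map (MulAut.conj g).toMonoidHom) := by
  have h1 := conj_mono h g
  rw [conj_sup, conj_inf, conj_inf, conj_inf, conj_commutator, conj_commutator, conj_commutator, conj_inf, conj_inf,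
    conj_normalizer, conj_centralizer', ← W_conj hW hQ, ← W_conj hV hQ] at h1
  exact h1

variable [Finite G] [hp : Fact p.Prime]

theorem transfer (S : Sylow p G) (hSne : (S : Subgroup G) ≠ ⊥) {W V : Subgroup G → Subgroup G}
    (hW : IsConjugacyFunctor p W) (hV : IsConjugacyFunctor p V)
    (hWZ : ∀ H : Subgroup G, IsPGroup p ↥H → ZZ H ≤ W H)
    (hVmono : ∀ H K : Subgroup G, IsPGroup p ↥H → IsPGroup p ↥K → H ≠ ⊥ → K ≠ ⊥ → ZZ H ≤ ZZ K → V H ≤ V K)
    (hloc : ∀ H : Subgroup G, ZZ (S : Subgroup G) ≤ H → H ≤ (S : Subgroup G) →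
      ∃ Q : Subgroup G, IsSyl p Q (Subgroup.normalizer (H : Set G)) ∧
        TT W V Q (Subgroup.normalizer (H : Set G))) :
    (S : Subgroup G) ⊓ ⁅(⊤ : Subgroup G), (⊤ : Subgroup G)⁆ ≤
      ((S : Subgroup G) ⊓ ⁅Subgroup.normalizer ((W (S : Subgroup G) : Subgroup G) : Set G),
        Subgroup.normalizer ((W (S : Subgroup G) : Subgroup G) : Set G)⁆) ⊔
      ((S : Subgroup G) ⊓ ⁅Subgroup.centralizer ((V (S : Subgroup G) : Subgroup G) : Set G),
        Subgroup.centralizer ((V (S : Subgroup G) : Subgroup G) : Set G)⁆) := by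
  set F : Subgroup G := ((S : Subgroup G) ⊓ ⁅Subgroup.normalizer ((W (S : Subgroup G) : Subgroup G) : Set G),
        Subgroup.normalizer ((W (S : Subgroup G) : Subgroup G) : Set G)⁆) ⊔
      ((S : Subgroup G) ⊓ ⁅Subgroup.centralizer ((V (S : Subgroup G) : Subgroup G) : Set G),
        Subgroup.centralizer ((V (S : Subgroup G) : Subgroup G) : Set G)⁆) with hF
  have hloc' : ∀ U : Subgroup G, InH (S : Subgroup G) U → ∀ Q : Subgroup G, IsSyl p Q (Subgroup.normalizer (U : Set G)) →
      TT W V Q (Subgroup.normalizer (U : Set G)) := by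
    rintro U ⟨x, h1, h2⟩ Q hQ
    obtain ⟨Q₀, hQ₀, h3⟩ := hloc (U.map (MulAut.conj x⁻¹).toMonoidHom) (by rw [le_conj_iff, inv_inv]; exact h1)
      (by rw [conj_le_iff, inv_inv]; exact h2)
    have h4 := TT.conj hW hV hQ₀.2.1 h3 x
    have h5 := hQ₀.conj x
    rw [conj_normalizer, conj_conj, mul_inv_cancel, conj_one] at h4 h5
    obtain ⟨g, hg, hgQ⟩ := h5.exists_conj_eq hQ
    have h6 := TT.conj hW hV h5.2.1 h4 g
    rwa [hgQ, conj_eq_of_mem hg] at h6
  have hR := focRel_isFusionRel F
  have hRc : ∀ (A : Set G) (g g' : G), FocRel F A g → (∀ a ∈ A, g * a * g⁻¹ = g' * a * g'⁻¹) → FocRel F A g' := by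
    intro A g g' h1 h2 a ha
    rw [← h2 a ha]; exact h1 a ha
  have main := pair_induction S hR hRc (fun U => ((S : Subgroup G) ⊓ Subgroup.normalizer (U : Set G)) ⊓
      ⁅Subgroup.normalizer (U : Set G), Subgroup.normalizer (U : Set G)⁆ ≤ F) ?_ ?_
  · apply inf_commutator_le_of_focRel S
    intro A g hA hgA
    have h1 : Subgroup.closure A ≤ (S : Subgroup G) := (Subgroup.closure_le _).2 hA
    exact hR.mono Subgroup.subset_closure (main _ h1 g (closure_conj_le fun a ha => hgA (mem_cj ha)))
  · intro U hU _ _ hB x hx a ha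
    have h1 := mem_commutator_of_mem_normalizer ha hx
    exact hB ⟨⟨hU h1.1, Subgroup.le_normalizer h1.1⟩, h1.2⟩
  · intro U hU hin hsyl hA hB
    set P := (S : Subgroup G) ⊓ Subgroup.normalizer (U : Set G) with hP
    have hPS' : P ≤ (S : Subgroup G) := inf_le_left
    have hPp : IsPGroup p ↥P := S.2.to_inf_left
    have hZSP : ZZ (S : Subgroup G) ≤ P := by
      refine le_inf inf_le_left (inf_le_right.trans ((Subgroup.centralizer_le hU).trans (Subgroup.centralizer_le_normalizer _)))
    have hZZ : ZZ (S : Subgroup G) ≤ ZZ P := le_inf hZSP (inf_le_right.trans (Subgroup.centralizer_le hPS'))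
    have hZne : ZZ (S : Subgroup G) ≠ ⊥ := by
      intro h0
      have hnt : Nontrivial ↥(S : Subgroup G) := (Subgroup.nontrivial_iff_ne_bot _).2 hSne
      have := S.2.center_nontrivial
      have h3 : Subgroup.center ↥(S : Subgroup G) = ⊥ := by
        rw [eq_bot_iff]
        intro z hz
        have h4 : (z : G) ∈ ZZ (S : Subgroup G) := by
          refine Subgroup.mem_inf.2 ⟨z.2, ?_⟩
          rw [Subgroup.mem_centralizer_iff]
          intro s hs
          exact congrArg Subtype.val (Subgroup.mem_center_iff.1 hz ⟨s, hs⟩)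
        rw [h0] at h4
        exact Subtype.ext h4
      exact (Subgroup.nontrivial_iff_ne_bot _).1 this h3
    have hPne : P ≠ ⊥ := fun h => hZne (le_bot_iff.1 (h ▸ hZSP))
    have hVS : V (S : Subgroup G) ≤ V P := hVmono _ _ S.2 hPp hSne hPne hZZ
    show P ⊓ _ ≤ F
    refine (hloc' U hin P hsyl).trans (sup_le ?_ ?_)
    · rcases (inf_le_left : P ≤ (S : Subgroup G)).eq_or_lt with hPS | hPS
      · replace hPS : P = (S : Subgroup G) := hPS
        rw [hPS, hF]
        refine le_trans ?_ le_sup_left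
        exact inf_le_inf_left _ (Subgroup.commutator_mono inf_le_right inf_le_right)
      · set V' := W P with hV'
        have hVP : V' ≤ P := W_le hW hPp
        have hNV : P < (S : Subgroup G) ⊓ Subgroup.normalizer (V' : Set G) :=
          lt_of_lt_of_le (lt_inf_normalizer S.2 hPS) (inf_le_inf_left _ (normalizer_le hW hPp))
        have hV'in : InH (S : Subgroup G) V' := inH_of_le (hZZ.trans (hWZ P hPp)) (hVP.trans inf_le_left)
        obtain ⟨h, h1, h2, h3⟩ := exists_fullyNormalized S (hVP.trans inf_le_left)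
        have hRh : FocRel F (((S : Subgroup G) ⊓ Subgroup.normalizer (V' : Set G) : Subgroup G) : Set G) h :=
          hA _ inf_le_left (card_lt_of_lt hNV) h (h3.trans inf_le_left)
        have hcardV : Nat.card ↥P < Nat.card ↥((S : Subgroup G) ⊓
            Subgroup.normalizer ((V'.map (MulAut.conj h).toMonoidHom : Subgroup G) : Set G)) :=
          (card_lt_of_lt hNV).trans_le (by rw [← card_conj _ h]; exact Subgroup.card_le_of_le h3)
        have hB' := hB _ h1 (hV'in.conj h) h2 hcardV
        rintro z ⟨hzP, hz⟩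
        have hzV : z ∈ ⁅Subgroup.normalizer (V' : Set G), Subgroup.normalizer (V' : Set G)⁆ :=
          Subgroup.commutator_mono inf_le_right inf_le_right hz
        have h4 : h * z * h⁻¹ ∈ F := by
          apply hB'
          refine ⟨?_, ?_⟩
          · exact h3 (conj_mem_conj.2 (hNV.le hzP))
          · rw [← conj_normalizer, ← conj_commutator]
            exact conj_mem_conj.2 hzV
        have h5 := hRh z (hNV.le hzP)
        have h6 := F.mul_mem h4 (F.inv_mem h5)
        have e : h * z * h⁻¹ * (z⁻¹ * (h * z * h⁻¹))⁻¹ = z := by group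
        rwa [e] at h6
    · rw [hF]
      refine le_trans ?_ le_sup_right
      refine inf_le_inf hPS' (Subgroup.commutator_mono ?_ ?_)
      · exact inf_le_right.trans (Subgroup.centralizer_le hVS)
      · exact inf_le_right.trans (Subgroup.centralizer_le hVS)

end H39.PairTransfer
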